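import Cfsg.Agent.H1.FP0
import Cfsg.Agent.S0713

/-! S4181 / S3580: a prime number of fixed points. -/

set_option autoImplicit false

namespace H7.FP
open MulAction Subgroup H1.FP
universe u v

theorem pr (wt : WT.{u}) (ce : CE.{u}) : PR.{u} := fun p K _ _ x Δ _ _ q s h3 hpr hq hf qp nd l2 lq => by
  classical
  have := Fact.mk hq
  have := Fintype.ofFinite Δ
  obtain ⟨⟨a, ha⟩⟩ : Nonempty (fixedBy Δ x) := (Nat.card_pos_iff.1 (hf ▸ hq.pos : 0 < fx x Δ)).1
  set N := normalizer ((zpowers x : Subgroup K) : Set K)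
  have eo : orbit N a = fixedBy Δ x := by
    ext b
    refine ⟨?_, fun hb => let ⟨g, m, e⟩ := wt p K x Δ a b s hpr.toIsPretransitive ha hb; ⟨⟨g, m⟩, e⟩⟩
    rintro ⟨⟨g, m⟩, rfl⟩
    have := fix_zpow ha ((mem_normalizer_iff.1 (inv_mem m) x).1 (mem_zpowers x))
    rwa [inv_inv, mul_smul, mul_smul, inv_smul_eq_iff] at this
  obtain ⟨Q⟩ : Nonempty (Sylow q N) := inferInstance
  obtain ⟨y, hy, my⟩ : ∃ y ∈ (Q : Subgroup N), y ∉ stabilizer N a := SetLike.not_le_iff_exists.1 fun l =>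
    Q.not_dvd_index ((show q = (stabilizer N a).index by rw [index_stabilizer, eo, ← fx_eq, hf]).dvd.trans (index_dvd_of_le l))
  obtain ⟨j, hj⟩ := Q.isPGroup' ⟨y, hy⟩
  replace hj : y ^ q ^ j = 1 := congrArg Subtype.val hj
  have c : Commute x y.1 := by
    have := Fact.mk s.hp
    have h1 : orderOf ((zpowers x).normalizerMonoidHom y) ∣ p - 1 := by
      rw [← Nat.totient_prime s.hp, ← s.ord, ← Nat.card_zpowers x, ← IsCyclic.card_mulAut]
      exact orderOf_dvd_natCard _
    have h2 := orderOf_eq_one_iff.1 (Nat.eq_one_of_dvd_coprimes (((Nat.Prime.coprime_iff_not_dvd hq).2 nd).pow_left j)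
      (orderOf_dvd_of_pow_eq_one (by rw [← map_pow, hj, map_one])) h1)
    have := congrArg (fun φ : MulAut (zpowers x) => (φ ⟨x, mem_zpowers x⟩ : K)) h2
    exact (mul_inv_eq_iff_eq_mul.1 this).symm
  have fixm := (ce K Δ x y.1 p q j s.hp hq qp s.ord (congrArg Subtype.val hj) c).1 lq
  let σ := toPermHom K Δ y.1
  have o : q ∣ orderOf σ := by
    obtain ⟨k, -, e⟩ := (Nat.dvd_prime_pow hq).1 (orderOf_dvd_of_pow_eq_one (x := σ) (n := q ^ j) (by
      rw [← map_pow, show y.1 ^ q ^ j = 1 from congrArg Subtype.val hj, map_one]))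
    rw [e]
    refine dvd_pow_self q fun k0 => my ?_
    rw [k0, pow_zero, orderOf_eq_one_iff] at e
    exact congrArg (fun τ : Equiv.Perm Δ => τ a) e
  have oτ := orderOf_pow_orderOf_div (orderOf_pos σ).ne' o
  set τ := σ ^ (orderOf σ / q)
  have sp : τ.support.card ≤ q := by
    rw [← hf, fx_eq, ← Set.ncard_coe_finset]
    refine Set.ncard_le_ncard fun u hu => by_contra fun n => ?_
    exact Equiv.Perm.mem_support.1 (Equiv.Perm.support_pow_le σ _ hu) (fixm u n)
  have cy : τ.IsCycle := Equiv.Perm.isCycle_of_prime_order (oτ ▸ hq) (by rw [oτ]; have := hq.pos; omega)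
  have n := card_eq (Δ := Δ) s.hp s.ord
  rw [hf, Nat.card_eq_fintype_card] at n
  have n2 : 2 * p ≤ p * lx p x Δ := mul_comm 2 p ▸ Nat.mul_le_mul_left p l2
  have al := Cfsg.Agent.S0713.result (toPermHom K Δ).range (hpr.of_surjective
    (f := (⟨id, fun _ _ => rfl⟩ : Δ →ₑ[(toPermHom K Δ).rangeRestrict] Δ)) Function.surjective_id) hq (by omega) (by omega) cy
    (cy.orderOf.symm.trans oτ) (pow_mem (MonoidHom.mem_range.2 ⟨_, rfl⟩) _)
  have : Nontrivial Δ := Fintype.one_lt_card_iff_nontrivial.1 (by omega)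
  refine s.sq (.trans ?_ ((card_dvd_of_le al).trans (card_range_dvd _)))
  refine (Nat.Coprime.pow_left 2 ((Nat.coprime_primes s.hp Nat.prime_two).2 (by omega))).dvd_of_dvd_mul_left ?_
  rw [two_mul_nat_card_alternatingGroup, Nat.card_perm, Nat.card_eq_fintype_card]
  refine .trans ?_ (Nat.factorial_dvd_factorial (show p + p ≤ _ by omega))
  exact sq p ▸ (Nat.mul_dvd_mul (Nat.dvd_factorial s.hp.pos le_rfl) (Nat.dvd_factorial s.hp.pos le_rfl)).trans
    (Nat.factorial_mul_factorial_dvd_factorial_add p p)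

end H7.FP
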