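import Cfsg.Agent.H18.E7a
import Cfsg.Agent.H14.Cen3
import Cfsg.Prelude.Def_FischerSpaces
import Cfsg.Prelude.Def_RootSubgroups

/-! Maximal subgroups of `E₇(2)`: definitions and the list of steps. -/

set_option autoImplicit false

namespace H7.ME

open H18.E7 (G M xr)
open Subgroup Matrix

/-- the root involutions `x_r(1)` -/
noncomputable def X (r : ℕ) : G := if h : r < 126 then xr ⟨r, h⟩ else 1
/-- the highest root element -/
noncomputable def z : G := X 125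
/-- the lowest root element -/
noncomputable def x0 : G := X 0
/-- the degree `(r, θ)` of a root -/
def dg (r : ℕ) : ℤ := H14.tabE7.cf r 0
/-- the class of root involutions -/
def D : Set G := {d | ∃ g, d = g * z * g⁻¹}
/-- the extraspecial group `2^{1+32}` -/
noncomputable def Q : Subgroup G := closure {g | ∃ r < 126, 1 ≤ dg r ∧ g = X r}
/-- the Levi factor `Ω₁₂⁺(2)` -/
noncomputable def L0 : Subgroup G := closure {g | ∃ r < 126, dg r = 0 ∧ g = X r}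
/-- the module -/
abbrev V := Fin 56 → ZMod 2
/-- the group order -/
def NG : ℕ := 7997476042075799759100487262680802918400
/-- the maximal parabolic subgroups -/
noncomputable def Pm (i : Fin 7) : Subgroup G := (H14.goodE7.SG (ZMod 2)).P {j | j ≠ i}

/-- basic facts on root involutions -/
structure Fs : Prop where
  inv : ∀ r, X r * X r = 1
  ne1 : ∀ r < 126, X r ≠ 1
  XD : ∀ r < 126, X r ∈ D
  zQ : z ∈ Q
  cQ : ∀ q ∈ Q, ∀ q' ∈ Q, q * q' * q⁻¹ = q' ∨ q * q' * q⁻¹ = q' * z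
  Qz : ∀ q ∈ Q, Commute q z
  nQ : ∀ p, Commute p z → ∀ q ∈ Q, p * q * p⁻¹ ∈ Q
  dec : ∀ p, Commute p z → ∃ q ∈ Q, ∃ l ∈ L0, p = q * l
  L0z : ∀ l ∈ L0, Commute l z ∧ Commute l x0
  pair : ∀ d ∈ D, ∃ p, Commute p z ∧ ∃ r < 126, d = p * X r * p⁻¹
  semi : ∀ q ∈ Q, Commute q x0 → q = 1
  gen : ∀ H : Subgroup G, Q ≤ H → x0 ∈ H → H = ⊤
  dgs : ∀ r < 126, r = 125 ∨ dg r = 1 ∨ dg r = 0 ∨ dg r = -1 ∨ r = 0
  inQ : ∀ r < 126, X r ∈ Q ↔ 1 ≤ dg r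
  r1 : ∀ r < 126, dg r = 1 → X r ≠ z ∧ (x0 * X r) ^ 4 = 1 ∧
    (x0 * X r) ^ 2 * z * ((x0 * X r) ^ 2)⁻¹ = X r * z ∧ ∃ n, n * X r * n⁻¹ = z ∧ n * z * n⁻¹ = X r
  r0 : ∀ r < 126, dg r = 0 → Commute z (X r) ∧ X r * z ∉ D
  rm : ∀ r < 126, dg r = -1 → ∃ s < 126, dg s = 1 ∧ (z * X r) ^ 2 = X s ∧ Commute (X s) (X r) ∧
    ∃ n, ∃ t < 126, dg t = 1 ∧ n * X s * n⁻¹ = z ∧ n * X r * n⁻¹ = X t
  op : z * x0 * z = x0 * z * x0 ∧ ¬ Commute z x0
  nc : ∀ r < 125, ∃ s < 126, 1 ≤ dg s ∧ ¬ Commute (X r) (X s)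

/-- elements of order 43 and 127 -/
structure Fv : Prop where
  a43 : ∀ a : G, orderOf a = 43 → ∀ v : V, M a *ᵥ v = v → v = 0
  b127 : ∀ b : G, orderOf b = 127 → ∀ y, Commute y b → y ^ 127 = 1

/-- `N = H ∩ Q` is non-degenerate and `H` contains the standard opposite pair -/
structure Gd (H N : Subgroup G) : Prop where
  zN : z ∈ N
  x0H : x0 ∈ H
  inf : H ⊓ Q = N
  nd : ∀ n ∈ N, n ≠ 1 → n ≠ z → ∃ m ∈ N, m * n * m⁻¹ = n * z

/-- the conjugates of `z` under `H` -/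
def cl (H : Subgroup G) : Set G := {e | ∃ m ∈ H, e = m * z * m⁻¹}

/-- the subgroup generated by `N` and the `H`-conjugates of `z` -/
noncomputable def Xg (H N : Subgroup G) : Subgroup G := closure ((N : Set G) ∪ cl H)

/-- dichotomy for root involutions of `H` -/
def DI : Prop := ∀ H N, Gd H N → (∀ e ∈ D, e ∈ N → e ∈ cl H) ∧
  (∀ e ∈ D, e ∈ H → e ∈ cl H ∨ ∀ c ∈ cl H, Commute e c) ∧
  ∀ y, (∀ c ∈ cl H, Commute y c) → ∀ n ∈ N, Commute y n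

/-- two good configurations inside one subgroup -/
def CB : Prop := ∀ (H H' N N' A A' : Subgroup G) (g : G), Gd H N → Gd H' N' → (∀ y, y ∈ H' ↔ g * y * g⁻¹ ∈ H) →
  A ≤ H → A' ≤ H' → (∃ p, Commute p z ∧ ∀ q, q ∈ N' ↔ p * q * p⁻¹ ∈ N) ∨
    ∀ x ∈ Xg A N, ∀ y ∈ Xg A' N', Commute x (g * y * g⁻¹)

/-- a good subgroup contains no conjugate of `Q` -/
def PH : Prop := ∀ H N, Gd H N → ¬ Q ≤ N → ∀ g, ¬ ∀ q ∈ Q, g * q * g⁻¹ ∈ H

/-- the parabolic subgroups -/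
def PA : Prop := (∀ i, IsCoatom (Pm i)) ∧ (∀ i j g, (Pm i).map (MulAut.conj g).toMonoidHom = Pm j → i = j) ∧
  ∀ i, Q ≤ Pm i

/-- no element of order 43 in a parabolic subgroup or in the centralizer of `z` -/
def P43 : Prop := ∀ a : G, orderOf a = 43 → (∀ i, a ∉ Pm i) ∧ ¬ Commute a z

/-- Borel-Tits -/
def BT : Prop := ∀ R : Subgroup G, IsPGroup 2 R → R ≠ ⊥ → ∃ g i, ∀ k ∈ normalizer (R : Set G), g⁻¹ * k * g ∈ Pm i

/-- no `p`-subgroup is normalized by elements of orders 43 and 127 -/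
def LP : Prop := ∀ (a b : G) (p : ℕ) (R : Subgroup G), orderOf a = 43 → orderOf b = 127 → p.Prime → IsPGroup p R →
  a ∈ normalizer (R : Set G) → b ∈ normalizer (R : Set G) → R = ⊥

/-- the component of `z` -/
structure Cp (H N K : Subgroup G) (a b : G) : Prop where
  le : K ≤ H
  zK : z ∈ K
  x0K : x0 ∈ K
  gen : K = closure (cl K)
  na : a ∈ normalizer (K : Set G)
  nb : b ∈ normalizer (K : Set G)
  d43 : 43 ∣ Nat.card K
  d127 : 127 ∣ Nat.card K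
  col : ∀ e ∈ D, e ∈ N → e ∈ cl K

/-- existence of the component -/
def L1 : Prop := ∀ H N a b, Gd H N → a ∈ H → b ∈ H → orderOf a = 43 → orderOf b = 127 → ∃ K, Cp H N K a b

/-- the non-degenerate case -/
def L2 : Prop := ∀ H N K a b, Gd H N → Cp H N K a b → (∃ e ∈ D, e ∈ N ∧ e ≠ z) → K ≤ closure ((N : Set G) ∪ {x0})

/-- the degenerate case -/
def L3 : Prop := ∀ H N K a b, Gd H N → Cp H N K a b → orderOf a = 43 → orderOf b = 127 → ∃ e ∈ D, e ∈ N ∧ e ≠ z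

/-- an order which cannot occur -/
def Bad (n : ℕ) : Prop := 43 ∣ n ∧ 127 ∣ n ∧ n ∣ NG

/-- 3-transposition groups -/
def FI : Prop := ∀ (K : Type) [Group K] [Finite K] (E : Set K), Cfsg.IsThreeTranspositionClass E → center K = ⊥ →
  Cfsg.pCore 2 K = ⊥ → Cfsg.pCore 3 K = ⊥ → ¬ Bad (Nat.card K)

/-- symplectic, unitary and orthogonal groups in characteristic two -/
def FC : Prop := (∀ m, ¬ Bad (Nat.card (Matrix.symplecticGroup (Fin m) (ZMod 2)))) ∧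
  (∀ (n : ℕ) (F : Type) [Field F] [Fintype F], Fintype.card F = 4 → ¬ Bad (Nat.card (Cfsg.PSU n F 2))) ∧
  (∀ m, ¬ Bad (Nat.card (Cfsg.isometryGroup (ZMod 2) (Cfsg.quadFormPlus m (ZMod 2))))) ∧
  ∀ m, ¬ Bad (Nat.card (Cfsg.isometryGroup (ZMod 2) (Cfsg.quadFormMinus m (ZMod 2) 1 1)))

/-- reflection groups over the field with three elements -/
def F3 : Prop := ∀ (n : ℕ) (B : QuadraticForm (ZMod 3) (Fin n → ZMod 3)), (QuadraticMap.polarBilin B).Nondegenerate →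
  ∀ c : ZMod 3, c ≠ 0 → ¬ Bad (Nat.card (Cfsg.reflectionSubgroup (⇑B) c ⧸ center (Cfsg.reflectionSubgroup (⇑B) c)))

/-- eleven subgroups containing root involutions -/
def DA : Prop := ∃ A N : Fin 11 → Subgroup G, (∀ i, A i ≠ ⊤) ∧ (∀ i H, A i ≤ H → H ≠ ⊤ → Gd H (N i)) ∧
  (∀ i, ¬ Q ≤ N i) ∧ (∀ i j, i ≠ j → ∀ p, Commute p z → ¬ ∀ q, q ∈ N j ↔ p * q * p⁻¹ ∈ N i) ∧
  (∀ i j, i ≠ j → ∀ g, ¬ ∀ x ∈ Xg (A i) (N i), ∀ y ∈ Xg (A j) (N j), Commute x (g * y * g⁻¹)) ∧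
  ∀ i, (∀ e ∈ D, e ∈ N i → e = z) ∨ ∀ a ∈ closure ((N i : Set G) ∪ {x0}), orderOf a ≠ 43

/-- the subgroup `L₂(128)` -/
def DL : Prop := ∃ A : Subgroup G, A ≠ ⊤ ∧ ∃ a ∈ A, ∃ b ∈ A, orderOf a = 43 ∧ orderOf b = 127

/-- the result -/
def Res : Prop := ∃ H : Fin 19 → Subgroup G, (∀ i, IsCoatom (H i)) ∧
  ∀ i j, (∃ g : G, (H i).map (MulAut.conj g).toMonoidHom = H j) → i = j

end H7.ME
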