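import Cfsg.Agent.H7.ME1

/-! A variant of the test for `SA` with one algebra element for each `θ_t`. -/

set_option autoImplicit false

namespace H7.ME

/-- test for `SA`: `θ_t = f_t(B_t) = Cm_t * Fm_t` has rank at most `d` -/
noncomputable def sad (L w2 : List (List ℕ)) (d : ℕ) (ts : List (List (List ℕ) × List Bool × ℕ × ℕ))
    (ch : List (ℕ × ℕ × ℕ)) (r P : ℕ) : Bool :=
  frc (alg wm L w2) fun A => frcL (ts.map fun t => hor 56 (alg wm L t.1) t.2.1) fun θs =>
  Nat.ble d 56 && Nat.ble r 56 && ((θs.zip ts).all fun t => eqm 56 56 t.1 (mul d t.2.2.2.1 t.2.2.2.2)) &&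
  eqm r r (mul 56 P (mul 56 (cat A θs ch) Id)) Id

/-- soundness -/
def SD : Prop := ∀ d e p L w2 ts ch r P, Fx d e p → sad L w2 d ts ch r P = true → SA e p (56 - r) (cw L)

end H7.ME
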