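import Mathlib.GroupTheory.Index
import Mathlib.GroupTheory.OrderOfElement
import Mathlib.Algebra.Module.Basic
import Mathlib.Tactic

/-! Binary affine groups, part 1: reflections of a linear group with the partial isometry property. -/

set_option autoImplicit false

namespace H7.CH

variable (H V : Type*) [Group H] [AddCommGroup V] [DistribMulAction H V]

/-- partial isometries extend to elements of `H` -/
def PI : Prop := ∀ R : Set (V × V), (∀ p ∈ R, ∃ h : H, h • p.1 = p.2) →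
  (∀ p ∈ R, ∀ q ∈ R, ∃ h : H, h • (p.1 - q.1) = p.2 - q.2) → ∃ h : H, ∀ p ∈ R, h • p.1 = p.2

variable {H}

/-- `v ↦ h v - v` -/
def dl (h : H) : V →+ V := DistribSMul.toAddMonoidHom V h - AddMonoidHom.id V

/-- fixed space -/
def C (h : H) : AddSubgroup V := (dl V h).ker

/-- commutator space -/
def W (h : H) : AddSubgroup V := (dl V h).range

/-- reflections: involutions with a fixed space of maximal size -/
structure IsD (s : H) : Prop where
  ne : s ≠ 1
  sq : s * s = 1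
  max : ∀ h : H, h ≠ 1 → Nat.card (C V h) ≤ Nat.card (C V s)

variable {V}

theorem dl_apply (h : H) (v : V) : dl V h v = h • v - v := rfl

theorem mem_C {h : H} {v : V} : v ∈ C V h ↔ h • v = v := sub_eq_zero

theorem mem_W {h : H} {v : V} : v ∈ W V h ↔ ∃ y : V, h • y - y = v := Iff.rfl

theorem sub_mem_W (h : H) (y : V) : h • y - y ∈ W V h := ⟨y, rfl⟩

theorem card_CW (h : H) : Nat.card (C V h) * Nat.card (W V h) = Nat.card V := by
  rw [← (C V h).card_mul_index, C, AddSubgroup.index_ker]; rfl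

theorem neg_of_W {s : H} (hs : s * s = 1) {a : V} (ha : a ∈ W V s) : s • a = -a := by
  obtain ⟨y, rfl⟩ := mem_W.1 ha
  rw [smul_sub, smul_smul, hs, one_smul, neg_sub]

theorem smul_mem_W (h : H) {s : H} {a : V} (ha : a ∈ W V s) : h • a ∈ W V (h * s * h⁻¹) := by
  obtain ⟨y, rfl⟩ := mem_W.1 ha
  exact mem_W.2 ⟨h • y, by simp [mul_smul, smul_sub]⟩

theorem smul_mem_W' {h s : H} (hc : h * s = s * h) {a : V} (ha : a ∈ W V s) : h • a ∈ W V s := by
  have := smul_mem_W h ha
  rwa [hc, mul_inv_cancel_right] at this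

theorem PI.two (hp : PI H V) (A : Set V) (x y x' y' : V) (hA : 0 ∈ A)
    (hx : ∀ c ∈ A, ∃ h : H, h • (x - c) = x' - c) (hy : ∀ c ∈ A, ∃ h : H, h • (y - c) = y' - c)
    (hxy : ∃ h : H, h • (x - y) = x' - y') :
    ∃ g : H, (∀ c ∈ A, g • c = c) ∧ g • x = x' ∧ g • y = y' := by
  have rv : ∀ a b a' b' : V, (∃ h : H, h • (a - b) = a' - b') → ∃ h : H, h • (b - a) = b' - a' := by
    rintro a b a' b' ⟨h, e⟩
    exact ⟨h, by rw [← neg_sub, smul_neg, e, neg_sub]⟩
  obtain ⟨g, hg⟩ := hp ((fun c => (c, c)) '' A ∪ {(x, x'), (y, y')}) (by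
    rintro _ (⟨c, -, rfl⟩ | rfl | rfl)
    exacts [⟨1, one_smul _ _⟩, by simpa using hx 0 hA, by simpa using hy 0 hA]) (by
    rintro _ (⟨c, hc, rfl⟩ | rfl | rfl) _ (⟨d, hd, rfl⟩ | rfl | rfl)
    exacts [⟨1, one_smul _ _⟩, rv _ _ _ _ (hx c hc), rv _ _ _ _ (hy c hc), hx d hd, ⟨1, by simp⟩, hxy,
      hy d hd, rv _ _ _ _ hxy, ⟨1, by simp⟩])
  exact ⟨g, fun c hc => hg _ (.inl ⟨c, hc, rfl⟩), hg _ (.inr (.inl rfl)), hg _ (.inr (.inr rfl))⟩

theorem PI.swap (hp : PI H V) (h : H) (b : V) :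
    ∃ g : H, (∀ c : V, h • c = c → g • c = c) ∧ g • b = h • b ∧ g • h • b = b := by
  obtain ⟨g, g1, g2, g3⟩ := hp.two (C V h) b (b + h • b) (h • b) (b + h • b) (zero_mem _)
    (fun c hc => ⟨h, by rw [smul_sub, mem_C.1 hc]⟩)
    (fun c _ => ⟨1, one_smul _ _⟩) ⟨h⁻¹, by simp⟩
  refine ⟨g, fun c hc => g1 c (mem_C.2 hc), g2, ?_⟩
  rw [smul_add, g2, add_comm] at g3
  exact add_right_cancel g3

theorem PI.uni (hp : PI H V) {h : H} {z c : V} (hz : h • z = z + c) (hc : h • c = c) : c + c = 0 := by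
  obtain ⟨g, -, g2, g3⟩ := hp.two {0} z (z + z) z (z + z + (c + c)) rfl
    (fun _ _ => ⟨1, one_smul _ _⟩) (by
      rintro _ rfl
      exact ⟨h, by rw [sub_zero, sub_zero, smul_add, hz]; abel⟩)
    ⟨h * h, by
      rw [show z - (z + z) = -z by abel, smul_neg, mul_smul, hz, smul_add, hz, hc]; abel⟩
  rw [smul_add, g2] at g3
  exact (left_eq_add.1 g3)

theorem odd_swap {g : H} {b b' : V} (h1 : g • b = b') (h2 : g • b' = b) {m : ℕ} (hm : Odd m) :
    g ^ m • b = b' := by
  obtain ⟨k, rfl⟩ := hm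
  have : (g ^ 2) ^ k • b = b := (MulAction.stabilizer H b).pow_mem (by
    rw [MulAction.mem_stabilizer_iff, sq, mul_smul, h1, h2]) k
  rw [pow_succ', mul_smul, pow_mul, this, h1]

theorem pow_fix {g : H} {c : V} (h : g • c = c) (m : ℕ) : g ^ m • c = c :=
  (MulAction.stabilizer H c).pow_mem h m

theorem half_inv [Finite H] {g : H} (he : Even (orderOf g)) :
    ∃ m : ℕ, g ^ m ≠ 1 ∧ g ^ m * g ^ m = 1 := by
  obtain ⟨m, hm⟩ := he
  have := orderOf_pos g
  exact ⟨m, pow_ne_one_of_lt_orderOf (by omega) (by omega), by rw [← pow_add, ← hm, pow_orderOf_eq_one]⟩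

variable [FaithfulSMul H V]

theorem eq_one {h : H} (e : ∀ v : V, h • v = v) : h = 1 :=
  FaithfulSMul.eq_of_smul_eq_smul (α := V) fun v => by rw [e, one_smul]

theorem exists_move {h : H} (h1 : h ≠ 1) : ∃ v : V, h • v ≠ v := by
  by_contra! e; exact h1 (eq_one e)

theorem PI.exists_inv [Finite H] (hp : PI H V) {h : H} (h1 : h ≠ 1) :
    ∃ g : H, g ≠ 1 ∧ g * g = 1 ∧ ∀ c : V, h • c = c → g • c = c := by
  obtain ⟨b, hb⟩ := exists_move (V := V) h1
  obtain ⟨g, g1, g2, g3⟩ := hp.swap h b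
  rcases Nat.even_or_odd (orderOf g) with he | ho
  · obtain ⟨m, m1, m2⟩ := half_inv he
    exact ⟨_, m1, m2, fun c hc => pow_fix (g1 c hc) m⟩
  · have := odd_swap g2 g3 ho
    rw [pow_orderOf_eq_one, one_smul] at this
    exact (hb this.symm).elim

/-- in characteristic 2 there are no elements of order 4 -/
theorem PI.inv0 (hp : PI H V) (h2 : ∀ v : V, v + v = 0) {h : H} (h4 : h * h * (h * h) = 1) :
    h * h = 1 := by
  have n : ∀ v : V, -v = v := fun v => neg_eq_of_add_eq_zero_left (h2 v)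
  have s : ∀ v w : V, v - w = v + w := fun v w => by rw [sub_eq_add_neg, n]
  have key : ∀ b : V, h • (h • h • b + b) = h • h • b + b → h • h • b = b := by
    intro b hb
    obtain ⟨c, hc⟩ : ∃ c, c = h • b + b := ⟨_, rfl⟩
    obtain ⟨d, hd⟩ : ∃ d, d = h • h • b + b := ⟨_, rfl⟩
    rw [← hd] at hb
    have e1 : h • b = b + c := by rw [hc, add_comm, add_assoc, h2, add_zero]
    have e3 : h • h • b = b + d := by rw [hd, add_comm, add_assoc, h2, add_zero]
    have e2 : h • c = c + d := by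
      have := congrArg (h • ·) hc
      simp only [smul_add, e3] at this
      rw [this, e1, show b + d + (b + c) = c + d + (b + b) by abel, h2, add_zero]
    obtain ⟨g, hg⟩ := hp {(b, b), (c, c), (b + c, b + c + d)} (by
      rintro _ (rfl | rfl | rfl)
      exacts [⟨1, one_smul _ _⟩, ⟨1, one_smul _ _⟩, ⟨h * h, by
        rw [mul_smul, ← e1, e3, smul_add, hb, e1]⟩]) (by
      have a1 : h • (b + (b + c)) = b + (b + c + d) := by
        rw [← add_assoc, h2, zero_add, e2, add_assoc, ← add_assoc, h2, zero_add]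
      have a2 : (h * h) • (c + (b + c)) = c + (b + c + d) := by
        rw [add_comm b c, ← add_assoc, h2, zero_add, mul_smul, e3, add_assoc, ← add_assoc, h2, zero_add]
      rintro _ (rfl | rfl | rfl) _ (rfl | rfl | rfl) <;> simp only [s]
      exacts [⟨1, one_smul _ _⟩, ⟨1, one_smul _ _⟩, ⟨_, a1⟩, ⟨1, one_smul _ _⟩, ⟨1, one_smul _ _⟩,
        ⟨_, a2⟩, ⟨h, by rw [add_comm, a1, add_comm]⟩, ⟨h * h, by rw [add_comm, a2, add_comm]⟩,
        ⟨1, by rw [h2, h2, one_smul]⟩])
    have g1 : g • b = b := hg (b, b) (by simp)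
    have g2 : g • c = c := hg (c, c) (by simp)
    have g3 : g • (b + c) = b + c + d := hg (b + c, b + c + d) (by simp)
    rw [smul_add, g1, g2] at g3
    rw [e3, left_eq_add.1 g3, add_zero]
  have h4' : ∀ v : V, h • h • h • h • v = v := fun v => by
    simp only [← mul_smul, ← mul_assoc] at h4 ⊢; rw [h4, one_smul]
  refine eq_one (V := V) fun v => ?_
  rw [mul_smul]
  have := key (h • v + v) (by simp only [smul_add, h4']; abel)
  apply key
  simp only [smul_add] at this ⊢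
  rw [← sub_eq_zero, s] at this ⊢
  rw [← this]; abel

theorem PI.swap2 [Finite H] (hp : PI H V) (h2 : ∀ v : V, v + v = 0) (h : H) (b : V) :
    ∃ g : H, g * g = 1 ∧ (∀ c : V, h • c = c → g • c = c) ∧ g • b = h • b := by
  obtain ⟨g, g1, g2, g3⟩ := hp.swap h b
  obtain ⟨k, m, hm, e⟩ := Nat.exists_eq_two_pow_mul_odd (orderOf_pos g).ne'
  have key : ∀ (j : ℕ) (x : H), x ^ 2 ^ j = 1 → x * x = 1 := by
    intro j
    induction j with
    | zero => intro x hx; simp_all
    | succ j ih =>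
      intro x hx
      exact hp.inv0 h2 (ih (x * x) (by rw [← sq, ← pow_mul, ← pow_succ', hx]))
  exact ⟨g ^ m, key k _ (by rw [← pow_mul, mul_comm, ← e, pow_orderOf_eq_one]),
    fun c hc => pow_fix (g1 c hc) m, odd_swap g2 g3 hm⟩

end H7.CH
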