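import Cfsg.Agent.H7.CH1

/-! Binary affine groups, part 2: geometry of the reflections. -/

set_option autoImplicit false

namespace H7.CH

variable {H V : Type*} [Group H] [AddCommGroup V] [DistribMulAction H V] [Finite V]

theorem IsD.fix {s h : H} (hs : IsD V s) (h1 : ∀ c : V, s • c = c → h • c = c) {z : V}
    (hz : s • z ≠ z) (h2 : h • z = z) : h = 1 := by
  by_contra e
  have hle : C V s ≤ C V h := fun c hc => mem_C.2 (h1 c (mem_C.1 hc))
  have := AddSubgroup.eq_of_le_of_card_ge hle (hs.max h e)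
  exact hz (mem_C.1 (this ▸ mem_C.2 h2))

theorem IsD.card_C {s t : H} (hs : IsD V s) (ht : IsD V t) : Nat.card (C V s) = Nat.card (C V t) :=
  le_antisymm (ht.max s hs.ne) (hs.max t ht.ne)

theorem IsD.card_W {s t : H} (hs : IsD V s) (ht : IsD V t) : Nat.card (W V s) = Nat.card (W V t) := by
  have := card_CW (V := V) s
  rw [← card_CW (V := V) t, hs.card_C ht] at this
  exact Nat.eq_of_mul_eq_mul_left Nat.card_pos this

theorem IsD.of_W {s g : H} (hs : IsD V s) (g1 : g ≠ 1) (g2 : g * g = 1)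
    (hc : Nat.card (W V g) ≤ Nat.card (W V s)) : IsD V g := by
  refine ⟨g1, g2, fun h h1 => (hs.max h h1).trans ?_⟩
  have e := (card_CW (V := V) s).trans (card_CW g).symm
  have : 0 < Nat.card (W V s) := Nat.card_pos
  by_contra! hl
  nlinarith

theorem IsD.conj {s : H} (hs : IsD V s) (h : H) : IsD V (h * s * h⁻¹) := by
  refine hs.of_W (fun e => hs.ne (by simpa using e)) (by
    rw [show h * s * h⁻¹ * (h * s * h⁻¹) = h * (s * s) * h⁻¹ by group, hs.sq]; simp) ?_
  refine Nat.card_le_card_of_injective (fun a => (⟨h⁻¹ • a.1, by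
    simpa [mul_assoc] using smul_mem_W h⁻¹ a.2⟩ : W V s)) fun a b e => Subtype.ext ?_
  simpa using e

theorem IsD.smul_smul {s : H} (hs : IsD V s) (v : V) : s • s • v = v := by
  rw [← mul_smul, hs.sq, one_smul]

theorem IsD.inv {s : H} (hs : IsD V s) : s⁻¹ = s := inv_eq_of_mul_eq_one_left hs.sq

theorem IsD.key (hp : PI H V) {s h : H} (hs : IsD V s) {u z : V} (hu : u ∈ W V s) (u0 : u ≠ 0)
    (hz : h • z = z + u) : s • z = z + u := by
  obtain ⟨y, rfl⟩ := mem_W.1 hu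
  obtain ⟨g, g1, g2, g3⟩ := hp.two (C V s) y (y - z) (s • y) (y - z) (zero_mem _)
    (fun c hc => ⟨s, by rw [smul_sub, mem_C.1 hc]⟩) (fun c _ => ⟨1, one_smul _ _⟩)
    ⟨h, by rw [sub_sub_cancel, hz]; abel⟩
  have : s * g = 1 := hs.fix (fun c hc => by rw [mul_smul, g1 c (mem_C.2 hc), hc]) (sub_ne_zero.1 u0)
    (by rw [mul_smul, g2, hs.smul_smul])
  rw [← hs.inv, inv_mul_eq_one] at this
  rw [← this, smul_sub, sub_eq_iff_eq_add] at g3
  rw [g3]; abel

theorem IsD.pm (hp : PI H V) {s h : H} (hs : IsD V s) {a : V} (ha : a ∈ W V s)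
    (hb : h • a ∈ W V s) : h • a = a ∨ h • a = -a := by
  by_cases e : h • a - a = 0
  · exact .inl (sub_eq_zero.1 e)
  · have := hs.key hp (h := h) (z := a) (sub_mem hb ha) e (by abel)
    rw [neg_of_W hs.sq ha] at this
    exact .inr (by rw [this]; abel)

theorem IsD.disj (hp : PI H V) {s t : H} (hs : IsD V s) (ht : IsD V t) {a : V} (a0 : a ≠ 0)
    (ha : a ∈ W V s) (hb : a ∈ W V t) : s = t := by
  obtain ⟨y, rfl⟩ := mem_W.1 ha
  have e : ∀ c : V, s • c = c → t • (y + c) = s • y + c := fun c hc => by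
    rw [ht.key hp (h := s) (z := y + c) hb a0 (by rw [smul_add, hc]; abel)]; abel
  have e0 := e 0 (smul_zero _)
  rw [add_zero, add_zero] at e0
  have : s * t = 1 := hs.fix (fun c hc => by
    have := e c hc
    rw [smul_add, e0, add_right_inj] at this
    rw [mul_smul, this, hc]) (sub_ne_zero.1 a0) (by rw [mul_smul, e0, hs.smul_smul])
  rwa [← hs.inv, inv_mul_eq_one] at this

theorem IsD.comm (hp : PI H V) {s h : H} (hs : IsD V s) {a : V} (a0 : a ≠ 0) (ha : a ∈ W V s)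
    (hb : h • a ∈ W V s) : h * s = s * h :=
  mul_inv_eq_iff_eq_mul.1 ((hs.conj h).disj hp hs ((smul_ne_zero_iff_ne h).2 a0) (smul_mem_W h ha) hb)

/-- either characteristic 2 or no 2-torsion -/
def Dich (V : Type*) [AddCommGroup V] : Prop := ∀ a v : V, a ≠ 0 → a + a = 0 → v + v = 0

theorem IsD.fixW (hp : PI H V) (hd : Dich V) {s h : H} (hs : IsD V s) {a : V} (a0 : a ≠ 0)
    (ha : a ∈ W V s) (e : h • a = a) {b : V} (hb : b ∈ W V s) : h • b = b := by
  have hc := hs.comm hp a0 ha (e.symm ▸ ha)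
  rcases hs.pm hp hb (smul_mem_W' hc hb) with e1 | e1
  · exact e1
  have n : b + b = 0 → h • b = b := fun e => by rw [e1]; exact neg_eq_of_add_eq_zero_left e
  rcases hs.pm hp (add_mem ha hb) (smul_mem_W' hc (add_mem ha hb)) with e2 | e2 <;>
    rw [smul_add, e, e1] at e2
  · exact e1.trans (add_left_cancel e2)
  · refine n (hd a b a0 ?_)
    rw [neg_add, add_left_inj] at e2
    exact add_eq_zero_iff_eq_neg.2 e2

theorem IsD.negW (hp : PI H V) (hd : Dich V) {s h : H} (hs : IsD V s) {a : V} (a0 : a ≠ 0)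
    (ha : a ∈ W V s) (e : h • a = -a) {b : V} (hb : b ∈ W V s) : h • b = -b := by
  have := hs.fixW hp hd (h := h * s) a0 ha (by rw [mul_smul, neg_of_W hs.sq ha, smul_neg, e, neg_neg]) hb
  rwa [mul_smul, neg_of_W hs.sq hb, smul_neg, neg_eq_iff_eq_neg] at this

omit [Finite V] in
theorem sym {s m : H} (hc : s * m = m * s) (h : ∀ b ∈ W V m, s • b = b) {a : V} (ha : a ∈ W V s) :
    m • a = a := by
  obtain ⟨y, rfl⟩ := mem_W.1 ha
  have := h _ (sub_mem_W m y)
  rw [smul_sub, smul_smul, hc, mul_smul, sub_eq_iff_eq_add] at this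
  rw [smul_sub, this]; abel

theorem IsD.fix_mul (hp : PI H V) {s t : H} (hs : IsD V s) (ht : IsD V t) (h : s ≠ t) {z : V}
    (hz : s • t • z = z) : s • z = z ∧ t • z = z := by
  have e : t • z = s • z := by rw [← hs.smul_smul (t • z), hz]
  by_cases e0 : s • z - z = 0
  · rw [e]; exact ⟨sub_eq_zero.1 e0, sub_eq_zero.1 e0⟩
  · exact (h (hs.disj hp ht e0 (sub_mem_W _ _) (e ▸ sub_mem_W _ _))).elim

/-- independence of the root spaces and the common fixed space -/
def Pair (V : Type*) [AddCommGroup V] [DistribMulAction H V] (s t : H) : Prop :=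
  ∀ a ∈ W V s, ∀ b ∈ W V t, s • (a + b) = a + b → t • (a + b) = a + b → a = 0 ∧ b = 0

theorem Pair.card {s t : H} (h : Pair V s t) :
    Nat.card (W V s) * Nat.card (W V t) * Nat.card (C V s ⊓ C V t : AddSubgroup V) = Nat.card V ∧
    ∀ v : V, ∃ a ∈ W V s, ∃ b ∈ W V t, ∃ c : V, s • c = c ∧ t • c = c ∧ v = a + b + c := by
  let f : W V s × W V t × (C V s ⊓ C V t : AddSubgroup V) → V := fun x => x.1.1 + x.2.1.1 + x.2.2.1
  have hf : Function.Injective f := by
    rintro ⟨⟨a, ha⟩, ⟨b, hb⟩, ⟨c, c1, c2⟩⟩ ⟨⟨a', ha'⟩, ⟨b', hb'⟩, ⟨c', c1', c2'⟩⟩ e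
    have e' : (a - a') + (b - b') = c' - c := by
      rw [← sub_eq_zero, ← sub_eq_zero.2 e]; simp only [f]; abel
    obtain ⟨e1, e2⟩ := h _ (sub_mem ha ha') _ (sub_mem hb hb') (e' ▸ mem_C.1 (sub_mem c1' c1))
      (e' ▸ mem_C.1 (sub_mem c2' c2))
    rw [e1, e2, add_zero, eq_comm, sub_eq_zero] at e'
    rw [sub_eq_zero] at e1 e2
    subst e1 e2 e'; rfl
  have h1 := Nat.card_le_card_of_injective f hf
  rw [Nat.card_prod, Nat.card_prod, ← mul_assoc] at h1
  have h2 : (C V s ⊓ C V t).index ≤ Nat.card (W V s) * Nat.card (W V t) := by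
    refine AddSubgroup.index_inf_le.trans (le_of_eq ?_)
    rw [C, C, AddSubgroup.index_ker, AddSubgroup.index_ker]; rfl
  have h3 : Nat.card (W V s) * Nat.card (W V t) * Nat.card (C V s ⊓ C V t : AddSubgroup V) =
      Nat.card V := le_antisymm h1 (by
    rw [← (C V s ⊓ C V t).index_mul_card]; exact Nat.mul_le_mul_right _ h2)
  refine ⟨h3, fun v => ?_⟩
  obtain ⟨⟨a, b, c⟩, rfl⟩ := ((Nat.bijective_iff_injective_and_card f).2
    ⟨hf, by rw [Nat.card_prod, Nat.card_prod, ← mul_assoc, h3]⟩).2 v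
  exact ⟨a, a.2, b, b.2, c, mem_C.1 c.2.1, mem_C.1 c.2.2, rfl⟩

theorem Pair.eq {s t s' t' : H} (h : Pair V s t) (h' : Pair V s' t') (hs : IsD V s) (ht : IsD V t)
    (hs' : IsD V s') (ht' : IsD V t') (hle : ∀ c : V, s • c = c → t • c = c → s' • c = c ∧ t' • c = c)
    {c : V} (c1 : s' • c = c) (c2 : t' • c = c) : s • c = c ∧ t • c = c := by
  have e := h.card.1.trans h'.card.1.symm
  rw [hs'.card_W hs, ht'.card_W ht] at e
  have := AddSubgroup.eq_of_le_of_card_ge (H := C V s ⊓ C V t) (K := C V s' ⊓ C V t')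
    (fun c hc => ⟨mem_C.2 (hle c (mem_C.1 hc.1) (mem_C.1 hc.2)).1,
      mem_C.2 (hle c (mem_C.1 hc.1) (mem_C.1 hc.2)).2⟩)
    (Nat.eq_of_mul_eq_mul_left (Nat.mul_pos Nat.card_pos Nat.card_pos) e).ge
  have hc : c ∈ C V s ⊓ C V t := this ▸ ⟨mem_C.2 c1, mem_C.2 c2⟩
  exact ⟨mem_C.1 hc.1, mem_C.1 hc.2⟩

theorem pair_nc (hp : PI H V) (hd : Dich V) {s t : H} (hs : IsD V s) (ht : IsD V t)
    (hn : s * t ≠ t * s) : Pair V s t := by
  intro a ha b hb e1 e2
  have f : ∀ {s t : H}, IsD V s → s * t ≠ t * s → ∀ a ∈ W V s, t • a = a → a = 0 := by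
    intro s t hs hn a ha e
    by_contra a0
    exact hn (hs.comm hp a0 ha (e.symm ▸ ha)).symm
  rw [smul_add, neg_of_W hs.sq ha, neg_add_eq_iff_eq_add] at e1
  rw [smul_add, neg_of_W ht.sq hb, add_neg_eq_iff_eq_add] at e2
  have w : (a + b + (a + b)) + (a + b + (a + b)) = 0 := hp.uni (h := s * t) (z := a) (by
    rw [mul_smul, e2, smul_add, smul_add, e1, neg_of_W hs.sq ha]; abel) (by
    simp only [mul_smul, smul_add, e1, e2, neg_of_W hs.sq ha, neg_of_W ht.sq hb, smul_neg]; abel)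
  have w2 : a + b + (a + b) = 0 := by
    by_contra e; exact e (hd _ _ e w)
  by_cases w1 : a + b = 0
  · have hb' : a ∈ W V t := by rw [eq_neg_of_add_eq_zero_left w1]; exact neg_mem hb
    by_cases a0 : a = 0
    · exact ⟨a0, by simpa [a0] using w1⟩
    · exact (hn (by rw [hs.disj hp ht a0 ha hb'])).elim
  · have h2 := fun v => hd _ v w1 w2
    exact ⟨f hs hn a ha (by rw [e2, add_assoc, h2, add_zero]),
      f ht (Ne.symm hn) b hb (by rw [e1, ← add_assoc, h2, zero_add])⟩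

end H7.CH
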