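import Cfsg.Agent.H7.CH2

/-! Binary affine groups, part 3: every vector is a root. -/

set_option autoImplicit false

namespace H7.CH

variable {H V : Type*} [Group H] [AddCommGroup V] [DistribMulAction H V] [Finite V]

omit [Finite V] in
theorem Pair.symm {s t : H} (h : Pair V s t) : Pair V t s := fun a ha b hb e1 e2 =>
  (h b hb a ha (by rwa [add_comm]) (by rwa [add_comm])).symm

theorem Pair.cover (hp : PI H V) {s t : H} (h : Pair V s t) (hs : IsD V s) (ht : IsD V t) (hn : s ≠ t)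
    {a b : V} (ha : a ∈ W V s) (hb : b ∈ W V t) : ∃ y : V, (s * t) • y - y = a + b := by
  have e : C V (s * t) = C V s ⊓ C V t := by
    ext z
    simp only [AddSubgroup.mem_inf, mem_C, mul_smul]
    exact ⟨hs.fix_mul hp ht hn, fun h => by rw [h.2, h.1]⟩
  have h1 := (card_CW (V := V) (s * t)).trans h.card.1.symm
  rw [e, mul_comm] at h1
  have h2 : W V (s * t) = W V s ⊔ W V t := by
    refine AddSubgroup.eq_of_le_of_card_ge ?_ ?_
    · rintro _ ⟨y, rfl⟩
      exact AddSubgroup.mem_sup.2 ⟨_, sub_mem_W s (t • y), _, sub_mem_W t y, by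
        rw [dl_apply, mul_smul]; abel⟩
    · rw [Nat.eq_of_mul_eq_mul_right Nat.card_pos h1, ← Nat.card_prod]
      refine Nat.card_le_card_of_surjective (fun x : W V s × W V t => (⟨x.1.1 + x.2.1,
        AddSubgroup.add_mem_sup x.1.2 x.2.2⟩ : (W V s ⊔ W V t : AddSubgroup V))) ?_
      rintro ⟨_, hv⟩
      obtain ⟨a, ha, b, hb, rfl⟩ := AddSubgroup.mem_sup.1 hv
      exact ⟨(⟨a, ha⟩, ⟨b, hb⟩), rfl⟩
  exact mem_W.1 (h2 ▸ AddSubgroup.add_mem_sup ha hb)

theorem Pair.invD (hp : PI H V) (hd : Dich V) {s t g : H} (h : Pair V s t) (hs : IsD V s) (ht : IsD V t)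
    (hP : g * s * g⁻¹ ≠ s → Pair V s (g * s * g⁻¹)) (g1 : g ≠ 1) (g2 : g * g = 1)
    (hg : ∀ c : V, s • c = c → t • c = c → g • c = c) : IsD V g ∨ ∀ a ∈ W V s, g • a = -a := by
  have key : ∀ r : H, IsD V r → (∀ v : V, ∃ a ∈ W V r, g • v - v = g • a - a) → IsD V g := by
    refine fun r hr e => hr.of_W g1 g2 (Nat.card_le_card_of_surjective
      (fun a : W V r => (⟨g • a.1 - a.1, sub_mem_W _ _⟩ : W V g)) ?_)
    rintro ⟨_, y, rfl⟩
    obtain ⟨a, ha, e⟩ := e y
    exact ⟨⟨a, ha⟩, Subtype.ext e.symm⟩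
  have gg : ∀ v : V, g • g • v = v := fun v => by rw [← mul_smul, g2, one_smul]
  by_cases e : g * s * g⁻¹ = s
  · by_contra! hc
    obtain ⟨h1, a, ha, h2⟩ := hc
    have h3 := (hs.pm hp ha (e ▸ smul_mem_W g ha)).resolve_right h2
    refine h1 (key t ht fun v => ?_)
    obtain ⟨a', ha', b, hb, c, c1, c2, rfl⟩ := h.card.2 v
    refine ⟨b, hb, ?_⟩
    rw [smul_add, smul_add, hg c c1 c2, hs.fixW hp hd (by rintro rfl; simp at h2) ha h3 ha']; abel
  · refine .inl (key s hs fun v => ?_)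
    obtain ⟨a, ha, b, hb, c, c1, c2, rfl⟩ := (hP e).card.2 v
    obtain ⟨c3, c4⟩ := h.eq (hP e) hs ht hs (hs.conj g) (fun c c1 c2 => ⟨c1, by
      rw [mul_smul, mul_smul, inv_smul_eq_iff.2 (hg c c1 c2).symm, c1, hg c c1 c2]⟩) c1 c2
    have hb' := smul_mem_W g hb
    rw [show g * (g * s * g⁻¹) * g⁻¹ = g * g * s * (g * g)⁻¹ by group, g2, one_mul, inv_one,
      mul_one] at hb'
    exact ⟨a - g • b, sub_mem ha hb', by rw [smul_add, smul_add, smul_sub, gg, hg c c3 c4]; abel⟩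

/-- roots -/
def Root (H : Type*) {V : Type*} [Group H] [AddCommGroup V] [DistribMulAction H V] (v : V) : Prop :=
  ∃ r : H, IsD V r ∧ v ∈ W V r

section odd

variable (hp : PI H V) (ho : ∀ v : V, v + v = 0 → v = 0)
include hp ho

omit hp [Finite V] in
theorem dich_odd : Dich V := fun a _ a0 e => (a0 (ho a e)).elim

theorem cf {m n : H} (hm : IsD V m) (hn : IsD V n) (h : m ≠ n) (hc : m * n = n * m) {b : V}
    (hb : b ∈ W V n) : m • b = b := by
  refine (hn.pm hp hb (smul_mem_W' hc hb)).elim id fun e => ?_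
  by_cases e0 : m • b - b = 0
  · exact sub_eq_zero.1 e0
  · exact (h (hm.disj hp hn e0 (sub_mem_W _ _) (sub_mem (smul_mem_W' hc hb) hb))).elim

theorem pair_odd {s t : H} (hs : IsD V s) (ht : IsD V t) (h : s ≠ t) : Pair V s t := by
  by_cases hc : s * t = t * s
  · intro a ha b hb e1 e2
    rw [smul_add, neg_of_W hs.sq ha, cf hp ho hs ht h hc hb, add_left_inj, neg_eq_iff_add_eq_zero] at e1
    rw [smul_add, neg_of_W ht.sq hb, cf hp ho ht hs h.symm hc.symm ha, add_right_inj,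
      neg_eq_iff_add_eq_zero] at e2
    exact ⟨ho _ e1, ho _ e2⟩
  · exact pair_nc hp (dich_odd ho) hs ht hc

variable [FaithfulSMul H V] [Finite H]

omit hp ho [Finite V] [Finite H] in
theorem IsD.exists_W {s : H} (hs : IsD V s) : ∃ a ∈ W V s, a ≠ 0 := by
  obtain ⟨v, hv⟩ := exists_move (V := V) hs.ne
  exact ⟨_, sub_mem_W s v, sub_ne_zero.2 hv⟩

theorem isD_odd {s t h : H} (hs : IsD V s) (ht : IsD V t) (hn : s ≠ t) (h1 : h ≠ 1)
    (hh : ∀ c : V, s • c = c → t • c = c → h • c = c) {v : V} (hv : h • v = v)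
    (v0 : ¬(s • v = v ∧ t • v = v)) : IsD V h := by
  have hd := dich_odd ho
  have hP := pair_odd hp ho hs ht hn
  obtain ⟨g, g1, g2, g3⟩ := hp.exists_inv h1
  have hg : IsD V g := by
    by_contra e
    have e1 := (hP.invD hp hd hs ht (fun e => pair_odd hp ho hs (hs.conj g) (Ne.symm e)) g1 g2
      fun c c1 c2 => g3 c (hh c c1 c2)).resolve_left e
    have e2 := (hP.symm.invD hp hd ht hs (fun e => pair_odd hp ho ht (ht.conj g) (Ne.symm e)) g1 g2
      fun c c1 c2 => g3 c (hh c c2 c1)).resolve_left e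
    obtain ⟨a, ha, b, hb, c, c1, c2, rfl⟩ := hP.card.2 v
    have := g3 _ hv
    rw [smul_add, smul_add, e1 a ha, e2 b hb, g3 c (hh c c1 c2), add_left_inj, ← neg_add,
      neg_eq_iff_add_eq_zero] at this
    rw [ho _ this, zero_add] at v0
    exact v0 ⟨c1, c2⟩
  have cj : ∀ c : V, h • c = c → (h * g * h⁻¹) • c = c := fun c hc => by
    rw [mul_smul, mul_smul, inv_smul_eq_iff.2 hc.symm, g3 c hc, hc]
  have hc : h * g * h⁻¹ = g := by
    by_contra e
    exact v0 (hP.eq (pair_odd hp ho hg (hg.conj h) (Ne.symm e)) hs ht hg (hg.conj h)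
      (fun c c1 c2 => ⟨g3 c (hh c c1 c2), cj c (hh c c1 c2)⟩) (g3 v hv) (cj v hv))
  have hz : ∀ a ∈ W V g, h • a = a → a = 0 := fun a ha e => ho a (by
    rw [← neg_eq_iff_add_eq_zero, ← neg_of_W g2 ha, g3 a e])
  obtain ⟨a, ha, a0⟩ := hg.exists_W
  have hn := fun b => hg.negW hp hd (b := b) a0 ha
    ((hg.pm hp ha (hc ▸ smul_mem_W h ha)).resolve_left fun e => a0 (hz a ha e))
  have : h * g = 1 := by
    by_contra e
    have c1 := Nat.card_le_card_of_injective (fun x : W V g × C V h => (⟨x.1.1 + x.2.1, mem_C.2 (by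
      rw [mul_smul, smul_add, neg_of_W g2 x.1.2, g3 _ (mem_C.1 x.2.2), smul_add, smul_neg, hn _ x.1.2,
        neg_neg, mem_C.1 x.2.2])⟩ : C V (h * g))) (by
      rintro ⟨⟨a, ha⟩, ⟨c, hc⟩⟩ ⟨⟨a', ha'⟩, ⟨c', hc'⟩⟩ e
      have e0 : a + c = a' + c' := congrArg Subtype.val e
      have e' : a - a' = c' - c := by rw [← sub_eq_zero, ← sub_eq_zero.2 e0]; abel
      have := hz _ (sub_mem ha ha') (e' ▸ mem_C.1 (sub_mem hc' hc))
      rw [this, eq_comm, sub_eq_zero] at e'
      rw [sub_eq_zero] at this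
      subst this e'; rfl)
    have c2 : Nat.card (C V s ⊓ C V t : AddSubgroup V) < Nat.card (C V h) := by
      by_contra! c
      have := AddSubgroup.eq_of_le_of_card_ge (H := C V s ⊓ C V t) (K := C V h)
        (fun c hc => mem_C.2 (hh c (mem_C.1 hc.1) (mem_C.1 hc.2))) c
      have hv' : v ∈ C V s ⊓ C V t := this ▸ mem_C.2 hv
      exact v0 ⟨mem_C.1 hv'.1, mem_C.1 hv'.2⟩
    have c3 := hP.card.1.trans (card_CW s).symm
    have c4 := hs.max _ e
    rw [Nat.card_prod, hg.card_W hs] at c1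
    rw [ht.card_W hs] at c3
    have : 0 < Nat.card (W V s) := Nat.card_pos
    have c5 : Nat.card (W V s) * Nat.card (C V s ⊓ C V t : AddSubgroup V) = Nat.card (C V s) :=
      Nat.eq_of_mul_eq_mul_left this (by linarith)
    nlinarith
  rwa [eq_inv_of_mul_eq_one_left this, hg.inv]

theorem nc_odd {s t : H} (hs : IsD V s) (ht : IsD V t) (hn : s = t ∨ s * t ≠ t * s) {a b : V}
    (ha : a ∈ W V s) (hb : b ∈ W V t) : Root H (a + b) := by
  obtain rfl | hn := hn
  · exact ⟨s, hs, add_mem ha hb⟩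
  have hne : s ≠ t := by rintro rfl; exact hn rfl
  obtain ⟨y, hy⟩ := (pair_odd hp ho hs ht hne).cover hp hs ht hne ha hb
  rw [← hy]
  by_cases y0 : (s * t) • y = y
  · exact ⟨s, hs, by rw [y0, sub_self]; exact zero_mem _⟩
  obtain ⟨g, g1, g2, g3⟩ := hp.swap (s * t) y
  have c0 : ∀ c : V, s • c = c → t • c = c → (s * t) • c = c := fun c c1 c2 => by rw [mul_smul, c2, c1]
  by_cases e : s • (y + (s * t) • y) = y + (s * t) • y ∧ t • (y + (s * t) • y) = y + (s * t) • y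
  · exfalso
    have e1 := c0 _ e.1 e.2
    rw [smul_add, add_comm, add_left_inj, ← mul_smul] at e1
    have hx : IsD V (s * t * (s * t)) := isD_odd hp ho hs ht hne (fun e => hn (by
      rw [eq_inv_of_mul_eq_one_left e, mul_inv_rev, hs.inv, ht.inv]))
      (fun c c1 c2 => by rw [mul_smul, c0 c c1 c2, c0 c c1 c2]) e1 fun e => y0 (c0 _ e.1 e.2)
    obtain ⟨a, ha, a0⟩ := hx.exists_W
    have e2 := neg_of_W hx.sq ha
    refine a0 (ho a (neg_eq_iff_add_eq_zero.1 ?_))
    rw [← e2, mul_smul]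
    rcases hx.pm hp ha (smul_mem_W' (h := s * t) (by group) ha) with e | e <;> simp [e]
  · have hg := isD_odd hp ho hs ht hne (h := g) (by rintro rfl; exact y0 (by rw [← g2, one_smul]))
      (fun c c1 c2 => g1 c (c0 c c1 c2)) (by rw [smul_add, g2, g3, add_comm]) e
    exact ⟨g, hg, g2 ▸ sub_mem_W g y⟩

theorem comp_odd {l : H} (hl : IsD V l) (h : H) (hn : l ≠ h * l * h⁻¹)
    (hc : l * (h * l * h⁻¹) = h * l * h⁻¹ * l) : ∃ g : H, IsD V g ∧ g * l * g⁻¹ = h * l * h⁻¹ := by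
  obtain ⟨u, hu, u0⟩ := hl.exists_W
  have hl' := hl.conj h
  have hu' := smul_mem_W h hu
  have e1 := cf hp ho hl hl' hn hc hu'
  have e2 := cf hp ho hl' hl hn.symm hc.symm hu
  obtain ⟨g, g1, g2, g3⟩ := hp.two (C V l ⊓ C V (h * l * h⁻¹) : AddSubgroup V) (u - h • u) (u + h • u)
    (h • u - u) (u + h • u) (zero_mem _) (fun c hc => ⟨l * (h * l * h⁻¹), by
      rw [mul_smul, smul_sub (h * l * h⁻¹), smul_sub (h * l * h⁻¹), e2, neg_of_W hl'.sq hu', mem_C.1 hc.2,
        smul_sub, smul_sub, smul_neg, e1, neg_of_W hl.sq hu, mem_C.1 hc.1]; abel⟩) (fun _ _ => ⟨1, one_smul _ _⟩)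
    ⟨h⁻¹, by
      rw [show u - h • u - (u + h • u) = h • (-u - u) by rw [smul_sub, smul_neg]; abel, inv_smul_smul]
      abel⟩
  have g4 : g • u = h • u := by
    refine sub_eq_zero.1 (ho _ ?_)
    rw [smul_sub, sub_eq_iff_eq_add] at g2
    rw [smul_add, ← eq_sub_iff_add_eq'] at g3
    rw [g3] at g2
    nth_rewrite 1 [g2]; abel
  have hg := isD_odd hp ho hl hl' hn (h := g) (by
      rintro rfl; exact hn (hl.disj hp hl' u0 hu (by rwa [← g4, one_smul] at hu')))
    (fun c c1 c2 => g1 c ⟨mem_C.2 c1, mem_C.2 c2⟩) g3 fun e => u0 (ho u (by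
      have := e.1
      rwa [smul_add, e1, neg_of_W hl.sq hu, add_left_inj, neg_eq_iff_add_eq_zero] at this))
  exact ⟨g, hg, (hl.conj g).disj hp hl' ((smul_ne_zero_iff_ne g).2 u0) (smul_mem_W g hu) (g4 ▸ hu')⟩

theorem sum_odd {m l r : H} (hm : IsD V m) (hl : IsD V l) (hr : IsD V r) (h1 : m * r ≠ r * m)
    (h2 : l * r ≠ r * l) {w a : V} (hw : w ∈ W V m) (ha : a ∈ W V l) : Root H (w + a) := by
  by_cases hc : m = l ∨ m * l ≠ l * m
  · exact nc_odd hp ho hm hl hc hw ha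
  push Not at hc
  by_contra hR
  have key : ∀ b ∈ W V r, b ≠ 0 → r • (w + b + a) = w + b + a := by
    intro b hb b0
    obtain ⟨r', hr', e⟩ := nc_odd hp ho hm hr (.inr h1) hw hb
    by_cases c : r' = l ∨ r' * l ≠ l * r'
    · obtain ⟨n, hn, e'⟩ := nc_odd hp ho hr' hl c e ha
      by_cases c' : n = r ∨ n * r ≠ r * n
      · have := nc_odd hp ho hn hr c' e' (neg_mem hb)
        rw [show w + b + a + -b = w + a by abel] at this
        exact (hR this).elim
      · push Not at c'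
        exact cf hp ho hr hn (Ne.symm c'.1) c'.2.symm e'
    · push Not at c
      have := cf hp ho hl hr' (Ne.symm c.1) c.2.symm e
      rw [smul_add, cf hp ho hl hm (Ne.symm hc.1) hc.2.symm hw, add_right_inj] at this
      exact (h2 (hr.comm hp b0 hb (this.symm ▸ hb))).elim
  obtain ⟨b, hb, b0⟩ := hr.exists_W
  have e1 := key b hb b0
  have e2 := key _ (neg_mem hb) (neg_ne_zero.2 b0)
  have e3 : r • (b + b) = b + b := by
    rw [show b + b = w + b + a - (w + -b + a) by abel, smul_sub, e1, e2]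
  rw [neg_of_W hr.sq (add_mem hb hb), neg_eq_iff_add_eq_zero] at e3
  exact b0 (ho _ (ho _ e3))

end odd

end H7.CH
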