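import Cfsg.Agent.H7.CH3

/-! Binary affine groups, part 4: irreducible case, all vectors are roots. -/

set_option autoImplicit false

namespace H7.CH

variable {H V : Type*} [Group H] [AddCommGroup V] [DistribMulAction H V] [Finite V]

/-- irreducibility -/
def Irr (H V : Type*) [Group H] [AddCommGroup V] [DistribMulAction H V] : Prop :=
  ∀ Y : AddSubgroup V, (∀ h : H, ∀ y ∈ Y, h • y ∈ Y) → Y = ⊥ ∨ Y = ⊤

omit [Finite V] in
theorem Irr.top (hi : Irr H V) (Y : AddSubgroup V) (h : ∀ h : H, ∀ y ∈ Y, h • y ∈ Y) {a : V}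
    (ha : a ∈ Y) (a0 : a ≠ 0) (v : V) : v ∈ Y := by
  rcases hi Y h with rfl | rfl
  exacts [(a0 ha).elim, trivial]

omit [Finite V] in
theorem Irr.dich (hi : Irr H V) : Dich V := fun a v a0 e =>
  hi.top (nsmulAddMonoidHom 2).ker (fun h y hy => by
    simp only [AddMonoidHom.mem_ker, nsmulAddMonoidHom_apply] at hy ⊢
    rw [← smul_comm, hy, smul_zero]) (a := a) (by simpa [two_nsmul] using e) a0 v |> fun h => by
      simpa [two_nsmul] using h

theorem Root.smul {v : V} (hv : Root H v) (h : H) : Root H (h • v) :=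
  let ⟨_, hr, e⟩ := hv; ⟨_, hr.conj h, smul_mem_W h e⟩

omit [Finite V] in
theorem Root.neg {v : V} (hv : Root H v) : Root H (-v) := let ⟨r, hr, e⟩ := hv; ⟨r, hr, neg_mem e⟩

variable [FaithfulSMul H V] [Finite H] (hp : PI H V) (hi : Irr H V)
include hp hi

theorem all_odd (ho : ∀ v : V, v + v = 0 → v = 0) {s : H} (hs : IsD V s) (v : V) : Root H v := by
  have key : ∀ a ∈ W V s, ∀ w : V, Root H w → Root H (w + a) := by
    rintro a ha w ⟨m, hm, hw⟩
    by_cases hc : m = s ∨ m * s ≠ s * m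
    · exact nc_odd hp ho hm hs hc hw ha
    by_cases hr : ∃ r : H, IsD V r ∧ m * r ≠ r * m ∧ s * r ≠ r * s
    · obtain ⟨r, hr, h1, h2⟩ := hr
      exact sum_odd hp ho hm hs hr h1 h2 hw ha
    push Not at hc hr
    have k : ∀ h : H, ∀ b ∈ W V (h * s * h⁻¹), m • b = b := by
      intro h b hb
      have hl := hs.conj h
      by_cases e : s = h * s * h⁻¹
      · exact cf hp ho hm hs hc.1 hc.2 (e ▸ hb)
      by_cases e' : s * (h * s * h⁻¹) = h * s * h⁻¹ * s
      · obtain ⟨g, hg, e1⟩ := comp_odd hp ho hs h e e'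
        have e2 : m * g = g * m := by
          by_contra e2
          exact e (by rw [← e1, ← hr g hg e2, mul_inv_cancel_right])
        rw [← e1] at hb hl
        refine cf hp ho hm hl (fun e3 => hc.1 ?_) ?_ hb
        · rw [eq_mul_inv_iff_mul_eq, e2] at e3
          exact mul_left_cancel e3
        · have : Commute m (g * s * g⁻¹) := ((show Commute m g from e2).mul_right hc.2).mul_right
            (Commute.inv_right e2)
          exact this
      · refine cf hp ho hm hl (fun e3 => e' ?_) (by by_contra e3; exact e' (hr _ hl e3)) hb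
        rw [← e3, hc.2]
    obtain ⟨b, hb, b0⟩ := hs.exists_W
    refine (hm.ne (eq_one (V := V) fun v => ?_)).elim
    have := hi.top (⨅ h : H, (C V m).comap (DistribSMul.toAddMonoidHom V h)) (fun h y hy => by
      simp only [AddSubgroup.mem_iInf, AddSubgroup.mem_comap, DistribSMul.toAddMonoidHom_apply] at hy ⊢
      intro k; rw [← mul_smul]; exact hy _) (a := b) (by
        simp only [AddSubgroup.mem_iInf, AddSubgroup.mem_comap, DistribSMul.toAddMonoidHom_apply]
        exact fun h => mem_C.2 (k h _ (smul_mem_W h hb))) b0 v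
    simpa [mem_C] using AddSubgroup.mem_iInf.1 this 1
  obtain ⟨b, hb, b0⟩ := hs.exists_W
  let Y : AddSubgroup V :=
    { carrier := {v | ∀ w : V, Root H w → Root H (w + v)}
      zero_mem' := fun w hw => by simpa using hw
      add_mem' := fun ha hb w hw => by rw [← add_assoc]; exact hb _ (ha w hw)
      neg_mem' := fun {v} hv w hw => by simpa [add_comm] using (hv _ hw.neg).neg }
  simpa using hi.top Y (fun h y hy w hw => by simpa using (hy _ (hw.smul h⁻¹)).smul h) (key b hb) b0 v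
    0 ⟨s, hs, zero_mem _⟩

variable (h2 : ∀ v : V, v + v = 0)
include h2

omit hi in
theorem nocomm2 {s : H} (hs : IsD V s) (h : H) (hc : s * (h * s * h⁻¹) = h * s * h⁻¹ * s) :
    h * s * h⁻¹ = s := by
  obtain ⟨a, ha, a0⟩ := hs.exists_W
  obtain ⟨g, g1, -, g3⟩ := hp.swap2 h2 h a
  have hl := hs.conj h
  have e : g * s * g⁻¹ = h * s * h⁻¹ :=
    (hs.conj g).disj hp hl ((smul_ne_zero_iff_ne g).2 a0) (smul_mem_W g ha) (g3 ▸ smul_mem_W h ha)
  have e1 : g * s * (g * s) = h * s * h⁻¹ * s := by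
    rw [← e, inv_eq_of_mul_eq_one_left g1, ← mul_assoc]
  have := hp.inv0 h2 (h := g * s) (by
    rw [e1]
    generalize h * s * h⁻¹ = l at hl hc
    rw [mul_assoc l s, ← mul_assoc s, hc, mul_assoc l s, hs.sq, mul_one, hl.sq])
  rw [e1] at this
  rw [eq_inv_of_mul_eq_one_left this, hs.inv]

omit hi [FaithfulSMul H V] [Finite H] in
theorem fix2 {s z : H} (hs : IsD V s) (hc : z * s = s * z) {a : V} (ha : a ∈ W V s) : z • a = a :=
  (hs.pm hp ha (smul_mem_W' hc ha)).elim id fun e => e.trans (neg_eq_of_add_eq_zero_left (h2 a))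

theorem conj2 {s t : H} (hs : IsD V s) (ht : IsD V t) (hn : s * t ≠ t * s) :
    ∃ h : H, h * s * h⁻¹ = t := by
  have e : ∀ k : ℕ, s * (t * s) ^ k = ((t * s) ^ k)⁻¹ * s := by
    intro k
    have : s * (t * s) * s⁻¹ = (t * s)⁻¹ := by
      rw [← mul_assoc, mul_inv_cancel_right, mul_inv_rev, ht.inv, hs.inv]
    rw [← mul_inv_eq_iff_eq_mul, ← conj_pow, this, inv_pow]
  rcases Nat.even_or_odd (orderOf (t * s)) with he | ⟨k, hk⟩
  · obtain ⟨m, m1, m2⟩ := half_inv he
    have e1 := e m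
    rw [inv_eq_of_mul_eq_one_left m2] at e1
    have e2 : (t * s) ^ m * t = t * (t * s) ^ m := by
      have : Commute ((t * s) ^ m) (t * s * s) := (Commute.self_pow _ m).symm.mul_right e1.symm
      rwa [mul_assoc, hs.sq, mul_one] at this
    refine (m1 (eq_one (V := V) fun v => ?_)).elim
    obtain ⟨a, ha, b, hb, c, c1, c2, rfl⟩ := (pair_nc hp hi.dich hs ht hn).card.2 v
    rw [smul_add, smul_add, fix2 hp h2 hs e1.symm ha, fix2 hp h2 ht e2 hb,
      pow_fix (by rw [mul_smul, c1, c2])]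
  · refine ⟨(t * s) ^ (k + 1), ?_⟩
    have := e (k + 1)
    rw [← mul_inv_eq_iff_eq_mul, hs.inv] at this
    rw [← this, ← mul_assoc, ← mul_assoc, mul_assoc _ s s, hs.sq, mul_one, ← pow_add,
      show k + 1 + (k + 1) = orderOf (t * s) + 1 by omega, pow_succ, pow_orderOf_eq_one, one_mul,
      mul_assoc, hs.sq, mul_one]

theorem cover2 {s t : H} (hs : IsD V s) (ht : IsD V t) (hn : s * t ≠ t * s) {a b : V}
    (ha : a ∈ W V s) (hb : b ∈ W V t) (h0 : a + b ≠ 0) : ∃ g : H, IsD V g ∧ a + b ∈ W V g ∧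
      (∀ c : V, s • c = c → t • c = c → g • c = c) ∧ (g * s ≠ s * g ∨ g * t ≠ t * g) := by
  have hP := pair_nc hp hi.dich hs ht hn
  obtain ⟨y, hy⟩ := hP.cover hp hs ht (by rintro rfl; exact hn rfl) ha hb
  obtain ⟨g, g1, g2, g3⟩ := hp.swap2 h2 (s * t) y
  have g4 : ∀ c : V, s • c = c → t • c = c → g • c = c := fun c c1 c2 => g2 c (by rw [mul_smul, c2, c1])
  have g5 : g ≠ 1 := by rintro rfl; exact h0 (by rw [← hy, ← g3, one_smul, sub_self])
  have g6 : ¬((∀ a ∈ W V s, g • a = a) ∧ ∀ a ∈ W V t, g • a = a) := fun e => g5 (eq_one (V := V) fun v => by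
    obtain ⟨a, ha, b, hb, c, c1, c2, rfl⟩ := hP.card.2 v
    rw [smul_add, smul_add, e.1 a ha, e.2 b hb, g4 c c1 c2])
  have pc : ∀ r : H, IsD V r → g * r * g⁻¹ ≠ r → Pair V r (g * r * g⁻¹) := fun r hr e =>
    pair_nc hp hi.dich hr (hr.conj g) fun e' => e (nocomm2 hp h2 hr g e')
  have n : ∀ v : V, -v = v := fun v => neg_eq_of_add_eq_zero_left (h2 v)
  refine ⟨g, ?_, hy ▸ g3 ▸ sub_mem_W g y, g4, ?_⟩
  · by_contra e
    have e1 := (hP.invD hp hi.dich hs ht (pc s hs) g5 g1 g4).resolve_left e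
    have e2 := (hP.symm.invD hp hi.dich ht hs (pc t ht) g5 g1 fun c c1 c2 => g4 c c2 c1).resolve_left e
    simp only [n] at e1 e2
    exact g6 ⟨e1, e2⟩
  · by_contra! e
    exact g6 ⟨fun a => fix2 hp h2 hs e.1, fun a => fix2 hp h2 ht e.2⟩

theorem all_even {s : H} (hs : IsD V s) (v : V) : Root H v := by
  let Y : AddSubgroup V := ⨅ h : H, C V (h * s * h⁻¹)
  have hY : Y = ⊥ := by
    refine (hi Y fun h y hy => ?_).resolve_right fun e => hs.ne (eq_one (V := V) fun v => ?_)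
    · simp only [Y, AddSubgroup.mem_iInf, mem_C] at hy ⊢
      intro k
      have := hy (h⁻¹ * k)
      simp only [mul_smul, mul_inv_rev, inv_inv, inv_smul_eq_iff] at this ⊢
      exact this
    · have : v ∈ Y := e ▸ trivial
      simpa [mem_C] using AddSubgroup.mem_iInf.1 this 1
  obtain ⟨u, hu, u0⟩ := hs.exists_W
  obtain ⟨k, hk⟩ : ∃ k : H, k * s * k⁻¹ ≠ s := by
    by_contra! e
    have : u ∈ Y := AddSubgroup.mem_iInf.2 fun h => mem_C.2 (by rw [e, fix2 hp h2 hs rfl hu])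
    rw [hY] at this; exact u0 this
  have ht := hs.conj k
  have hn := fun e => hk (nocomm2 hp h2 hs k e)
  have hP := pair_nc hp hi.dich hs ht hn
  obtain ⟨a, ha, b, hb, c, c1, c2, rfl⟩ := hP.card.2 v
  have : c ∈ Y := AddSubgroup.mem_iInf.2 fun h => mem_C.2 (by
    have hl := hs.conj h
    obtain ⟨⟨a, b⟩, ⟨a', b'⟩, e, ne⟩ : ∃ x y : W V s × W V (k * s * k⁻¹), (⟨_, sub_mem_W (h * s * h⁻¹)
        (x.1.1 + x.2.1)⟩ : W V (h * s * h⁻¹)) = ⟨_, sub_mem_W _ (y.1.1 + y.2.1)⟩ ∧ x ≠ y := by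
      refine Function.not_injective_iff.1 fun e => ?_
      have := Nat.card_le_card_of_injective _ e
      rw [Nat.card_prod, ht.card_W hs, hl.card_W hs] at this
      have : 1 < Nat.card (W V s) := Finite.one_lt_card_iff_nontrivial.2 ⟨⟨⟨u, hu⟩, 0, by simpa⟩⟩
      nlinarith
    have e' : (h * s * h⁻¹) • (a.1 + b.1) - (a.1 + b.1) = (h * s * h⁻¹) • (a'.1 + b'.1) - (a'.1 + b'.1) :=
      congrArg Subtype.val e
    have e1 : (h * s * h⁻¹) • ((a - a').1 + (b - b').1) = (a - a').1 + (b - b').1 := by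
      rw [sub_eq_iff_eq_add] at e'
      rw [show (a - a').1 + (b - b').1 = a.1 + b.1 - (a'.1 + b'.1) by simp only [AddSubgroup.coe_sub]; abel,
        smul_sub, e']; abel
    have w0 : (a - a').1 + (b - b').1 ≠ 0 := fun e0 => by
      obtain ⟨e2, e3⟩ := hP _ (a - a').2 _ (b - b').2 (by rw [e0, smul_zero]) (by rw [e0, smul_zero])
      exact ne (Prod.ext (sub_eq_zero.1 (Subtype.ext e2)) (sub_eq_zero.1 (Subtype.ext e3)))
    obtain ⟨g, hg, g1, g2, g3⟩ := cover2 hp hi h2 hs ht hn (a - a').2 (b - b').2 w0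
    obtain ⟨m, hm⟩ : ∃ m : H, m * g * m⁻¹ = h * s * h⁻¹ := by
      rcases g3 with g3 | g3
      · obtain ⟨m, hm⟩ := conj2 hp hi h2 hg hs g3
        exact ⟨h * m, by rw [← hm]; group⟩
      · obtain ⟨m, hm⟩ := conj2 hp hi h2 hg ht g3
        exact ⟨h * k⁻¹ * m, by
          rw [show h * k⁻¹ * m * g * (h * k⁻¹ * m)⁻¹ = h * k⁻¹ * (m * g * m⁻¹) * (h * k⁻¹)⁻¹ by group, hm]
          group⟩
    rw [← hm, nocomm2 hp h2 hg m (by rw [hm]; exact (hg.comm hp w0 g1 (e1.symm ▸ g1)).symm)]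
    exact g2 c c1 c2)
  rw [hY, AddSubgroup.mem_bot] at this
  rw [this, add_zero]
  by_cases e : a + b = 0
  · exact ⟨s, hs, e ▸ zero_mem _⟩
  · obtain ⟨g, hg, g1, -⟩ := cover2 hp hi h2 hs ht hn ha hb e
    exact ⟨g, hg, g1⟩

omit h2 in
theorem all_root {s : H} (hs : IsD V s) (v : V) : Root H v := by
  by_cases h : ∀ v : V, v + v = 0 → v = 0
  · exact all_odd hp hi h hs v
  · push Not at h
    obtain ⟨a, a1, a0⟩ := h
    exact all_even hp hi (fun v => hi.dich a v a0 a1) hs v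

end H7.CH
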