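import Cfsg.Agent.H7.CH4

/-! Binary affine groups, part 5: the counting argument and the dihedral structure. -/

set_option autoImplicit false

namespace H7.CH

variable {H V : Type*} [Group H] [AddCommGroup V] [DistribMulAction H V] [Finite V]
  [FaithfulSMul H V] [Finite H] (hp : PI H V) (hi : Irr H V)
include hp hi

omit [FaithfulSMul H V] [Finite H] in
theorem fix_sym {s m : H} (hs : IsD V s) {z v : V} (hz : z ∈ W V s) (z0 : z ≠ 0) (hv : v ∈ W V m)
    (e : m • z = z) : s • v = v :=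
  sym (hs.comm hp z0 hz (e.symm ▸ hz)) (fun _ hb => hs.fixW hp hi.dich z0 hz e hb) hv

theorem orb {s : H} (hs : IsD V s) (h : H) (z : V) : h • z = z ∨ ∃ m : H, IsD V m ∧ h • z = m • z := by
  by_cases e : h • z - z = 0
  · exact .inl (sub_eq_zero.1 e)
  · obtain ⟨m, hm, e1⟩ := all_root hp hi hs (h • z - z)
    exact .inr ⟨m, hm, by rw [hm.key hp (h := h) (z := z) e1 e (by abel)]; abel⟩

theorem card_orbit {s : H} (hs : IsD V s) {z : V} (z0 : z ≠ 0) :
    (MulAction.orbit H z).ncard = Nat.card (C V s) + 1 := by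
  classical
  cases nonempty_fintype V
  cases nonempty_fintype H
  obtain ⟨r, hr, hz⟩ := all_root hp hi hs z
  rw [hs.card_C hr]
  choose ρ h1 h2 using all_root hp hi hs
  let K : Finset H := Finset.univ.filter fun m => IsD V m ∧ m • z ≠ z
  have e1 : MulAction.orbit H z = ↑(insert z (K.image (· • z))) := by
    ext y
    simp only [Finset.coe_insert, Finset.coe_image, Set.mem_insert_iff, Set.mem_image, K,
      Finset.coe_filter, Finset.mem_univ, true_and, Set.mem_ofPred_eq]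
    refine ⟨?_, by rintro (rfl | ⟨m, -, rfl⟩); exacts [MulAction.mem_orbit_self _, ⟨m, rfl⟩]⟩
    rintro ⟨h, rfl⟩
    by_cases e : h • z = z
    · exact .inl e
    · obtain ⟨m, hm, e'⟩ := (orb hp hi hs h z).resolve_left e
      exact .inr ⟨m, ⟨hm, e' ▸ e⟩, e'.symm⟩
  rw [e1, Set.ncard_coe_finset, Finset.card_insert_of_notMem (by simp [K]),
    Finset.card_image_of_injOn fun m hm n hn e => ?_]
  swap
  · simp only [K, Finset.coe_filter, Finset.mem_univ, true_and, Set.mem_ofPred_eq] at hm hn e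
    exact hm.1.disj hp hn.1 (sub_ne_zero.2 hm.2) (sub_mem_W _ _) (e ▸ sub_mem_W _ _)
  let T : Finset V := Finset.univ.filter fun v => r • v ≠ v
  have c1 : ∀ Y : AddSubgroup V, Nat.card Y = (Finset.univ.filter (· ∈ Y)).card := fun Y => by
    rw [← Fintype.card_subtype, Nat.card_eq_fintype_card]
  have e2 := Finset.card_eq_sum_card_fiberwise (f := ρ) (s := T) (t := K) fun v hv => by
    simp only [K, T, Finset.coe_filter, Finset.mem_univ, true_and, Set.mem_ofPred_eq] at hv ⊢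
    exact ⟨h1 v, fun e => hv (fix_sym hp hi hr hz z0 (h2 v) e)⟩
  rw [Finset.sum_congr rfl (g := fun _ => Nat.card (W V r) - 1) fun m hm => ?_, Finset.sum_const,
    smul_eq_mul] at e2
  swap
  · simp only [K, Finset.mem_filter, Finset.mem_univ, true_and] at hm
    rw [hr.card_W hm.1, c1, ← Finset.card_erase_of_mem (a := 0) (by simp)]
    congr 1
    ext v
    simp only [T, Finset.mem_filter, Finset.mem_univ, true_and, Finset.mem_erase]
    refine ⟨fun e => ⟨by rintro rfl; simp at e, e.2 ▸ h2 v⟩, fun e => ⟨fun e' => hm.2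
      (fix_sym hp hi hm.1 e.2 e.1 hz e'), (h1 v).disj hp hm.1 e.1 (h2 v) e.2⟩⟩
  have e3 : Nat.card (C V r) + T.card = Nat.card V := by
    rw [c1, Nat.card_eq_fintype_card, ← Finset.card_univ,
      ← Finset.card_filter_add_card_filter_not (s := Finset.univ) (· ∈ C V r)]
    simp only [mem_C, T]
  have : 1 < Nat.card (W V r) := Finite.one_lt_card_iff_nontrivial.2 ⟨⟨⟨z, hz⟩, 0, by simpa⟩⟩
  rw [← card_CW (V := V) r, e2] at e3
  obtain ⟨q, hq⟩ := Nat.exists_eq_add_of_lt this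
  rw [hq, show 1 + q + 1 - 1 = q + 1 by omega] at e3
  exact congrArg (· + 1) (Nat.eq_of_mul_eq_mul_right (Nat.succ_pos q) (by rw [Nat.succ_eq_add_one]; linarith))

theorem card_le {s : H} (hs : IsD V s) : Nat.card (C V s) ≤ Nat.card (W V s) := by
  classical
  cases nonempty_fintype V
  have e := Finset.card_eq_sum_card_fiberwise (f := Quotient.mk (MulAction.orbitRel H V))
    (s := Finset.univ.erase 0) (t := (Finset.univ.erase (0 : V)).image (Quotient.mk _))
    fun v hv => Finset.mem_image_of_mem _ hv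
  have d : Nat.card (C V s) + 1 ∣ (Finset.univ.erase (0 : V)).card := by
    rw [e]
    refine Finset.dvd_sum fun o ho => dvd_of_eq ?_
    obtain ⟨z, hz, rfl⟩ := Finset.mem_image.1 ho
    rw [← card_orbit hp hi hs (Finset.ne_of_mem_erase hz), ← Set.ncard_coe_finset]
    congr 1
    ext y
    simp only [Finset.coe_filter, Finset.mem_erase, Finset.mem_univ, and_true, Set.mem_ofPred_eq,
      Quotient.eq, MulAction.orbitRel_apply]
    refine ⟨fun h => ⟨?_, h⟩, And.right⟩
    obtain ⟨h, rfl⟩ := h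
    exact (smul_ne_zero_iff_ne h).2 (Finset.ne_of_mem_erase hz)
  rw [Finset.card_erase_of_mem (Finset.mem_univ _), Finset.card_univ, ← Nat.card_eq_fintype_card,
    ← card_CW (V := V) s] at d
  have h1 : 0 < Nat.card (C V s) := Nat.card_pos
  have h2 : 0 < Nat.card (W V s) := Nat.card_pos
  have : Nat.card (C V s) + 1 ∣ Nat.card (W V s) + 1 := by
    refine (Nat.dvd_add_right d).1 ?_
    have := Nat.mul_pos h1 h2
    exact ⟨Nat.card (W V s), by rw [add_mul, one_mul]; omega⟩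
  have := Nat.le_of_dvd (Nat.succ_pos _) this
  omega

theorem dual {s : H} (hs : IsD V s) {y : V} (hy : s • y = y) (y0 : y ≠ 0) {t : H} (ht : IsD V t) :
    ∃ r : H, IsD V r ∧ W V r = C V t ∧ W V t = C V r := by
  have : Nontrivial (C V t) := by
    rw [← Finite.one_lt_card_iff_nontrivial, ht.card_C hs, Finite.one_lt_card_iff_nontrivial]
    exact ⟨⟨⟨y, mem_C.2 hy⟩, 0, by simpa⟩⟩
  obtain ⟨⟨z, hz⟩, z0⟩ := exists_ne (0 : C V t)
  replace z0 : z ≠ 0 := by simpa using z0
  obtain ⟨r, hr, e⟩ := all_root hp hi hs z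
  exact ⟨r, hr, AddSubgroup.eq_of_le_of_card_ge (fun b hb => mem_C.2
      (hr.fixW hp hi.dich z0 e (mem_C.1 hz) hb)) (hr.card_W ht ▸ card_le hp hi ht),
    AddSubgroup.eq_of_le_of_card_ge (fun b hb => mem_C.2 (fix_sym hp hi hr e z0 hb (mem_C.1 hz)))
      (hr.card_C ht ▸ card_le hp hi ht)⟩

theorem stab {s h : H} (hs : IsD V s) {z : V} (hz : s • z = z) (z0 : z ≠ 0) (e : h • z = z) :
    h = 1 ∨ h = s := by
  obtain ⟨r, hr, e1, e2⟩ := dual hp hi hs hz z0 hs
  have hz' : z ∈ W V r := e1 ▸ mem_C.2 hz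
  have f := fun b => hr.fixW hp hi.dich (b := b) z0 hz' e
  have hc := hr.comm hp z0 hz' (e.symm ▸ hz')
  refine or_iff_not_imp_left.2 fun h1 => ?_
  obtain ⟨y, hy⟩ := exists_move (V := V) h1
  have := hs.key hp (h := h) (z := y) (e2 ▸ mem_C.2 (sym hc f (sub_mem_W h y))) (sub_ne_zero.2 hy)
    (by abel)
  rw [add_sub_cancel] at this
  have : s * h = 1 := hs.fix (fun c hc => by rw [mul_smul, f c (e1 ▸ mem_C.2 hc), hc]) (this ▸ hy)
    (by rw [mul_smul, ← this, hs.smul_smul])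
  rw [← hs.inv, inv_mul_eq_one] at this
  exact this.symm

variable {s : H} (hs : IsD V s) {y : V} (hy : s • y = y) (y0 : y ≠ 0)
include hs hy y0

theorem fixer (z : V) : ∃ r : H, IsD V r ∧ r • z = z := by
  obtain ⟨m, hm, e⟩ := all_root hp hi hs z
  obtain ⟨r, hr, -, e2⟩ := dual hp hi hs hy y0 hm
  exact ⟨r, hr, mem_C.1 (e2 ▸ e)⟩

theorem isD_mul {h : H} (hh : ¬IsD V h) : IsD V (h * s) := by
  rcases orb hp hi hs h y with e | ⟨m, hm, e⟩
  · rcases stab hp hi hs hy y0 e with rfl | rfl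
    exacts [by rwa [one_mul], (hh hs).elim]
  · rcases stab hp hi hs hy y0 (h := m * h) (by rw [mul_smul, e, hm.smul_smul]) with e | e
    · rw [← hm.inv, inv_mul_eq_one] at e
      exact (hh (e ▸ hm)).elim
    · rwa [eq_inv_mul_of_mul_eq e, hm.inv, mul_assoc, hs.sq, mul_one]

theorem not_isD_mul {d d' : H} (hd : IsD V d) (hd' : IsD V d') : ¬IsD V (d * d') := by
  intro he
  by_cases e : d = d'
  · exact he.ne (e ▸ hd.sq)
  obtain ⟨r, hr, e1, -⟩ := dual hp hi hs hy y0 he
  obtain ⟨z, hz, z0⟩ := hr.exists_W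
  obtain ⟨e2, e3⟩ := hd.fix_mul hp hd' e (by rw [← mul_smul]; exact mem_C.1 (e1 ▸ hz))
  exact (stab hp hi hd e2 z0 e3).elim hd'.ne (Ne.symm e)

theorem conj_inv {x : H} (hx : ¬IsD V x) : s * x = x⁻¹ * s := by
  have := (isD_mul hp hi hs hy y0 hx).sq
  rw [eq_inv_mul_iff_mul_eq, ← mul_assoc, ← mul_left_inj s, mul_assoc, this, hs.sq]

theorem not_isD_mul' {x x' : H} (hx : ¬IsD V x) (hx' : ¬IsD V x') : ¬IsD V (x * x') := by
  have := not_isD_mul hp hi hs hy y0 (isD_mul hp hi hs hy y0 hx) ((isD_mul hp hi hs hy y0 hx').conj s)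
  rwa [← mul_assoc s, mul_inv_cancel_right, ← mul_assoc, mul_assoc x, hs.sq, mul_one] at this

theorem comm_X {x x' : H} (hx : ¬IsD V x) (hx' : ¬IsD V x') : x * x' = x' * x := by
  have := conj_inv hp hi hs hy y0 (not_isD_mul' hp hi hs hy y0 hx hx')
  rw [← mul_assoc, conj_inv hp hi hs hy y0 hx, mul_assoc, conj_inv hp hi hs hy y0 hx', ← mul_assoc,
    mul_left_inj, ← mul_inv_rev, inv_inj] at this
  exact this.symm

theorem irr_X (Y : AddSubgroup V) (h : ∀ x : H, ¬IsD V x → ∀ v ∈ Y, x • v ∈ Y) : Y = ⊥ ∨ Y = ⊤ :=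
  hi Y fun k v hv => by
    by_cases e : IsD V k
    · obtain ⟨r, hr, e1⟩ := fixer hp hi hs hy y0 v
      rw [← e1, ← mul_smul]
      exact h _ (not_isD_mul hp hi hs hy y0 e hr) v hv
    · exact h k e v hv

end H7.CH
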