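import Cfsg.Agent.H7.CH5
import Cfsg.Agent.H7.BI1
import Cfsg.Agent.H0.Sec

/-! Binary affine groups, part 6: the field model and the classification. -/

set_option autoImplicit false

namespace H7.CH

theorem quad {E : Type} [Field E] [Fintype E] (σ : E ≃+* E) (h1 : σ ≠ 1) (h2 : σ * σ = 1) :
    ∃ (F : Type) (_ : Field F) (_ : Fintype F) (_ : Algebra F E) (τ : E ≃ₐ[F] E),
      Module.finrank F E = 2 ∧ (∀ x, τ x = σ x) ∧ (∀ ψ : E ≃ₐ[F] E, ψ = 1 ∨ ψ = τ) ∧
      ∀ a : E, Algebra.norm F a = 1 ↔ a * σ a = 1 := by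
  classical
  have : Finite (E ≃+* E) := Finite.of_injective (fun e : E ≃+* E => (e : E → E)) DFunLike.coe_injective
  let G := Subgroup.zpowers σ
  let F := FixedPoints.subfield G E
  have ho : orderOf σ = 2 := orderOf_eq_prime (by rw [sq, h2]) h1
  have hG : ∀ g : G, g = 1 ∨ g = ⟨σ, Subgroup.mem_zpowers σ⟩ := by
    rintro ⟨_, k, rfl⟩
    simp only [Subtype.ext_iff]
    rw [← zpow_mod_orderOf, ho]
    rcases Int.emod_two_eq_zero_or_one k with e | e <;> simp [e]
  let τ := MulSemiringAction.toAlgAut G F E ⟨σ, Subgroup.mem_zpowers σ⟩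
  have hτ : ∀ ψ : E ≃ₐ[F] E, ψ = 1 ∨ ψ = τ := fun ψ => by
    obtain ⟨g, rfl⟩ := (FixedPoints.toAlgAut_bijective G E).2 ψ
    rcases hG g with rfl | rfl
    exacts [.inl (map_one _), .inr rfl]
  have t1 : 1 ≠ τ := fun e => h1 (RingEquiv.ext fun x => (congrArg (· x) e).symm)
  cases nonempty_fintype G
  refine ⟨F, inferInstance, Fintype.ofFinite _, inferInstance, τ, ?_, fun _ => rfl, hτ, fun a => ?_⟩
  · rw [FixedPoints.finrank_eq_card, ← Nat.card_eq_fintype_card, Nat.card_zpowers, ho]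
  · rw [← (algebraMap F E).injective.eq_iff, Algebra.norm_eq_prod_automorphisms, map_one,
      show (Finset.univ : Finset (E ≃ₐ[F] E)) = {1, τ} by ext ψ; simpa using hτ ψ, Finset.prod_pair t1]
    rfl

theorem add_model {V : Type*} [AddCommGroup V] [Finite V] {p : ℕ} [Fact p.Prime] [Module (ZMod p) V]
    (A : Set (V →+ V)) (hc : ∀ a ∈ A, ∀ b ∈ A, ∀ v, a (b v) = b (a v))
    (hi : ∀ S : AddSubgroup V, (∀ a ∈ A, ∀ v ∈ S, a v ∈ S) → S = ⊥ ∨ S = ⊤) {y : V} (y0 : y ≠ 0) :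
    ∃ (E : Type) (_ : Field E) (_ : Fintype E) (f : V ≃+ E), f y = 1 ∧
      ∀ a ∈ A, ∀ v, f (a v) = f (a y) * f v := by
  obtain ⟨E, _, _, _, f, f1, f2⟩ := H0.exists_field_model (k := ZMod p) (E := V)
    (AddMonoidHom.toZModLinearMap p '' A) (by
      rintro _ ⟨a, ha, rfl⟩ _ ⟨b, hb, rfl⟩
      exact LinearMap.ext (hc a ha b hb)) (fun S hS =>
      (hi S.toAddSubgroup fun x hx v hv => hS _ ⟨x, hx, rfl⟩ v hv).imp
        (fun e => Submodule.toAddSubgroup_injective e) fun e => Submodule.toAddSubgroup_injective e) y0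
  exact ⟨E, inferInstance, inferInstance, f.toAddEquiv, f1, fun a ha => f2 _ ⟨a, ha, rfl⟩⟩

variable {H V : Type*} [Group H] [AddCommGroup V] [DistribMulAction H V] [Finite V]
  [FaithfulSMul H V] [Finite H] (hp : PI H V) (hi : Irr H V)
include hp hi

theorem model {s : H} (hs : IsD V s) {y : V} (hy : s • y = y) (y0 : y ≠ 0) :
    ∃ (F E : Type) (_ : Field F) (_ : Fintype F) (_ : Field E) (_ : Fintype E) (_ : Algebra F E)
      (e : V ≃+ E), Module.finrank F E = 2 ∧
      (∀ h : H, ∃ (a : E) (ψ : E ≃ₐ[F] E), Algebra.norm F a = 1 ∧ ∀ v, e (h • v) = a * ψ (e v)) ∧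
      ∀ (a : E) (ψ : E ≃ₐ[F] E), Algebra.norm F a = 1 → ∃ h : H, ∀ v, e (h • v) = a * ψ (e v) := by
  have : Nontrivial V := ⟨⟨y, 0, y0⟩⟩
  obtain ⟨p, pp, hd⟩ := Nat.exists_prime_and_dvd (Finite.one_lt_card (α := V)).ne'
  haveI := Fact.mk pp
  obtain ⟨u, hu⟩ := exists_prime_addOrderOf_dvd_card' p hd
  have hV : ∀ v : V, v ∈ (nsmulAddMonoidHom p).ker := hi.top (nsmulAddMonoidHom p).ker (fun h y hy => by
    simp only [AddMonoidHom.mem_ker, nsmulAddMonoidHom_apply] at hy ⊢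
    rw [← smul_comm, hy, smul_zero]) (a := u) (by rw [← hu]; exact addOrderOf_nsmul_eq_zero u)
    (by rintro rfl; exact pp.ne_one (by simpa using hu.symm))
  letI := AddCommGroup.zmodModule (n := p) (G := V) hV
  obtain ⟨E, _, _, f, f1, f2⟩ := add_model (p := p) (DistribSMul.toAddMonoidHom V '' {x : H | ¬IsD V x}) (by
      rintro _ ⟨a, ha, rfl⟩ _ ⟨b, hb, rfl⟩ v
      change a • b • v = b • a • v
      rw [← mul_smul, comm_X hp hi hs hy y0 ha hb, mul_smul])
    (fun S hS => irr_X hp hi hs hy y0 S fun x hx v hv => hS _ ⟨x, hx, rfl⟩ v hv) y0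
  replace f2 : ∀ x : H, ¬IsD V x → ∀ v, f (x • v) = f (x • y) * f v := fun x hx => f2 _ ⟨x, hx, rfl⟩
  have iv : ∀ x : H, ¬IsD V x → ¬IsD V x⁻¹ := fun x hx e => hx (by rw [← inv_inv x, e.inv]; exact e)
  have f3 : ∀ x : H, ¬IsD V x → ∀ v, f (s • x • v) = f (x⁻¹ • y) * f (s • v) := fun x hx v => by
    rw [← mul_smul, conj_inv hp hi hs hy y0 hx, mul_smul, f2 _ (iv x hx)]
  let S : AddSubgroup V :=
    { carrier := {v | ∀ w, f (s • f.symm (f v * w)) = f (s • v) * f (s • f.symm w)}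
      zero_mem' := fun w => by simp
      add_mem' := fun ha hb w => by simp only [map_add, add_mul, smul_add, ha w, hb w]
      neg_mem' := fun ha w => by simp only [map_neg, neg_mul, smul_neg, ha w] }
  have hS : S = ⊤ := (irr_X hp hi hs hy y0 S fun x hx v hv w => by
    rw [f2 x hx, mul_assoc, ← f.apply_symm_apply (f v * w), ← f2 x hx, f.symm_apply_apply, f3 x hx,
      f3 x hx, hv w, mul_assoc]).resolve_left fun e => y0 (by
      rw [← AddSubgroup.mem_bot, ← e]; intro w; rw [hy, f1, one_mul, one_mul])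
  let σ : E ≃+* E :=
    { toFun := fun a => f (s • f.symm a)
      invFun := fun a => f (s • f.symm a)
      left_inv := fun a => by simp [hs.smul_smul]
      right_inv := fun a => by simp [hs.smul_smul]
      map_mul' := fun a b => by
        have : f.symm a ∈ S := hS ▸ trivial
        simpa using this b
      map_add' := fun a b => by simp }
  have hσ : ∀ v, σ (f v) = f (s • v) := fun v => by simp [σ]
  obtain ⟨F, _, _, _, τ, r1, r2, r3, r4⟩ := quad σ (fun e => hs.ne (eq_one (V := V) fun v =>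
    f.injective (by rw [← hσ, e]; rfl))) (RingEquiv.ext fun a => σ.apply_symm_apply a)
  have n : ∀ x : H, ¬IsD V x → Algebra.norm F (f (x • y)) = 1 := fun x hx => (r4 _).2 (by
    rw [hσ, f3 x hx, hy, f1, mul_one, ← f2 x hx, smul_inv_smul, f1])
  have d : ∀ h : H, IsD V h → ∀ v, f (h • v) = f ((h * s) • y) * σ (f v) := fun h hh v => by
    rw [hσ, ← f2 _ (not_isD_mul hp hi hs hy y0 hh hs), mul_smul, hs.smul_smul]
  refine ⟨F, E, inferInstance, inferInstance, inferInstance, inferInstance, inferInstance,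
    f, r1, fun h => ?_, fun a ψ ha => ?_⟩
  · by_cases e : IsD V h
    · exact ⟨_, τ, n _ (not_isD_mul hp hi hs hy y0 e hs), fun v => by rw [r2]; exact d h e v⟩
    · exact ⟨_, 1, n _ e, f2 h e⟩
  · rw [r4] at ha
    obtain ⟨v, hv⟩ : ∃ v, a * σ v - v ≠ 0 := by
      by_contra! e
      have e1 := e 1
      rw [map_one, mul_one, sub_eq_zero] at e1
      refine hs.ne (eq_one (V := V) fun v => f.injective ?_)
      rw [← hσ, ← sub_eq_zero, ← e (f v), e1, one_mul]
    obtain ⟨r, hr, e⟩ := all_root hp hi hs (f.symm (a * σ v - v))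
    have e1 := d r hr (f.symm (a * σ v - v))
    rw [neg_of_W hr.sq e, map_neg, f.apply_symm_apply] at e1
    have e2 : -(a * σ v - v) = a * σ (a * σ v - v) := by
      rw [map_sub, map_mul, show σ (σ v) = v from σ.apply_symm_apply v, mul_sub, ← mul_assoc, ha]; ring
    have e3 := mul_right_cancel₀ ((map_ne_zero σ).2 hv) (e1.symm.trans e2)
    rcases r3 ψ with rfl | rfl
    · exact ⟨r * s, fun v => by rw [← e3]; exact f2 _ (not_isD_mul hp hi hs hy y0 hr hs) v⟩
    · exact ⟨r, fun v => by rw [← e3, r2]; exact d r hr v⟩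

theorem core [Nontrivial V] : ((Nat.card V).Prime ∧ Nat.card H ≤ 2) ∨
    ∃ (F E : Type) (_ : Field F) (_ : Fintype F) (_ : Field E) (_ : Fintype E) (_ : Algebra F E)
      (e : V ≃+ E), Module.finrank F E = 2 ∧
      (∀ h : H, ∃ (a : E) (ψ : E ≃ₐ[F] E), Algebra.norm F a = 1 ∧ ∀ v, e (h • v) = a * ψ (e v)) ∧
      ∀ (a : E) (ψ : E ≃ₐ[F] E), Algebra.norm F a = 1 → ∃ h : H, ∀ v, e (h • v) = a * ψ (e v) := by
  by_cases h : ∃ s : H, IsD V s ∧ ∃ y : V, s • y = y ∧ y ≠ 0
  · obtain ⟨s, hs, y, hy, y0⟩ := h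
    exact .inr (model hp hi hs hy y0)
  push Not at h
  have key : ∀ h : H, h ≠ 1 → ∀ v : V, h • v = -v := by
    intro k k1
    obtain ⟨g, g1, hg⟩ := Set.exists_max_image {g : H | g ≠ 1} (fun g => Nat.card (C V g))
      (Set.toFinite _) ⟨k, k1⟩
    obtain ⟨s, s1, s2, s3⟩ := hp.exists_inv g1
    have hs : IsD V s := ⟨s1, s2, fun x hx => (hg x hx).trans (AddSubgroup.card_le_of_le
      fun c hc => mem_C.2 (s3 c (mem_C.1 hc)))⟩
    have hW : W V s = ⊤ := by
      have := card_CW (V := V) s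
      rw [show C V s = ⊥ from eq_bot_iff.2 fun c hc => h s hs c (mem_C.1 hc), AddSubgroup.card_bot,
        one_mul] at this
      exact AddSubgroup.eq_top_of_card_eq _ this
    have hW' : ∀ v, v ∈ W V s := fun v => hW ▸ trivial
    obtain ⟨a, ha⟩ := exists_move (V := V) k1
    exact fun v => hs.negW hp hi.dich (by rintro rfl; simp at ha) (hW' a)
      ((hs.pm hp (hW' a) (hW' _)).resolve_left ha) (hW' v)
  refine .inl ⟨?_, ?_⟩
  · have : IsSimpleAddGroup V := ⟨fun Y _ => hi Y fun k y hy => by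
      by_cases e : k = 1
      · rwa [e, one_smul]
      · rw [key k e]; exact neg_mem hy⟩
    exact IsSimpleAddGroup.prime_card
  · classical
    refine (Nat.card_le_card_of_injective (fun k : H => decide (k = 1)) fun a b e => ?_).trans (by simp)
    by_cases a1 : a = 1 <;> by_cases b1 : b = 1 <;> simp [a1, b1] at e ⊢
    exact FaithfulSMul.eq_of_smul_eq_smul (α := V) fun v => by rw [key a a1, key b b1]

omit hp hi

open MulAction

variable {G Ω : Type*} [Group G] [MulAction G Ω] [FaithfulSMul G Ω]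

open scoped IsMulCommutative in
theorem exists_add [Finite Ω] (hprim : IsPreprimitive G Ω) (N : Subgroup G) [N.Normal] (h0 : N ≠ ⊥)
    [IsMulCommutative N] : ∃ _ : AddCommGroup Ω, Nontrivial Ω ∧ (∀ x : Ω, ∃ n : G, ∀ y, n • y = x + y) ∧
      ∀ g : G, g • (0 : Ω) = 0 → ∀ x y : Ω, g • (x + y) = g • x + g • y := by
  obtain ⟨ω, hω⟩ : ∃ ω : Ω, ω ∉ fixedPoints N Ω := by
    by_contra! e
    exact h0 (eq_bot_iff.2 fun n hn => FaithfulSMul.eq_of_smul_eq_smul (α := Ω) fun y =>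
      (e y ⟨n, hn⟩).trans (one_smul _ _).symm)
  have ht : IsPretransitive N Ω := IsQuasiPreprimitive.isPretransitive_of_normal
    fun e => hω (e ▸ trivial)
  let e : Additive N ≃ Ω := Equiv.ofBijective (fun n => n.toMul • ω) ⟨fun a b e => by
    refine Additive.toMul.injective (Subtype.ext (FaithfulSMul.eq_of_smul_eq_smul (α := Ω) fun y => ?_))
    obtain ⟨n, rfl⟩ := exists_smul_eq N ω y
    change a.toMul • n • ω = b.toMul • n • ω
    rw [smul_smul, smul_smul, mul_comm, mul_comm b.toMul, mul_smul, mul_smul]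
    exact congrArg _ e, fun y => exists_smul_eq N ω y⟩
  letI : AddCommGroup Ω := e.symm.addCommGroup
  have h1 : ∀ (n : N) (y : Ω), n • ω + y = n • y := fun n y => by
    obtain ⟨m, rfl⟩ := exists_smul_eq N ω y
    change e (e.symm (e (.ofMul n)) + e.symm (e (.ofMul m))) = _
    rw [e.symm_apply_apply, e.symm_apply_apply]
    exact mul_smul n m ω
  have h2 : (0 : Ω) = ω := one_smul N ω
  refine ⟨inferInstance, ?_, fun x => ?_, fun g hg x y => ?_⟩
  · simp only [mem_fixedPoints, not_forall] at hω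
    exact hω.elim fun n hn => ⟨_, _, hn⟩
  · obtain ⟨n, rfl⟩ := exists_smul_eq N ω x
    exact ⟨n, fun y => (h1 n y).symm⟩
  · obtain ⟨n, rfl⟩ := exists_smul_eq N ω x
    have := h1 ⟨g * n * g⁻¹, Subgroup.Normal.conj_mem inferInstance _ n.2 g⟩ (g • y)
    rw [h2] at hg
    simp only [Subgroup.mk_smul, mul_smul, inv_smul_smul, inv_smul_eq_iff.2 hg.symm] at this
    rw [h1]; exact this.symm

theorem main [Finite G] [Fintype Ω] (hprim : IsPreprimitive G Ω) (N : Subgroup G) [N.Normal]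
    (h0 : N ≠ ⊥) [IsMulCommutative N] (hb : H7.BI.Bin G Ω) :
    ((Fintype.card Ω).Prime ∧ ∀ ω : Ω, Nat.card (stabilizer G ω) ≤ 2) ∨
    (∃ (F E : Type) (_ : Field F) (_ : Fintype F) (_ : Field E) (_ : Fintype E) (_ : Algebra F E)
      (e : Ω ≃ E), Module.finrank F E = 2 ∧ ∀ σ : Equiv.Perm Ω, σ ∈ (toPermHom G Ω).range ↔
        ∃ (a b : E) (ψ : E ≃ₐ[F] E), Algebra.norm F a = 1 ∧ ∀ ω : Ω, e (σ ω) = a * ψ (e ω) + b) := by
  obtain ⟨_, _, hT, hA⟩ := exists_add hprim N h0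
  choose t ht using hT
  letI : DistribMulAction (stabilizer G (0 : Ω)) Ω :=
    { smul_zero := fun h => h.2
      smul_add := fun h => hA h h.2 }
  have dec : ∀ g : G, ∃ h : stabilizer G (0 : Ω), ∀ y : Ω, g • y = g • (0 : Ω) + h • y := fun g =>
    ⟨⟨t (-(g • (0 : Ω))) * g, by rw [mem_stabilizer_iff, mul_smul, ht, neg_add_cancel]⟩, fun y => by
      rw [Subgroup.mk_smul, mul_smul, ht, add_neg_cancel_left]⟩
  have hp : PI (stabilizer G (0 : Ω)) Ω := fun R h1 h2 => by
    obtain ⟨g, hg⟩ := hb (insert (0, 0) R) (by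
      rintro p (rfl | hp) q (rfl | hq)
      · exact ⟨1, one_smul _ _, one_smul _ _⟩
      · obtain ⟨h, e⟩ := h1 q hq
        exact ⟨h, h.2, e⟩
      · obtain ⟨h, e⟩ := h1 p hp
        exact ⟨h, e, h.2⟩
      · obtain ⟨h, e⟩ := h2 p hp q hq
        rw [smul_sub] at e
        refine ⟨t (p.2 - h • p.1) * h, ?_, ?_⟩ <;> rw [mul_smul, ht]
        · exact sub_add_cancel _ _
        · change p.2 - h • p.1 + h • q.1 = _
          rw [sub_add, e, sub_sub_cancel])
    exact ⟨⟨g, hg _ (Set.mem_insert _ _)⟩, fun p hp => hg p (Set.mem_insert_of_mem _ hp)⟩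
  have hi : Irr (stabilizer G (0 : Ω)) Ω := fun Y hY => by
    have : IsBlock G (Y : Set Ω) := isBlock_iff_smul_eq_of_mem.2 fun g a ha hg => by
      obtain ⟨h, e⟩ := dec g
      have h0 : g • (0 : Ω) ∈ Y := by
        rw [eq_sub_of_add_eq (e a).symm]; exact sub_mem hg (hY h a ha)
      refine Set.eq_of_subset_of_ncard_le ?_ (Set.ncard_smul_set g _).ge
      rintro _ ⟨y, hy, rfl⟩
      change g • y ∈ Y
      rw [e]; exact add_mem h0 (hY h y hy)
    exact (hprim.isTrivialBlock_of_isBlock this).imp (fun e => eq_bot_iff.2 fun y hy => e hy Y.zero_mem)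
      fun e => SetLike.coe_injective e
  refine (core hp hi).imp (fun h => ⟨Nat.card_eq_fintype_card (α := Ω) ▸ h.1, fun ω => ?_⟩) ?_
  · obtain ⟨g, rfl⟩ := exists_smul_eq G (0 : Ω) ω
    rw [← Nat.card_congr (stabilizerEquivStabilizer (g := g) rfl).toEquiv]; exact h.2
  rintro ⟨F, E, _, _, _, _, _, e, h1, h2, h3⟩
  refine ⟨F, E, inferInstance, inferInstance, inferInstance, inferInstance, inferInstance, e.toEquiv, h1,
    fun σ => ⟨?_, ?_⟩⟩
  · rintro ⟨g, rfl⟩
    obtain ⟨h, e1⟩ := dec g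
    obtain ⟨a, ψ, n, e2⟩ := h2 h
    exact ⟨a, e (g • 0), ψ, n, fun ω => by
      change e (g • ω) = a * ψ (e ω) + _
      rw [e1, map_add, e2, add_comm]⟩
  · rintro ⟨a, b, ψ, n, e1⟩
    obtain ⟨h, e2⟩ := h3 a ψ n
    refine ⟨t (e.symm b) * h, Equiv.ext fun ω => e.injective ?_⟩
    change e ((_ * _ : G) • ω) = _
    rw [mul_smul, ht, map_add, e.apply_symm_apply, add_comm]
    exact (congrArg (· + b) (e2 ω)).trans (e1 ω).symm

end H7.CH
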