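/-
Products of a cyclic group and a `Z`-group, part 1: general lemmas.
-/
import Cfsg.Agent.H19.Amb6
import Mathlib.GroupTheory.SpecificGroups.ZGroup

set_option autoImplicit false
set_option linter.style.haveILetI false

namespace H7.CZ
open Cfsg Subgroup H19

variable {G : Type*} [Group G] [Finite G] {B F K X Y : Subgroup G} {s t u v x y : G}

theorem cz_uniq (h : Cyc K) (hs : s ∈ K) (ht : t ∈ K) (s2 : orderOf s = 2) (t2 : orderOf t = 2) :
    s = t := by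
  have e : zpowers s = zpowers t := cyc_eq_of_card h (zpowers_le.2 hs) (zpowers_le.2 ht) (by
    rw [Nat.card_zpowers, Nat.card_zpowers, s2, t2])
  have hm : s ∈ zpowers t := e ▸ mem_zpowers s
  obtain ⟨k, hk⟩ := (mem_powers_iff_mem_zpowers.2 hm)
  have hk' : t ^ (k % 2) = s := by rw [← t2, pow_mod_orderOf]; exact hk
  rcases Nat.mod_two_eq_zero_or_one k with e | e
  · rw [e, pow_zero] at hk'; rw [← hk', orderOf_one] at s2; exact absurd s2 (by decide)
  · rw [e, pow_one] at hk'; exact hk'.symm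

omit [Finite G] in
theorem cz_sq (s2 : orderOf s = 2) : s * s = 1 := by rw [← pow_two, ← s2, pow_orderOf_eq_one]

omit [Finite G] in
theorem cz_inv (s2 : orderOf s = 2) : s⁻¹ = s := inv_eq_of_mul_eq_one_right (cz_sq s2)

omit [Finite G] in
theorem cz_ne (s2 : orderOf s = 2) : s ≠ 1 := fun e => by
  rw [e, orderOf_one] at s2; exact absurd s2 (by decide)

omit [Finite G] in
theorem cz_ord (h : s * s = 1) (h1 : s ≠ 1) : orderOf s = 2 :=
  haveI : Fact (Nat.Prime 2) := ⟨Nat.prime_two⟩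
  orderOf_eq_prime (by rw [pow_two, h]) h1

/-- the cyclic self-centralizing normal subgroup of a `Z`-group -/
theorem cz_struct (h : IsZGroup B) :
    ∃ F : Subgroup G, F ≤ B ∧ Cyc F ∧ ⁅B, B⁆ ≤ F ∧ B ⊓ C(F) ≤ F := by
  have hc : Cyc ⁅B, B⁆ := by
    have := IsZGroup.isCyclic_commutator (G := B)
    rw [← map_subtype_commutator]
    exact isCyclic_of_surjective _ (MonoidHom.subgroupMap_surjective B.subtype (commutator B))
  have hle : ⁅B, B⁆ ≤ B ⊓ C(⁅B, B⁆) :=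
    le_inf (der_le B) (comm_iff_le_cent.1 (comm_of_cyclic hc))
  have hn : B ≤ N(⁅B, B⁆) := (der_normal B).norm
  have hab : Ab (B ⊓ C(⁅B, B⁆)) := by
    refine ab_of_cyc_quo (K := ⁅B, B⁆) (inf_le_left.trans hn)
      (inf_le_left.trans (cents_symm inf_le_right)) ?_
    refine cyc_mono (K := quo ⁅B, B⁆ B) ?_ (quo_mono _ inf_le_left)
    haveI : IsZGroup (quo ⁅B, B⁆ B) := IsZGroup.of_surjective (imHom_surj (qmk ⁅B, B⁆) hn)
    exact nil_cyc_of_zgroup (nil_of_ab ((ab_quo_iff hn).2 le_rfl)) this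
  refine ⟨B ⊓ C(⁅B, B⁆), inf_le_left, ?_, hle, inf_le_inf_left _ (cent_mono hle)⟩
  exact nil_cyc_of_zgroup (nil_of_ab hab)
    (IsZGroup.of_injective (inclusion_injective (inf_le_left : B ⊓ C(⁅B, B⁆) ≤ B)))

theorem cz_tot (hF : F ≤ B) (hn : B ≤ N(F)) (hc : Cyc F) (h : B ⊓ C(F) ≤ F) :
    #B ≤ #F * Nat.totient #F := by
  have key := card_dvd_of_injective _ (QuotientGroup.kerLift_injective F.normalizerMonoidHom)
  rw [normalizerMonoidHom_ker, ← index, ← relIndex, IsCyclic.card_mulAut] at key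
  have h1 : (C(F)).relIndex B ∣ (C(F)).relIndex N(F) :=
    relIndex_dvd_of_norm (hn.trans (norm_le_norm_cent F)) (cent_le_norm F) hn
  have h2 := Nat.le_of_dvd (Nat.totient_pos.2 (card_pos F)) (h1.trans key)
  rw [← card_inf_mul_relIndex C(F) B]
  exact Nat.mul_le_mul (card_le (inf_comm C(F) B ▸ h)) h2

/-- `v ↦ [v, s]` on an abelian group normalized by `s` -/
def czHom (hK : Ab K) (hs : s ∈ N(K)) : K →* G where
  toFun v := v * (s * (v : G)⁻¹ * s⁻¹)
  map_one' := by simp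
  map_mul' a b := by
    have h1 := mul_comm_of_comm hK b.2 (conj_mem_of_norm hs (K.inv_mem a.2))
    have h2 := mul_comm_of_comm hK (conj_mem_of_norm hs (K.inv_mem b.2))
      (conj_mem_of_norm hs (K.inv_mem a.2))
    calc ((a * b : K) : G) * (s * ((a * b : K) : G)⁻¹ * s⁻¹)
        = a * (b * ((s * (b : G)⁻¹ * s⁻¹) * (s * (a : G)⁻¹ * s⁻¹))) := by
          simp only [coe_mul]; group
      _ = a * ((b * (s * (a : G)⁻¹ * s⁻¹)) * (s * (b : G)⁻¹ * s⁻¹)) := by rw [h2]; group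
      _ = _ := by rw [h1]; group

/-- the subgroup `[K, s]` -/
theorem cz_comm (hK : Ab K) (hs : s ∈ N(K)) : ∃ R : Subgroup G, R ≤ K ∧
    (∀ x, x ∈ R ↔ ∃ v ∈ K, x = v * (s * v⁻¹ * s⁻¹)) ∧ #K = #(K ⊓ C[s]) * #R := by
  refine ⟨(czHom hK hs).range, ?_, fun x => ⟨?_, ?_⟩, ?_⟩
  · rintro _ ⟨v, rfl⟩
    exact K.mul_mem v.2 (conj_mem_of_norm hs (K.inv_mem v.2))
  · rintro ⟨v, rfl⟩; exact ⟨v, v.2, rfl⟩
  · rintro ⟨v, hv, rfl⟩; exact ⟨⟨v, hv⟩, rfl⟩
  · have e : (czHom hK hs).ker = (C[s]).subgroupOf K := by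
      ext v
      rw [MonoidHom.mem_ker, mem_subgroupOf, mem_cent1]
      change (v : G) * (s * (v : G)⁻¹ * s⁻¹) = 1 ↔ _
      constructor
      · intro h
        calc (v : G) * s = (v * (s * (v : G)⁻¹ * s⁻¹)) * (s * v) := by group
          _ = _ := by rw [h, one_mul]
      · intro h
        calc (v : G) * (s * (v : G)⁻¹ * s⁻¹) = (v * s) * ((v : G)⁻¹ * s⁻¹) := by group
          _ = 1 := by rw [h]; group
    rw [← card_mul_index (czHom hK hs).ker, index_ker, e, card_subgroupOf, inf_comm]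

theorem cz_odd_sq (ho : Odd #K) (hu : u ∈ K) : ∃ v ∈ zpowers u, v * v = u := by
  have h : Odd (orderOf u) := ho.of_dvd_nat (orderOf_dvd_card' hu)
  obtain ⟨k, hk⟩ := h
  refine ⟨u ^ (k + 1), npow_mem_zpowers u _, ?_⟩
  rw [← pow_add, show k + 1 + (k + 1) = orderOf u + 1 by omega, pow_succ, pow_orderOf_eq_one, one_mul]

omit [Finite G] in
theorem cz_inv_zp (h : s * u * s⁻¹ = u⁻¹) (hv : v ∈ zpowers u) : s * v * s⁻¹ = v⁻¹ := by
  obtain ⟨k, rfl⟩ := hv
  change s * u ^ k * s⁻¹ = (u ^ k)⁻¹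
  rw [← conj_zpow, h, inv_zpow]

theorem cz_meet (h : Cyc F) (hX : X ≤ F) (hY : Y ≤ F) {p : ℕ} (hp : p.Prime) (h1 : p ∣ #X)
    (h2 : p ∣ #Y) : X ⊓ Y ≠ ⊥ := by
  obtain ⟨Z, hZ, e⟩ := exists_card_eq_prime hp h1
  exact H19.ne_bot_mono (le_inf hZ (cyc_le_of_dvd h (hZ.trans hX) hY (e ▸ h2))) (ne_bot_of_prime (e ▸ hp))

/-- two involutions of a `Z`-group are conjugate -/
theorem cz_conj (h : IsZGroup B) (hs : s ∈ B) (ht : t ∈ B) (s2 : orderOf s = 2)
    (t2 : orderOf t = 2) : ∃ b ∈ B, b * t * b⁻¹ = s := by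
  have pz : ∀ x : G, orderOf x = 2 → PG 2 (zpowers x) := fun x hx =>
    PiN.of_card Nat.prime_two (by rw [Nat.card_zpowers, hx])
  obtain ⟨P, hP, hsP⟩ := (pz s s2).exists_syl (zpowers_le.2 hs)
  obtain ⟨b, hb, e⟩ := hP.scj_le (zpowers_le.2 ht) (pz t t2)
  exact ⟨b, hb, cz_uniq (zgroup_iff.1 h 2 P hP.pi hP.le) (e (conj_mem_cj.2 (mem_zpowers t)))
    (hsP (mem_zpowers s)) ((orderOf_conj' b t).trans t2) s2⟩

end H7.CZ
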