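/-
Products of a cyclic group and a `Z`-group, part 2: doubly transitive groups with a regular cyclic
subgroup of even order whose point stabilizers are `Z`-groups.
-/
import Cfsg.Agent.H7.CZ1

set_option autoImplicit false
set_option linter.style.haveILetI false

namespace H7.CZ
open Cfsg Subgroup H19 MulAction

/-- the setting -/
structure St (G Ω : Type*) [Group G] [MulAction G Ω] (a j : G) : Prop where
  faith : ∀ g : G, (∀ x : Ω, g • x = x) → g = 1
  two : ∀ x y z : Ω, y ≠ x → z ≠ x → ∃ g : G, g • x = x ∧ g • y = z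
  cyc : ∀ x y : Ω, ∃ g ∈ zpowers a, g • x = y
  zg : ∀ x : Ω, IsZGroup (stabilizer G x)
  jm : j ∈ zpowers a
  j2 : orderOf j = 2
  lt : 2 < Nat.card Ω

/-- two point stabilizer -/
abbrev DD (G : Type*) {Ω : Type*} [Group G] [MulAction G Ω] (x y : Ω) : Subgroup G :=
  stabilizer G x ⊓ stabilizer G y

variable {G Ω : Type*} [Group G] [MulAction G Ω] {a j g s t u : G} {x y z w : Ω}

theorem cz_card_orb [Finite G] (K : Subgroup G) (x : Ω) :
    #K = #(K ⊓ stabilizer G x) * Set.ncard {y | ∃ g ∈ K, g • x = y} := by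
  have h := index_stabilizer K x
  have e : stabilizer K x = (stabilizer G x).subgroupOf K := rfl
  have e2 : orbit K x = {y | ∃ g ∈ K, g • x = y} := by
    ext y
    exact ⟨fun ⟨g, hg⟩ => ⟨g, g.2, hg⟩, fun ⟨g, h1, h2⟩ => ⟨⟨g, h1⟩, h2⟩⟩
  rw [← e2, ← h, e, inf_comm, ← card_subgroupOf, card_mul_index]

theorem cz_comm_zp (h : g * a = a * g) (hu : u ∈ zpowers a) : g * u = u * g := by
  obtain ⟨k, rfl⟩ := hu
  exact (Commute.zpow_right h k)

theorem cz_zp (hs : s ∈ zpowers a) (hu : u ∈ zpowers a) : s * u = u * s :=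
  mul_comm_of_comm (comm_zpowers a) hs hu

theorem cz_fix_conj (g : G) (h : s • x = y) : (g * s * g⁻¹) • g • x = g • y := by
  rw [mul_smul, mul_smul, inv_smul_smul, h]

namespace St
variable (h : St G Ω a j)
include h

theorem reg (hg : g * a = a * g) (hx : g • x = x) : g = 1 := h.faith g fun y => by
  obtain ⟨u, hu, rfl⟩ := h.cyc x y
  rw [← mul_smul, cz_comm_zp hg hu, mul_smul, hx]

theorem reg' (hg : g ∈ zpowers a) (hx : g • x = x) : g = 1 :=
  h.reg (cz_zp hg (mem_zpowers a)) hx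

theorem jne (x : Ω) : j • x ≠ x := fun e => cz_ne h.j2 (h.reg' h.jm e)

theorem jj (x : Ω) : j • j • x = x := by rw [← mul_smul, cz_sq h.j2, one_smul]

theorem fin : Finite Ω := Nat.finite_of_card_ne_zero (by have := h.lt; omega)

theorem two' (h1 : y ≠ x) (h2 : w ≠ z) : ∃ g : G, g • x = z ∧ g • y = w := by
  obtain ⟨u, -, hu⟩ := h.cyc x z
  obtain ⟨g, e1, e2⟩ := h.two z (u • y) w (fun e => h1 (smul_left_cancel u (e.trans hu.symm))) h2
  exact ⟨g * u, by rw [mul_smul, hu, e1], by rw [mul_smul, e2]⟩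

theorem ntrans {N : Subgroup G} (hN : N.Normal) (h1 : N ≠ ⊥) (x y : Ω) : ∃ g ∈ N, g • x = y := by
  by_cases e : y = x
  · exact ⟨1, N.one_mem, by rw [one_smul, e]⟩
  obtain ⟨n, hn, n1⟩ : ∃ n ∈ N, n ≠ 1 := by
    by_contra c
    exact h1 ((Subgroup.eq_bot_iff_forall N).2 fun n hn => by_contra fun k => c ⟨n, hn, k⟩)
  obtain ⟨z, hz⟩ : ∃ z : Ω, n • z ≠ z := by_contra fun c => n1 (h.faith n fun z => by_contra fun k => c ⟨z, k⟩)
  obtain ⟨g, e1, e2⟩ := h.two' hz e
  exact ⟨g * n * g⁻¹, hN.conj_mem n hn g, by rw [← e1, cz_fix_conj g rfl, e2]⟩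

theorem third (x y : Ω) : ∃ z, z ≠ x ∧ z ≠ y := by
  by_contra c
  have : (Set.univ : Set Ω) ⊆ {x, y} := fun z _ => by
    by_contra k
    exact c ⟨z, fun e => k (Or.inl e), fun e => k (Or.inr e)⟩
  have h1 := Set.ncard_le_ncard this (Set.toFinite _)
  have h2 := Set.ncard_insert_le x ({y} : Set Ω)
  rw [Set.ncard_singleton] at h2
  rw [Set.ncard_univ] at h1
  have := h.lt
  omega

variable [Finite G]

theorem ord (x : Ω) : orderOf a = Nat.card Ω := by
  have := cz_card_orb (zpowers a) x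
  rw [show zpowers a ⊓ stabilizer G x = ⊥ from
    (Subgroup.eq_bot_iff_forall _).2 fun g hg => h.reg' hg.1 hg.2, card_bot, one_mul,
    show {y | ∃ g ∈ zpowers a, g • x = y} = Set.univ from Set.eq_univ_of_forall (h.cyc x),
    Set.ncard_univ, Nat.card_zpowers] at this
  exact this

theorem ev (x : Ω) : 2 ∣ Nat.card Ω := by
  rw [← h.ord x, ← h.j2]; exact orderOf_dvd_of_mem_zpowers h.jm

theorem cardG (x : Ω) : Nat.card G = #(stabilizer G x) * Nat.card Ω := by
  have := cz_card_orb (⊤ : Subgroup G) x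
  rwa [top_inf_eq, card_top, show {y | ∃ g ∈ (⊤ : Subgroup G), g • x = y} = Set.univ from
    Set.eq_univ_of_forall fun y => (h.cyc x y).imp fun g e => ⟨mem_top g, e.2⟩, Set.ncard_univ] at this

theorem cardB (hy : y ≠ x) : #(stabilizer G x) = #(DD G x y) * (Nat.card Ω - 1) := by
  have := h.fin
  rw [cz_card_orb (stabilizer G x) y, show {z | ∃ g ∈ stabilizer G x, g • y = z} = {x}ᶜ from ?_,
    Set.ncard_compl, Set.ncard_singleton]
  ext z
  exact ⟨fun ⟨g, h1, h2⟩ e => hy (smul_left_cancel g (h2.trans (e.trans h1.symm))),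
    fun e => h.two x y z hy e⟩

theorem exF (x : Ω) : ∃ F : Subgroup G, F ≤ stabilizer G x ∧ Cyc F ∧
    ⁅stabilizer G x, stabilizer G x⁆ ≤ F ∧ stabilizer G x ⊓ C(F) ≤ F ∧
    ∀ u ∈ F, ∀ y, y ≠ x → u • y = y → u = 1 := by
  obtain ⟨F, h1, h2, h3, h4⟩ := cz_struct (h.zg x)
  refine ⟨F, h1, h2, h3, h4, fun u hu y hy e => h.faith u fun z => ?_⟩
  by_cases hz : z = x
  · rw [hz]; exact h1 hu
  obtain ⟨g, e1, e2⟩ := h.two x y z hy hz
  have hn : g ∈ N(zpowers u) := cyc_norm h2 (zpowers_le.2 hu) (norms_of_der_le h3 h1 e1)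
  have : g⁻¹ * u * g ∈ stabilizer G y := (zpowers_le.2 e : zpowers u ≤ stabilizer G y)
    (conj_mem_of_norm' hn (mem_zpowers u))
  rw [mem_stabilizer_iff, mul_smul, mul_smul, e2, inv_smul_eq_iff, e2] at this
  exact this

theorem cycD (hy : y ≠ x) : Cyc (DD G x y) := by
  obtain ⟨F, -, -, h3, -, h5⟩ := h.exF x
  have := h.zg x
  refine nil_cyc_of_zgroup (nil_of_ab (comm_iff_der.2 ((Subgroup.eq_bot_iff_forall _).2 fun u hu => ?_)))
    (IsZGroup.of_injective (inclusion_injective (inf_le_left : DD G x y ≤ stabilizer G x)))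
  exact h5 u (h3 (der_mono inf_le_left hu)) y hy (der_le _ hu).2

theorem uniq (hy : y ≠ x) (hs : s ∈ DD G x y) (ht : t ∈ DD G x y) (s2 : orderOf s = 2)
    (t2 : orderOf t = 2) : s = t := cz_uniq (h.cycD hy) hs ht s2 t2

theorem evB (x : Ω) : 2 ∣ #(stabilizer G x) := by
  classical
  have := h.fin
  have := Fintype.ofFinite Ω
  by_contra c
  have ho : Odd #(stabilizer G x) := Nat.not_even_iff_odd.1 fun e => c e.two_dvd
  let σ : G →* ℤˣ := Equiv.Perm.sign.comp (toPermHom G Ω)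
  have ane : ∀ y : Ω, a • y ≠ y := fun y e => by
    have h1 := h.ord x
    rw [h.reg' (mem_zpowers a) e, orderOf_one] at h1
    have := h.lt
    omega
  have hc : (toPermHom G Ω a).IsCycle := ⟨x, ane x, fun y _ => by
    obtain ⟨_, ⟨k, rfl⟩, e⟩ := h.cyc x y
    exact ⟨k, by rw [← map_zpow]; exact e⟩⟩
  have hs : (toPermHom G Ω a).support = Finset.univ :=
    Finset.eq_univ_of_forall fun y => Equiv.Perm.mem_support.2 (ane y)
  have sa : σ a = -1 := by
    change Equiv.Perm.sign (toPermHom G Ω a) = -1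
    rw [hc.sign, hs, Finset.card_univ, ← Nat.card_eq_fintype_card,
      (even_iff_two_dvd.2 (h.ev x)).neg_one_pow]
  have hB : stabilizer G x ≤ σ.ker := fun g hg => by
    obtain ⟨v, -, rfl⟩ := cz_odd_sq ho hg
    rw [MonoidHom.mem_ker, map_mul, Int.units_mul_self]
  have h1 : σ.ker ≠ ⊥ := H19.ne_bot_mono hB (ne_bot_iff_one_lt_card.2 (by
    rw [h.cardB (h.jne x)]
    have := card_pos (DD G x (j • x))
    have := h.lt
    calc 1 < 1 * (Nat.card Ω - 1) := by omega
      _ ≤ _ := Nat.mul_le_mul_right _ (by omega)))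
  obtain ⟨g, hg, e⟩ := h.ntrans inferInstance h1 x (a • x)
  have h2 : g⁻¹ * a ∈ σ.ker := hB (by rw [mem_stabilizer_iff, mul_smul, ← e, inv_smul_smul])
  have h3 : a ∈ σ.ker := by simpa using σ.ker.mul_mem hg h2
  rw [MonoidHom.mem_ker, sa] at h3
  exact absurd h3 (by decide)

theorem exInv (hy : y ≠ x) : ∃ t ∈ DD G x y, orderOf t = 2 := by
  refine exists_orderOf_eq_prime Nat.prime_two ?_
  have h1 := h.evB x
  rw [h.cardB hy] at h1
  refine (Nat.prime_two.dvd_mul.1 h1).resolve_right ?_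
  have := h.ev x
  have := h.lt
  omega

/-- an element conjugating an involution back into the same two point stabilizer centralizes it -/
theorem cent_of (hy : y ≠ x) (ht : t ∈ DD G x y) (t2 : orderOf t = 2) (h1 : t • g • x = g • x)
    (h2 : t • g • y = g • y) : g ∈ C[t] := by
  have e : g⁻¹ * t * g = t := h.uniq hy ⟨show (g⁻¹ * t * g) • x = x by
    rw [mul_smul, mul_smul, h1, inv_smul_smul], show (g⁻¹ * t * g) • y = y by
    rw [mul_smul, mul_smul, h2, inv_smul_smul]⟩ ht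
    (by simpa using (orderOf_conj' g⁻¹ t).trans t2) t2
  rw [mem_cent1]
  calc g * t = g * (g⁻¹ * t * g) := by rw [e]
    _ = _ := by group

theorem jnorm (x : Ω) : j ∈ N(DD G x (j • x)) := mem_norm_of_cj_le fun g hg => by
  obtain ⟨u, hu, rfl⟩ := mem_cj'.1 hg
  exact ⟨by
    have := cz_fix_conj j hu.2
    rwa [h.jj] at this, cz_fix_conj j hu.1⟩

theorem jcent (ht : t ∈ DD G x (j • x)) (t2 : orderOf t = 2) : j ∈ C[t] :=
  h.cent_of (h.jne x) ht t2 ht.2 (by rw [h.jj]; exact ht.1)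

/-- all involutions with a fixed point are conjugate -/
theorem conjInv (hs : s • y = y) (ht : t • x = x) (s2 : orderOf s = 2) (t2 : orderOf t = 2) :
    ∃ g : G, g * t * g⁻¹ = s := by
  obtain ⟨u, -, hu⟩ := h.cyc x y
  obtain ⟨b, -, e⟩ := cz_conj (h.zg y) hs (hu ▸ cz_fix_conj u ht) s2 ((orderOf_conj' u t).trans t2)
  exact ⟨b * u, by rw [← e]; group⟩

end St
end H7.CZ
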