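/-
Products of a cyclic group and a `Z`-group, part 3: counting involutions.
-/
import Cfsg.Agent.H7.CZ2
import Mathlib.Combinatorics.Enumerative.DoubleCounting

set_option autoImplicit false
set_option linter.style.haveILetI false

namespace H7.CZ
open Cfsg Subgroup H19 MulAction

theorem cz_dc {α β : Type*} [Finite α] [Finite β] (r : α → β → Prop) (s : Set α) (t : Set β)
    {m n : ℕ} (hm : ∀ a ∈ s, {b | b ∈ t ∧ r a b}.ncard = m)
    (hn : ∀ b ∈ t, {a | a ∈ s ∧ r a b}.ncard = n) : s.ncard * m = t.ncard * n := by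
  classical
  rw [Set.ncard_eq_toFinset_card s, Set.ncard_eq_toFinset_card t]
  refine Finset.card_mul_eq_card_mul r (fun a ha => ?_) (fun b hb => ?_)
  · rw [← hm a (by simpa using ha), ← Set.ncard_coe_finset]
    congr 1
    ext b
    simp [Finset.mem_bipartiteAbove]
  · rw [← hn b (by simpa using hb), ← Set.ncard_coe_finset]
    congr 1
    ext a
    simp [Finset.mem_bipartiteBelow]

/-- the involutions with a fixed point -/
def TT (G Ω : Type*) [Group G] [MulAction G Ω] : Set G := {s | orderOf s = 2 ∧ ∃ x : Ω, s • x = x}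

/-- the number of them mapping `x` to `y` -/
noncomputable def NN (G : Type*) {Ω : Type*} [Group G] [MulAction G Ω] (x y : Ω) : ℕ :=
  {s | s ∈ TT G Ω ∧ s • x = y}.ncard

/-- the number of fixed points -/
noncomputable def fx (Ω : Type*) {G : Type*} [Group G] [MulAction G Ω] (s : G) : ℕ :=
  {x : Ω | s • x = x}.ncard

variable {G Ω : Type*} [Group G] [MulAction G Ω] {a j g s t u : G} {x y z w : Ω}

theorem TT_conj (g : G) (h : s ∈ TT G Ω) : g * s * g⁻¹ ∈ TT G Ω :=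
  ⟨(orderOf_conj' g s).trans h.1, h.2.elim fun x e => ⟨g • x, cz_fix_conj g e⟩⟩

theorem NN_smul (g : G) (x y : Ω) : NN G (g • x) (g • y) = NN G x y := by
  unfold NN
  symm
  refine Set.ncard_congr (fun s _ => g * s * g⁻¹) (fun s hs => ⟨TT_conj g hs.1, cz_fix_conj g hs.2⟩)
    (fun s t _ _ e => by simpa using e) fun s hs => ⟨g⁻¹ * s * g⁻¹⁻¹, ⟨TT_conj g⁻¹ hs.1, ?_⟩, by group⟩
  have := cz_fix_conj g⁻¹ hs.2
  rwa [inv_smul_smul, inv_smul_smul] at this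

theorem fx_conj (g s : G) : fx Ω (g * s * g⁻¹) = fx Ω s := by
  unfold fx
  symm
  refine Set.ncard_congr (fun x _ => g • x) (fun x hx => cz_fix_conj g hx)
    (fun x y _ _ e => smul_left_cancel g e) fun x hx => ⟨g⁻¹ • x, ?_, smul_inv_smul g x⟩
  have := cz_fix_conj g⁻¹ (show (g * s * g⁻¹) • x = x from hx)
  rwa [show g⁻¹ * (g * s * g⁻¹) * g⁻¹⁻¹ = s by group] at this

namespace St
variable (h : St G Ω a j) [Finite G]
include h

theorem fx_eq (ht : t ∈ TT G Ω) (hs : s ∈ TT G Ω) : fx Ω s = fx Ω t := by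
  obtain ⟨x, hx⟩ := ht.2
  obtain ⟨y, hy⟩ := hs.2
  obtain ⟨g, rfl⟩ := h.conjInv hy hx hs.1 ht.1
  exact fx_conj g t

theorem count1 (ht : t ∈ TT G Ω) (x : Ω) : NN G x x * (fx Ω t - 1) = Nat.card Ω - 1 := by
  have := h.fin
  have := cz_dc (fun (s : G) (y : Ω) => s • y = y) {s | s ∈ TT G Ω ∧ s • x = x} {x}ᶜ
    (m := fx Ω t - 1) (n := 1) (fun s hs => by
      rw [← h.fx_eq ht hs.1, fx, ← Set.ncard_sdiff_singleton_of_mem (s := {y | s • y = y}) (a := x) hs.2]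
      congr 1
      ext y
      exact and_comm) fun y hy => by
      obtain ⟨s, h1, h2⟩ := h.exInv hy
      exact Set.ncard_eq_one.2 ⟨s, Set.eq_singleton_iff_unique_mem.2 ⟨⟨⟨⟨h2, x, h1.1⟩, h1.1⟩, h1.2⟩,
        fun s' hs => h.uniq hy ⟨hs.1.2, hs.2⟩ h1 hs.1.1.1 h2⟩⟩
  rwa [mul_one, Set.ncard_compl, Set.ncard_singleton] at this

theorem count2 (ht : t ∈ TT G Ω) (x : Ω) : (TT G Ω).ncard * fx Ω t = Nat.card Ω * NN G x x := by
  have := h.fin
  have := cz_dc (fun (s : G) (y : Ω) => s • y = y) (TT G Ω) Set.univ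
    (m := fx Ω t) (n := NN G x x) (fun s hs => by
      rw [← h.fx_eq ht hs, fx]
      simp) fun y _ => by
      obtain ⟨g, -, rfl⟩ := h.cyc x y
      exact NN_smul g x x
  rwa [Set.ncard_univ] at this

theorem count3 (hy : y ≠ x) : (TT G Ω).ncard = NN G x x + (Nat.card Ω - 1) * NN G x y := by
  have := h.fin
  have := cz_dc (fun (s : G) (z : Ω) => s • x = z) {s | s ∈ TT G Ω ∧ s • x ≠ x} {x}ᶜ
    (m := 1) (n := NN G x y) (fun s hs => Set.ncard_eq_one.2 ⟨s • x,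
      Set.eq_singleton_iff_unique_mem.2 ⟨⟨hs.2, rfl⟩, fun z hz => hz.2.symm⟩⟩) fun z hz => by
      obtain ⟨g, e1, e2⟩ := h.two x y z hy hz
      rw [← NN_smul g x y, e1, e2, NN]
      congr 1
      ext s
      exact ⟨fun k => ⟨k.1.1, k.2⟩, fun k => ⟨⟨k.1, fun e => hz (k.2.symm.trans e)⟩, k.2⟩⟩
  rw [mul_one, Set.ncard_compl, Set.ncard_singleton] at this
  rw [← this, NN, ← Set.ncard_union_eq (Set.disjoint_left.2 fun s h1 h2 => h2.2 h1.2)]
  congr 1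
  ext s
  exact ⟨fun k => (em (s • x = x)).imp (fun e => ⟨k, e⟩) fun e => ⟨k, e⟩, fun k => k.elim (·.1) (·.1)⟩

theorem count (ht : t ∈ TT G Ω) (hy : y ≠ x) : NN G x x = fx Ω t * NN G x y + 1 := by
  have h1 := h.count1 ht x
  have h2 := h.count2 ht x
  rw [h.count3 hy] at h2
  have := h.lt
  obtain ⟨N, hN⟩ : ∃ N, Nat.card Ω = N + 1 := ⟨Nat.card Ω - 1, by omega⟩
  obtain ⟨e, he⟩ : ∃ e, fx Ω t = e + 1 := ⟨fx Ω t - 1, by
    rcases Nat.eq_zero_or_pos (fx Ω t) with e | e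
    · rw [e] at h1; omega
    · omega⟩
  rw [hN, he] at h1 h2
  rw [he]
  simp only [Nat.add_sub_cancel] at h1 h2
  refine Nat.eq_of_mul_eq_mul_left (show 0 < N by omega) ?_
  nlinarith

/-- the involutions of a point stabilizer -/
theorem NN_self {F : Subgroup G} (h1 : F ≤ stabilizer G x) (h2 : Cyc F)
    (h3 : ⁅stabilizer G x, stabilizer G x⁆ ≤ F) (ho : Odd #F) (ht : t • x = x) (t2 : orderOf t = 2) :
    ∃ D : Subgroup G, D ≤ F ∧ #F = #(F ⊓ C[t]) * #D ∧ D ⊓ C[t] = ⊥ ∧ NN G x x = #D := by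
  have hn : t ∈ N(F) := norms_of_der_le h3 h1 ht
  obtain ⟨D, d1, d2, d3⟩ := cz_comm (comm_of_cyclic h2) hn
  have inv : ∀ u ∈ D, t * u * t⁻¹ = u⁻¹ := fun u hu => by
    obtain ⟨v, hv, rfl⟩ := (d2 u).1 hu
    rw [cz_inv t2]
    calc t * (v * (t * v⁻¹ * t)) * t = t * v * t * v⁻¹ * (t * t) := by group
      _ = (v * (t⁻¹ * v⁻¹ * t⁻¹))⁻¹ := by rw [cz_sq t2]; group
      _ = _ := by rw [cz_inv t2]
  refine ⟨D, d1, d3, (Subgroup.eq_bot_iff_forall _).2 fun u hu => ?_, ?_⟩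
  · obtain ⟨v, hv, rfl⟩ := cz_odd_sq ho (d1 hu.1)
    have e := inv _ hu.1
    rw [← mem_cent1.1 hu.2, mul_inv_cancel_right] at e
    obtain ⟨w, hw, e2⟩ := cz_odd_sq ho (d1 hu.1)
    have h4 : v * v * (v * v) = 1 := by nth_rewrite 1 [e]; exact inv_mul_cancel _
    by_contra c
    have := orderOf_dvd_card' (d1 hu.1)
    rw [cz_ord h4 c] at this
    exact (Nat.not_even_iff_odd.2 ho) (even_iff_two_dvd.2 this)
  · refine (Set.ncard_congr (fun s _ => s * t) (fun s hs => ?_) (fun s s' _ _ e => by simpa using e)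
      fun u hu => ?_).trans (Nat.card_coe_set_eq (D : Set G)).symm
    · obtain ⟨b, hb, e⟩ := cz_conj (h.zg x) hs.2 ht hs.1.1 t2
      have hu : s * t ∈ F := h3 (by
        have := commutator_mem_commutator hb (show t ∈ stabilizer G x from ht)
        rwa [commutatorElement_def, e, cz_inv t2] at this)
      obtain ⟨v, hv, e2⟩ := cz_odd_sq ho hu
      have e3 : t * v * t⁻¹ = v⁻¹ := cz_inv_zp (by
        rw [mul_inv_rev, cz_inv t2, cz_inv hs.1.1, mul_assoc t, mul_assoc s, cz_sq t2, mul_one]) hv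
      refine (d2 _).2 ⟨v, zpowers_le.2 hu hv, ?_⟩
      rw [← e2, ← conj_inv, e3, inv_inv]
    · obtain ⟨v, hv, rfl⟩ := (d2 u).1 hu
      refine ⟨v * t * v⁻¹, ⟨TT_conj v ⟨t2, x, ht⟩, ?_⟩, by rw [cz_inv t2]; group⟩
      have := cz_fix_conj v ht
      rwa [show v • x = x from h1 hv] at this

/-- the involutions with a fixed point interchanging `x` and `j • x` -/
theorem NN_swap (x : Ω) : ∃ R : Subgroup G, R ≤ DD G x (j • x) ∧
    (∀ u, u ∈ R ↔ ∃ v ∈ DD G x (j • x), u = v * (j * v⁻¹ * j⁻¹)) ∧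
    #(DD G x (j • x)) = #(DD G x (j • x) ⊓ C[j]) * #R ∧ NN G x (j • x) = #R := by
  have hc := h.cycD (h.jne x)
  have hab := comm_of_cyclic hc
  obtain ⟨R, r1, r2, r3⟩ := cz_comm hab (h.jnorm x)
  refine ⟨R, r1, r2, r3, ?_⟩
  have ji := cz_inv h.j2
  have mem : ∀ s, s ∈ TT G Ω → s • x = j • x → s * j ∈ DD G x (j • x) ∧
      j * (s * j) * j⁻¹ = (s * j)⁻¹ ∧ s * j ∉ R := fun s hs e => by
    refine ⟨⟨show (s * j) • x = x by rw [mul_smul, ← e, ← mul_smul, cz_sq hs.1, one_smul],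
      show (s * j) • j • x = j • x by rw [mul_smul, h.jj, e]⟩, by
        rw [mul_inv_rev, cz_inv hs.1, ji, mul_assoc j, mul_assoc s, cz_sq h.j2, mul_one], fun c => ?_⟩
    obtain ⟨v, hv, e2⟩ := (r2 _).1 c
    obtain ⟨y, hy⟩ := hs.2
    have e3 : s = v * j * v⁻¹ := by
      rw [ji] at e2
      exact mul_right_cancel (b := j) (by rw [e2]; group)
    rw [e3, mul_smul, mul_smul, ← eq_inv_smul_iff] at hy
    exact h.jne _ hy
  obtain ⟨t, ht, t2⟩ := h.exInv (h.jne x)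
  obtain ⟨y, hy⟩ : ∃ y : Ω, t • y ≠ y :=
    by_contra fun c => cz_ne t2 (h.faith t fun z => by_contra fun k => c ⟨z, k⟩)
  obtain ⟨g, g1, g2⟩ := h.two' hy (h.jne x)
  have hs0 : g * t * g⁻¹ ∈ TT G Ω := TT_conj g ⟨t2, x, ht.1⟩
  have hx0 : (g * t * g⁻¹) • x = j • x := by rw [← g2]; nth_rewrite 1 [← g1]; exact cz_fix_conj g rfl
  generalize g * t * g⁻¹ = s0 at hs0 hx0
  obtain ⟨m1, m2, m3⟩ := mem s0 hs0 hx0
  refine (Set.ncard_congr (fun s _ => s * j * (s0 * j)⁻¹) (fun s hs => ?_)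
    (fun s s' _ _ e => by simpa using e) fun u hu => ?_).trans (Nat.card_coe_set_eq (R : Set G)).symm
  · obtain ⟨k1, k2, k3⟩ := mem s hs.1 hs.2
    generalize s * j = p at k1 k2 k3
    generalize s0 * j = q at m1 m2 m3
    let I : Subgroup G :=
      { carrier := {u | u ∈ DD G x (j • x) ∧ j * u * j⁻¹ = u⁻¹}
        one_mem' := ⟨one_mem _, by simp⟩
        inv_mem' := fun {u} hu => ⟨inv_mem hu.1, by rw [← conj_inv, hu.2]⟩
        mul_mem' := fun {u v} hu hv => ⟨mul_mem hu.1 hv.1, by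
          rw [← conj_mul, hu.2, hv.2, mul_inv_rev, mul_comm_of_comm hab (inv_mem hu.1) (inv_mem hv.1)]⟩ }
    obtain ⟨c, hc'⟩ := cyc_iff.1 (cyc_mono hc (show I ≤ _ from fun u hu => hu.1))
    have hcI : c ∈ I := hc' ▸ mem_zpowers c
    have c2 : c ^ (2 : ℤ) ∈ R := (r2 _).2 ⟨c, hcI.1, by rw [← conj_inv, hcI.2, inv_inv, zpow_two]⟩
    have ev : ∀ k : ℤ, Even k → c ^ k ∈ R := by
      rintro _ ⟨k, rfl⟩
      rw [← two_mul, zpow_mul]
      exact R.zpow_mem c2 k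
    obtain ⟨k, rfl⟩ : p ∈ zpowers c := hc' ▸ (⟨k1, k2⟩ : p ∈ I)
    obtain ⟨l, rfl⟩ : q ∈ zpowers c := hc' ▸ (⟨m1, m2⟩ : q ∈ I)
    change c ^ k * (c ^ l)⁻¹ ∈ R
    rw [← zpow_sub]
    exact ev _ ((Int.not_even_iff_odd.1 fun e => k3 (ev k e)).sub_odd
      (Int.not_even_iff_odd.1 fun e => m3 (ev l e)))
  · obtain ⟨v, hv, rfl⟩ := (r2 u).1 hu
    refine ⟨v * s0 * v⁻¹, ⟨TT_conj v hs0, ?_⟩, ?_⟩
    · have := cz_fix_conj v hx0
      rwa [show v • x = x from hv.1, show v • j • x = j • x from hv.2] at this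
    · have e := mul_comm_of_comm hab m1 (conj_mem_of_norm (h.jnorm x) (inv_mem hv))
      calc v * s0 * v⁻¹ * j * (s0 * j)⁻¹ = v * (s0 * (j * j)) * v⁻¹ * j⁻¹ * (s0 * j)⁻¹ := by
            rw [cz_sq h.j2, mul_one, ji]
        _ = v * ((s0 * j) * (j * v⁻¹ * j⁻¹)) * (s0 * j)⁻¹ := by group
        _ = _ := by rw [e]; group

end St
end H7.CZ
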