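/-
Products of a cyclic group and a `Z`-group, part 4: Sylow factorization, sharpness, and the
centralizer of the involution of the regular cyclic group.
-/
import Cfsg.Agent.H7.CZ3
import Cfsg.Agent.H7.ZStar

set_option autoImplicit false
set_option linter.style.haveILetI false

namespace H7.CZ
open Cfsg Subgroup H19 MulAction

section Prod
variable {G : Type*} [Group G] [Finite G] {A B M X Y : Subgroup G}

/-- the cosets of `Y` meeting `X` -/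
def cz_cs (X Y : Subgroup G) : Set (G ⧸ Y) := {y | ∃ g ∈ X, g • ((1 : G) : G ⧸ Y) = y}

theorem cz_cs_card (X Y : Subgroup G) : #X = #(X ⊓ Y) * (cz_cs X Y).ncard := by
  have := cz_card_orb X ((1 : G) : G ⧸ Y)
  rwa [stabilizer_quotient] at this

omit [Finite G] in
theorem cz_cs_mono (h : X ≤ M) (Y : Subgroup G) : cz_cs X Y ⊆ cz_cs M Y :=
  fun _ ⟨g, h1, h2⟩ => ⟨g, h h1, h2⟩

theorem cz_prod_card (hX : X ≤ M) (hY : Y ≤ M) (h : ∀ g ∈ M, ∃ a ∈ X, ∃ b ∈ Y, g = a * b) :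
    #M * #(X ⊓ Y) = #X * #Y := by
  have e : cz_cs M Y = cz_cs X Y := (cz_cs_mono hX Y).antisymm' fun y ⟨g, h1, h2⟩ => by
    obtain ⟨a, ha, b, hb, rfl⟩ := h g h1
    refine ⟨a, ha, ?_⟩
    rw [← h2, mul_smul, show b • ((1 : G) : G ⧸ Y) = (1 : G) from
      show b ∈ stabilizer G ((1 : G) : G ⧸ Y) by rwa [stabilizer_quotient]]
  rw [cz_cs_card M Y, cz_cs_card X Y, e, inf_eq_right.2 hY]
  ring

theorem cz_prod_of (hX : X ≤ M) (hY : Y ≤ M) (h : #M * #(X ⊓ Y) ≤ #X * #Y) :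
    ∀ g ∈ M, ∃ a ∈ X, ∃ b ∈ Y, g = a * b := fun g hg => by
  have e : cz_cs X Y = cz_cs M Y := Set.eq_of_subset_of_ncard_le (cz_cs_mono hX Y) (by
    rw [cz_cs_card M Y, cz_cs_card X Y, inf_eq_right.2 hY] at h
    refine Nat.le_of_mul_le_mul_left (?_ : #Y * #(X ⊓ Y) * _ ≤ #Y * #(X ⊓ Y) * _)
      (Nat.mul_pos (card_pos _) (card_pos _))
    nlinarith)
  obtain ⟨a, ha, e2⟩ : g • ((1 : G) : G ⧸ Y) ∈ cz_cs X Y := e ▸ ⟨g, hg, rfl⟩
  refine ⟨a, ha, a⁻¹ * g, ?_, by group⟩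
  rw [← stabilizer_quotient Y, mem_stabilizer_iff, mul_smul, ← e2, inv_smul_smul]

/-- Sylow subgroups of a factorized group -/
theorem cz_sylfac (p : ℕ) (hA : A ≤ M) (hB : B ≤ M) (h : ∀ g ∈ M, ∃ a ∈ A, ∃ b ∈ B, g = a * b) :
    ∃ P X Y : Subgroup G, Syl p P M ∧ Syl p X A ∧ Syl p Y B ∧ X ≤ P ∧ Y ≤ P ∧
      ∀ g ∈ P, ∃ a ∈ X, ∃ b ∈ Y, g = a * b := by
  obtain ⟨X, hX⟩ := exists_syl p A
  obtain ⟨Y, hY⟩ := exists_syl p B
  obtain ⟨P, hP, xP⟩ := hX.pi.exists_syl (hX.le.trans hA)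
  obtain ⟨g, hg, e⟩ := hP.scj_le (hY.le.trans hB) hY.pi
  obtain ⟨a, ha, b, hb, rfl⟩ := h g hg
  have hP' := hP.Jmem (M.inv_mem (hA ha))
  have hX' := hX.Jmem (A.inv_mem ha)
  have hY' := hY.Jmem hb
  have x' := cj_mono a⁻¹ xP
  have y' : cj b Y ≤ cj a⁻¹ P := by rw [cj_mul, cj_le_iff] at e; exact e
  refine ⟨_, _, _, hP', hX', hY', x', y', cz_prod_of x' y' (Nat.le_of_dvd
    (Nat.mul_pos (card_pos _) (card_pos _)) ?_)⟩
  refine (hP'.pi.mul (hX'.pi.infl _)).dvd_of_dvd_mul (hX'.idx.mul hY'.idx) ?_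
  rw [mul_mul_mul_comm, hX'.card_mul, hY'.card_mul, ← cz_prod_card hA hB h]
  exact Nat.mul_dvd_mul (card_dvd hP'.le) (card_dvd (inf_le_inf hX'.le hY'.le))

theorem cz_two (h : #X = 2) {s u : G} (hs : s ∈ X) (h1 : s ≠ 1) (hu : u ∈ X) : u = 1 ∨ u = s := by
  refine (em (u = 1)).imp_right fun e => ?_
  have k : ∀ v ∈ X, v ≠ 1 → orderOf v = 2 := fun v hv e =>
    ((Nat.dvd_prime Nat.prime_two).1 (h ▸ orderOf_dvd_card' hv)).resolve_left (by simpa using e)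
  exact cz_uniq (cyclic_of_prime (h ▸ Nat.prime_two)) hu hs (k u hu e) (k s hs h1)

/-- the elements of an abelian group inverted by `s` -/
def czInv (hK : Ab X) (s : G) : Subgroup G where
  carrier := {u | u ∈ X ∧ s * u * s⁻¹ = u⁻¹}
  one_mem' := ⟨one_mem _, by simp⟩
  inv_mem' := fun {u} hu => ⟨inv_mem hu.1, by rw [← conj_inv, hu.2]⟩
  mul_mem' := fun {u v} hu hv => ⟨mul_mem hu.1 hv.1, by
    rw [← conj_mul, hu.2, hv.2, mul_inv_rev, mul_comm_of_comm hK (inv_mem hu.1) (inv_mem hv.1)]⟩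

end Prod

variable {G Ω : Type*} [Group G] [MulAction G Ω] {a j g s t u : G} {x y z w : Ω}

/-- the conclusion -/
def QQ (G : Type*) {Ω : Type*} [Group G] [MulAction G Ω] (j : G) (x : Ω) : Prop :=
  ∃ p : ℕ, p.Prime ∧ Nat.card Ω = p + 1 ∧ #(DD G x (j • x)) = p - 1 ∧ #(DD G x (j • x) ⊓ C[j]) = 2

namespace St
variable (h : St G Ω a j) [Finite G]
include h

theorem F_dvd {F : Subgroup G} (h1 : F ≤ stabilizer G x)
    (h3 : ⁅stabilizer G x, stabilizer G x⁆ ≤ F) (h5 : ∀ u ∈ F, ∀ y, y ≠ x → u • y = y → u = 1) :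
    #F ∣ Nat.card Ω - 1 := by
  have k := card_dvd (sup_le h1 inf_le_left : F ⊔ DD G x (j • x) ≤ stabilizer G x)
  rw [card_sup_of_disjoint (B := DD G x (j • x)) (inf_le_left.trans (norms_of_der_le h3 h1))
    ((Subgroup.eq_bot_iff_forall _).2 fun u hu => h5 u hu.1 _ (h.jne x) hu.2.2),
    h.cardB (h.jne x), mul_comm] at k
  exact Nat.dvd_of_mul_dvd_mul_left (card_pos _) k

theorem F_card {p : ℕ} (hp : p.Prime) (hn : Nat.card Ω = p + 1) {F : Subgroup G}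
    (h1 : F ≤ stabilizer G x) (h3 : ⁅stabilizer G x, stabilizer G x⁆ ≤ F)
    (h4 : stabilizer G x ⊓ C(F) ≤ F) (h5 : ∀ u ∈ F, ∀ y, y ≠ x → u • y = y → u = 1) : #F = p := by
  have hd := h.F_dvd h1 h3 h5
  rw [hn, Nat.add_sub_cancel] at hd
  refine ((Nat.dvd_prime hp).1 hd).resolve_left fun e => ?_
  obtain ⟨z, hz, hzy⟩ := h.third x (j • x)
  obtain ⟨u, e1, e2⟩ := h.two x (j • x) z (h.jne x) hz
  rw [card_eq_one.1 e] at h4
  have : u = 1 := h4 ⟨e1, mem_cent.2 fun v hv => by rw [mem_bot.1 hv, one_mul, mul_one]⟩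
  rw [this, one_smul] at e2
  exact hzy e2.symm

theorem sharp {p : ℕ} (hp : p.Prime) (hn : Nat.card Ω = p + 1) (hy : y ≠ x) (hz : z ≠ x)
    (hzy : z ≠ y) (g1 : g • x = x) (g2 : g • y = y) (g3 : g • z = z) : g = 1 := by
  have := h.fin
  obtain ⟨F, h1, h2, h3, h4, h5⟩ := h.exF x
  have hF := h.F_card hp hn h1 h3 h4 h5
  have k := cz_card_orb F y
  rw [show F ⊓ stabilizer G y = ⊥ from
    (Subgroup.eq_bot_iff_forall _).2 fun u hu => h5 u hu.1 y hy hu.2, card_bot, one_mul, hF] at k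
  have e : {w | ∃ u ∈ F, u • y = w} = {x}ᶜ := Set.eq_of_subset_of_ncard_le
    (fun w ⟨u, k1, k2⟩ e => hy (smul_left_cancel u (k2.trans (e.trans (h1 k1).symm))))
    (by rw [← k, Set.ncard_compl, Set.ncard_singleton, hn, Nat.add_sub_cancel])
  obtain ⟨u, hu, e2⟩ : z ∈ {w | ∃ u ∈ F, u • y = w} := e ▸ hz
  have gn : g ∈ N(F) := norms_of_der_le h3 h1 g1
  have e3 : u⁻¹ * (g * u * g⁻¹) = 1 := h5 _ (F.mul_mem (F.inv_mem hu) (conj_mem_of_norm gn hu)) y hy (by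
    have := cz_fix_conj g e2
    rw [g2, g3] at this
    rw [mul_smul, this, ← e2, inv_smul_smul])
  have e4 : g ∈ C(F) := by
    rw [cent_eq_cent1_of_prime (hF ▸ hp) hu (fun e => hzy (by rw [← e2, e, one_smul])), mem_cent1]
    calc g * u = u * (u⁻¹ * (g * u * g⁻¹)) * g := by group
      _ = _ := by rw [e3, mul_one]
  exact h5 g (h4 ⟨g1, e4⟩) y hy g2

omit [Finite G] in
theorem cent_fac (x : Ω) (hg : g ∈ C[j]) : ∃ u ∈ zpowers a, ∃ k ∈ DD G x (j • x) ⊓ C[j], g = u * k := by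
  obtain ⟨u, hu, e⟩ := h.cyc x (g • x)
  have k1 : u⁻¹ * g ∈ C[j] := mul_mem (inv_mem (mem_cent1.2 (cz_zp hu h.jm))) hg
  have k2 : (u⁻¹ * g) • x = x := by rw [mul_smul, ← e, inv_smul_smul]
  exact ⟨u, hu, u⁻¹ * g, ⟨⟨k2, show (u⁻¹ * g) • j • x = j • x by
    rw [← mul_smul, mem_cent1.1 k1, mul_smul, k2]⟩, k1⟩, by group⟩

theorem odd_core : pPrimeCore 2 G = ⊥ := by
  refine sSup_eq_bot.2 fun N hN => by_contra fun c => ?_
  obtain ⟨x⟩ : Nonempty Ω := (Nat.card_pos_iff.1 (by have := h.lt; omega)).1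
  have k := cz_card_orb N x
  rw [show {y | ∃ g ∈ N, g • x = y} = Set.univ from Set.eq_univ_of_forall (h.ntrans hN.1 c x),
    Set.ncard_univ] at k
  exact absurd (hN.2.symm.eq_one_of_dvd (k ▸ (h.ev x).mul_left _)) (by decide)

/-- the centralizer of `j` is dihedral -/
theorem invt (hQ : QQ G j x) (hg : g ∈ C[j]) (ha : g ∉ zpowers a) : g * g = 1 := by
  obtain ⟨p, hp, hn, -, hK⟩ := hQ
  obtain ⟨τ, hτ, τ2⟩ := exists_orderOf_eq_prime Nat.prime_two hK.symm.dvd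
  have fac : ∀ g ∈ C[j], g ∈ zpowers a ∨ ∃ u ∈ zpowers a, g = u * τ := fun g hg => by
    obtain ⟨u, hu, k, hk, rfl⟩ := h.cent_fac x hg
    rcases cz_two hK hτ (cz_ne τ2) hk with rfl | rfl
    · exact .inl (by rwa [mul_one])
    · exact .inr ⟨u, hu, rfl⟩
  have aj : zpowers a ≤ C[j] := fun u hu => mem_cent1.2 (cz_zp hu h.jm)
  have τn : τ ∈ N(zpowers a) := mem_norm_of_cj_le (by
    rw [cj_zpowers, zpowers_le]
    refine (fac _ (mul_mem (mul_mem hτ.2 (aj (mem_zpowers a))) (inv_mem hτ.2))).resolve_right ?_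
    rintro ⟨u, hu, e⟩
    rw [cz_inv τ2, mul_left_inj] at e
    exact cz_ne τ2 (h.reg' (by simpa [← e] using mul_mem hu (inv_mem (mem_zpowers a))) hτ.1.1))
  have hc : zpowers a ⊓ C[τ] = zpowers j := le_antisymm (fun u hu => by
    have k : τ • u • x = u • x := by rw [← mul_smul, ← mem_cent1.1 hu.2, mul_smul, show τ • x = x from hτ.1.1]
    by_cases e : u • x = x
    · rw [h.reg' hu.1 e]; exact one_mem _
    by_cases e' : u • x = j • x
    · have : j⁻¹ * u = 1 := h.reg' (mul_mem (inv_mem h.jm) hu.1) (by rw [mul_smul, e', inv_smul_smul])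
      rw [← inv_mul_eq_one.1 this]; exact mem_zpowers j
    exact absurd (h.sharp hp hn (h.jne x) e e' hτ.1.1 hτ.1.2 k) (cz_ne τ2))
    (zpowers_le.2 ⟨h.jm, mem_cent1_symm.1 hτ.2⟩)
  obtain ⟨R, r1, r2, r3⟩ := cz_comm (comm_zpowers a) τn
  rw [hc, Nat.card_zpowers j, h.j2, ← card_mul_relIndex r1, mul_comm] at r3
  have hI := eq_of_prime_index (K := czInv (comm_zpowers a) τ) (fun u hu => ⟨r1 hu, by
    obtain ⟨v, hv, rfl⟩ := (r2 u).1 hu
    rw [cz_inv τ2]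
    calc τ * (v * (τ * v⁻¹ * τ)) * τ = τ * v * τ * v⁻¹ * (τ * τ) := by group
      _ = (v * (τ⁻¹ * v⁻¹ * τ⁻¹))⁻¹ := by rw [cz_sq τ2]; group
      _ = _ := by rw [cz_inv τ2]⟩) (fun u hu => hu.1)
    (Nat.eq_of_mul_eq_mul_right (card_pos R) r3 ▸ Nat.prime_two)
  obtain ⟨u, hu, rfl⟩ := (fac g hg).resolve_left ha
  rcases hI with hI | hI
  · exfalso
    have iso : IsIsolatedInvolution j := ⟨h.j2, fun k hk => by
      have k2 := (orderOf_conj' k j).trans h.j2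
      rcases fac _ (mem_cent1.2 hk.symm) with e | ⟨v, hv, e⟩
      · exact cz_uniq (cyc_zpowers a) e h.jm k2 h.j2
      · have hv' : v ∈ R := hI ▸ (⟨hv, by
          have := cz_sq k2
          rw [e] at this
          rw [cz_inv τ2, eq_inv_iff_mul_eq_one, ← mul_eq_one_comm, ← this]; group⟩ :
            v ∈ czInv (comm_zpowers a) τ)
        obtain ⟨w, -, rfl⟩ := (r2 v).1 hv'
        have k3 := cz_fix_conj w (show τ • x = x from hτ.1.1)
        rw [show w * τ * w⁻¹ = k * j * k⁻¹ by rw [e]; group, mul_smul, mul_smul, ← eq_inv_smul_iff] at k3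
        exact absurd k3 (h.jne _)⟩
    have hz := H7.zstar_mem_center h.odd_core iso
    obtain ⟨z, z1, z2⟩ := h.third x (j • x)
    obtain ⟨k, k1, k2⟩ := h.two x (j • x) z (h.jne x) z1
    rw [← mul_smul, mem_center_iff.1 hz k, mul_smul, k1] at k2
    exact z2 k2.symm
  · have := (hI.ge hu).2
    rw [cz_inv τ2] at this
    rw [mul_assoc, ← mul_assoc τ, this, mul_inv_cancel]

end St
end H7.CZ
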