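/-
Products of a cyclic group and a `Z`-group, part 5: the induction on the degree.
-/
import Cfsg.Agent.H7.CZ4

set_option autoImplicit false
set_option linter.style.haveILetI false

namespace H7.CZ
open Cfsg Subgroup H19 MulAction

theorem cz_card_pre {G R : Type*} [Group G] [Finite G] [Group R] {D : Subgroup G} {f : D →* R}
    (hf : Function.Surjective f) (X : Subgroup R) : #(pre f X) = #(pre f ⊥) * #X := by
  rw [← card_mul_relIndex (pre_mono bot_le : pre f ⊥ ≤ pre f X), pre, pre,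
    relIndex_map_map_of_injective _ _ (subtype_injective _), relIndex_comap,
    map_comap_eq_self_of_surjective hf, relIndex_bot_left]

/-- the fixed points of `t` -/
abbrev Fx (Ω : Type*) {G : Type*} [Group G] [MulAction G Ω] (t : G) := {x : Ω // t • x = x}

instance czFxAct {G Ω : Type*} [Group G] [MulAction G Ω] (t : G) : MulAction C[t] (Fx Ω t) where
  smul g x := ⟨(g : G) • x.1, by rw [← mul_smul, ← mem_cent1.1 g.2, mul_smul, x.2]⟩
  one_smul x := Subtype.ext (one_smul G x.1)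
  mul_smul g k x := Subtype.ext (mul_smul (g : G) (k : G) x.1)

/-- the group induced on them -/
abbrev Gb (Ω : Type*) {G : Type*} [Group G] [MulAction G Ω] (t : G) :=
  (toPermHom C[t] (Fx Ω t)).range

/-- the restriction map -/
def fb (Ω : Type*) {G : Type*} [Group G] [MulAction G Ω] (t : G) : C[t] →* Gb Ω t :=
  (toPermHom C[t] (Fx Ω t)).rangeRestrict

variable {G Ω : Type*} [Group G] [MulAction G Ω] {a j g s t u : G} {x y z w : Ω}

theorem fb_surj : Function.Surjective (fb Ω t) := MonoidHom.rangeRestrict_surjective _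

instance czGbFin [Finite G] : Finite (Gb Ω t) := Finite.of_surjective _ fb_surj

theorem fb_smul (g : C[t]) (x y : Fx Ω t) : fb Ω t g • x = y ↔ (g : G) • x.1 = y.1 := Subtype.ext_iff

theorem fb_one (g : C[t]) : fb Ω t g = 1 ↔ ∀ x : Ω, t • x = x → (g : G) • x = x :=
  ⟨fun h x hx => (fb_smul g ⟨x, hx⟩ ⟨x, hx⟩).1 (by rw [h, one_smul]),
    fun h => Subtype.ext (Equiv.ext fun x => Subtype.ext (h x.1 x.2))⟩

theorem mem_K1 : g ∈ pre (fb Ω t) ⊥ ↔ g ∈ C[t] ∧ ∀ x : Ω, t • x = x → g • x = x :=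
  mem_pre.trans ⟨fun ⟨h, k⟩ => ⟨h, (fb_one _).1 k⟩, fun ⟨h, k⟩ => ⟨h, (fb_one ⟨g, h⟩).2 k⟩⟩

theorem card_Fx : Nat.card (Fx Ω t) = fx Ω t := rfl

namespace St
variable (h : St G Ω a j) [Finite G]
include h

theorem cycT (t2 : orderOf t = 2) (hj : j ∈ C[t]) (hx : t • x = x) (hy : t • y = y) :
    ∃ u ∈ zpowers a ⊓ C[t], u • x = y := by
  obtain ⟨u, hu, rfl⟩ := h.cyc x y
  have k : ∀ z : Ω, t • z = z → t • j • z = j • z := fun z hz => by
    rw [← mul_smul, ← mem_cent1.1 hj, mul_smul, hz]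
  exact ⟨u, ⟨hu, h.cent_of (h.jne x) ⟨hx, k x hx⟩ t2 hy (by
    rw [← mul_smul u, cz_zp hu h.jm, mul_smul, k _ hy])⟩, rfl⟩

theorem sub (t2 : orderOf t = 2) (hj : j ∈ C[t]) (hf : 2 < fx Ω t) {a0 : C[t]}
    (h0 : zpowers (a0 : G) = zpowers a ⊓ C[t]) : St (Gb Ω t) (Fx Ω t) (fb Ω t a0) (fb Ω t ⟨j, hj⟩) where
  faith g hg := Subtype.ext (Equiv.ext hg)
  two x y z hy hz := by
    obtain ⟨g, e1, e2⟩ := h.two x.1 y.1 z.1 (fun e => hy (Subtype.ext e)) fun e => hz (Subtype.ext e)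
    have hg : g ∈ C[t] := h.cent_of (fun e => hy (Subtype.ext e)) ⟨x.2, y.2⟩ t2 (by rw [e1, x.2])
      (by rw [e2, z.2])
    exact ⟨fb Ω t ⟨g, hg⟩, (fb_smul _ _ _).2 e1, (fb_smul _ _ _).2 e2⟩
  cyc x y := by
    obtain ⟨u, hu, e⟩ := h.cycT t2 hj x.2 y.2
    exact ⟨fb Ω t ⟨u, hu.2⟩, im_zpowers (f := fb Ω t) a0 ▸ mem_im_of (h0 ▸ hu), (fb_smul _ _ _).2 e⟩
  zg x := by
    have k : IsZGroup ↥(stabilizer G x.1 ⊓ C[t]) := zgroup_mono (h.zg x.1) inf_le_left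
    have k2 := IsZGroup.of_surjective (imHom_surj (fb Ω t) (inf_le_right : stabilizer G x.1 ⊓ C[t] ≤ _))
    refine zgroup_mono k2 fun g hg => ?_
    obtain ⟨g, rfl⟩ := fb_surj g
    exact mem_im_of ⟨(fb_smul _ _ _).1 hg, g.2⟩
  jm := im_zpowers (f := fb Ω t) a0 ▸ mem_im_of (h0 ▸ ⟨h.jm, hj⟩)
  j2 := cz_ord (by
      rw [← map_mul, show (⟨j, hj⟩ * ⟨j, hj⟩ : C[t]) = 1 from Subtype.ext (cz_sq h.j2), map_one]) fun e => by
    obtain ⟨x, hx⟩ := Set.nonempty_of_ncard_ne_zero (show fx Ω t ≠ 0 by omega)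
    exact h.jne x ((fb_one _).1 e x hx)
  lt := hf

/-- the kernel of the action on the fixed points of `t` is centralized by `C(t)` -/
theorem K1_cent (t2 : orderOf t = 2) (hf : 2 < fx Ω t) (hg : g ∈ C[t]) :
    g ∈ C(pre (fb Ω t) ⊥) := by
  have := h.fin
  have th : ∀ x y : Ω, ∃ z, t • z = z ∧ z ≠ x ∧ z ≠ y := fun x y => by
    by_contra c
    have : {z | t • z = z} ⊆ {x, y} := fun z hz => by
      by_contra k
      exact c ⟨z, hz, fun e => k (Or.inl e), fun e => k (Or.inr e)⟩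
    have h1 := Set.ncard_le_ncard this (Set.toFinite _)
    have h2 := Set.ncard_insert_le x ({y} : Set Ω)
    rw [Set.ncard_singleton] at h2
    unfold fx at hf
    omega
  have k : ∀ g ∈ C[t], ∀ z : Ω, t • z = z → g • z = z → g ∈ C(pre (fb Ω t) ⊥) := fun g hg z hz e =>
    mem_cent.2 fun v hv => by
      obtain ⟨F, -, -, h3, -, h5⟩ := h.exF z
      obtain ⟨y, y1, y2, -⟩ := th z z
      have v' := mem_K1.1 hv
      refine commutatorElement_eq_one_iff_mul_comm.1 (h5 _ (h3 (commutator_mem_commutator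
        (v'.2 z hz) e)) y y2 ?_)
      have k : t • g⁻¹ • y = g⁻¹ • y := by rw [← mul_smul, ← mem_cent1.1 (inv_mem hg), mul_smul, y1]
      rw [commutatorElement_def, mul_smul, mul_smul, mul_smul, inv_smul_eq_iff.2 (v'.2 _ k).symm,
        smul_inv_smul, v'.2 y y1]
  obtain ⟨x, hx⟩ : ∃ x : Ω, t • x = x := Set.nonempty_of_ncard_ne_zero (show fx Ω t ≠ 0 by omega)
  obtain ⟨z, z1, z2, z3⟩ := th x (g • x)
  obtain ⟨u, u1, u2⟩ := h.two z x (g • x) z2.symm z3.symm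
  have hu : u ∈ C[t] := h.cent_of z2.symm ⟨z1, hx⟩ t2 (by rw [u1, z1])
    (by rw [u2, ← mul_smul, ← mem_cent1.1 hg, mul_smul, hx])
  have := mul_mem (k u hu z z1 u1) (k (u⁻¹ * g) (mul_mem (inv_mem hu) hg) x hx
    (by rw [mul_smul, ← u2, inv_smul_smul]))
  rwa [mul_inv_cancel_left] at this

end St

universe u

theorem main_aux (n : ℕ) : ∀ (G Ω : Type u) [Group G] [Finite G] [MulAction G Ω] (a j : G),
    Nat.card Ω < n → St G Ω a j → ∀ x : Ω, QQ G j x := by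
  induction n with
  | zero => exact fun _ _ _ _ _ _ _ h => absurd h (Nat.not_lt_zero _)
  | succ n ih => ?_
  intro G Ω _ _ _ a j hn h x
  have := h.fin
  have lt := h.lt
  obtain ⟨t, ht, t2⟩ := h.exInv (h.jne x)
  have hj := h.jcent ht t2
  have tT : t ∈ TT G Ω := ⟨t2, x, ht.1⟩
  obtain ⟨F, h1, h2, h3, h4, h5⟩ := h.exF x
  have Fd := h.F_dvd h1 h3 h5
  have ho : Odd #F := Odd.of_dvd_nat (by
    obtain ⟨k, hk⟩ := h.ev x
    exact ⟨k - 1, by omega⟩) Fd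
  obtain ⟨D, d1, d2, d3, d4⟩ := h.NN_self h1 h2 h3 ho ht.1 t2
  obtain ⟨R, r1, r2, r3, r4⟩ := h.NN_swap x
  have c1 := h.count1 tT x
  have c2 := h.count tT (h.jne x)
  rw [d4] at c1 c2
  rw [r4] at c2
  have tK : t ∈ DD G x (j • x) ⊓ C[j] := ⟨ht, mem_cent1_symm.1 hj⟩
  have ip := card_pos R
  have cd : #(F ⊓ C[t]) ∣ fx Ω t - 1 := by
    rw [d2, ← c1, mul_comm] at Fd
    exact Nat.dvd_of_mul_dvd_mul_left (card_pos D) Fd
  obtain ⟨e, he⟩ : ∃ e, fx Ω t = e + 1 := ⟨fx Ω t - 1, by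
    rcases Nat.eq_zero_or_pos (fx Ω t) with e | e
    · rw [e] at c1; omega
    · omega⟩
  rw [he, Nat.add_sub_cancel] at c1 cd
  have ep : 0 < e := Nat.pos_of_ne_zero fun k => by rw [k] at c1; omega
  by_cases c : #(F ⊓ C[t]) = 1
  · have k1 := cz_tot h1 (norms_of_der_le h3 h1) h2 h4
    rw [c, one_mul] at d2
    rw [h.cardB (h.jne x), d2, ← c1, r3, mul_left_comm] at k1
    have k2 := Nat.le_of_mul_le_mul_left k1 (card_pos D)
    have k3 : 2 ≤ #(DD G x (j • x) ⊓ C[j]) := Nat.le_of_dvd (card_pos _) (t2 ▸ orderOf_dvd_card' tK)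
    rw [he] at c2
    have k4 := Nat.totient_lt #D (by nlinarith)
    have k5 : 2 * #R * e ≤ #(DD G x (j • x) ⊓ C[j]) * #R * e := by gcongr
    have e1 : e = 1 := by nlinarith
    subst e1
    refine ⟨#D, (Nat.totient_eq_iff_prime (card_pos D)).1 (by omega), by omega, by omega, ?_⟩
    exact Nat.eq_of_mul_eq_mul_right ip (by omega)
  exfalso
  have hf : 2 < fx Ω t := by
    have := Nat.le_of_dvd ep cd
    have := card_pos (F ⊓ C[t])
    omega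
  have fn : fx Ω t < n := by
    refine lt_of_lt_of_le ?_ (Nat.le_of_lt_succ hn)
    rw [← Set.ncard_univ]
    exact Set.ncard_lt_ncard (Set.ssubset_univ_iff.2 fun e => cz_ne t2 (h.faith t
      (Set.eq_univ_iff_forall.1 e))) (Set.toFinite _)
  obtain ⟨a0, h0⟩ := cyc_iff.1 (cyc_mono (cyc_zpowers a) (inf_le_left : zpowers a ⊓ C[t] ≤ _))
  have a0m : a0 ∈ zpowers a ⊓ C[t] := h0 ▸ mem_zpowers a0
  have hb := h.sub t2 hj hf (a0 := ⟨a0, a0m.2⟩) h0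
  have hQ := ih _ (Fx Ω t) _ _ fn hb ⟨x, ht.1⟩
  have inv := fun g => hb.invt (g := g) hQ
  obtain ⟨p, hp, q1, q2, q3⟩ := hQ
  rw [card_Fx, he, Nat.add_right_cancel_iff] at q1
  subst q1
  have cp : #(F ⊓ C[t]) = e := ((Nat.dvd_prime hp).1 cd).resolve_left c
  have Ht : DD G x (j • x) ≤ C[t] := fun g hg =>
    mem_cent1.2 (mul_comm_of_comm (comm_of_cyclic (h.cycD (h.jne x))) hg ht)
  have eH : pre (fb Ω t) (DD (Gb Ω t) (⟨x, ht.1⟩ : Fx Ω t) (fb Ω t ⟨j, hj⟩ • ⟨x, ht.1⟩)) =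
      DD G x (j • x) := by
    ext g
    exact mem_pre.trans ⟨fun ⟨_, k⟩ => ⟨(fb_smul _ _ _).1 k.1, (fb_smul _ _ _).1 k.2⟩,
      fun k => ⟨Ht k, (fb_smul _ _ _).2 k.1, (fb_smul _ _ _).2 k.2⟩⟩
  have k1 := cz_card_pre fb_surj (DD (Gb Ω t) (⟨x, ht.1⟩ : Fx Ω t) (fb Ω t ⟨j, hj⟩ • ⟨x, ht.1⟩))
  have k2 := cz_card_pre fb_surj (DD (Gb Ω t) (⟨x, ht.1⟩ : Fx Ω t) (fb Ω t ⟨j, hj⟩ • ⟨x, ht.1⟩) ⊓
    C[fb Ω t ⟨j, hj⟩])
  rw [eH, q2] at k1
  rw [pre_inf, eH, q3] at k2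
  have K1H : pre (fb Ω t) ⊥ ≤ DD G x (j • x) := eH ▸ pre_mono bot_le
  have K1K : pre (fb Ω t) ⊥ ≤ DD G x (j • x) ⊓ C[j] :=
    le_inf K1H (le_cent1_iff.2 (h.K1_cent t2 hf hj))
  have KL : DD G x (j • x) ⊓ C[j] ≤ DD G x (j • x) ⊓ pre (fb Ω t) C[fb Ω t ⟨j, hj⟩] :=
    fun g hg => ⟨hg.1, mem_pre.2 ⟨Ht hg.1, mem_cent1.2 (by
      rw [← map_mul, ← map_mul]; exact congrArg _ (Subtype.ext (mem_cent1.1 hg.2)))⟩⟩
  have ri : (pre (fb Ω t) ⊥).relIndex (DD G x (j • x) ⊓ pre (fb Ω t) C[fb Ω t ⟨j, hj⟩]) = 2 :=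
    Nat.eq_of_mul_eq_mul_left (card_pos _) ((card_mul_relIndex (K1K.trans KL)).trans k2)
  rcases eq_of_prime_index K1K KL (ri ▸ Nat.prime_two) with eK | eK
  · rw [eK, k1] at r3
    have k3 := Nat.eq_of_mul_eq_mul_left (card_pos _) r3
    refine cz_meet h2 d1 (inf_le_left : F ⊓ C[t] ≤ F) hp ⟨e, ?_⟩ cp.symm.dvd
      (H19.eq_bot_mono (inf_le_inf_left _ inf_le_right) d3)
    rw [c2, he, ← k3]
    have := hp.pos
    obtain ⟨m, rfl⟩ : ∃ m, e = m + 1 := ⟨e - 1, by omega⟩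
    simp only [Nat.add_sub_cancel]; ring
  have tK1 : t ∈ pre (fb Ω t) ⊥ := mem_K1.2 ⟨mem_cent1_self t, fun _ k => k⟩
  rw [eK, k2, k1, mul_assoc] at r3
  have k3 := Nat.eq_of_mul_eq_mul_left (card_pos _) r3
  have io : ¬ 2 ∣ #R := fun k => by
    obtain ⟨s, hs, s2⟩ := exists_orderOf_eq_prime Nat.prime_two k
    rw [h.uniq (h.jne x) (r1 hs) ht s2 t2] at hs
    obtain ⟨v, hv, e⟩ := (r2 t).1 hs
    have : v ∈ DD G x (j • x) ⊓ C[j] := eK ▸ ⟨hv, mem_pre.2 ⟨Ht hv, mem_cent1.2 (by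
      have k := (mem_pre.1 tK1).2
      rw [mem_bot, show (⟨t, _⟩ : C[t]) = ⟨v, Ht hv⟩ * (⟨j, hj⟩ * ⟨v, Ht hv⟩⁻¹ * ⟨j, hj⟩⁻¹) from
        Subtype.ext e, map_mul, map_mul, map_mul, map_inv, map_inv] at k
      exact commutatorElement_eq_one_iff_mul_comm.1 (by rw [← k, commutatorElement_def]; group))⟩⟩
    refine cz_ne t2 (e.trans ?_)
    rw [← mem_cent1.1 (inv_mem this.2)]; group
  have aj : zpowers a ≤ C[j] := fun u hu => mem_cent1.2 (cz_zp hu h.jm)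
  obtain ⟨S, X, Y, hS, hX, hY, xS, yS, fac⟩ := cz_sylfac 2 aj inf_le_right fun g => h.cent_fac x
  have nX : ¬ X ≤ C[t] := fun k => hX.not_dvd_relIndex Nat.prime_two k (by
    have k4 := cz_card_orb (zpowers a ⊓ C[t]) x
    rw [show zpowers a ⊓ C[t] ⊓ stabilizer G x = ⊥ from
      (Subgroup.eq_bot_iff_forall _).2 fun g hg => h.reg' hg.1.1 hg.2, card_bot, one_mul,
      show {y | ∃ g ∈ zpowers a ⊓ C[t], g • x = y} = {y | t • y = y} from Set.ext fun y =>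
        ⟨fun ⟨g, g1, g2⟩ => show t • y = y by
          rw [← g2, ← mul_smul, ← mem_cent1.1 g1.2, mul_smul, show t • x = x from ht.1],
          h.cycT t2 hj ht.1⟩] at k4
    have k5 := card_inf_mul_relIndex C[t] (zpowers a)
    rw [inf_comm, k4, Nat.card_zpowers, h.ord x] at k5
    change fx Ω t * _ = _ at k5
    have k6 : (C[t]).relIndex (zpowers a) = #R * e + 1 :=
      Nat.eq_of_mul_eq_mul_left (show 0 < fx Ω t by omega) (by
        rw [k5, show Nat.card Ω = #D * e + 1 by omega, c2, he]; ring)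
    rw [k6]
    obtain ⟨m, hm⟩ : Odd #R := Nat.not_even_iff_odd.1 fun k => io k.two_dvd
    rw [show e = 2 * #R + 1 by omega, hm]
    exact ⟨2 * (2 * m + 1) * m + (2 * m + 1) + m + 1, by ring⟩)
  have nY : ¬ Y ≤ pre (fb Ω t) ⊥ := fun k => hY.not_dvd_relIndex Nat.prime_two k (by rw [eK, ri])
  have Yt : Y ≤ S ⊓ C[t] := le_inf yS (hY.le.trans (inf_le_left.trans Ht))
  obtain ⟨g, hg, gn⟩ := SetLike.exists_of_lt (hS.pi.lt_norm (lt_of_le_of_ne
    (inf_le_left : S ⊓ C[t] ≤ S) fun e => nX (xS.trans (e.ge.trans inf_le_right))))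
  obtain ⟨a1, ha1, k, hk, rfl⟩ := fac g hg.1
  have n1 : a1 ∈ N(S ⊓ C[t]) := by
    simpa using N(S ⊓ C[t]).mul_mem hg.2 (N(S ⊓ C[t]).inv_mem (le_normalizer (Yt hk)))
  have n2 : a1 ∉ C[t] := fun e => gn ⟨hg.1, mul_mem e (Yt hk).2⟩
  obtain ⟨b, rfl⟩ := cyc_iff.1 (cyc_mono (h.cycD (h.jne x)) (hY.le.trans inf_le_left))
  have bK := hY.le (mem_zpowers b)
  have b1 : b ∉ pre (fb Ω t) ⊥ := fun e => nY (zpowers_le.2 e)
  have b' := conj_mem_of_norm n1 (Yt (mem_zpowers b))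
  by_cases cb : fb Ω t ⟨_, b'.2⟩ ∈ zpowers (fb Ω t ⟨a0, a0m.2⟩)
  · rw [← im_zpowers] at cb
    obtain ⟨u, hu, e⟩ := cb
    have k4 : (u : G)⁻¹ * (a1 * b * a1⁻¹) ∈ pre (fb Ω t) ⊥ :=
      (coe_mem_pre (x := u⁻¹ * ⟨_, b'.2⟩)).2 (by rw [map_mul, map_inv, e, inv_mul_cancel]; exact one_mem _)
    have k5 : a1 * b * a1⁻¹ ∈ C[a0] := by
      simpa using mul_mem (mem_cent1.2 (cz_zp hu (mem_zpowers a0)))
        (le_cent1_iff.2 (h.K1_cent t2 hf a0m.2) k4)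
    have k6 : a1 ∈ C[a0] := mem_cent1.2 (cz_zp (hX.le ha1) a0m.1)
    have k7 : b ∈ C[a0] := by simpa [mul_assoc] using mul_mem (mul_mem (inv_mem k6) k5) k6
    refine b1 (mem_pre.2 ⟨Ht bK.1, hb.reg (x := ⟨x, ht.1⟩) ?_
      ((fb_smul ⟨b, Ht bK.1⟩ ⟨x, ht.1⟩ ⟨x, ht.1⟩).2 bK.1.1)⟩)
    rw [← map_mul, ← map_mul]; exact congrArg _ (Subtype.ext (mem_cent1.1 k7))
  · have k4 := inv _ (mem_cent1.2 (by
      rw [← map_mul, ← map_mul]; exact congrArg _ (Subtype.ext (mem_cent1.1 (hS.le b'.1))))) cb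
    rw [← map_mul] at k4
    have k5 : a1 * (b * b) * a1⁻¹ ∈ pre (fb Ω t) ⊥ := by
      have := coe_mem_pre.2 (mem_bot.2 k4)
      rwa [coe_mul, conj_mul] at this
    have k6 : b * b ∈ pre (fb Ω t) ⊥ := by
      have : ((pre (fb Ω t) ⊥).subgroupOf (DD G x (j • x) ⊓ C[j])).index = 2 := by
        rw [← relIndex, eK, ri]
      exact mul_self_mem_of_index_two this ⟨b, bK⟩
    have tb : t ∈ zpowers b := hY.mem_of_normal
      (norms_of_comm (comm_of_cyclic (h.cycD (h.jne x))) inf_le_left (hY.le.trans inf_le_left)) tK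
      (piG_zpowers.1 (PiN.of_card Nat.prime_two (by rw [Nat.card_zpowers, t2])))
    obtain ⟨m, hm⟩ := tb
    have tb2 : t ∈ zpowers (b * b) := by
      obtain ⟨l, rfl | rfl⟩ := Int.even_or_odd' m
      · exact ⟨l, by rw [← hm, ← zpow_two]; exact (zpow_mul b 2 l).symm⟩
      · refine absurd ?_ b1
        have e : t = (b * b) ^ l * b := by rw [← hm, ← zpow_two, ← zpow_mul, ← zpow_add_one]
        exact (mul_mem_cancel_left (zpow_mem k6 l)).1 (e ▸ tK1)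
    have k7 : a1 * t * a1⁻¹ ∈ pre (fb Ω t) ⊥ :=
      zpowers_le.2 k5 (cj_zpowers a1 (b * b) ▸ conj_mem_cj.2 tb2)
    refine n2 (mem_cent1.2 ?_)
    rw [← mul_inv_eq_iff_eq_mul]
    exact h.uniq (h.jne x) (K1H k7) ht ((orderOf_conj' a1 t).trans t2) t2

theorem St.qq {G Ω : Type u} [Group G] [Finite G] [MulAction G Ω] {a j : G} (h : St G Ω a j)
    (x : Ω) : QQ G j x := main_aux _ G Ω a j (Nat.lt_succ_self _) h x

end H7.CZ
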