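/-
Products of a cyclic group and a `Z`-group, part 6: the reduction to the primitive case.
-/
import Cfsg.Agent.H7.CZ5
import Cfsg.Agent.S0730
import Cfsg.Agent.S0225
import Cfsg.Agent.H24.SRing
import Cfsg.Agent.H20.FT
import Cfsg.Agent.H19.BI1
import Cfsg.Agent.H5.Burnside

set_option autoImplicit false
set_option linter.style.haveILetI false

namespace H7.CZ
open Cfsg Subgroup H19 MulAction

universe u
variable {G : Type u} [Group G] [Finite G] {A B E K M P T X Y : Subgroup G} {a : G} {p : ℕ}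

theorem cz_exp2 (h : Cyc E) (h2 : ∀ x ∈ E, x * x = 1) : #E ≤ 2 := by
  obtain ⟨x, rfl⟩ := cyc_iff.1 h
  rw [Nat.card_zpowers]
  exact orderOf_le_of_pow_eq_one two_pos (by rw [pow_two, h2 x (mem_zpowers x)])

theorem cz_meta (h : IsMetacyclic G) (h2 : ∀ x ∈ E, x * x = 1) : #E ≤ 4 := by
  obtain ⟨N, _, h3, h4⟩ := h
  have k1 := cz_exp2 (cyc_mono h3 (inf_le_left : N ⊓ E ≤ N)) fun x hx => h2 x hx.2
  have k2 := cz_exp2 (E := E.map (QuotientGroup.mk' N)) inferInstance (by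
    rintro _ ⟨x, hx, rfl⟩
    rw [← map_mul, h2 x hx, map_one])
  rw [← relIndex_ker, QuotientGroup.ker_mk'] at k2
  rw [← card_inf_mul_relIndex N E]
  exact Nat.mul_le_mul k1 k2

theorem cz_bic {x y : G} (h : BI.Bic x y) (hG : IsPGroup 2 G) (h2 : ∀ x ∈ E, x * x = 1) :
    #E ≤ 8 := by
  haveI : Fact (Nat.Prime 2) := ⟨Nat.prime_two⟩
  by_cases e : zpowers x = ⊤
  · exact (cz_exp2 (cyc_mono (cyc_zpowers x) (e ▸ le_top)) h2).trans (by decide)
  obtain ⟨M, hM, k⟩ := mmax_exists e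
  have hi := H4.index_of_coatom hG hM
  have k1 := cz_meta (E := E.subgroupOf M) (h.mc hG hi (k (mem_zpowers x)))
    fun x hx => Subtype.ext (h2 x hx)
  have k2 : M.relIndex E ≤ 2 := by
    rw [← hi, ← relIndex_top_right]
    exact relIndex_le_of_le_right le_top (relIndex_ne_zero' _ _)
  rw [card_subgroupOf, inf_comm] at k1
  rw [← card_inf_mul_relIndex M E]
  exact Nat.mul_le_mul k1 k2

theorem cz_E16 (hB : IsZGroup B) (hAB : ∀ g : G, ∃ u ∈ zpowers a, ∃ b ∈ B, g = u * b)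
    (h2 : ∀ x ∈ E, x * x = 1) : #E ≤ 8 := by
  obtain ⟨P, X, Y, hP, hX, hY, xP, yP, fac⟩ := cz_sylfac 2 le_top le_top fun g _ => hAB g
  obtain ⟨x, rfl⟩ := cyc_iff.1 (cyc_mono (cyc_zpowers a) hX.le)
  obtain ⟨y, rfl⟩ := cyc_iff.1 (zgroup_iff.1 hB 2 Y hY.pi hY.le)
  obtain ⟨g, -, e⟩ := hP.scj_le (le_top : E ≤ ⊤)
    (pg_of_pow Nat.prime_two fun x hx => by rw [pow_two, h2 x hx])
  have := cz_bic (E := (cj g E).subgroupOf P) (x := ⟨x, xP (mem_zpowers x)⟩)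
    (y := ⟨y, yP (mem_zpowers y)⟩) (fun k => by
      obtain ⟨_, ⟨m, rfl⟩, _, ⟨n, rfl⟩, e⟩ := fac k k.2
      exact ⟨_, ⟨m, rfl⟩, _, ⟨n, rfl⟩, Subtype.ext e⟩) hP.pi.isPGroup fun x hx => by
      obtain ⟨y, hy, e⟩ := mem_cj'.1 hx
      refine Subtype.ext ?_
      rw [coe_mul, ← show g * y * g⁻¹ = x from e, conj_mul, h2 y hy, mul_one, mul_inv_cancel, coe_one]
  rwa [card_subgroupOf' e, ← Nat.card_congr (cjEquiv g E).toEquiv] at this

theorem cz_sol_bot (hK : Fit K = ⊥) (h : X ⊴ K) (hs : Sol X) : X = ⊥ :=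
  by_contra fun c => Fit_ne_bot hs c (H19.eq_bot_mono (Fit_le_Fit h) hK)

theorem cz_klein (hK : Fit K = ⊥) (h1 : K ≠ ⊥) : ∃ E ≤ K, #E = 4 ∧ ∀ x ∈ E, x * x = 1 := by
  by_contra c
  obtain ⟨z, z2, N, hN, ho, k⟩ := Cfsg.Agent.S0225.result (G := K) (Nat.not_odd_iff_even.1 fun ho =>
    h1 (cz_sol_bot hK (NormalIn.refl K) (H20.odd_solvable K ho))) fun E hE =>
      c ⟨E.map K.subtype, map_subtype_le E, by rw [card_subtype, hE.card_four], by
        rintro _ ⟨x, hx, rfl⟩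
        have := Monoid.pow_exponent_eq_one (⟨x, hx⟩ : E)
        rw [hE.exponent_two, pow_two] at this
        exact congrArg (fun y : E => ((y : K) : G)) this⟩
  have e := cz_sol_bot hK (normalIn_map_subtype N) (H20.odd_solvable _ (by rwa [card_subtype]))
  rw [map_eq_bot_iff_of_injective _ K.subtype_injective] at e
  have := cz_sol_bot hK (normal_of_le_center (zpowers_le.2 ⟨z.2, mem_cent.2 fun g hg => by
    have := k ⟨g, hg⟩
    rw [e, mem_bot] at this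
    exact (congrArg Subtype.val (commutatorElement_eq_one_iff_mul_comm.1 this)).symm⟩)) (sol_zpowers (z : G))
  exact cz_ne z2 (Subtype.ext (zpowers_eq_bot.1 this))

theorem cz_two_comm (hB : IsZGroup B) (hAB : ∀ g : G, ∃ u ∈ zpowers a, ∃ b ∈ B, g = u * b)
    (hX : Fit X = ⊥) (hY : Fit Y = ⊥) (x1 : X ≠ ⊥) (y1 : Y ≠ ⊥) (h : X ≤ C(Y)) : False := by
  obtain ⟨E, e1, e2, e3⟩ := cz_klein hX x1
  obtain ⟨F, f1, f2, f3⟩ := cz_klein hY y1
  have hc := cents_mono h e1 f1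
  have := cz_E16 (E := E ⊔ F) hB hAB fun x hx => by
    obtain ⟨u, hu, v, hv, rfl⟩ := (mem_sup_of_norm' (norms_of_cents hc)).1 hx
    rw [mul_assoc, ← mul_assoc v, mem_cent.1 (hc hu) v hv, mul_assoc, f3 v hv, mul_one, e3 u hu]
  rw [card_sup_of_disjoint (norms_of_cents (cents_symm hc)) (H19.eq_bot_mono
    (le_inf (inf_le_right.trans f1) (inf_le_left.trans (e1.trans h)) |>.trans (center_le_Fit Y)) hY),
    e2, f2] at this
  omega

/-- conjugation on the Sylow subgroups of a normal subgroup -/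
@[reducible] def czSylAct (p : ℕ) (hT : T ⊴ ⊤) : MulAction G {Q : Subgroup G // Syl p Q T} where
  smul g Q := ⟨cj g Q.1, Q.2.Jnorm (hT.norm (mem_top g))⟩
  one_smul Q := Subtype.ext (cj_of_mem (one_mem Q.1))
  mul_smul g k Q := Subtype.ext (cj_mul g k Q.1)

theorem cz_selfcent (hp : p.Prime) (hT : T ⊴ ⊤) (hmin : ∀ N : Subgroup G, N ⊴ ⊤ → N ≠ ⊥ → T ≤ N)
    (hP : Syl p P T) (hc : #P = p) (hn : ¬ T ≤ N(P)) (hi : (N(P)).relIndex T ≤ p + 1) :
    C(P) ≤ P := by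
  letI := czSylAct p hT
  have st : ∀ Q : {Q : Subgroup G // Syl p Q T}, stabilizer G Q = N(Q.1) := fun Q =>
    Subgroup.ext fun g => Subtype.ext_iff.trans mem_norm_iff_cj.symm
  have k1 := cz_card_orb T (⟨P, hP⟩ : {Q : Subgroup G // Syl p Q T})
  rw [st, show {y | ∃ g ∈ T, g • (⟨P, hP⟩ : {Q : Subgroup G // Syl p Q T}) = y} = Set.univ from
    Set.eq_univ_of_forall fun Q => (hP.sconj Q.2).imp fun g e => ⟨e.1, Subtype.ext e.2⟩,
    Set.ncard_univ, inf_comm, ← card_inf_mul_relIndex N(P) T] at k1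
  rw [Nat.eq_of_mul_eq_mul_left (card_pos _) k1] at hi
  obtain ⟨t, -, ht⟩ := SetLike.not_le_iff_exists.1 hn
  rw [← st ⟨P, hP⟩, mem_stabilizer_iff] at ht
  have fixP : ∀ g ∈ N(P), g • (⟨P, hP⟩ : {Q : Subgroup G // Syl p Q T}) = ⟨P, hP⟩ := fun g hg =>
    show g ∈ stabilizer G _ from (st ⟨P, hP⟩).symm ▸ hg
  generalize t • (⟨P, hP⟩ : {Q : Subgroup G // Syl p Q T}) = Q at ht
  have k2 := cz_card_orb P Q
  rw [st, inf_eq_bot_of_prime (hc ▸ hp) fun k => ht (Subtype.ext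
    (hP.eq_of_le Q.2 (Q.2.le_of_norm hP.le hP.pi k)).symm), card_bot, one_mul, hc] at k2
  have ne : ∀ g ∈ N(P), g • Q ≠ ⟨P, hP⟩ := fun g hg e =>
    ht (smul_left_cancel g (e.trans (fixP g hg).symm))
  have e : {R | ∃ u ∈ P, u • Q = R} = {⟨P, hP⟩}ᶜ := Set.eq_of_subset_of_ncard_le
    (fun R ⟨u, k1, k2⟩ => k2 ▸ ne u (le_normalizer k1))
    (by rw [← k2, Set.ncard_compl, Set.ncard_singleton]; omega)
  intro c hc'
  obtain ⟨u, hu, e2⟩ : c • Q ∈ {R | ∃ u ∈ P, u • Q = R} := e ▸ ne c (cent_le_norm P hc')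
  have k3 : u⁻¹ * c ∈ C(P) :=
    mul_mem (inv_mem (comm_iff_le_cent.1 (comm_of_cyclic (cyclic_of_prime (hc ▸ hp))) hu)) hc'
  have k4 : (toPermHom G {Q : Subgroup G // Syl p Q T}).ker = ⊥ := by_contra fun k =>
    hn fun g hg => st ⟨P, hP⟩ ▸ Equiv.congr_fun (hmin _ normalIn_top k hg) ⟨P, hP⟩
  have k5 : u⁻¹ * c ∈ (toPermHom G {Q : Subgroup G // Syl p Q T}).ker := Equiv.ext fun R => by
    change (u⁻¹ * c) • R = R
    by_cases k : R = ⟨P, hP⟩
    · rw [k]; exact fixP _ (cent_le_norm P k3)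
    obtain ⟨v, hv, rfl⟩ : R ∈ {R | ∃ u ∈ P, u • Q = R} := e ▸ k
    rw [← mul_smul, ← mem_cent.1 k3 v hv, mul_smul, mul_smul, ← e2, inv_smul_smul]
  rw [k4, mem_bot, inv_mul_eq_one] at k5
  exact k5 ▸ hu

theorem prim (hB : IsZGroup B) (hAB : ∀ g : G, ∃ u ∈ zpowers a, ∃ b ∈ B, g = u * b) (hT : T.Normal)
    (hmin : ∀ N : Subgroup G, N.Normal → N ≠ ⊥ → T ≤ N) (hTB : T ⊔ B = ⊤) (hs : ¬ Sol T) :
    ∃ p : ℕ, p.Prime ∧ 3 < p ∧ (∃ (F : Type) (_ : Field F) (_ : Fintype F), Fintype.card F = p ∧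
      Nonempty (G ≃* Matrix.ProjGenLinGroup (Fin 2) F)) ∧ B.index = p + 1 ∧ #B = p * (p - 1) ∧
      ∃ P ≤ T, #P = p ∧ B ≤ N(P) := by
  classical
  have hF : Fit (⊤ : Subgroup G) = ⊥ := by_contra fun c =>
    hs (sol_of_nil (nil_mono (Fit_nil ⊤) (hmin _ (Fit_normal ⊤).normal c)))
  have T1 : T ≠ ⊥ := fun e => hs (e ▸ sol_of_nil nil_bot)
  obtain ⟨M, hM, k⟩ := mmax_exists (H := B) fun e => hs (sol_mono (K := B) inferInstance (e ▸ le_top))
  have TM : ¬ T ≤ M := fun e => hM.1 (top_le_iff.1 (hTB ▸ sup_le e k))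
  have st := stabilizer_quotient M
  have faith : ∀ g : G, (∀ x : G ⧸ M, g • x = x) → g = 1 := fun g hg => by
    have : (toPermHom G (G ⧸ M)).ker = ⊥ := by_contra fun c =>
      TM fun t ht => st.le (Equiv.congr_fun (hmin _ inferInstance c ht) ((1 : G) : G ⧸ M))
    exact mem_bot.1 (this ▸ Equiv.ext hg)
  generalize hx : ((1 : G) : G ⧸ M) = x at st
  have c0 : ∀ y : G ⧸ M, ∃ u ∈ zpowers a, u • x = y := fun y => by
    obtain ⟨g, rfl⟩ := exists_smul_eq G x y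
    obtain ⟨u, hu, b, hb, rfl⟩ := hAB g
    exact ⟨u, hu, by rw [mul_smul, show b • x = x from show b ∈ stabilizer G x from st.symm ▸ k hb]⟩
  have cyc : ∀ y z : G ⧸ M, ∃ u ∈ zpowers a, u • y = z := fun y z => by
    obtain ⟨u, hu, rfl⟩ := c0 y
    obtain ⟨v, hv, rfl⟩ := c0 z
    exact ⟨v * u⁻¹, mul_mem hv (inv_mem hu), by rw [mul_smul, inv_smul_smul]⟩
  have reg : ∀ g ∈ zpowers a, ∀ y : G ⧸ M, g • y = y → g = 1 := fun g hg y e => faith g fun z => by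
    obtain ⟨u, hu, rfl⟩ := cyc y z
    rw [← mul_smul, cz_zp hg hu, mul_smul, e]
  obtain rfl : M = B := le_antisymm (fun g hg => by
    obtain ⟨u, hu, b, hb, rfl⟩ := hAB g
    rw [reg u hu x (show u ∈ stabilizer G x from st.symm ▸ (mul_mem_cancel_right (k hb)).1 hg), one_mul]
    exact hb) k
  have ev : 2 ∣ Nat.card (G ⧸ M) := by_contra fun c => by
    obtain ⟨E, -, e2, e3⟩ := cz_klein hF (H19.ne_bot_mono le_top T1)
    obtain ⟨S, hS⟩ := exists_syl 2 M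
    obtain ⟨g, -, e⟩ := (hS.of_idx le_top (PiN.of_not_dvd (by rwa [relIndex_top_right]))).sle_cj
      (le_top : E ≤ ⊤) (pg_of_pow Nat.prime_two fun x hx => by rw [pow_two, e3 x hx])
    have := cz_exp2 (cyc_mono (cyc_J (zgroup_iff.1 hB 2 S hS.pi hS.le) g) e) e3
    omega
  have n2 : Nat.card (G ⧸ M) ≠ 2 := fun e => TM (hmin M (normal_of_index_eq_two e) fun c =>
    hs (sol_mono (sol_zpowers a) fun g _ => by
      obtain ⟨u, hu, b, hb, rfl⟩ := hAB g
      rwa [mem_bot.1 (c.le hb), mul_one]))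
  have lt : 2 < Nat.card (G ⧸ M) := lt_of_le_of_ne (Nat.le_of_dvd Nat.card_pos ev) n2.symm
  haveI : Nontrivial (G ⧸ M) := Finite.one_lt_card_iff_nontrivial.1 (by omega)
  haveI := (isCoatom_stabilizer_iff_preprimitive G x).1 (st.symm ▸ hM)
  have two : ∀ {a b c d : G ⧸ M}, a ≠ b → c ≠ d → ∃ g : G, g • a = c ∧ g • b = d :=
    is_two_pretransitive_iff.1 (H24.schur_cyclic (zpowers a)
    ⟨fun y z => (cyc y z).elim fun u e => ⟨⟨u, e.1⟩, e.2⟩⟩
    (fun y => (Subgroup.eq_bot_iff_forall _).2 fun u hu => Subtype.ext (reg u u.2 y hu)) lt.le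
    fun c => n2 ((Nat.prime_dvd_prime_iff_eq Nat.prime_two c).1 ev).symm)
  obtain ⟨j, jm, j2⟩ := exists_orderOf_eq_prime (H := zpowers a) Nat.prime_two (by
    rw [cz_card_orb (zpowers a) x, show {y | ∃ g ∈ zpowers a, g • x = y} = Set.univ from
      Set.eq_univ_of_forall c0, Set.ncard_univ]
    exact ev.mul_left _)
  have h : St G (G ⧸ M) a j := ⟨faith, fun x y z h1 h2 => two h1.symm h2.symm, cyc, fun y => by
    obtain ⟨g, rfl⟩ := exists_smul_eq G x y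
    rw [stabilizer_smul_eq_stabilizer_map_conj, st]
    exact IsZGroup.of_surjective (MonoidHom.subgroupMap_surjective _ M), jm, j2, lt⟩
  obtain ⟨p, hp, q1, q2, -⟩ := h.qq x
  have cB := h.cardB (h.jne x)
  have cG := h.cardG x
  rw [q2, q1, Nat.add_sub_cancel, mul_comm] at cB
  rw [cB, q1] at cG
  have p2 : p ≠ 2 := by rintro rfl; omega
  have p3 : p ≠ 3 := by
    rintro rfl
    have := H5.isSolvable_of_card_dvd_prime_pow_mul (a := 3) (b := 1) Nat.prime_two Nat.prime_three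
      (cG.trans (by norm_num)).dvd
    exact hs inferInstance
  obtain ⟨F, h1, h2, h3, h4, h5⟩ := h.exF x
  have cF := h.F_card hp q1 h1 h3 h4 h5
  refine ⟨p, hp, lt_of_le_of_ne (by have := hp.two_le; omega) p3.symm, ?_, q1, st ▸ cB, F,
    by_contra fun c => hs ?_, cF, st ▸ norms_of_der_le h3 h1⟩
  · haveI := Fintype.ofFinite (G ⧸ M)
    let e := MonoidHom.ofInjective (f := toPermHom G (G ⧸ M))
      ((injective_iff_map_eq_one _).2 fun g hg => faith g (Equiv.congr_fun hg))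
    have sh : ∀ y : Fin 3 ↪ G ⧸ M, stabilizer (toPermHom G (G ⧸ M)).range y = ⊥ := fun y =>
      (Subgroup.eq_bot_iff_forall _).2 fun g hg => by
        obtain ⟨g, rfl⟩ := e.surjective g
        have k : ∀ i, g • y i = y i := fun i => congrArg (fun f : Fin 3 ↪ G ⧸ M => f i) hg
        rw [h.sharp hp q1 (y.injective.ne (by decide)) (y.injective.ne (by decide))
          (y.injective.ne (by decide)) (k 0) (k 1) (k 2), map_one]
    obtain ⟨F, i1, i2, f1, ⟨f⟩⟩ := Cfsg.Agent.S0730.result hp p2 odd_one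
      (by rw [← Nat.card_eq_fintype_card, q1, pow_one]) (toPermHom G (G ⧸ M)).range ⟨fun y z => by
        have k := cz_card_orb (⊤ : Subgroup (toPermHom G (G ⧸ M)).range) y
        rw [sh, inf_bot_eq, card_bot, one_mul, card_top, ← Nat.card_congr e.toEquiv, cG] at k
        have k2 := (Set.eq_univ_iff_ncard _).2 (k.symm.trans (by
          rw [Nat.card_eq_fintype_card, Fintype.card_embedding_eq, ← Nat.card_eq_fintype_card, q1]
          simp [Nat.descFactorial]; ring))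
        obtain ⟨g, -, e⟩ := Set.eq_univ_iff_forall.1 k2 z
        exact ⟨g, e⟩⟩ sh
    exact ⟨F, i1, i2, f1.trans (pow_one p), ⟨e.trans f⟩⟩
  · have k1 := inf_eq_bot_of_prime (cF ▸ hp) c
    have k2 : T ⊓ stabilizer G x = ⊥ := H19.eq_bot_mono (le_inf ((le_inf inf_le_right
      (cents_of_norms_disjoint (norms_inf le_normalizer_of_normal (norms_of_le h1))
        (inf_le_right.trans (norms_of_der_le h3 h1)) (H19.eq_bot_mono
          (le_inf inf_le_right (inf_le_left.trans inf_le_left)) k1))).trans h4) inf_le_left) k1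
    have k3 : ∀ t ∈ T, t • x = x → t = 1 := fun t h1 h2 => mem_bot.1 (k2 ▸ ⟨h1, h2⟩)
    obtain ⟨s, hs', s2⟩ := exists_orderOf_eq_prime (H := T) Nat.prime_two
      (Nat.not_odd_iff_even.1 fun ho => hs (H20.odd_solvable T ho)).two_dvd
    refine (pg_of_pow Nat.prime_two fun t ht => by_contra fun c => ?_).sol
    obtain ⟨g, g1, g2⟩ := h.two x (s • x) (t • x) (fun e => cz_ne s2 (k3 s hs' e))
      fun e => c (by rw [k3 t ht e, one_pow])
    have := k3 (t⁻¹ * (g * s * g⁻¹)) (mul_mem (inv_mem ht) (hT.conj_mem s hs' g)) (by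
      have := cz_fix_conj g (rfl : s • x = s • x)
      rw [g1, g2] at this
      rw [mul_smul, this, inv_smul_smul])
    rw [inv_mul_eq_one.1 this, pow_two, cz_sq ((orderOf_conj' g s).trans s2)] at c
    exact c rfl

theorem radfree [Nontrivial G] (hB : IsZGroup B)
    (hAB : ∀ g : G, ∃ u ∈ zpowers a, ∃ b ∈ B, g = u * b) (hF : Fit (⊤ : Subgroup G) = ⊥) :
    ∃ (F : Type) (_ : Field F) (_ : Fintype F) (p : ℕ), p.Prime ∧ 3 < p ∧ Fintype.card F = p ∧
      Nonempty (G ≃* Matrix.ProjGenLinGroup (Fin 2) F) := by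
  obtain ⟨T, hT⟩ := exists_minimal_of_wellFoundedLT (fun N : Subgroup G => N ⊴ ⊤ ∧ N ≠ ⊥)
    ⟨⊤, NormalIn.refl _, top_ne_bot⟩
  have fb : ∀ {X Y : Subgroup G}, X ⊴ Y → Fit Y = ⊥ → Fit X = ⊥ := fun h k =>
    H19.eq_bot_mono (Fit_le_Fit h) k
  have FT := fb hT.1.1 hF
  have hC : C(T) = ⊥ := by_contra fun c => cz_two_comm hB hAB
    (fb ⟨le_top, norms_cent hT.1.1.norm⟩ hF) FT c hT.1.2 le_rfl
  have simp : ∀ N : Subgroup G, N ⊴ T → N ≠ ⊥ → T ≤ N := fun N h1 h2 => by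
    obtain ⟨U, k, hU⟩ := exists_minimal_le_of_wellFoundedLT (fun N : Subgroup G => N ⊴ T ∧ N ≠ ⊥) N ⟨h1, h2⟩
    refine (hT.2 ⟨⟨le_top, fun g hg => mem_norm_of_le_cj (by_contra fun c => ?_)⟩, hU.1.2⟩ hU.1.1.le).trans k
    have k1 : cj g U ⊴ T := hT.1.1.cj_eq hg ▸ hU.1.1.J g
    refine cz_two_comm hB hAB (fb hU.1.1 FT) (fb k1 FT) hU.1.2 (fun e => hU.1.2 ?_)
      (hU.1.1.cents_of_disjoint k1 (by_contra fun e => c ?_))
    · rw [← card_eq_one, Nat.card_congr (cjEquiv g U).toEquiv, e, card_bot]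
    · exact (hU.2 ⟨hU.1.1.inf k1, e⟩ inf_le_left).trans inf_le_right
  have hmin : ∀ N : Subgroup G, T ≤ N(N) → N ≠ ⊥ → T ≤ N := fun N h1 h2 =>
    (simp (T ⊓ N) (inf_normal_of_norm' h1) fun e => h2 (H19.eq_bot_mono (cents_of_norms_disjoint h1
      (le_top.trans hT.1.1.norm) (inf_comm T N ▸ e)) hC)).trans inf_le_right
  have hs : ¬ Sol T := fun e => hT.1.2 (cz_sol_bot hF hT.1.1 e)
  obtain ⟨a1, e1⟩ := cyc_iff.1 (cyc_mono (cyc_zpowers a) (inf_le_left : zpowers a ⊓ (T ⊔ B) ≤ _))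
  have a1m : a1 ∈ T ⊔ B := (e1 ▸ mem_zpowers a1 : a1 ∈ zpowers a ⊓ (T ⊔ B)).2
  haveI := hT.1.1.normal
  obtain ⟨p, hp, p3, ⟨F, i1, i2, f1, ⟨f⟩⟩, k1, k2, P, k3, k4, k5⟩ := prim (G := ↥(T ⊔ B))
    (a := ⟨a1, a1m⟩) (B := B.subgroupOf _) (T := T.subgroupOf _)
    (IsZGroup.of_injective (f := (subgroupOfEquivOfLe (le_sup_right : B ≤ T ⊔ B)).toMonoidHom)
      (subgroupOfEquivOfLe _).injective) (fun g => by
      obtain ⟨u, hu, b, hb, e⟩ := hAB g
      have hb' : b ∈ T ⊔ B := mem_sup_right hb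
      have hu' : u ∈ T ⊔ B := (mul_mem_cancel_right hb').1 (e ▸ g.2)
      obtain ⟨m, hm⟩ : u ∈ zpowers a1 := e1.symm ▸ ⟨hu, hu'⟩
      exact ⟨⟨u, hu'⟩, ⟨m, Subtype.ext hm⟩, ⟨b, hb'⟩, hb, Subtype.ext e⟩) inferInstance
    (fun N hN h1 => fun t ht => by
      obtain ⟨s, hs, e⟩ := hmin _ (le_sup_left.trans (normalIn_map_subtype N).norm)
        (by rwa [Ne, map_eq_bot_iff_of_injective _ (subtype_injective _)]) ht
      exact (Subtype.ext e : s = t) ▸ hs)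
    (by rw [← subgroupOf_sup le_sup_left le_sup_right, subgroupOf_self])
    fun e => hs (by
      haveI := e
      exact Group.isSolvable_of_surjective
        (f := (subgroupOfEquivOfLe (le_sup_left : T ≤ T ⊔ B)).toMonoidHom)
        (subgroupOfEquivOfLe _).surjective)
  rw [card_subgroupOf' le_sup_right] at k2
  change B.relIndex (T ⊔ B) = _ at k1
  have c1 : #(P.map (T ⊔ B).subtype) = p := by rw [card_subtype, k4]
  have c2 : P.map (T ⊔ B).subtype ≤ T := map_le_iff_le_comap.2 k3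
  have c3 : B ≤ N(P.map (T ⊔ B).subtype) := by
    refine le_trans ?_ (le_normalizer_map _)
    exact fun b hb => ⟨⟨b, mem_sup_right hb⟩, k5 hb, rfl⟩
  generalize P.map (T ⊔ B).subtype = Q at c1 c2 c3
  have c4 : Syl p Q T := syl_mk c2 (PiN.of_card hp c1) fun c => by
    have := card_dvd (le_sup_left : T ≤ T ⊔ B)
    rw [← card_mul_relIndex c2, ← card_mul_relIndex (le_sup_right : B ≤ T ⊔ B), k1, k2, c1,
      mul_assoc] at this
    rcases hp.dvd_mul.1 (c.trans (Nat.dvd_of_mul_dvd_mul_left hp.pos this)) with e | e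
    · have := Nat.le_of_dvd (by omega) e
      omega
    · exact hp.ne_one (Nat.dvd_one.1 ((Nat.dvd_add_right dvd_rfl).1 e))
  have c5 := cz_selfcent hp hT.1.1 (fun N h => hmin N (le_top.trans h.norm)) c4 c1
    (fun c => hs (sol_mono (sol_of_prime (c1 ▸ hp)) (simp Q ⟨c2, c⟩ (ne_bot_of_prime (c1 ▸ hp)))))
    ((relIndex_le_of_le_right le_sup_left (relIndex_ne_zero' _ _)).trans
      ((relIndex_le_of_le_left c3 (relIndex_ne_zero' _ _)).trans k1.le))
  have c6 := cz_tot le_normalizer le_rfl (cyclic_of_prime (c1 ▸ hp)) (inf_le_right.trans c5)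
  rw [c1, Nat.totient_prime hp, ← k2] at c6
  have c7 := c4.frattini hT.1.1
  rw [top_inf_eq, ← eq_of_le_of_card_ge c3 c6] at c7
  exact ⟨F, i1, i2, p, hp, p3, f1, ⟨(topEquiv.symm.trans (MulEquiv.subgroupCongr c7.symm)).trans f⟩⟩

end H7.CZ
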