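import Cfsg.Agent.H7.BS8

/-! Generalized decomposition numbers on the section of an involution `t` when `C(t)/⟨t⟩` has a
Klein four principal block. -/

set_option autoImplicit false
open Cfsg
open H5 H8 H28

namespace H7

/-- three integer columns with Gram matrix `2 (I + J)`, orthogonal to `deg` -/
structure Col3 {ι : Type*} [Fintype ι] (o : ι) (d₁ d₂ d₃ deg : ι → ℤ) : Prop where
  o1 : d₁ o = 1
  o2 : d₂ o = 0
  o3 : d₃ o = 0
  e1 : ∑ i, d₁ i * deg i = 0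
  e2 : ∑ i, d₂ i * deg i = 0
  e3 : ∑ i, d₃ i * deg i = 0
  g11 : ∑ i, d₁ i * d₁ i = 4
  g22 : ∑ i, d₂ i * d₂ i = 4
  g33 : ∑ i, d₃ i * d₃ i = 4
  g12 : ∑ i, d₁ i * d₂ i = 2
  g13 : ∑ i, d₁ i * d₃ i = 2
  g23 : ∑ i, d₂ i * d₃ i = 2

theorem three_le_form {a b c : ℤ} (h : ¬ (a = 0 ∧ b = 0 ∧ c = 0)) :
    3 ≤ 3 * (a * a) + 3 * (b * b) + 3 * (c * c) - 2 * (a * b) - 2 * (a * c) - 2 * (b * c) := by
  have h1 : 0 < a * a + b * b + c * c := by
    by_contra h1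
    exact h ⟨by nlinarith, by nlinarith, by nlinarith⟩
  have h2 : 0 < 4 * (a * a + b * b + c * c) - (a + b + c) ^ 2 := by
    nlinarith [sq_nonneg (a - b), sq_nonneg (a - c), sq_nonneg (b - c)]
  have h3 : (a + b + c) ^ 2 % 4 = 0 ∨ (a + b + c) ^ 2 % 4 = 1 := by
    rcases Int.even_or_odd' (a + b + c) with ⟨m, e | e⟩ <;> rw [e]
    · exact Or.inl (by rw [show (2 * m) ^ 2 = 4 * (m * m) by ring]; omega)
    · exact Or.inr (by rw [show (2 * m + 1) ^ 2 = 4 * (m * m + m) + 1 by ring]; omega)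
  have h4 : 3 ≤ 4 * (a * a + b * b + c * c) - (a + b + c) ^ 2 := by omega
  linarith [show (a + b + c) ^ 2 = a * a + b * b + c * c + 2 * (a * b) + 2 * (a * c) + 2 * (b * c)
    by ring]

theorem Col3.false {ι : Type*} [Fintype ι] {o : ι} {d₁ d₂ d₃ x deg : ι → ℤ} {k : ℤ} {β₂ β₃ : ℂ}
    (h : Col3 o d₁ d₂ d₃ deg) (hk : 0 < k) (h8 : 8 ∣ k) (od : deg o = 1)
    (hx : ∀ i, (x i : ℂ) = d₁ i + d₂ i * β₂ + d₃ i * β₃)
    (hc : ∀ i, i ≠ o → (d₁ i = 0 ∧ d₂ i = 0 ∧ d₃ i = 0) ∨ (deg i = x i + k ∧ 7 ≤ deg i)) :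
    False := by
  classical
  have xo : x o = 1 := by simpa [h.o1, h.o2, h.o3] using hx o
  have k1 : ∀ d : ι → ℤ, (∀ i, d₁ i = 0 ∧ d₂ i = 0 ∧ d₃ i = 0 → d i = 0) →
      ∑ i, d i * deg i = ∑ i, d i * x i + k * ∑ i, if i = o then 0 else d i := fun d hd => by
    rw [Finset.mul_sum, ← Finset.sum_add_distrib]
    refine Finset.sum_congr rfl fun i _ => ?_
    split_ifs with e
    · simp [e, xo, od]
    rcases hc i e with h1 | h1
    · simp [hd i h1]
    · rw [h1.1]; ring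
  have k2 : ∀ d : ι → ℤ, ((∑ i, d i * x i : ℤ) : ℂ) = (∑ i, d i * d₁ i : ℤ) +
      (∑ i, d i * d₂ i : ℤ) * β₂ + (∑ i, d i * d₃ i : ℤ) * β₃ := fun d => by
    push_cast
    simp only [hx, Finset.sum_mul, ← Finset.sum_add_distrib]
    exact Finset.sum_congr rfl fun i _ => by ring
  have c : ∀ {a b : ι → ℤ} {n : ℤ}, ∑ i, a i * b i = n → ∑ i, b i * a i = n := fun e => by
    simpa only [mul_comm] using e
  have y1 := k2 d₁
  have y2 := k2 d₂
  have y3 := k2 d₃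
  have z1 := k1 d₁ fun _ e => e.1
  have z2 := k1 d₂ fun _ e => e.2.1
  have z3 := k1 d₃ fun _ e => e.2.2
  rw [h.e1] at z1
  rw [h.e2] at z2
  rw [h.e3] at z3
  rw [h.g11, h.g12, h.g13, eq_neg_of_add_eq_zero_left z1.symm] at y1
  rw [c h.g12, h.g22, h.g23, eq_neg_of_add_eq_zero_left z2.symm] at y2
  rw [c h.g13, c h.g23, h.g33, eq_neg_of_add_eq_zero_left z3.symm] at y3
  generalize (∑ i, if i = o then 0 else d₁ i) = a₁ at z1 y1
  generalize (∑ i, if i = o then 0 else d₂ i) = a₂ at z2 y2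
  generalize (∑ i, if i = o then 0 else d₃ i) = a₃ at z3 y3
  push_cast at y1 y2 y3
  have h1 : k * (a₂ + a₃ - 3 * a₁) = 8 := by
    have : (k : ℂ) * (a₂ + a₃ - 3 * a₁) = 8 := by linear_combination 3 * y1 - y2 - y3
    exact_mod_cast this
  obtain rfl : k = 8 := le_antisymm (Int.le_of_dvd (by norm_num) ⟨_, h1.symm⟩) (Int.le_of_dvd hk h8)
  have b2 : β₂ = (a₁ + a₃ - 3 * a₂ : ℤ) := by
    push_cast at y1 y2 y3 ⊢; linear_combination (y1 + y3 - 3 * y2) / 8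
  have b3 : β₃ = (a₁ + a₂ - 3 * a₃ : ℤ) := by
    push_cast at y1 y2 y3 ⊢; linear_combination (y1 + y2 - 3 * y3) / 8
  have hx' : ∀ i, x i = d₁ i + d₂ i * (a₁ + a₃ - 3 * a₂) + d₃ i * (a₁ + a₂ - 3 * a₃) := fun i => by
    have := hx i
    rw [b2, b3] at this
    exact_mod_cast this
  have k3 : ∀ w : ι → ℤ, ∑ i, x i * w i = ∑ i, d₁ i * w i + (a₁ + a₃ - 3 * a₂) * ∑ i, d₂ i * w i +
      (a₁ + a₂ - 3 * a₃) * ∑ i, d₃ i * w i := fun w => by
    simp only [Finset.mul_sum, ← Finset.sum_add_distrib]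
    exact Finset.sum_congr rfl fun i _ => by rw [hx' i]; ring
  have x0 : ∀ i, d₁ i = 0 ∧ d₂ i = 0 ∧ d₃ i = 0 → x i = 0 := fun i e => by simp [hx' i, e]
  have h2 := k1 x x0
  have h3 := k3 x
  rw [k3, h.e1, h.e2, h.e3] at h2
  have h4 : 17 ≤ ∑ i, x i * x i := by
    obtain rfl : a₂ = 1 + 3 * a₁ - a₃ := by omega
    rw [h3, eq_neg_of_add_eq_zero_left z1.symm, eq_neg_of_add_eq_zero_left z2.symm,
      eq_neg_of_add_eq_zero_left z3.symm]
    have q : ∀ m : ℤ, 1 ≤ (4 * m + 1) ^ 2 ∧ (m ≠ 0 → 9 ≤ (4 * m + 1) ^ 2) := fun m => by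
      rcases lt_trichotomy m 0 with e | e | e
      · constructor <;> intros <;> nlinarith
      · simp [e]
      · constructor <;> intros <;> nlinarith
    have q1 := q a₁
    have q2 := q (a₃ - 2 * a₁ - 1)
    have q3 := q (a₁ - a₃)
    have q4 : a₁ ≠ 0 ∨ a₃ - 2 * a₁ - 1 ≠ 0 ∨ a₁ - a₃ ≠ 0 := by omega
    rcases q4 with e | e | e
    · nlinarith [q1.2 e, q2.1, q3.1]
    · nlinarith [q2.2 e, q1.1, q3.1]
    · nlinarith [q3.2 e, q2.1, q1.1]
  have h5 : ∑ i, (if x i = 0 then 0 else 3 : ℤ) ≤ 24 := by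
    refine (Finset.sum_le_sum (g := fun i => 3 * (d₁ i * d₁ i) + 3 * (d₂ i * d₂ i) +
      3 * (d₃ i * d₃ i) - 2 * (d₁ i * d₂ i) - 2 * (d₁ i * d₃ i) - 2 * (d₂ i * d₃ i))
      fun i _ => ?_).trans ?_
    · by_cases e : d₁ i = 0 ∧ d₂ i = 0 ∧ d₃ i = 0
      · simp [x0 i e, e]
      · have := three_le_form e
        split_ifs <;> omega
    · simp only [Finset.sum_sub_distrib, Finset.sum_add_distrib, ← Finset.mul_sum, h.g11, h.g22,
        h.g33, h.g12, h.g13, h.g23]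
      norm_num
  have h6 : ∀ i, 0 ≤ 3 * (if i = o then 0 else x i) + if x i = 0 then 0 else 3 := fun i => by
    by_cases e : i = o
    · simp [e, xo]
    rcases hc i e with h1 | h1
    · simp [x0 i h1]
    · split_ifs <;> omega
  have h7 : ∀ i, i ≠ o → x i ≤ 3 := fun i e => by
    have := Finset.add_le_sum (fun i _ => h6 i) (Finset.mem_univ i) (Finset.mem_univ o) e
    rw [Finset.sum_add_distrib, ← Finset.mul_sum] at this
    simp only [if_neg e, if_true, xo] at this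
    split_ifs at this <;> omega
  have h9 : ∑ i, x i * x i ≤ ∑ i, (2 * (if i = o then 0 else x i) + if x i = 0 then 0 else 3) :=
    Finset.sum_le_sum fun i _ => by
      by_cases e : i = o
      · simp [e, xo]
      rcases hc i e with h1 | h1
      · simp [x0 i h1]
      · have := h7 i e
        have : -1 ≤ x i := by omega
        rw [if_neg e]
        interval_cases x i <;> simp
  rw [Finset.sum_add_distrib, ← Finset.mul_sum] at h9
  omega

variable {G : Type*} [Group G] [Finite G] {M : Ideal AlgInt}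

theorem exists_col3 (hM : IsPModular 2 M) {t : G} (ht : orderOf t = 2) {Q : Type*} [Group Q]
    [Finite Q] {π : Subgroup.centralizer ({t} : Set G) →* Q} (hπ : Function.Surjective π)
    (hk : π.ker = Subgroup.zpowers ⟨t, self_mem_centralizer t⟩) {ζ₂ ζ₃ ζ₄ : IrrCharacter Q} {ε : ℤ}
    (K : KleinData M ζ₂ ζ₃ ζ₄ ε) [DecidablePred (· ∈ principalBlock M G)] :
    ∃ d₁ d₂ d₃ : IrrCharacter G → ℤ, Col3 (irrOne G) d₁ d₂ d₃ (fun χ => charDegree χ.1) ∧
      (∀ χ ∉ principalBlock M G, d₁ χ = 0 ∧ d₂ χ = 0 ∧ d₃ χ = 0) ∧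
      ∀ (χ : IrrCharacter G) (g : Subgroup.centralizer ({t} : Set G)), IsPPart 2 (g : G) t →
        (if χ ∈ principalBlock M G then χ.1 g else 0) =
          d₁ χ + d₂ χ * ζ₂.1 (π g) + d₃ χ * (ε * ζ₃.1 (π g)) := by
  classical
  have := Fintype.ofFinite G
  have := Fintype.ofFinite Q
  have hε : (ε : ℂ) * ε = 1 := by rcases K.eps with h | h <;> simp [h]
  have hvec : ∀ Φ : Q → ℂ, IsGeneralizedCharacter Q Φ → (∀ q, 2 ∣ orderOf q → Φ q = 0) →
      ∃ d : IrrCharacter G → ℤ, (∀ χ : IrrCharacter G, classInner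
        (fun c : Subgroup.centralizer ({t} : Set G) => χ.1 c) (secLift π Φ) = d χ) ∧
        indFun _ (secLift π Φ) = ∑ χ, (d χ : ℂ) • χ.1 := by
    intro Φ hΦ h0
    have h1 := (isGen_secLift ht hπ hk hM hΦ h0).ind
    obtain ⟨d, h2, h3, -⟩ := h1.exists_coeff
    exact ⟨d, fun χ => by rw [← classInner_indFun_right _ _ χ.2.isClassFunction, ← h2,
      h1.classInner_comm χ.2.isGeneralizedCharacter], h3⟩
  set Φ₁ : Q → ℂ := (irrOne Q).1 + ζ₄.1 with hΦ₁
  set Φ₂ : Q → ℂ := ζ₂.1 + ζ₄.1 with hΦ₂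
  set Φ₃ : Q → ℂ := (ε : ℂ) • ζ₃.1 + ζ₄.1 with hΦ₃
  have g₁ : IsGeneralizedCharacter Q Φ₁ :=
    (irrOne Q).2.isGeneralizedCharacter.add ζ₄.2.isGeneralizedCharacter
  have g₂ : IsGeneralizedCharacter Q Φ₂ :=
    ζ₂.2.isGeneralizedCharacter.add ζ₄.2.isGeneralizedCharacter
  have g₃ : IsGeneralizedCharacter Q Φ₃ :=
    (ζ₃.2.isGeneralizedCharacter.intCast_smul ε).add ζ₄.2.isGeneralizedCharacter
  have v₁ : ∀ q, 2 ∣ orderOf q → Φ₁ q = 0 := fun q hq => by simp [hΦ₁, K.val q hq, irrOne]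
  have v₂ : ∀ q, 2 ∣ orderOf q → Φ₂ q = 0 := fun q hq => by simp [hΦ₂, K.val q hq]
  have v₃ : ∀ q, 2 ∣ orderOf q → Φ₃ q = 0 := fun q hq => by simp [hΦ₃, K.val q hq, hε]
  obtain ⟨d₁, c₁, s₁⟩ := hvec Φ₁ g₁ v₁
  obtain ⟨d₂, c₂, s₂⟩ := hvec Φ₂ g₂ v₂
  obtain ⟨d₃, c₃, s₃⟩ := hvec Φ₃ g₃ v₃
  have gram : ∀ {Φ Ψ : Q → ℂ} {d d' : IrrCharacter G → ℤ} {n : ℤ}, IsGeneralizedCharacter Q Ψ →
      (∀ q, 2 ∣ orderOf q → Φ q = 0) → indFun _ (secLift π Φ) = ∑ χ, (d χ : ℂ) • χ.1 →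
      indFun _ (secLift π Ψ) = ∑ χ, (d' χ : ℂ) • χ.1 → 2 * classInner Φ Ψ = n →
      ∑ χ, d χ * d' χ = n := by
    intro Φ Ψ d d' n hΨ h0 e e' hn
    have := classInner_indFun_secLift (π := π) Φ hΨ.isClassFunction
    rw [e, e', classInner_sum_irr, classInner_secLift ht hπ hk h0, hn] at this
    simp only [map_intCast] at this
    exact_mod_cast this
  have ev : ∀ {Φ : Q → ℂ} {d : IrrCharacter G → ℤ},
      indFun _ (secLift π Φ) = ∑ χ, (d χ : ℂ) • χ.1 →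
      ∑ χ, d χ * (charDegree χ.1 : ℤ) = 0 := fun {Φ d} e => by
    have := indFun_secLift_eq_zero (π := π) Φ (isPPart_one (y := (1 : G)) (by simp))
      fun h1 => H10.ne_one_of_orderOf_two ht (isConj_one_right.1 h1)
    simp only [e, Finset.sum_apply, Pi.smul_apply, smul_eq_mul, irr_apply_one] at this
    exact_mod_cast this
  have inner : ∀ χ ψ : IrrCharacter Q, χ ≠ ψ → classInner χ.1 ψ.1 = 0 ∧ classInner ψ.1 χ.1 = 0 :=
    fun χ ψ hne => by simp [classInner_irr, hne, hne.symm]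
  have inner' : ∀ χ : IrrCharacter Q, classInner χ.1 χ.1 = 1 := fun χ => χ.2.classInner_self
  have i12 := inner _ _ K.ne12
  have i13 := inner _ _ K.ne13
  have i14 := inner _ _ K.ne14
  have i23 := inner _ _ K.ne23
  have i24 := inner _ _ K.ne24
  have i34 := inner _ _ K.ne34
  have expand : ∀ (χ : IrrCharacter G) (g : Subgroup.centralizer ({t} : Set G)),
      IsPPart 2 (g : G) t → (if χ ∈ principalBlock M G then χ.1 g else 0) =
        d₁ χ + d₂ χ * ζ₂.1 (π g) + d₃ χ * (ε * ζ₃.1 (π g)) := by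
    intro χ g hg
    have h1 := principal_expand hM hπ (isPGroup_ker_two ht hk) (ker_le_center_of hk) χ hg
    have h2 : ¬ 2 ∣ orderOf (π g) := (ppart_mem_ker_iff (x := ⟨t, self_mem_centralizer t⟩)
      (isPPart_coe.1 hg)).1 (hk ▸ Subgroup.mem_zpowers _)
    rw [K.sum, card_ker_two ht hk, K.rel _ h2] at h1
    rw [h1, ← c₁, ← c₂, ← c₃]
    simp only [hΦ₁, hΦ₂, hΦ₃, secLift_add, secLift_smul, classInner_add_right,
      classInner_smul_right, map_intCast]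
    simp only [secLift, irrOne, Nat.cast_ofNat]
    linear_combination -(classInner (fun c : Subgroup.centralizer ({t} : Set G) => χ.1 c)
      (Set.indicator {c | IsPPart 2 (c : G) t} fun c => 2 * ζ₃.1 (π c)) * ζ₃.1 (π g)) * hε
  have one : ∀ {Φ : Q → ℂ} {n m : ℤ}, (∀ q, 2 ∣ orderOf q → Φ q = 0) →
      classInner (fun c : Subgroup.centralizer ({t} : Set G) => (irrOne G).1 c) (secLift π Φ) = n →
      classInner Φ (irrOne Q).1 = m → n = m := fun {Φ n m} h0 h1 h2 => by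
    have h3 := classInner_secLift ht hπ hk h0 (irrOne Q).1
    rw [h2, classInner_congr_right (ψ' := (2 : ℂ) • fun _ => 1) fun c hc => by
      simp [secLift_of (isPPart_of_secLift_ne_zero hc), irrOne], classInner_smul_right,
      ← conj_classInner] at h3
    simp only [irrOne] at h1
    rw [h1, map_intCast, map_ofNat] at h3
    exact_mod_cast mul_left_cancel₀ two_ne_zero h3
  refine ⟨d₁, d₂, d₃, ⟨one v₁ (c₁ _) (by simp [hΦ₁, classInner_add_left, i14, inner']),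
    one v₂ (c₂ _) (by simp [hΦ₂, classInner_add_left, i14, i12]),
    one v₃ (c₃ _) (by simp [hΦ₃, classInner_add_left, classInner_smul_left, i14, i13]),
    ev s₁, ev s₂, ev s₃, gram g₁ v₁ s₁ s₁ ?_, gram g₂ v₂ s₂ s₂ ?_, gram g₃ v₃ s₃ s₃ ?_,
    gram g₂ v₁ s₁ s₂ ?_, gram g₃ v₁ s₁ s₃ ?_, gram g₃ v₂ s₂ s₃ ?_⟩, fun χ hχ => ?_, expand⟩
  rotate_right
  · have h1 : ∀ q, ¬ 2 ∣ orderOf q → ((d₁ χ : ℂ) • (irrOne Q).1 + (d₂ χ : ℂ) • ζ₂.1 +
        (d₃ χ * ε : ℂ) • ζ₃.1) q = 0 := by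
      intro q hq
      obtain ⟨c, rfl⟩ := hπ q
      obtain ⟨y, hy, hyc⟩ := exists_regular_map_eq c hq
      have := expand χ (⟨t, self_mem_centralizer t⟩ * y) (isPPart_mk
        (Subgroup.mem_centralizer_singleton_iff.1 y.2).symm ⟨1, ht⟩ (by rwa [Subgroup.orderOf_coe]))
      rw [if_neg hχ, map_mul, hyc, (show π ⟨t, self_mem_centralizer t⟩ = 1 from
        (mem_ker_two ht hk).2 (Or.inr rfl)), one_mul] at this
      simp only [irrOne, Pi.add_apply, Pi.smul_apply, smul_eq_mul]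
      linear_combination -this
    have a1 := eq_zero_of_vanish_on_regular h1 v₁
    have a2 := eq_zero_of_vanish_on_regular h1 v₂
    have a3 := eq_zero_of_vanish_on_regular h1 v₃
    simp only [hΦ₁, hΦ₂, hΦ₃, classInner_add_left, classInner_add_right, classInner_smul_left,
      classInner_smul_right, i12, i13, i14, i23, i24, i34, inner', map_intCast] at a1 a2 a3
    refine ⟨by simpa using a1, by simpa using a2, ?_⟩
    have : (d₃ χ : ℂ) = 0 := by linear_combination a3 - d₃ χ * hε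
    exact_mod_cast this
  all_goals
    simp only [hΦ₁, hΦ₂, hΦ₃, classInner_add_left, classInner_add_right, classInner_smul_left,
      classInner_smul_right, i12, i13, i14, i23, i24, i34, inner', map_intCast]
    first | linear_combination 2 * hε | norm_num

end H7
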