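import Cfsg.Agent.H7.Const1
import Cfsg.Agent.H7.AbStr
import Cfsg.Agent.H21.Contrib
import Cfsg.Agent.H11.Small

/-! Elements on which the nonprincipal characters of the principal `2`-block drop by a constant. -/

set_option autoImplicit false
open Cfsg
open H5 H8 H28

namespace H7

local notation "C" u:max => Subgroup.centralizer ({u} : Set _)

namespace L2e
variable {G : Type*} [Group G] [Finite G] {q : ℕ} {P : Subgroup G} {s t x : G} (h : L2e G q)
include h

theorem orderOf_of_mem (hP : IsSylowIn 2 P ⊤) (hx : x ∈ P) (x1 : x ≠ 1) : orderOf x = 2 :=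
  orderOf_eq_prime (by rw [pow_two, h.sq_sylow hP x hx]) x1

theorem cent_eq (hP : IsSylowIn 2 P ⊤) (hx : x ∈ P) (x1 : x ≠ 1) : C x = P :=
  (Subgroup.eq_of_le_of_card_ge (fun y hy => Subgroup.mem_centralizer_singleton_iff.2
    (congrArg Subtype.val (Commute.of_orderOf_dvd_two (G := P) (fun z => orderOf_dvd_of_pow_eq_one
      (Subtype.ext (by rw [pow_two]; exact h.sq_sylow hP z z.2))) ⟨y, hy⟩ ⟨x, hx⟩).eq))
    (by rw [h.cent x (h.orderOf_of_mem hP hx x1), h.card_sylow hP])).symm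

theorem cover (hP : IsSylowIn 2 P ⊤) (hs : orderOf s = 2) (hsP : s ∉ P) (ht : orderOf t = 2)
    (htP : t ∉ P) : ∃ x ∈ P, ∃ y ∈ C s, x * y * x⁻¹ = t := by
  have hS := h.sylow_cent hs
  have k1 : ∀ y ∈ C s, y ≠ 1 → y ∉ P := fun y hy y1 e =>
    hsP (h.cent_eq hP e y1 ▸ h.cent_eq hS hy y1 ▸ self_mem_centralizer s)
  let f : P × {v : G // v ∈ C s ∧ v ≠ 1} ⊕ {v : G // v ∈ P ∧ v ≠ 1} → {v : G // IsConj s v} :=
    Sum.elim (fun a => ⟨a.1 * a.2 * (a.1 : G)⁻¹, h.one _ _ hs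
      ((orderOf_conj' _ _).trans (h.orderOf_of_mem hS a.2.2.1 a.2.2.2))⟩)
      fun a => ⟨a, h.one _ _ hs (h.orderOf_of_mem hP a.2.1 a.2.2)⟩
  have k2 : ∀ (a : P × {v : G // v ∈ C s ∧ v ≠ 1}) b, f (.inl a) ≠ f (.inr b) := fun a b e => by
    have e' : (a.1 : G) * a.2 * (a.1 : G)⁻¹ = b := congrArg Subtype.val e
    have := P.mul_mem (P.mul_mem (P.inv_mem a.1.2) b.2.1) a.1.2
    exact k1 _ a.2.2.1 a.2.2.2 (by simpa [← e', mul_assoc] using this)
  have hf : Function.Injective f := by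
    rintro (⟨a, y, hy, y1⟩ | a) (⟨b, y', hy', y1'⟩ | b) e
    · have e' : (a : G) * y * (a : G)⁻¹ = b * y' * (b : G)⁻¹ := congrArg Subtype.val e
      have hz := P.mul_mem (P.inv_mem b.2) a.2
      have e1 : (b : G)⁻¹ * a * y * ((b : G)⁻¹ * a)⁻¹ = y' := by
        rw [mul_inv_rev, mul_assoc _ _ y, ← mul_assoc, mul_assoc _ _ (a : G)⁻¹, e']
        simp [mul_assoc]
      have e2 : (b : G)⁻¹ * a = 1 := by
        generalize (b : G)⁻¹ * a = z at hz e1
        by_contra z1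
        have h1 := h.sq_sylow hP z hz
        have h2 : (z * y) ^ 2 = y' * y := by
          rw [← e1, eq_inv_of_mul_eq_one_left h1, inv_inv, ← eq_inv_of_mul_eq_one_left h1, pow_two,
            mul_assoc (z * y)]
        have h3 : (z * y) ^ 2 ^ 2 = 1 := by
          rw [pow_two, pow_mul, h2, pow_two]; exact h.sq s hs _ (mul_mem hy' hy)
        have h4 : (z * y) ^ 2 = 1 := by
          obtain ⟨k, -, hk⟩ := (Nat.dvd_prime_pow Nat.prime_two).1 (orderOf_dvd_of_pow_eq_one h3)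
          rcases k with _ | k
          · rw [orderOf_eq_one_iff.1 hk, one_pow]
          · rw [← h.orderOf_eq (hk ▸ dvd_pow_self 2 k.succ_ne_zero), pow_orderOf_eq_one]
        refine k1 y hy y1 (h.cent_eq hP hz z1 ▸ Subgroup.mem_centralizer_singleton_iff.2 ?_)
        rw [pow_two] at h4
        rw [eq_inv_of_mul_eq_one_left h4, mul_inv_rev, ← eq_inv_of_mul_eq_one_left h1,
          ← eq_inv_of_mul_eq_one_left (h.sq s hs y hy)]
      obtain rfl : b = a := Subtype.ext (inv_mul_eq_one.1 e2)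
      obtain rfl : y = y' := by simpa [e2] using e1
      rfl
    · exact absurd e (k2 _ _)
    · exact absurd e.symm (k2 _ _)
    · exact congrArg Sum.inr (Subtype.ext (congrArg (fun v : {v : G // IsConj s v} => v.1) e))
  have hc : Nat.card {v : G // IsConj s v} = (C s).index := by
    simpa [← isConj_iff] using card_orbit ⊤ s
  obtain ⟨m, -, h1, h2⟩ := h.card_eq
  have h3 := (C s).index_mul_card
  have h4 := card_ne_one P
  have h5 := card_ne_one (C s)
  have h6 := h.four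
  rw [h.cent s hs] at h3 h5
  rw [h.card_sylow hP] at h4
  obtain ⟨a | a, ha⟩ := (hf.bijective_of_nat_card_le (by
    rw [hc, Nat.card_sum, Nat.card_prod, h.card_sylow hP, Nat.eq_of_mul_eq_mul_right (by omega)
      ((h3.trans h2).trans (mul_comm _ _))]
    nlinarith)).2 ⟨t, h.one _ _ hs ht⟩
  · exact ⟨_, a.1.2, _, a.2.2.1, congrArg Subtype.val ha⟩
  · exact absurd ((show (a : G) = t from congrArg Subtype.val ha) ▸ a.2.1) htP

theorem aut_inner [IsSimpleGroup G] (hP : IsSylowIn 2 P ⊤) (φ : MulAut G) (hφ : ∀ x ∈ P, φ x = x) :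
    ∃ x ∈ P, ∀ g, φ g = x * g * x⁻¹ := by
  have h4 := h.four
  have hq := h.card_sylow hP
  obtain ⟨t, ht, t1⟩ := P.bot_or_exists_ne_one.resolve_left fun e => by simp [e] at hq; omega
  have hn : (𝐍 P).normalCore = ⊥ := (IsSimpleGroup.eq_bot_or_eq_top_of_normal _
    inferInstance).resolve_right fun e => by
      have h1 := h.card
      rcases IsSimpleGroup.eq_bot_or_eq_top_of_normal P (Subgroup.normalizer_eq_top_iff.1
        (eq_top_iff.2 (e.ge.trans (𝐍 P).normalCore_le))) with e | e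
      · exact t1 (by simpa [e] using ht)
      · rw [e, Subgroup.card_top] at hq
        rw [hq] at h1
        nlinarith [Nat.pow_le_pow_left h4 2]
  have ht2 := h.orderOf_of_mem hP ht t1
  obtain ⟨s, hs, hsP⟩ : ∃ s : G, orderOf s = 2 ∧ s ∉ P := by
    by_contra! e
    refine t1 (Subgroup.mem_bot.1 (hn ▸ fun b => Subgroup.le_normalizer (e _ ?_)))
    rw [orderOf_conj', ht2]
  obtain ⟨x, hx, y, hy, e⟩ := h.cover hP hs hsP (t := φ s) (by simpa using hs) fun e =>
    hsP (φ.injective (hφ _ e) ▸ e)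
  set ψ := MulAut.conj x⁻¹ * φ with hψ
  have k0 : ∀ g, φ g = x * ψ g * x⁻¹ := fun g => by simp [hψ, mul_assoc]
  have hab : ∀ a ∈ P, ∀ b ∈ P, a * b = b * a := fun a ha b hb =>
    Subgroup.mem_centralizer_singleton_iff.1 (by
      by_cases b1 : b = 1
      · simp [b1]
      · exact (h.cent_eq hP hb b1).ge ha)
  have k1 : ∀ a ∈ P, ψ a = a := fun a ha => by
    simp [hψ, hφ a ha, mul_assoc, hab a ha x hx]
  have k2 : ψ s = y := by simp [hψ, ← e, mul_assoc]
  have k3 : ∀ i, orderOf i = 2 → C (ψ i) = C i := fun i hi => by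
    by_cases hiP : i ∈ P
    · rw [k1 i hiP]
    obtain ⟨a, ha, z, hz, rfl⟩ := h.cover hP hs hsP hi hiP
    have hS := h.sylow_cent hs
    have z1 : z ≠ 1 := by rintro rfl; simp at hi
    have h1 : ψ z ∈ C s := by
      rw [← h.cent_eq hS hy (k2 ▸ by simpa using H10.ne_one_of_orderOf_two hs), ← k2,
        Subgroup.mem_centralizer_singleton_iff, ← map_mul, ← map_mul,
        Subgroup.mem_centralizer_singleton_iff.1 hz]
    rw [map_mul, map_mul, map_inv, k1 a ha, ← cj_centralizer_singleton, ← cj_centralizer_singleton,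
      h.cent_eq hS h1 (by simpa using z1), h.cent_eq hS hz z1]
  refine ⟨x, hx, fun g => ?_⟩
  have h1 : g⁻¹ * ψ g ∈ (𝐍 P).normalCore := fun b => by
    have h2 := k3 (g * (b⁻¹ * t * b) * g⁻¹) (by rw [orderOf_conj', H10.orderOf_conj', ht2])
    have h3 := k3 (b⁻¹ * t * b) (by rw [H10.orderOf_conj', ht2])
    rw [map_mul, map_mul, map_inv, ← cj_centralizer_singleton, ← cj_centralizer_singleton, h3,
      show b⁻¹ * t * b = b⁻¹ * t * b⁻¹⁻¹ by rw [inv_inv], ← cj_centralizer_singleton,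
      h.cent_eq hP ht t1] at h2
    rw [mem_normalizer_iff_cj, mul_assoc, mul_assoc, ← cj_cj, ← cj_cj, ← cj_cj, h2, cj_cj, cj_cj,
      cj_cj]
    exact (congrArg (cj · P) (by group)).trans (cj_one P)
  rw [hn, Subgroup.mem_bot, inv_mul_eq_one] at h1
  rw [k0, ← h1]

end L2e

universe u
variable {G : Type u} [Group G] [Finite G] {M : Ideal AlgInt} {P J : Subgroup G} {u t : G} {k : ℂ}

theorem hom_mem_principal {p : ℕ} (hM : IsPModular p M) (hP : IsSylowIn p P ⊤) (μ : G →* ℂˣ)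
    (h : 𝐂 P ≤ μ.ker) : (⟨_, isIrrCharacter_unitsHom μ⟩ : IrrCharacter G) ∈ principalBlock M G := by
  haveI := Fact.mk hM.1
  haveI := charP_kk hM
  refine (sameBlock_iff_red hM (χ := irrOne G)).2 fun g => ?_
  simp only [centralChar, irrOne, map_one, Units.val_one, div_one, mul_one]
  by_cases h1 : p ∣ (C g).index
  · rw [red_mul (natCast_mem _ _) (char_apply_mem_V (isIrrCharacter_unitsHom μ).isCharacter g),
      red_natCast, (CharP.cast_eq_zero_iff _ p _).2 h1, zero_mul]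
  obtain ⟨S, hS⟩ := exists_isSylowIn p (C g)
  obtain ⟨x, -, hx⟩ := (hS.trans le_top (by simpa using h1)).exists_conj hP
  have h2 := h (show x * g * x⁻¹ ∈ 𝐂 P from hx ▸ cj_centralizer x S ▸
    conj_mem_cj (le_centralizer_comm.1 (hS.le.trans (centralizer_zpowers g).ge) (Subgroup.mem_zpowers g)))
  rw [MonoidHom.mem_ker, map_mul, map_mul, mul_right_comm, ← map_mul, mul_inv_cancel, map_one,
    one_mul] at h2
  simp [h2]

theorem dvd_sub_of_one_class (hone : ∀ x ∈ P, x ≠ 1 → IsConj t x) {χ : G → ℂ}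
    (hχ : IsCharacter G χ) {a : ℤ} (ha : χ t = a) : ∃ n : ℕ,
      (charDegree χ : ℤ) - a = Nat.card P * (n - a) := by
  classical
  haveI := Fintype.ofFinite P
  obtain ⟨n, hn⟩ := exists_sum_eq_card_mul hχ P
  refine ⟨n, ?_⟩
  have h1 : ∑ x : P, (χ x - a) = χ 1 - a := by
    rw [Finset.sum_eq_single 1 (fun x _ x1 => by
      rw [← hχ.isClassFunction.eq_of_isConj (hone x x.2 (by simpa using x1)), ha, sub_self])
      (by simp), OneMemClass.coe_one]
  rw [Finset.sum_sub_distrib, hn, Finset.sum_const, Finset.card_univ, ← Nat.card_eq_fintype_card,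
    char_apply_one hχ] at h1
  have h2 : ((charDegree χ : ℤ) - a : ℂ) = Nat.card P * (n - a) := by
    rw [nsmul_eq_mul] at h1; push_cast; linear_combination -h1
  exact_mod_cast h2

/-- the nonprincipal characters of the principal block drop by `k` at `u` -/
def Cst (M : Ideal AlgInt) (u : G) (k : ℂ) : Prop :=
  ∀ χ ∈ principalBlock M G, χ ≠ irrOne G → χ.1 1 - χ.1 u = k

namespace Cst
variable (hM : IsPModular 2 M) (h : Cst M u k)
include hM h

theorem orth [DecidablePred (· ∈ principalBlock M G)] (y : G) :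
    ∑ χ with χ ∈ principalBlock M G, χ.1 1 * χ.1 y - ∑ χ with χ ∈ principalBlock M G, χ.1 u * χ.1 y =
      k * (∑ χ with χ ∈ principalBlock M G, χ.1 y - 1) := by
  classical
  have h1 : irrOne G ∈ Finset.univ.filter (· ∈ principalBlock M G) := by
    simpa using irrOne_mem_principalBlock hM
  rw [← Finset.sum_sub_distrib, ← Finset.add_sum_erase _ _ h1, ← Finset.add_sum_erase _ _ h1,
    Finset.sum_congr rfl (g := fun χ => k * χ.1 y) fun χ hχ => by
      rw [← h χ (Finset.mem_filter.1 (Finset.mem_erase.1 hχ).2).2 (Finset.mem_erase.1 hχ).1]; ring,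
    ← Finset.mul_sum]
  simp [irrOne]

variable (hO : pPrimeCore 2 G = ⊥) (u1 : u ≠ 1)
include hO u1

theorem exists_ne : ∃ χ ∈ principalBlock M G, χ ≠ irrOne G ∧ χ.1 1 - χ.1 u = k ∧ k ≠ 0 := by
  by_contra! e
  refine u1 (Subgroup.mem_bot.1 (hO ▸ mem_pPrimeCore_of_ker hM fun χ hχ => ?_))
  by_cases h1 : χ = irrOne G
  · simp [h1, irrOne, mem_charKer]
  · exact χ.2.mem_charKer_iff.2 (sub_eq_zero.1 ((h χ hχ h1).trans (e χ hχ h1 (h χ hχ h1)))).symm

omit h hM in
theorem two_dvd : 2 ∣ Nat.card G := by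
  by_contra e
  exact u1 (Subgroup.mem_bot.1 (hO ▸ H1.le_pPrimeCore (N := ⊤) inferInstance (by
    rwa [Subgroup.card_top, Nat.coprime_comm, Nat.prime_two.coprime_iff_not_dvd]) trivial))

omit h in
theorem sums [DecidablePred (· ∈ principalBlock M G)] :
    (∑ χ with χ ∈ principalBlock M G, charDegree χ.1 ^ 2).factorization 2 =
      (Nat.card G).factorization 2 ∧ 2 ∣ ∑ χ with χ ∈ principalBlock M G, charDegree χ.1 := by
  haveI := Fintype.ofFinite G
  have h1 := H21.factorization_sum_sq hM (isPBlock_principalBlock (G := G))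
  rw [blockDefect_principal hM] at h1
  have h2 := Nat.prime_two.factorization_pos_of_dvd Nat.card_pos.ne' (two_dvd hO u1)
  refine ⟨by omega, ?_⟩
  have h3 : 2 ∣ ∑ χ with χ ∈ principalBlock M G, charDegree χ.1 ^ 2 :=
    Nat.dvd_of_factorization_pos (by omega)
  refine (Nat.modEq_zero_iff_dvd.1 (Nat.ModEq.trans (Nat.ModEq.sum fun χ _ => ?_)
    (Nat.modEq_zero_iff_dvd.2 h3)))
  rw [Nat.ModEq, Nat.pow_mod]
  rcases Nat.mod_two_eq_zero_or_one (charDegree χ.1) with e | e <;> simp [e]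

theorem isConj (ht : IsPPart 2 u t) {y : G} (hy : IsPElt 2 y) (y1 : y ≠ 1) : IsConj t y := by
  classical
  haveI := charP_kk hM
  by_contra e
  obtain ⟨-, -, -, -, h0⟩ := h.exists_ne hM hO u1
  have h1 := h.orth hM y⁻¹
  have hy' := isPPart_self (by norm_num) hy
  rw [block_orth hM isPBlock_principalBlock (isPPart_one (by simp)) hy'
    fun e => y1 (isConj_one_right.1 e), block_orth hM isPBlock_principalBlock ht hy' e,
    sub_zero] at h1
  have h2 := congrArg (red M) (sub_eq_zero.1 ((mul_eq_zero.1 h1.symm).resolve_left h0))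
  rw [red_sum _ _ fun χ _ => char_apply_mem_V χ.2.isCharacter _, Finset.sum_congr rfl fun χ _ => by
    rw [red_char_of_isPElt hM χ.2.isCharacter hy.inv, irr_apply_one, red_natCast], ← Nat.cast_sum,
    (CharP.cast_eq_zero_iff _ 2 _).2 (sums hM hO u1).2, red_one] at h2
  exact zero_ne_one h2

theorem orderOf_eq (ht : IsPPart 2 u t) : orderOf t = 2 := by
  obtain ⟨y, hy⟩ := exists_prime_orderOf_dvd_card' 2 (two_dvd hO u1)
  rw [orderOf_eq_of_isConj (h.isConj hM hO u1 ht ⟨1, hy⟩ (H10.ne_one_of_orderOf_two hy)), hy]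

theorem exists_nat (hP : IsSylowIn 2 P ⊤) : ∃ n : ℕ, k = n ∧ 0 < n ∧ Nat.card P ∣ n := by
  classical
  obtain ⟨t, ht⟩ := exists_isPPart (p := 2) u
  obtain ⟨χ, -, -, h1, h0⟩ := h.exists_ne hM hO u1
  obtain ⟨h2, h3⟩ := sums hM hO u1
  have h4 := h.orth hM 1⁻¹
  rw [block_orth hM isPBlock_principalBlock ht (isPPart_one (by simp)) fun e =>
    H10.ne_one_of_orderOf_two (h.orderOf_eq hM hO u1 ht) (isConj_one_left.1 e), sub_zero] at h4
  simp only [inv_one, irr_apply_one, ← pow_two, ← Nat.cast_pow, ← Nat.cast_sum] at h4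
  have h5 : 0 < ∑ χ with χ ∈ principalBlock M G, charDegree χ.1 :=
    Finset.sum_pos (fun χ _ => Nat.pos_of_ne_zero (H7.charDegree_ne_zero χ))
      ⟨irrOne G, by simpa using irrOne_mem_principalBlock hM⟩
  generalize ∑ χ with χ ∈ principalBlock M G, charDegree χ.1 = a at h3 h4 h5
  generalize ∑ χ with χ ∈ principalBlock M G, charDegree χ.1 ^ 2 = b at h2 h4
  obtain ⟨a, rfl⟩ : ∃ c, a = c + 1 := ⟨a - 1, by omega⟩
  have h6 : (a : ℂ) ≠ 0 := Nat.cast_ne_zero.2 (by omega)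
  rw [Nat.cast_succ, add_sub_cancel_right] at h4
  obtain ⟨n, rfl⟩ := nat_dvd_of_isIntegral_div (a := b) (b := a) (by omega) (by
    rw [h4, mul_div_cancel_right₀ _ h6, ← h1]
    exact (χ.2.isCharacter.isIntegral_apply _).sub (χ.2.isCharacter.isIntegral_apply _))
  have h7 : k = n := mul_left_cancel₀ h6 (by rw [mul_comm, ← h4, Nat.cast_mul])
  refine ⟨n, h7, Nat.pos_of_ne_zero fun e => h0 (by simp [h7, e]), ?_⟩
  rw [hP.card_eq_pow_factorization, Subgroup.card_top, ← h2]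
  exact (Nat.Coprime.pow_left _ (Nat.prime_two.coprime_iff_not_dvd.2 (by omega))).dvd_of_dvd_mul_left
    (Nat.ordProj_dvd _ _)

theorem card_eq_two (hP : IsSylowIn 2 P ⊤) {H : Subgroup G} [H.Normal] (h1 : 𝐂 P ≤ H)
    (h2 : H ≠ ⊤) (h3 : P ≤ H) : Nat.card P ≤ 2 := by
  haveI : Group.IsSolvable (G ⧸ H) := H20.odd_solvable _ (Nat.not_even_iff_odd.1 fun e =>
    hP.not_dvd_relIndex_of_le h3 (by rw [Subgroup.relIndex_top_right]; exact e.two_dvd))
  haveI : Nontrivial (G ⧸ H) := QuotientGroup.nontrivial_iff.2 h2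
  obtain ⟨x, -, hx⟩ := SetLike.exists_of_lt
    (Group.IsSolvable.commutator_lt_top_of_nontrivial (G ⧸ H))
  obtain ⟨μ, hμ⟩ := H21.exists_unitsHom_ne_one (A := Abelianization (G ⧸ H))
    (a := Abelianization.of x) fun e => hx ((QuotientGroup.eq_one_iff _).1 e)
  obtain ⟨n, rfl, h4, h5⟩ := h.exists_nat hM hO u1 hP
  set ν := μ.comp (Abelianization.of.comp (QuotientGroup.mk' H))
  have h6 := h _ (hom_mem_principal hM hP ν fun g hg => by
    simp [ν, (QuotientGroup.eq_one_iff g).2 (h1 hg)]) fun e => by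
      obtain ⟨y, rfl⟩ := QuotientGroup.mk'_surjective H x
      exact hμ (Units.ext (congrFun (congrArg Subtype.val e) y))
  have h7 := (isIrrCharacter_unitsHom ν).isCharacter.norm_apply_le u
  have h8 := norm_sub_le (ν 1 : ℂ) (ν u)
  simp only [map_one, Units.val_one, Complex.one_re, norm_one] at h6 h7 h8
  rw [h6, Complex.norm_natCast] at h8
  exact (Nat.le_of_dvd h4 h5).trans (by exact_mod_cast h8.trans (by linarith : _ ≤ (2 : ℝ)))

omit h u1 hM in
theorem card_two (hP : IsSylowIn 2 P ⊤) (h1 : Nat.card P ≤ 2) (h2 : 2 ∣ Nat.card G) :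
    Nat.card G = 2 := by
  have h3 : ∀ x ∈ P, ∀ y ∈ P, x ≠ 1 → y ≠ 1 → x = y := fun x hx y hy x1 y1 => by
    have := card_ne_one P
    exact congrArg Subtype.val ((Finite.card_le_one_iff_subsingleton.1 (by omega :
      Nat.card {v : G // v ∈ P ∧ v ≠ 1} ≤ 1)).elim ⟨x, hx, x1⟩ ⟨y, hy, y1⟩)
  have h4 : 𝐍 P ≤ 𝐂 P := fun g hg => mem_centralizer'.2 fun x hx => by
    by_cases x1 : x = 1
    · simp [x1]
    · exact (mul_inv_eq_iff_eq_mul.1 (h3 _ (conj_mem_of_mem_normalizer hg hx) x hx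
        (by simpa using x1) x1)).symm
  have h5 := (isSylowIn_self ((isPGroup_of_hasNPC' hO ((hasNPC_iff_ee hP
    (Subgroup.le_normalizer.trans h4)).2 (Subgroup.relIndex_eq_one.2 h4))).to_subgroup ⊤)).card_eq hP
  rw [Subgroup.card_top] at h5
  have := Nat.le_of_dvd Nat.card_pos h2
  omega

omit hO u1 hM in
theorem klein (hu : 2 ∣ orderOf u) {ζ₂ ζ₃ ζ₄ : IrrCharacter G} {ε : ℤ}
    (K : KleinData M ζ₂ ζ₃ ζ₄ ε) {n : ℕ} (hn : k = n) (h0 : 4 ∣ n) (h0' : 0 < n) :
    ∃ χ ∈ principalBlock M G, χ.1 1 = 3 := by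
  obtain ⟨v2, v3, v4⟩ := K.val u hu
  have h2 := h ζ₂ ((K.mem _).2 (by simp)) K.ne12.symm
  have h3 := h ζ₃ ((K.mem _).2 (by simp)) K.ne13.symm
  have h4 := h ζ₄ ((K.mem _).2 (by simp)) K.ne14.symm
  have h5 := K.rel 1 (by simp)
  rw [v2, hn] at h2
  rw [v3, hn] at h3
  rw [v4, hn] at h4
  have h6 : (ε * (n + ε) + 3 : ℂ) = 0 := by linear_combination h4 - h5 - h2 - ε * h3
  have h7 : ε * (n + ε) + 3 = 0 := by exact_mod_cast h6
  refine ⟨ζ₃, (K.mem _).2 (by simp), ?_⟩
  rcases K.eps with rfl | rfl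
  · omega
  · obtain rfl : n = 4 := by omega
    push_cast at h3
    linear_combination h3

theorem eight (hP : IsSylowIn 2 P ⊤) (hab : P ≤ 𝐂 P) (h8 : Nat.card P = 8) (ht : IsPPart 2 u t)
    (hs : ¬ Group.IsSolvable (C t))
    (hk : ∀ χ ∈ principalBlock M G, t ∈ charKer χ.1 → χ = irrOne G) : False := by
  classical
  have ht2 := h.orderOf_eq hM hO u1 ht
  haveI : (Subgroup.zpowers (⟨t, self_mem_centralizer t⟩ : C t)).Normal :=
    H4.normal_of_le_center (Subgroup.zpowers_le.2 (self_mem_center_centralizer t))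
  obtain ⟨Q, _, _, π, hπ, hker⟩ : ∃ (Q : Type u) (_ : Group Q) (_ : Finite Q) (π : C t →* Q),
      Function.Surjective π ∧ π.ker = Subgroup.zpowers ⟨t, self_mem_centralizer t⟩ :=
    ⟨_ ⧸ _, inferInstance, inferInstance, _, QuotientGroup.mk'_surjective _, QuotientGroup.ker_mk' _⟩
  obtain ⟨S⟩ : Nonempty (Sylow 2 Q) := inferInstance
  obtain ⟨k1, k2⟩ := klein_of_card_four S (by
    obtain ⟨v, hv, e⟩ := exists_isConj_mem hP (x := t) ⟨1, ht2⟩
    obtain ⟨g, rfl⟩ := isConj_iff.1 e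
    have h1 := factorization_index_add (p := 2) π.ker
    have h2 := (hP.mono (hab.trans (cent_le_cent1 hv)) le_top).card_eq_pow_factorization
    rw [Subgroup.index_ker, MonoidHom.range_eq_top.2 hπ, Subgroup.card_top, card_ker_two ht2 hker,
      Nat.Prime.factorization_self Nat.prime_two] at h1
    rw [← cj_centralizer_singleton, card_cj, ← h1, pow_succ, h8] at h2
    rw [S.card_eq_multiplicity]
    omega) fun e => hs (by
      haveI := solvable_of_hasNPC e
      haveI := (isPGroup_ker_two ht2 hker).isNilpotent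
      exact Group.isSolvable_of_ker_le_range π.ker.subtype π (by simp))
  obtain ⟨ζ₂, ζ₃, ζ₄, ε, K⟩ := exists_kleinData S k1 hM k2
  obtain ⟨d₁, d₂, d₃, c, h0, h1⟩ := exists_col3 hM ht2 hπ hker K
  obtain ⟨n, rfl, h2, h3⟩ := h.exists_nat hM hO u1 hP
  have hu : u ∈ C t := Subgroup.mem_centralizer_singleton_iff.2 (isPPart_commute ht).symm
  refine c.false (k := n) (x := fun χ => if χ ∈ principalBlock M G then
    if χ = irrOne G then 1 else charDegree χ.1 - n else 0) (by omega) (by exact_mod_cast h8 ▸ h3)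
    (by simp [charDegree_irrOne]) (fun χ => (Eq.trans ?_ (h1 χ ⟨u, hu⟩ ht))) fun χ χ1 => ?_
  · split_ifs with a b
    · simp [b, irrOne]
    · push_cast
      rw [← h χ a b, irr_apply_one, sub_sub_cancel]
    · simp
  by_cases a : χ ∈ principalBlock M G
  swap
  · exact Or.inl (h0 χ a)
  refine Or.inr ⟨by simp [a, χ1], ?_⟩
  obtain ⟨b, hb⟩ := χ.2.isGeneralizedCharacter.exists_int_of_sq_eq_one (g := t)
    (ht2 ▸ pow_orderOf_eq_one t)
  obtain ⟨m, hm⟩ := dvd_sub_of_one_class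
    (fun x hx x1 => h.isConj hM hO u1 ht (isPElt_of_mem hP.isPGroup hx) x1) χ.2.isCharacter hb
  have h4 := χ.2.isCharacter.re_lt_of_not_mem_charKer fun e => χ1 (hk χ a e)
  rw [hb, irr_apply_one, Complex.intCast_re, Complex.natCast_re] at h4
  have h5 : b < charDegree χ.1 := by exact_mod_cast h4
  rw [h8] at hm
  omega

theorem main : Nat.card G = 2 ∨ (H3.IsL2 G ∧ u ^ 2 = 1) := by
  classical
  obtain ⟨P, hP⟩ := exists_isSylowIn 2 (⊤ : Subgroup G)
  obtain ⟨t, ht⟩ := exists_isPPart (p := 2) u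
  have ht2 := h.orderOf_eq hM hO u1 ht
  have t1 := H10.ne_one_of_orderOf_two ht2
  have hone := fun y hy y1 => h.isConj hM hO u1 ht (y := y) hy y1
  have hab : P ≤ 𝐂 P := fun x hx => mem_centralizer'.2 fun y hy =>
    (Commute.of_orderOf_dvd_two (G := P) (fun z => by
      by_cases z1 : z = 1
      · simp [z1]
      · rw [← Subgroup.orderOf_coe, ← orderOf_eq_of_isConj (hone _ (isPElt_of_mem hP.isPGroup z.2)
          (by simpa using z1)), ht2]) ⟨y, hy⟩ ⟨x, hx⟩).eq |> congrArg Subtype.val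
  by_cases hs : Group.IsSolvable G
  · obtain ⟨_, h1⟩ := normal_of_solvable hO hP hab hs
    refine Or.inl ?_
    by_cases h2 : P = ⊤
    swap
    · exact card_two hO hP (h.card_eq_two hM hO u1 hP h1.le h2 le_rfl) (two_dvd hO u1)
    refine (Nat.card_eq_two_iff' 1).2 ⟨t, t1, fun y y1 => ?_⟩
    obtain ⟨g, rfl⟩ := isConj_iff.1 (hone y (isPElt_of_mem hP.isPGroup (h2 ▸ trivial)) y1)
    rw [← mem_centralizer'.1 (hab (h2 ▸ trivial : g ∈ P)) t (h2 ▸ trivial), mul_inv_cancel_right]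
  obtain ⟨J, a⟩ := exists_abC hO hP hab hs
  have h0 : P ⊓ 𝐂 J = ⊥ := eq_bot_iff.2 fun z hz => by_contra fun z1 => by
    obtain ⟨s, hs, s1⟩ := a.exists_ne_one
    obtain ⟨g, hg⟩ := isConj_iff.1 ((hone s (isPElt_of_mem hP.isPGroup hs.1) s1).symm.trans
      (hone (s * z) (isPElt_of_mem hP.isPGroup (mul_mem hs.1 hz.1)) fun e => z1
        (a.eq_one (eq_inv_of_mul_eq_one_right e ▸ inv_mem hs.2) hz.2)))
    have h1 : s * z ∈ cj g J := hg ▸ conj_mem_cj hs.2
    rcases a.cj_cases g with e | e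
    · exact z1 (a.eq_one ((J.mul_mem_cancel_left hs.2).1 (e ▸ h1)) hz.2)
    · exact s1 (a.eq_one hs.2 (((𝐂 J).mul_mem_cancel_right hz.2).1 (e h1)))
  haveI := a.normal_of_eq_bot h0
  haveI := a.simple
  have h1 := a.le_of_eq_bot h0
  have h2 := a.cent_eq_bot hO h0
  have h4 := a.four
  have hPJ := inf_eq_left.2 h1
  have h3 : J ⊔ 𝐂 P = ⊤ := by
    have e := (hP.mono h1 le_top).frattini_sup le_top (Subgroup.normalizer_eq_top J).ge
    haveI : (J ⊔ 𝐂 P).Normal := Subgroup.normalizer_eq_top_iff.1 (eq_top_iff.2 (e.ge.trans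
      (sup_le (le_sup_left.trans Subgroup.le_normalizer) (inf_le_right.trans
        (le_normalizer_sup (Subgroup.normalizer_eq_top J ▸ le_top)
          (normalizer_le_normalizer_centralizer P))))))
    by_contra e
    have := h.card_eq_two hM hO u1 hP le_sup_right e (h1.trans le_sup_left)
    rw [hPJ] at h4
    omega
  obtain ⟨A1, A2⟩ := (AD.of_sup hM hP (by simpa using hP.not_dvd_relIndex_of_le h1) h3).main
  have htJ : t ∈ J := by
    obtain ⟨v, hv, e⟩ := exists_isConj_mem hP (x := t) ⟨1, ht2⟩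
    obtain ⟨g, rfl⟩ := isConj_iff.1 e.symm
    exact Subgroup.Normal.conj_mem inferInstance _ (h1 hv) g
  have hu : 2 ∣ orderOf u := ht2 ▸ orderOf_dvd_of_mem_zpowers (isPPart_mem ht (Subgroup.mem_zpowers u))
  have key : H3.IsL2 J → H3.IsL2 G ∧ u ^ 2 = 1 := fun ⟨F, _, _, hF, ⟨e⟩⟩ => by
    obtain ⟨q, L⟩ := l2e_of_isL2 ⟨F, _, _, hF, ⟨e⟩⟩
    obtain rfl : J = ⊤ := eq_top_iff.2 (h3.ge.trans (sup_le le_rfl fun v hv => by
      obtain ⟨x, -, hx⟩ := L.aut_inner (hP.mono h1 le_top).subgroupOf_top (MulAut.conjNormal v)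
        fun y hy => Subtype.ext (by simp [← mem_centralizer'.1 hv y hy])
      have : (x : G)⁻¹ * v ∈ 𝐂 J := mem_centralizer'.2 fun y hy => by
        have := congrArg Subtype.val (hx ⟨y, hy⟩)
        simp only [MulAut.conjNormal_apply, Subgroup.coe_mul, InvMemClass.coe_inv] at this
        rw [mul_assoc, mul_inv_eq_iff_eq_mul.1 this]
        group
      rw [h2, Subgroup.mem_bot, inv_mul_eq_one] at this
      exact this ▸ x.2))
    exact ⟨⟨F, _, _, hF, ⟨Subgroup.topEquiv.symm.trans e⟩⟩,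
      (L.of_equiv Subgroup.topEquiv.symm).orderOf_eq hu ▸ pow_orderOf_eq_one u⟩
  rcases a.type with b | ⟨b, F, _, _, hF, hF', ⟨e⟩⟩ | ⟨b, c⟩
  · exact Or.inr (key b)
  · obtain ⟨n, hn, h5, h6⟩ := h.exists_nat hM hO u1 hP
    obtain ⟨S, rfl⟩ := hP.exists_sylow_top
    rw [hPJ] at b
    obtain ⟨k1, k2⟩ := klein_of_card_four S b fun e => hs (solvable_of_hasNPC e)
    obtain ⟨ζ₂, ζ₃, ζ₄, ε, K⟩ := exists_kleinData S k1 hM k2
    obtain ⟨χ, hχ, h7⟩ := h.klein hu K hn (b ▸ h6) h5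
    obtain ⟨θ, -, h8⟩ := A1 χ hχ
    obtain ⟨ψ, hψ, h9⟩ := H13.GL2.mem_charDegrees_SL.1 (H13.GL2.charDegrees_PSL_subset
      ((H13.GL2.charDegrees_congr e).le ⟨θ, H8.charDegree_eq (n := 3) ((h8 1).symm.trans h7)⟩))
    obtain ⟨m, hm, h10⟩ := H13.GL2.irr_cases_SL hψ
    obtain rfl : m = 3 := by exact_mod_cast hm.symm.trans h9
    haveI := Fintype.ofFinite (GaloisField 2 2)
    have h11 : Fintype.card (GaloisField 2 2) = 2 ^ 2 := by
      rw [← Nat.card_eq_fintype_card, GaloisField.card 2 2 two_ne_zero]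
    obtain ⟨e1⟩ := H11.nonempty_psl2_five_equiv (F := F) (by
      rcases h10 with h10 | h10 | h10 | h10 | h10 | h10 <;> have := h10.1 <;> omega)
    obtain ⟨e2⟩ := H11.nonempty_psl2_four_equiv h11
    exact Or.inr (key ⟨_, _, _, ⟨2, le_rfl, h11⟩, ⟨(e.trans e1).trans e2.symm⟩⟩)
  · refine (h.eight hM hO u1 hP hab (hPJ ▸ b) ht (fun e => c t htJ ht2
      (Group.isSolvable_of_isSolvable_injective (Subgroup.inclusion_injective inf_le_right)))
      fun χ hχ e => ?_).elim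
    obtain ⟨θ, hθ, h5⟩ := A1 χ hχ
    have h7 : (⟨t, htJ⟩ : J) ∈ charKer θ.1 := fun x => by rw [← h5, ← h5]; exact e x
    have h6 := θ.2.charKer_eq_top_iff.1 ((IsSimpleGroup.eq_bot_or_eq_top_of_normal _
      θ.2.isClassFunction.charKer_normal).resolve_left fun e' => t1 (by simpa [e'] using h7))
    exact (A2 θ hθ).unique ⟨hχ, h5⟩ ⟨irrOne_mem_principalBlock hM, fun n => by simp [h6, irrOne]⟩

end Cst

end H7
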