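/-
Above the Glauberman correspondence, part 1: nilpotent endomorphisms whose commutant is
almost inner, and primitive vectors over unique factorization domains.
-/
import Cfsg.Agent.H21.Mod4
import Mathlib.Algebra.MvPolynomial.Nilpotent
import Mathlib.RingTheory.Polynomial.UniqueFactorization
import Mathlib.RingTheory.UniqueFactorizationDomain.GCDMonoid
import Mathlib.RingTheory.Localization.FractionRing
import Mathlib.RingTheory.Localization.Integer

set_option autoImplicit false
set_option linter.style.haveILetI false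

namespace H7.DG
open Module LinearMap Finset

section Nil
variable {F V : Type*} [Field F] [AddCommGroup V] [Module F V] [FiniteDimensional F V]

/-- the filtration of the kernel of `X` -/
def KK (X : End F V) (i : ℕ) : Submodule F V := LinearMap.ker X ⊓ LinearMap.range (X ^ i)

theorem dg_rank (X : End F V) (i : ℕ) : finrank F (LinearMap.range (X ^ i)) =
    finrank F (LinearMap.range (X ^ (i + 1))) + finrank F (KK X i) := by
  rw [← (X.domRestrict (LinearMap.range (X ^ i))).finrank_range_add_finrank_ker, range_domRestrict,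
    ker_domRestrict, pow_succ', End.mul_eq_comp, range_comp,
    ← Submodule.finrank_map_subtype_eq (LinearMap.range (X ^ i)), Submodule.map_comap_subtype,
    inf_comm, KK]

theorem dg_exists_ne {p : ℕ} (hV : ¬ p ∣ finrank F V) {X : End F V} (hX : IsNilpotent X)
    (hp : 0 < p) : ∃ i, ¬ p ∣ i + 1 ∧ KK X i ≠ KK X (i + 1) := by
  by_contra! c
  have k1 : ∀ a b, b ≤ p → finrank F (LinearMap.range (X ^ (p * a))) =
      finrank F (LinearMap.range (X ^ (p * a + b))) + b * finrank F (KK X (p * a)) ∧
      (b < p → KK X (p * a + b) = KK X (p * a)) := fun a b hb => by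
    induction b with
    | zero => simp
    | succ b ih =>
      obtain ⟨h1, h2⟩ := ih (by omega)
      refine ⟨by rw [h1, dg_rank X (p * a + b), h2 (by omega), add_assoc (p * a)]; ring, fun h => ?_⟩
      rw [← h2 (by omega), c (p * a + b) fun k => ?_, add_assoc]
      rw [add_assoc, Nat.dvd_add_right (dvd_mul_right p a)] at k
      exact absurd (Nat.le_of_dvd (by omega) k) (by omega)
  have k2 : ∀ a, ∃ b, finrank F V = finrank F (LinearMap.range (X ^ (p * a))) + p * b := fun a => by
    induction a with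
    | zero => exact ⟨0, by rw [mul_zero, pow_zero, End.one_eq_id, range_id, finrank_top, add_zero]⟩
    | succ a ih =>
      obtain ⟨b, hb⟩ := ih
      exact ⟨b + finrank F (KK X (p * a)), by rw [hb, (k1 a p le_rfl).1, mul_add p a, mul_one]; ring⟩
  obtain ⟨n, hn⟩ := hX
  obtain ⟨b, hb⟩ := k2 n
  rw [pow_eq_zero_of_le (Nat.le_mul_of_pos_left n hp) hn, LinearMap.range_zero, finrank_bot, zero_add] at hb
  exact hV ⟨b, hb⟩

theorem dg_pow_comm {A : Type*} [Ring A] {x y : A} (h : Commute (x * y - y * x) x) (i : ℕ) :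
    x ^ (i + 1) * y - y * x ^ (i + 1) = (i + 1) • (x ^ i * (x * y - y * x)) := by
  induction i with
  | zero => simp
  | succ i ih =>
    calc x ^ (i + 1 + 1) * y - y * x ^ (i + 1 + 1)
        = x ^ (i + 1) * (x * y - y * x) + (x ^ (i + 1) * y - y * x ^ (i + 1)) * x := by
          rw [pow_succ x (i + 1)]; noncomm_ring
      _ = _ := by
          rw [ih, smul_mul_assoc, mul_assoc, h.eq, ← mul_assoc, ← pow_succ, succ_nsmul' _ (i + 1)]

omit [FiniteDimensional F V] in
theorem dg_unit {X a : End F V} (ha : IsUnit a) (h : Commute a X) {i : ℕ} {w : V}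
    (hw : a w ∈ LinearMap.range (X ^ i)) : w ∈ LinearMap.range (X ^ i) := by
  obtain ⟨a, rfl⟩ := ha
  obtain ⟨v, hv⟩ := hw
  refine ⟨(a⁻¹ : (End F V)ˣ).1 v, ?_⟩
  rw [← End.mul_apply, ← (h.units_inv_left.pow_right i).eq, End.mul_apply, hv, ← End.mul_apply,
    Units.inv_mul, End.one_apply]

theorem dg_nil {p : ℕ} [CharP F p] (hp : 0 < p) (hV : ¬ p ∣ finrank F V) {X : End F V}
    (hX : IsNilpotent X) (h : ∀ φ, Commute φ X → ∃ (c : F) (n ψ : End F V), IsNilpotent n ∧
      Commute n X ∧ φ = algebraMap F _ c + n + (X * ψ - ψ * X)) :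
    ∃ i, finrank F (KK X i) = finrank F (KK X (i + 1)) + 1 := by
  obtain ⟨i, hi, hne⟩ := dg_exists_ne hV hX hp
  have hle : KK X (i + 1) ≤ KK X i := inf_le_inf_left _ (by
    rw [pow_succ, End.mul_eq_comp]; exact range_comp_le_range _ _)
  obtain ⟨w, hw, hw'⟩ := SetLike.exists_of_lt (lt_of_le_of_ne hle hne.symm)
  have hw2 : w ∉ LinearMap.range (X ^ (i + 1)) := fun k => hw' ⟨hw.1, k⟩
  have key : ∀ z ∈ KK X i, z ∈ LinearMap.range (X ^ (i + 1)) ⊔ Submodule.span F {w} := by
    rintro _ ⟨hz, v, rfl⟩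
    by_contra c
    obtain ⟨g, g1, g2⟩ := Submodule.exists_le_ker_of_notMem c
    have hv : (X ^ (i + 1)) v = 0 := by rw [pow_succ']; exact hz
    have g3 : g.smulRight v * X ^ (i + 1) = 0 := ext fun u => by
      simp [show g ((X ^ (i + 1)) u) = 0 from g2 (Submodule.mem_sup_left ⟨u, rfl⟩)]
    have g4 : X ^ (i + 1) * g.smulRight v = 0 := ext fun u => by simp [hv]
    let φ : End F V := ∑ a ∈ range (i + 1), X ^ a * g.smulRight v * X ^ (i - a)
    have hφ : Commute φ X := by
      have := (Commute.mul_geom_sum₂ (R := End F (End F V)) (x := mulLeft F X) (y := mulRight F X)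
        (commute_mulLeft_right X X) (i + 1))
      have := congrArg (fun t : End F (End F V) => t (g.smulRight v)) this
      simp only [End.mul_apply, LinearMap.sub_apply, LinearMap.sum_apply, pow_mulLeft, pow_mulRight,
        mulLeft_apply, mulRight_apply, g3, g4, sub_zero, Nat.add_sub_cancel, ← mul_assoc] at this
      exact (sub_eq_zero.1 this).symm
    have ev : ∀ u, φ ((X ^ i) u) = g ((X ^ i) u) • (X ^ i) v := fun u => by
      have : X ^ i * φ = X ^ i * g.smulRight v * X ^ i := by
        rw [mul_sum, sum_range_succ', sum_eq_zero fun a _ => by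
          rw [← mul_assoc, ← mul_assoc, ← pow_add, show i + (a + 1) = a + (i + 1) by ring, pow_add,
            mul_assoc (X ^ a), g4, mul_zero, zero_mul]]
        simp [mul_assoc]
      rw [← End.mul_apply, (hφ.pow_right i).eq, this]
      simp
    obtain ⟨d, n, ψ, n1, n2, e⟩ := h φ hφ
    have hc : Commute (X * ψ - ψ * X) X := by
      rw [show X * ψ - ψ * X = φ - (algebraMap F _ d + n) by rw [e]; abel]
      exact hφ.sub_left ((Algebra.commute_algebraMap_left d X).add_left n2)
    have k : ∀ u, X ((X ^ i) u) = 0 → (algebraMap F _ d + n) ((X ^ i) u) -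
        g ((X ^ i) u) • (X ^ i) v ∈ LinearMap.range (X ^ (i + 1)) := fun u hu => by
      have k1 := congrArg (fun t : End F V => t u) (dg_pow_comm hc i)
      have k2 : (X ^ (i + 1)) u = 0 := by rw [pow_succ']; exact hu
      simp only [LinearMap.sub_apply, End.mul_apply, k2, map_zero, sub_zero] at k1
      rw [← ev, e, LinearMap.add_apply _ (X * ψ - ψ * X), sub_add_cancel_left, neg_mem_iff, ← End.mul_apply,
        (hc.pow_right i).eq, ← Submodule.smul_mem_iff _
          (show ((i + 1 : ℕ) : F) ≠ 0 by rwa [Ne, CharP.cast_eq_zero_iff F p]),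
        Nat.cast_smul_eq_nsmul]
      exact ⟨_, k1⟩
    obtain ⟨u, rfl⟩ := hw.2
    have k1 := k u hw.1
    rw [show g ((X ^ i) u) = 0 from g2 (Submodule.mem_sup_right (Submodule.mem_span_singleton_self _)),
      zero_smul, sub_zero] at k1
    have un : ∀ d : F, d ≠ 0 → IsUnit (algebraMap F (End F V) d + n) := fun d hd =>
      n1.isUnit_add_left_of_commute ((IsUnit.mk0 d hd).map _) (Algebra.commute_algebraMap_right d n)
    obtain rfl : d = 0 := by_contra fun c0 =>
      hw2 (dg_unit (un d c0) ((Algebra.commute_algebraMap_left d X).add_left n2) k1)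
    refine c (Submodule.mem_sup_left (dg_unit (un _ (neg_ne_zero.2 g1))
      ((Algebra.commute_algebraMap_left _ X).add_left n2) ?_))
    convert k v hz using 1
    simp [algebraMap_end_apply, sub_eq_neg_add]
  have e : KK X i = KK X (i + 1) ⊔ Submodule.span F {w} := le_antisymm (fun z hz => by
    obtain ⟨r, hr, t, ht, rfl⟩ := Submodule.mem_sup.1 (key z hz)
    have := (Submodule.span_singleton_le_iff_mem _ _).2 hw ht
    exact Submodule.add_mem_sup ⟨(Submodule.add_mem_iff_left _ this.1).1 hz.1, hr⟩ ht)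
    (sup_le hle ((Submodule.span_singleton_le_iff_mem _ _).2 hw))
  have k := Submodule.finrank_sup_add_finrank_inf_eq (KK X (i + 1)) (Submodule.span F {w})
  rw [← e, (Submodule.disjoint_span_singleton_of_notMem hw').eq_bot, finrank_bot,
    finrank_span_singleton (show w ≠ 0 from fun e => hw' (by rw [e]; exact zero_mem _)), add_zero] at k
  exact ⟨i, k⟩

end Nil

section PV
variable {k R F : Type*} [Field k] [CommRing R] [IsDomain R] [UniqueFactorizationMonoid R]
  [Algebra k R] [Field F] [Algebra R F] [IsFractionRing R F]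

/-- `g` is a greatest common divisor of the set `S` -/
def IsG (g : R) (S : Set R) : Prop := ∀ c, (∀ s ∈ S, c ∣ s) ↔ c ∣ g

theorem exists_isG {S : Set R} {a : R} (ha : a ∈ S) (h0 : a ≠ 0) : ∃ g, g ≠ 0 ∧ IsG g S := by
  letI := UniqueFactorizationMonoid.toGCDMonoid R
  obtain ⟨g, ⟨g0, hg⟩, hm⟩ := (wellFounded_dvdNotUnit (α := R)).has_min
    {g | g ≠ 0 ∧ ∀ c, (∀ s ∈ S, c ∣ s) → c ∣ g} ⟨a, h0, fun c h => h a ha⟩
  refine ⟨g, g0, fun c => ⟨hg c, fun h s hs => h.trans ?_⟩⟩
  have k : gcd g s ≠ 0 := gcd_ne_zero_of_left g0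
  refine (by_contra fun e => hm _ ⟨k, fun c h => dvd_gcd (hg c h) (h s hs)⟩
    (dvdNotUnit_of_dvd_of_not_dvd (gcd_dvd_left g s) e) : g ∣ gcd g s).trans (gcd_dvd_right g s)

theorem IsG.mul_dvd {S T : Set R} {g h a b : R} (hg : IsG g S) (hh : IsG h T) (hb : b ≠ 0)
    (h1 : ∀ t ∈ T, ∃ s ∈ S, b * t = a * s) {t : R} (ht : t ∈ T) (t0 : t ≠ 0) : a * g ∣ b * h := by
  obtain ⟨l, -, hl⟩ := exists_isG (S := (b * ·) '' T) ⟨t, ht, rfl⟩ (mul_ne_zero hb t0)
  obtain ⟨m, rfl⟩ := (hl b).1 (by rintro _ ⟨t, -, rfl⟩; exact dvd_mul_right _ _)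
  refine ((hl _).1 ?_).trans (mul_dvd_mul_left b ((hh m).1 fun t ht =>
    (mul_dvd_mul_iff_left hb).1 ((hl _).2 dvd_rfl _ ⟨t, ht, rfl⟩)))
  rintro _ ⟨t, ht, rfl⟩
  obtain ⟨s, hs, e⟩ := h1 t ht
  show a * g ∣ b * t
  rw [e]
  exact mul_dvd_mul_left a ((hg g).2 dvd_rfl s hs)

omit [IsDomain R] [UniqueFactorizationMonoid R] in
theorem IsG.map {S : Set R} {g : R} (hg : IsG g S) (γ : R ≃+* R) : IsG (γ g) (γ '' S) := fun c => by
  obtain ⟨c, rfl⟩ := γ.surjective c
  simp only [Set.forall_mem_image, map_dvd_iff]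
  exact hg c

/-- **primitive vectors** -/
theorem dg_pv [Algebra k F] [IsScalarTower k R F] (hu : ∀ u : R, IsUnit u → ∃ c : k, u = algebraMap k R c)
    {D ι : Type*} [Group D] [Fintype ι] [DecidableEq ι] (T : D →* Matrix ι ι k) (γ : D →* (R ≃+* R))
    (hγ : ∀ d c, γ d (algebraMap k R c) = algebraMap k R c) (U : Submodule F (ι → F))
    (hU : ∀ d, ∀ v ∈ U, ((T d).map (algebraMap k F)).mulVec
      (IsFractionRing.ringEquivOfRingEquivHom R F (γ d) ∘ v) ∈ U) :
    ∃ μ : D →* k, ∀ d a, γ d = 1 → T d = algebraMap k _ a → μ d = a ^ finrank F U := by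
  classical
  let γ' := (IsFractionRing.ringEquivOfRingEquivHom R F).comp γ
  have h1 : ∀ d r, γ' d (algebraMap R F r) = algebraMap R F (γ d r) := fun d r =>
    IsFractionRing.ringEquivOfRingEquiv_algebraMap _ _
  have h2 : ∀ d c, γ' d (algebraMap k F c) = algebraMap k F c := fun d c => by
    rw [IsScalarTower.algebraMap_apply k R F, h1, hγ]
  let b := finBasis F U
  obtain ⟨r, hr⟩ := IsLocalization.exist_integer_multiples_of_finite (nonZeroDivisors R)
    fun x : ι × Fin (finrank F U) => (b x.2 : ι → F) x.1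
  choose B hB using hr
  have r0 : algebraMap R F r ≠ 0 := IsFractionRing.to_map_ne_zero_of_mem_nonZeroDivisors r.2
  let B' : Matrix ι (Fin (finrank F U)) R := Matrix.of fun i j => B (i, j)
  let BF := B'.map (algebraMap R F)
  have eB : ∀ c, BF.mulVec c = (∑ j, (algebraMap R F r * c j) • b j : U) := fun c => by
    ext i
    simp [BF, B', Matrix.mulVec, dotProduct, hB, Algebra.smul_def, mul_right_comm]
  have inj : ∀ c, BF.mulVec c = 0 → c = 0 := fun c hc => funext fun j => by
    rw [eB] at hc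
    exact (mul_eq_zero.1 (Fintype.linearIndependent_iff.1 b.linearIndependent _
      (Subtype.ext hc) j)).resolve_left r0
  have sur : ∀ v ∈ U, ∃ c, v = BF.mulVec c := fun v hv =>
    ⟨fun i => (algebraMap R F r)⁻¹ * b.repr ⟨v, hv⟩ i, by
      rw [eB]; simp only [mul_inv_cancel_left₀ r0, b.sum_repr]⟩
  have hJ : ∀ d, ∃ J : Matrix (Fin (finrank F U)) (Fin (finrank F U)) F,
      (T d).map (algebraMap k F) * BF.map (γ' d) = BF * J := fun d => by
    choose c hc using fun j => sur _ (hU d (BF.mulVec (Pi.single j 1))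
      (by rw [eB]; exact Subtype.property _))
    refine ⟨Matrix.of fun i j => c j i, Matrix.ext fun i j => ?_⟩
    have := congrFun (hc j) i
    rw [Matrix.mulVec_single_one] at this
    exact this
  choose J hJ using hJ
  have cancel : ∀ J J' : Matrix (Fin (finrank F U)) (Fin (finrank F U)) F, BF * J = BF * J' → J = J' :=
    fun J J' h => by
    ext i j
    have := inj (fun i => J i j - J' i j) (funext fun l => by
      have := congrFun (congrFun h l) j
      simp only [Matrix.mul_apply] at this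
      simp only [Matrix.mulVec, dotProduct, mul_sub, sum_sub_distrib, this, sub_self, Pi.zero_apply])
    exact sub_eq_zero.1 (congrFun this i)
  have Tm : ∀ d d', ((T d').map (algebraMap k F)).map (γ' d) = (T d').map (algebraMap k F) :=
    fun d d' => Matrix.ext fun i j => h2 _ _
  have Jm : ∀ d d', J (d * d') = J d * (J d').map (γ' d) := fun d d' => cancel _ _ (by
    rw [← hJ (d * d'), ← Matrix.mul_assoc, ← hJ d, Matrix.mul_assoc, ← Matrix.map_mul, ← hJ d',
      Matrix.map_mul, Tm, map_mul, Matrix.map_mul, Matrix.mul_assoc, map_mul]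
    rfl)
  have Js : ∀ d a, γ d = 1 → T d = algebraMap k _ a → J d = algebraMap F _ (algebraMap k F a) :=
    fun d a e1 e2 => cancel _ _ (by
      rw [← hJ, e2, show γ' d = 1 by rw [MonoidHom.comp_apply, e1, map_one]]
      ext i j
      simp [Matrix.algebraMap_eq_diagonal, mul_comm, Matrix.diagonal_map])
  have J1 : J 1 = 1 := (Js 1 1 (map_one _) (by rw [map_one, map_one])).trans (by rw [map_one, map_one])
  have jm : ∀ d d', (J (d * d')).det = (J d).det * γ' d (J d').det := fun d d' => by
    rw [Jm, Matrix.det_mul, RingEquiv.map_det]; rfl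
  have j0 : ∀ d, (J d).det ≠ 0 := fun d e => by
    have := jm d d⁻¹
    rw [mul_inv_cancel, J1, e, zero_mul, Matrix.det_one] at this
    exact one_ne_zero this
  let S : Set R := Set.range fun L : Matrix (Fin (finrank F U)) ι k => (L.map (algebraMap k R) * B').det
  have eS : ∀ d (L : Matrix (Fin (finrank F U)) ι k),
      algebraMap R F (γ d ((L * T d).map (algebraMap k R) * B').det) =
        (J d).det * algebraMap R F (L.map (algebraMap k R) * B').det := fun d L => by
    have e : ∀ L : Matrix (Fin (finrank F U)) ι k, algebraMap R F (L.map (algebraMap k R) * B').det =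
        (L.map (algebraMap k F) * BF).det := fun L => by
      rw [RingHom.map_det, RingHom.mapMatrix_apply, Matrix.map_mul, Matrix.map_map,
        ← RingHom.coe_comp, ← IsScalarTower.algebraMap_eq]
    rw [← h1, e, e, RingEquiv.map_det, mul_comm, ← Matrix.det_mul, Matrix.mul_assoc, ← hJ,
      ← Matrix.mul_assoc, ← Matrix.map_mul, RingEquiv.mapMatrix_apply, Matrix.map_mul,
      show ((L * T d).map (algebraMap k F)).map (γ' d) = (L * T d).map (algebraMap k F) from
        Matrix.ext fun i j => h2 _ _]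
  obtain ⟨s, hs, s0⟩ : ∃ s ∈ S, s ≠ 0 := by
    have li : LinearIndependent F BF.col := Matrix.mulVec_injective_iff.1
      ((injective_iff_map_eq_zero BF.mulVecLin).2 inj)
    have hr : Submodule.span F (Set.range BF.row) = ⊤ := Submodule.eq_top_of_finrank_eq (by
      rw [← Matrix.rank_eq_finrank_span_row, Matrix.rank_eq_finrank_span_cols,
        finrank_span_eq_card li, finrank_fintype_fun_eq_card])
    obtain ⟨κ, a, ha, hsp, hli⟩ := exists_linearIndependent' F BF.row
    have := Finite.of_injective a ha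
    have := Fintype.ofFinite κ
    obtain ⟨e⟩ : Nonempty (Fin (finrank F U) ≃ κ) := Fintype.card_eq.1 (by
      rw [← finrank_span_eq_card hli, hsp, hr, finrank_top, finrank_fintype_fun_eq_card])
    refine ⟨_, ⟨Matrix.of fun i j => if a (e i) = j then 1 else 0, rfl⟩, fun h => ?_⟩
    have k := Matrix.linearIndependent_rows_iff_isUnit.1
      (show LinearIndependent F (Matrix.of fun i => BF (a (e i))).row from hli.comp e e.injective)
    rw [Matrix.isUnit_iff_isUnit_det] at k
    refine k.ne_zero ((map_zero (algebraMap R F)).symm ▸ h ▸ ?_)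
    rw [RingHom.map_det]
    congr 1
    ext i j
    simp [Matrix.mul_apply, BF, apply_ite]
  obtain ⟨g, g0, hg⟩ := exists_isG hs s0
  have g1 : ∀ d, γ' d (algebraMap R F g) ≠ 0 := fun d => by
    rwa [Ne, EmbeddingLike.map_eq_zero_iff, FaithfulSMul.algebraMap_eq_zero_iff]
  have hμ : ∀ d, ∃ c : k, algebraMap k F c * γ' d (algebraMap R F g) = (J d).det * algebraMap R F g := by
    intro d
    obtain ⟨x, y, hy, e⟩ := IsFractionRing.div_surjective R (J d).det
    have y0 := nonZeroDivisors.ne_zero hy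
    have y1 := IsFractionRing.to_map_ne_zero_of_mem_nonZeroDivisors (K := F) hy
    have k : ∀ L : Matrix (Fin (finrank F U)) ι k, y * γ d ((L * T d).map (algebraMap k R) * B').det =
        x * (L.map (algebraMap k R) * B').det := fun L => IsFractionRing.injective R F (by
      rw [map_mul, map_mul, eS, ← e, ← mul_assoc, mul_div_cancel₀ _ y1])
    have k1 : x * g ∣ y * γ d g := hg.mul_dvd (hg.map (γ d)) y0 (by
      rintro _ ⟨_, ⟨L, rfl⟩, rfl⟩
      refine ⟨_, ⟨L * T d⁻¹, rfl⟩, ?_⟩
      rw [← k, Matrix.mul_assoc, ← map_mul, inv_mul_cancel, map_one, Matrix.mul_one])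
      ⟨s, hs, rfl⟩ (by simpa using s0)
    have k2 : y * γ d g ∣ x * g := (hg.map (γ d)).mul_dvd hg (fun e0 => j0 d (by rw [← e, e0, map_zero, zero_div]))
      (by rintro _ ⟨L, rfl⟩; exact ⟨_, ⟨_, ⟨L * T d, rfl⟩, rfl⟩, (k L).symm⟩) hs s0
    obtain ⟨u, hu'⟩ := associated_of_dvd_dvd k2 k1
    obtain ⟨c, hc⟩ := hu u u.isUnit
    refine ⟨c, mul_left_cancel₀ y1 ?_⟩
    rw [← e, ← mul_assoc _ (_ / _), mul_div_cancel₀ _ y1, ← map_mul, ← hu', hc, h1,
      IsScalarTower.algebraMap_apply _ R F c]
    simp only [map_mul]; ring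
  choose μ hμ using hμ
  have ms : ∀ d a, γ d = 1 → T d = algebraMap k _ a → μ d = a ^ finrank F U := fun d a e1 e2 => by
    have := hμ d
    rw [Js d a e1 e2, h1, e1, RingAut.one_apply, Matrix.algebraMap_eq_diagonal,
      Matrix.det_diagonal] at this
    refine (algebraMap k F).injective (mul_right_cancel₀ (by simpa using g0) (this.trans ?_))
    simp
  refine ⟨⟨⟨μ, (ms 1 1 (map_one _) (by rw [map_one, map_one])).trans (one_pow _)⟩, fun d d' => ?_⟩, ms⟩
  refine (algebraMap k F).injective (mul_right_cancel₀ (g1 (d * d')) ?_)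
  rw [hμ, jm, map_mul (algebraMap k F), map_mul γ', RingAut.mul_apply, mul_assoc, mul_assoc,
    ← h2 d (μ d'), ← map_mul (γ' d), hμ, map_mul, mul_left_comm, mul_left_comm (algebraMap k F _), hμ]

end PV

end H7.DG
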