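/-
Above the Glauberman correspondence, part 2: the generic element of an abelian `p`-group acting
on a permutation module, and on the endomorphisms of a capped endo-permutation module.
-/
import Cfsg.Agent.H7.DG1

set_option autoImplicit false
set_option linter.style.haveILetI false

namespace H7.DG
open Module Finset MvPolynomial

variable {k F P Ω : Type*} [Field k] [Field F] [CommGroup P] [Fintype P] {p : ℕ} [Fact p.Prime]
  [CharP k p]

theorem gen_pow {R A : Type*} [CommRing R] [CharP R p] [Ring A] [Algebra R A] (s : P →* A)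
    (y : P → R) {a : ℕ} (h : ∀ u, s u ^ p ^ a = 1) : (∑ u, y u • (s u - 1)) ^ p ^ a = 0 := by
  haveI : CharP (MonoidAlgebra R P) p := charP_of_injective_algebraMap (R := R)
    (fun a b e => by simpa using e) p
  have e : ∑ u, y u • (s u - 1) =
      MonoidAlgebra.lift R A P s (∑ u, y u • (MonoidAlgebra.of R P u - 1)) := by simp
  rw [e, ← map_pow, sum_pow_char_pow]
  simp only [smul_pow, sub_pow_char_pow, one_pow, map_sum, map_smul, map_sub, map_pow,
    MonoidAlgebra.lift_of, h, map_one, sub_self, smul_zero, sum_const_zero]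

section Perm
variable [MulAction P Ω]

/-- permutation matrices -/
noncomputable def pm (P Ω : Type*) [CommGroup P] [MulAction P Ω] [Fintype Ω] [DecidableEq Ω]
    (S : Type*) [CommRing S] : P →* Matrix Ω Ω S where
  toFun u := Matrix.of fun a b => if u • a = b then 1 else 0
  map_one' := by ext a b; simp [Matrix.one_apply]
  map_mul' u v := by
    ext a b
    simp only [Matrix.of_apply, Matrix.mul_apply, ite_mul, one_mul, zero_mul, sum_ite_eq, mem_univ,
      if_true, ← mul_smul, mul_comm u v]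

theorem pm_mulVec [Fintype Ω] [DecidableEq Ω] {S : Type*} [CommRing S] (y : P → S) (v : Ω → S)
    (a : Ω) : (∑ u, y u • (pm P Ω S u - 1)).mulVec v a = ∑ u, y u * (v (u • a) - v a) := by
  simp only [Matrix.sum_mulVec, Matrix.smul_mulVec, Matrix.sub_mulVec, Matrix.one_mulVec, Finset.sum_apply,
    Pi.smul_apply, Pi.sub_apply, smul_eq_mul]
  simp [pm, Matrix.mulVec, dotProduct]

theorem pm_map [Fintype Ω] [DecidableEq Ω] {R S : Type*} [CommRing R] [CommRing S] (f : R →+* S)
    (y : P → R) : f.mapMatrix (∑ u, y u • (pm P Ω R u - 1)) = ∑ u, f (y u) • (pm P Ω S u - 1) := by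
  ext a b
  simp only [RingHom.mapMatrix_apply, Matrix.map_apply, Matrix.sum_apply, map_sum, Matrix.smul_apply,
    smul_eq_mul, map_mul, Matrix.sub_apply, map_sub, Matrix.one_apply, pm, MonoidHom.coe_mk,
    OneHom.coe_mk, Matrix.of_apply, apply_ite f, map_one, map_zero]

variable [Algebra (MvPolynomial P k) F] [IsFractionRing (MvPolynomial P k) F]

theorem perm_trans [Finite Ω] [MulAction.IsPretransitive P Ω] (hP : IsPGroup p P) (v : Ω → F)
    (hv : ∀ a, ∑ u, algebraMap (MvPolynomial P k) F (X u) * (v (u • a) - v a) = 0) :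
    (∀ (u : P) (a : Ω), u • a = a) ∨
      ∃ w : Ω → F, ∀ a, v a = ∑ u, algebraMap (MvPolynomial P k) F (X u) * (w (u • a) - w a) := by
  classical
  have := Fintype.ofFinite Ω
  let φ := MulAction.toPermHom P Ω
  have ho : ∀ u, ∃ a, orderOf (φ u) = p ^ a := fun u => by
    obtain ⟨a, ha⟩ := hP u
    exact ((Nat.dvd_prime_pow Fact.out).1 ((orderOf_map_dvd φ u).trans
      (orderOf_dvd_of_pow_eq_one ha))).imp fun _ h => h.2
  obtain ⟨u0, h0⟩ := Finite.exists_max fun u => orderOf (φ u)
  obtain ⟨a, ha⟩ := ho u0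
  have h1 : ∀ (u : P) (b : Ω), u ^ p ^ a • b = b := fun u b => by
    obtain ⟨c, hc⟩ := ho u
    have : φ u ^ p ^ a = 1 := orderOf_dvd_iff_pow_eq_one.1 (hc ▸ pow_dvd_pow p
      ((Nat.pow_le_pow_iff_right (Fact.out : p.Prime).one_lt).1 (hc ▸ ha ▸ h0 u)))
    rw [← map_pow] at this
    exact DFunLike.congr_fun this b
  have h2 : ∀ j b, u0 ^ j • b = b → p ^ a ∣ j := fun j b h => by
    rw [← ha, orderOf_dvd_iff_pow_eq_one, ← map_pow]
    ext c
    obtain ⟨g, rfl⟩ := MulAction.exists_smul_eq P b c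
    show u0 ^ j • g • b = g • b
    rw [smul_comm, h]
  obtain ⟨n, hn⟩ : ∃ n, n + 1 = p ^ a := ⟨_, Nat.succ_pred_eq_of_pos (pow_pos (Fact.out : p.Prime).pos a)⟩
  obtain _ | n := n
  · exact .inl fun u b => by simpa [← hn] using h1 u b
  right
  haveI : CharP F p := charP_of_injective_algebraMap (IsFractionRing.injective (MvPolynomial P k) F) p
  let A : Matrix Ω Ω F := ∑ u, algebraMap (MvPolynomial P k) F (X u) • (pm P Ω F u - 1)
  have hA : A ^ (n + 1 + 1) = 0 := by
    rw [hn]
    refine gen_pow _ _ fun u => ?_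
    rw [← map_pow]
    ext b c
    simp [pm, h1, Matrix.one_apply]
  let ι := MulAction.orbitRel.Quotient (Subgroup.zpowers u0) Ω
  have : Fintype ι := Fintype.ofFinite _
  have hc : Fintype.card Ω ≤ (n + 1 + 1) * Fintype.card ι := by
    rw [← Fintype.card_fin (n + 1 + 1), ← Fintype.card_prod]
    refine Fintype.card_le_of_surjective (fun x : Fin _ × ι => u0 ^ x.1.1 • x.2.out) fun b => ?_
    obtain ⟨⟨_, j, rfl⟩, hj⟩ : b ∈ MulAction.orbit (Subgroup.zpowers u0) (Quotient.out (⟦b⟧ : ι)) :=
      (MulAction.orbitRel _ Ω).symm (Quotient.mk_out b)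
    have j0 := Int.emod_nonneg j (b := (n + 1 + 1 : ℕ)) (by omega)
    have j1 := Int.emod_lt_of_pos j (b := (n + 1 + 1 : ℕ)) (by omega)
    refine ⟨(⟨(j % (n + 1 + 1 : ℕ)).toNat, by omega⟩, ⟦b⟧), Eq.trans ?_ hj⟩
    show u0 ^ Int.toNat _ • Quotient.out (⟦b⟧ : ι) = u0 ^ j • Quotient.out (⟦b⟧ : ι)
    conv_rhs => rw [← Int.emod_add_mul_ediv j (n + 1 + 1 : ℕ), zpow_add, zpow_mul, mul_smul]
    rw [← zpow_natCast, Int.toNat_of_nonneg j0, zpow_natCast, hn,
      (MulAction.mem_stabilizer_iff.1 (Subgroup.zpow_mem _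
        (MulAction.mem_stabilizer_iff.2 (h1 u0 _)) _))]
  have hr : Fintype.card ι ≤ (A ^ (n + 1)).rank := by
    refine le_trans (Matrix.rank_of_det_ne_zero ?_).ge (Matrix.rank_submatrix_le (A ^ (n + 1))
      (Quotient.out : ι → Ω) (Quotient.out : ι → Ω))
    let B := ((∑ u, (X u : MvPolynomial P k) • (pm P Ω (MvPolynomial P k) u - 1)) ^ (n + 1)).submatrix
      (Quotient.out : ι → Ω) (Quotient.out : ι → Ω)
    have e : algebraMap _ F B.det = ((A ^ (n + 1)).submatrix
        (Quotient.out : ι → Ω) (Quotient.out : ι → Ω)).det := by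
      rw [RingHom.map_det, show A = _ from (pm_map _ _).symm, ← map_pow]; rfl
    rw [← e, Ne, FaithfulSMul.algebraMap_eq_zero_iff]
    intro h
    have : eval (Pi.single u0 1) B.det = (((∑ u, eval (Pi.single u0 1) (X u : MvPolynomial P k) •
        (pm P Ω k u - 1)) ^ (n + 1)).submatrix (Quotient.out : ι → Ω) (Quotient.out : ι → Ω)).det := by
      rw [RingHom.map_det, ← pm_map, ← map_pow]; rfl
    simp only [h, map_zero, eval_X, Pi.single_apply, ite_smul, one_smul, zero_smul, sum_ite_eq',
      mem_univ, if_true, (H21.pow_sub_one_eq_sum (k := k) hn _).1, sub_add_cancel, ← map_pow] at this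
    refine zero_ne_one (this.trans ((congrArg _ ?_).trans Matrix.det_one))
    ext i j
    simp only [Matrix.submatrix_apply, Matrix.sum_apply, pm, MonoidHom.coe_mk, OneHom.coe_mk,
      Matrix.of_apply, Matrix.one_apply]
    split_ifs with h
    · subst h
      rw [sum_eq_single 0 (fun l hl l0 => if_neg fun e => l0 (Nat.eq_zero_of_dvd_of_lt (h2 _ _ e)
        (hn ▸ mem_range.1 hl))) (by simp), pow_zero, one_smul, if_pos rfl]
    · refine sum_eq_zero fun l _ => if_neg fun e => h ?_
      rw [← i.out_eq, ← j.out_eq]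
      exact (Quotient.sound (s := MulAction.orbitRel _ Ω)
        ⟨⟨_, Subgroup.npow_mem_zpowers u0 l⟩, e⟩).symm
  obtain ⟨w, hw⟩ := H21.exists_pow_eq_of_finrank_le (X := Matrix.toLinAlgEquiv' A) (n := n + 1)
    (by rw [← map_pow, hA, map_zero]) (by
      rw [finrank_fintype_fun_eq_card, ← map_pow]
      exact hc.trans (Nat.mul_le_mul_left _ hr)) (i := 1) (j := n + 1) (add_comm _ _) (v := v)
    (funext fun a => by rw [pow_one, Matrix.toLinAlgEquiv'_apply, pm_mulVec, hv]; rfl)
  refine ⟨(Matrix.toLinAlgEquiv' A ^ n) w, fun a => ?_⟩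
  rw [← pm_mulVec, ← Matrix.toLinAlgEquiv'_apply, ← End.mul_apply, ← pow_succ', hw]

theorem dg_perm [Finite Ω] (hP : IsPGroup p P) (v : Ω → F)
    (hv : ∀ a, ∑ u, algebraMap (MvPolynomial P k) F (X u) * (v (u • a) - v a) = 0) :
    ∃ w : Ω → F, ∀ a, (∀ u : P, u • a = a) ∨
      v a = ∑ u, algebraMap (MvPolynomial P k) F (X u) * (w (u • a) - w a) := by
  classical
  have : ∀ b : Ω, ∃ w : Ω → F, ∀ a ∈ MulAction.orbit P b, (∀ u : P, u • a = a) ∨
      v a = ∑ u, algebraMap (MvPolynomial P k) F (X u) * (w (u • a) - w a) := fun b => by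
    obtain h | ⟨w, h⟩ := perm_trans (k := k) (Ω := MulAction.orbit P b) hP (fun a => v a) fun a => hv a
    · exact ⟨0, fun a ha => .inl fun u => congrArg Subtype.val (h u ⟨a, ha⟩)⟩
    · refine ⟨Function.extend Subtype.val w 0, fun a ha => .inr ((h ⟨a, ha⟩).trans ?_)⟩
      simp only [← Subtype.val_injective.extend_apply w 0]
      rfl
  choose W hW using this
  let r : Ω → Ω := fun a => Quotient.out (⟦a⟧ : MulAction.orbitRel.Quotient P Ω)
  have hr : ∀ (u : P) a, r (u • a) = r a := fun u a => congrArg Quotient.out (Quotient.sound (s := MulAction.orbitRel P Ω) ⟨u, rfl⟩)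
  refine ⟨fun a => W (r a) a, fun a => ?_⟩
  simp only [hr]
  exact hW _ a ((MulAction.orbitRel P Ω).symm (Quotient.mk_out a))

end Perm

section Subst
variable {m : Type*} [Fintype m] [DecidableEq m]

/-- the substitution `y u ↦ y u • u` -/
noncomputable def Φ0 {S : Type*} [CommRing S] [Algebra k S] (y : P → S) :
    MvPolynomial P k →ₐ[k] MonoidAlgebra S P := aeval fun u => MonoidAlgebra.single u (y u)

omit [Fintype P] in
theorem of_nil {S : Type*} [CommRing S] [CharP S p] (hP : IsPGroup p P) (u : P) :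
    IsNilpotent (MonoidAlgebra.of S P u - 1) := by
  haveI : CharP (MonoidAlgebra S P) p := charP_of_injective_algebraMap (R := S)
    (fun a b e => by simpa using e) p
  obtain ⟨a, ha⟩ := hP u
  exact ⟨p ^ a, by rw [sub_pow_char_pow, ← map_pow, ha, map_one, one_pow, sub_self]⟩

omit [Fintype P] [CharP k p] in
theorem Φ0_nil {S : Type*} [CommRing S] [Algebra k S] [CharP S p] (hP : IsPGroup p P) (y : P → S)
    (f : MvPolynomial P k) : IsNilpotent (Φ0 y f - algebraMap S _ (aeval y f)) := by
  induction f using MvPolynomial.induction_on with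
  | C c => simp [Φ0]
  | add f g h1 h2 =>
    simp only [map_add, add_sub_add_comm]
    exact (Commute.all _ _).isNilpotent_add h1 h2
  | mul_X f u h =>
    have : Φ0 y (f * X u) - algebraMap S _ (aeval y (f * X u)) =
        Φ0 (k := k) y (X u) * (Φ0 y f - algebraMap S _ (aeval y f)) +
          algebraMap S _ (aeval y f * y u) * (MonoidAlgebra.of S P u - 1) := by
      have : Φ0 (k := k) y (X u) = algebraMap S _ (y u) * MonoidAlgebra.of S P u := by
        simp [Φ0, MonoidAlgebra.single_mul_single]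
      simp only [map_mul, aeval_X, this]; ring
    rw [this]
    exact (Commute.all _ _).isNilpotent_add ((Commute.all _ _).isNilpotent_mul_left h)
      ((Commute.all _ _).isNilpotent_mul_left (of_nil hP u))

variable {S : Type*} [CommRing S] [Algebra k S]

/-- the substitution `y u ↦ y u • s u` -/
noncomputable def Φ (s : P →* Matrix m m S) (y : P → S) : MvPolynomial P k →ₐ[k] Matrix m m S :=
  ((MonoidAlgebra.lift S _ P s).restrictScalars k).comp (Φ0 y)

omit [Fintype P] in
theorem Φ_X (s : P →* Matrix m m S) (y : P → S) (u : P) : Φ (k := k) s y (X u) = y u • s u := by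
  simp [Φ, Φ0]

omit [Fintype P] in
theorem Φ_comm (s : P →* Matrix m m S) (y : P → S) (f : MvPolynomial P k) (u : P) :
    s u * Φ s y f = Φ s y f * s u := by
  rw [← MonoidAlgebra.lift_of (R := S) s]
  exact ((Commute.all _ _).map (MonoidAlgebra.lift S _ P s)).eq

local notation "RR" => MvPolynomial P k

/-- the twisted substitution on matrices -/
noncomputable def Ψ (s : P →* Matrix m m RR) : Matrix m m RR →+ Matrix m m RR where
  toFun v := ∑ i, ∑ j, Φ s X (v i j) * Matrix.single i j 1
  map_zero' := by simp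
  map_add' v w := by simp [add_mul, sum_add_distrib]

omit [Fintype P] in
theorem Ψ_smul (s : P →* Matrix m m RR) (f : RR) (v : Matrix m m RR) :
    Ψ s (f • v) = Φ s X f * Ψ s v := by
  simp [Ψ, mul_sum, mul_assoc]

omit [Fintype P] in
theorem Ψ_C (s : P →* Matrix m m RR) (a : Matrix m m k) : Ψ s (a.map C) = a.map C := by
  conv_rhs => rw [Matrix.matrix_eq_sum_single (a.map C)]
  refine sum_congr rfl fun i _ => sum_congr rfl fun j _ => ?_
  rw [Matrix.map_apply, ← algebraMap_eq, AlgHom.commutes, ← Algebra.smul_def, Matrix.smul_single,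
    Algebra.smul_def, mul_one]

omit [Fintype P] in
theorem mat_ind {Q : Matrix m m RR → Prop} (h0 : Q 0) (h1 : ∀ a b, Q a → Q b → Q (a + b))
    (h2 : ∀ (f : RR) (a : Matrix m m k), Q (f • a.map C)) (v : Matrix m m RR) : Q v := by
  rw [Matrix.matrix_eq_sum_single v]
  refine sum_induction _ Q h1 h0 fun i _ => sum_induction _ Q h1 h0 fun j _ => ?_
  simpa [Matrix.map_single] using h2 (v i j) (Matrix.single i j 1)

omit [Fintype P] in
theorem Ψ_mul (s : P →* Matrix m m RR) (a : Matrix m m k) (v : Matrix m m RR) :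
    Ψ s (v * a.map C) = Ψ s v * a.map C := by
  induction v using mat_ind with
  | h0 => simp
  | h1 a b h1 h2 => simp [add_mul, h1, h2]
  | h2 f b => rw [smul_mul_assoc, ← Matrix.map_mul, Ψ_smul, Ψ_smul, Ψ_C, Ψ_C, Matrix.map_mul, mul_assoc]

omit [Fintype P] in
theorem Ψ_mul' (s : P →* Matrix m m RR) {a : Matrix m m k} (h : ∀ f : RR, a.map C * Φ s X f = Φ s X f * a.map C)
    (v : Matrix m m RR) : Ψ s (a.map C * v) = a.map C * Ψ s v := by
  induction v using mat_ind with
  | h0 => simp
  | h1 a b h1 h2 => simp [mul_add, h1, h2]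
  | h2 f b => rw [mul_smul_comm, ← Matrix.map_mul, Ψ_smul, Ψ_smul, Ψ_C, Ψ_C, Matrix.map_mul,
      ← mul_assoc, ← mul_assoc, h]

/-- extension of scalars of a representation -/
noncomputable def xt (S : Type*) [CommRing S] [Algebra k S] (s : P →* Matrix m m k) :
    P →* Matrix m m S := (algebraMap k S).mapMatrix.toMonoidHom.comp s

omit [Fintype P] in
theorem xt_apply (s : P →* Matrix m m k) (u : P) : xt S s u = (s u).map (algebraMap k S) := rfl

omit [Fintype P] in
theorem Ψ_xt (s : P →* Matrix m m k) (u : P) (v : Matrix m m RR) :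
    Ψ (xt RR s) (xt RR s u * v) = xt RR s u * Ψ (xt RR s) v :=
  Ψ_mul' _ (a := s u) (fun g => Φ_comm (xt RR s) X g u) v

omit [Fintype P] in
theorem Ψ_Ψ {s t : P →* Matrix m m k} (h : ∀ u, s u = t u⁻¹) (v : Matrix m m RR) :
    Ψ (xt RR t) (Ψ (xt RR s) v) = v := by
  have key : ∀ f : RR, Ψ (xt RR t) (Φ (xt RR s) X f) = f • 1 := fun f => by
    induction f using MvPolynomial.induction_on with
    | C c =>
      rw [← algebraMap_eq, AlgHom.commutes, algebraMap_smul, Algebra.algebraMap_eq_smul_one,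
        show c • (1 : Matrix m m RR) = (c • (1 : Matrix m m k)).map C by
          ext1 i j; by_cases h : i = j <;> simp [Matrix.one_apply, h, C_eq_smul_one], Ψ_C]
    | add f g h1 h2 => rw [map_add, map_add, h1, h2, add_smul]
    | mul_X f u h1 =>
      rw [map_mul, Φ_X, mul_smul_comm, ← Φ_comm, Ψ_smul, Φ_X,
        show xt RR s u = xt RR t u⁻¹ by rw [xt_apply, xt_apply, h], Ψ_xt, h1, smul_mul_assoc,
        ← mul_assoc, ← map_mul, mul_inv_cancel, map_one, one_mul, smul_smul, mul_comm]
  induction v using mat_ind with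
  | h0 => simp
  | h1 a b h1 h2 => simp [h1, h2]
  | h2 f b => rw [Ψ_smul, Ψ_C, Ψ_mul, key, smul_mul_assoc, one_mul]

theorem Ψ_ad (s : P →* Matrix m m k) (v : Matrix m m RR) :
    Ψ (xt RR s) (∑ u, (X u : RR) • (xt RR s u⁻¹ * v * xt RR s u - v)) =
      Ψ (xt RR s) v * (∑ u, (X u : RR) • (xt RR s u - 1)) -
        (∑ u, (X u : RR) • (xt RR s u - 1)) * Ψ (xt RR s) v := by
  rw [map_sum, mul_sum, sum_mul, ← sum_sub_distrib]
  refine sum_congr rfl fun u _ => ?_
  rw [Ψ_smul, Φ_X, map_sub, show Ψ (xt RR s) (_ * xt RR s u) = _ * xt RR s u from Ψ_mul _ (s u) _,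
    Ψ_xt, smul_mul_assoc, smul_mul_assoc, mul_smul_comm, ← smul_sub, mul_sub, ← mul_assoc,
    ← mul_assoc, ← map_mul, mul_inv_cancel, map_one, one_mul, mul_sub, sub_mul, mul_one, one_mul,
    sub_sub_sub_cancel_right]

theorem clear_den [Algebra RR F] [IsFractionRing RR F] (a : Matrix m m F) :
    ∃ (r : RR) (b : Matrix m m RR), r ≠ 0 ∧ b.map (algebraMap RR F) = algebraMap RR F r • a := by
  obtain ⟨r, hr⟩ := IsLocalization.exist_integer_multiples_of_finite (nonZeroDivisors RR)
    fun x : m × m => a x.1 x.2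
  choose B hB using hr
  exact ⟨r, Matrix.of fun i j => B (i, j), nonZeroDivisors.ne_zero r.2,
    Matrix.ext fun i j => (hB (i, j)).trans (Algebra.smul_def _ _)⟩

/-- `M_m(k)` is a summand of a permutation module with one-dimensional Brauer quotient -/
structure Capped (s : P →* Matrix m m k) (Ω : Type*) [MulAction P Ω] [Fintype Ω] where
  π : Ω → Matrix m m k
  σ : Ω → Matrix m m k
  hπ : ∀ u a, π (u • a) = s u * π a * s u⁻¹
  hσ : ∀ u a, σ (u • a) = s u * σ a * s u⁻¹
  hπσ : ∀ b, ∑ a, (σ a * b).trace • π a = b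
  hfix : ∀ a, (∀ u : P, u • a = a) → ∃ c : k, π a = c • 1

variable [Algebra (MvPolynomial P k) F] [IsFractionRing (MvPolynomial P k) F] [Algebra k F]
  [MulAction P Ω] [Fintype Ω] {s : P →* Matrix m m k}

theorem Capped.field (h : Capped s Ω) (hP : IsPGroup p P) {v : Matrix m m F}
    (hv : ∑ u, algebraMap RR F (X u) • (xt F s u⁻¹ * v * xt F s u - v) = 0) :
    ∃ (c : F) (W : Matrix m m F),
      v = c • 1 + ∑ u, algebraMap RR F (X u) • (xt F s u⁻¹ * W * xt F s u - W) := by
  obtain ⟨π, σ, hπ, hσ, hπσ, hfix⟩ := h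
  let j : Matrix m m k →ₐ[k] Matrix m m F := (Algebra.ofId k F).mapMatrix
  have j2 : ∀ u, j (s u) = xt F s u := fun u => rfl
  obtain ⟨w, hw⟩ := dg_perm (k := k) hP (fun a => (j (σ a) * v).trace) fun a => by
    have := congrArg (fun x => (j (σ a) * x).trace) hv
    simp only [mul_sum, mul_smul_comm, Matrix.trace_sum, Matrix.trace_smul, mul_sub,
      Matrix.trace_sub, mul_zero, Matrix.trace_zero, smul_eq_mul] at this
    simp only [hσ, map_mul, j2, mul_sub]
    refine (sum_congr rfl fun u _ => ?_).trans this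
    rw [mul_assoc (xt F s u), mul_assoc (xt F s u), Matrix.trace_mul_comm (xt F s u)]
    simp only [mul_assoc]
  have h2 : ∀ b : Matrix m m F, ∑ a, (j (σ a) * b).trace • j (π a) = b := fun b => by
    induction b using Matrix.induction_on' with
    | h_zero => simp
    | h_add a b h1 h2 => simp only [mul_add, Matrix.trace_add, add_smul, sum_add_distrib, h1, h2]
    | h_std_basis a b c =>
      have e : Matrix.single a b c = c • j (Matrix.single a b 1) := by
        simp [j, Matrix.map_single]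
      rw [e]
      conv_rhs => rw [← hπσ (Matrix.single a b 1)]
      simp only [mul_smul_comm, Matrix.trace_smul, smul_assoc, ← smul_sum, ← map_mul, map_sum, map_smul]
      refine congrArg _ (sum_congr rfl fun l _ => ?_)
      rw [← algebraMap_smul F (σ l * Matrix.single a b (1 : k)).trace (j (π l)), AddMonoidHom.map_trace (algebraMap k F)]
      rfl
  have : ∀ a, ∃ c : F, (j (σ a) * v).trace • j (π a) = c • 1 +
      (∑ u, algebraMap RR F (X u) * (w (u • a) - w a)) • j (π a) := fun a => by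
    obtain h | h := hw a
    · obtain ⟨c, hc⟩ := hfix a h
      exact ⟨(j (σ a) * v).trace * algebraMap k F c, by simp [h, hc, mul_smul]⟩
    · exact ⟨0, by rw [← h, zero_smul, zero_add]⟩
  choose c hc using this
  refine ⟨∑ a, c a, ∑ a, w a • j (π a), ?_⟩
  rw [← h2 v]
  simp only [hc, sum_add_distrib, sum_smul, mul_smul, sub_smul]
  rw [sum_comm]
  refine congrArg _ (sum_congr rfl fun u _ => ?_)
  rw [← smul_sum, sum_sub_distrib, mul_sum, sum_mul, ← Equiv.sum_comp (MulAction.toPerm u)
    fun a => xt F s u⁻¹ * w a • j (π a) * xt F s u]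
  refine congrArg (fun x => _ • (x - _)) (sum_congr rfl fun a _ => ?_)
  simp only [MulAction.toPerm_apply, hπ, map_mul, j2, mul_smul_comm, smul_mul_assoc, mul_assoc]
  rw [← map_mul, ← mul_assoc, ← map_mul, inv_mul_cancel, map_one, one_mul, mul_one]

variable [IsScalarTower k (MvPolynomial P k) F]

variable (P k F m) in
/-- extension of scalars to the fraction field -/
noncomputable def iF : Matrix m m RR →ₐ[k] Matrix m m F := (IsScalarTower.toAlgHom k RR F).mapMatrix

omit [Fintype P] in
theorem iF_inj : Function.Injective (iF k F P m) :=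
  Matrix.map_injective (IsFractionRing.injective RR F)

omit [Fintype P] [IsFractionRing (MvPolynomial P k) F] in
theorem iF_xt (u : P) : iF k F P m (xt RR s u) = xt F s u := Matrix.ext fun _ _ =>
  (IsScalarTower.algebraMap_apply k RR F _).symm

omit [CommGroup P] [Fintype P] [IsFractionRing (MvPolynomial P k) F] in
theorem iF_smul (f : RR) (v : Matrix m m RR) :
    iF k F P m (f • v) = algebraMap RR F f • iF k F P m v :=
  Matrix.ext fun _ _ => map_mul (algebraMap RR F) _ _

variable (F) in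
include F in
theorem Capped.ring (h : Capped s Ω) (hP : IsPGroup p P) {φ : Matrix m m RR}
    (hφ : Commute φ (∑ u, (X u : RR) • (xt RR s u - 1))) :
    ∃ (t f g : RR) (W : Matrix m m RR), t ≠ 0 ∧ Φ (xt RR s) X t * φ = Φ (xt RR s) X f +
      Φ (xt RR s) X g * (W * (∑ u, (X u : RR) • (xt RR s u - 1)) -
        (∑ u, (X u : RR) • (xt RR s u - 1)) * W) := by
  have i5 : ∀ v, iF k F P m (∑ u, (X u : RR) • (xt RR s u⁻¹ * v * xt RR s u - v)) =
      ∑ u, algebraMap RR F (X u) • (xt F s u⁻¹ * iF k F P m v * xt F s u - iF k F P m v) := fun v => by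
    simp only [map_sum, iF_smul, map_sub, map_mul, iF_xt]
  let t : P →* Matrix m m k := s.comp invMonoidHom
  obtain ⟨v, hv⟩ : ∃ v, Ψ (xt RR s) v = φ := ⟨_, Ψ_Ψ (s := t) (fun u => rfl) φ⟩
  have h1 : ∑ u, (X u : RR) • (xt RR s u⁻¹ * v * xt RR s u - v) = 0 := by
    rw [← Ψ_Ψ (s := s) (t := t) (fun u => by simp [t]) (∑ u, _), Ψ_ad, hv, hφ.eq, sub_self, map_zero]
  obtain ⟨c, W0, hc⟩ := h.field (F := F) hP (v := iF k F P m v) (by rw [← i5, h1, map_zero])
  obtain ⟨t1, W, t0, hW⟩ := clear_den (k := k) (P := P) W0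
  change iF k F P m W = _ at hW
  obtain ⟨f, t2, ht2, rfl⟩ := IsFractionRing.div_surjective RR c
  have t3 := IsFractionRing.to_map_ne_zero_of_mem_nonZeroDivisors (K := F) ht2
  have h3 : (t1 * t2) • v = (t1 * f) • 1 + t2 • ∑ u, (X u : RR) • (xt RR s u⁻¹ * W * xt RR s u - W) :=
    iF_inj (F := F) (by
      rw [map_add, iF_smul, iF_smul, iF_smul, i5, hc, hW, map_one, smul_add, smul_smul, map_mul,
        map_mul, mul_assoc, mul_div_cancel₀ _ t3, mul_comm _ (algebraMap RR F t2),
        mul_smul (algebraMap RR F t2), smul_sum (r := algebraMap RR F t1)]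
      simp only [mul_smul_comm, smul_mul_assoc, ← smul_sub, smul_comm (algebraMap RR F t1)])
  refine ⟨t1 * t2, t1 * f, t2, Ψ (xt RR s) W, mul_ne_zero t0 (nonZeroDivisors.ne_zero ht2), ?_⟩
  rw [← hv, ← Ψ_smul, h3, map_add, Ψ_smul, Ψ_smul, Ψ_ad,
    ← Matrix.map_one C C_0 C_1, Ψ_C, Matrix.map_one C C_0 C_1, mul_one]

/-- the commutant of the generic element is almost inner -/
theorem Capped.comm (h : Capped s Ω) (hP : IsPGroup p P) (φ : Matrix m m F)
    (hφ : Commute φ (∑ u, algebraMap RR F (X u) • (xt F s u - 1))) :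
    ∃ (c : F) (n ψ : Matrix m m F), IsNilpotent n ∧
      Commute n (∑ u, algebraMap RR F (X u) • (xt F s u - 1)) ∧
      φ = algebraMap F _ c + n + ((∑ u, algebraMap RR F (X u) • (xt F s u - 1)) * ψ -
        ψ * ∑ u, algebraMap RR F (X u) • (xt F s u - 1)) := by
  haveI : CharP F p := charP_of_injective_algebraMap (IsFractionRing.injective RR F) p
  have i4 : iF k F P m (∑ u, (X u : RR) • (xt RR s u - 1)) =
      ∑ u, algebraMap RR F (X u) • (xt F s u - 1) := by
    simp only [map_sum, iF_smul, map_sub, iF_xt, map_one]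
  obtain ⟨r, φ', r0, hr⟩ := clear_den (k := k) (P := P) φ
  change iF k F P m φ' = _ at hr
  obtain ⟨t, f, g, W, t0, h3⟩ := Capped.ring F h hP (φ := φ') (iF_inj (F := F) (by
    rw [map_mul, map_mul, i4, hr, smul_mul_assoc, mul_smul_comm, hφ.eq]))
  replace h3 := congrArg (iF k F P m) h3
  have i6 : ∀ g, iF k F P m (Φ (xt RR s) X g) = MonoidAlgebra.lift F _ P (xt F s)
      (Φ0 (fun u => algebraMap RR F (X u)) g) := fun g =>
    DFunLike.congr_fun (algHom_ext (f := (iF k F P m).comp (Φ (xt RR s) X))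
      (g := Φ (xt F s) fun u => algebraMap RR F (X u)) fun u => by
        rw [AlgHom.comp_apply, Φ_X, Φ_X, iF_smul, iF_xt]) g
  have i7 : ∀ g : RR, aeval (fun u => algebraMap RR F (X u)) g = algebraMap RR F g := fun g =>
    DFunLike.congr_fun (algHom_ext (f := aeval fun u => algebraMap RR F (X u))
      (g := IsScalarTower.toAlgHom k RR F) fun u => by simp) g
  rw [map_mul, map_add, map_mul, map_sub, map_mul, map_mul, i4, i6, i6, i6, hr] at h3
  have hN := Φ0_nil (k := k) hP (fun u => algebraMap RR F (X u))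
  simp only [i7] at hN
  have hY : ∀ x, Commute (MonoidAlgebra.lift F _ P (xt F s) x)
      (∑ u, algebraMap RR F (X u) • (xt F s u - 1)) := fun x => by
    rw [show ∑ u, algebraMap RR F (X u) • (xt F s u - 1) = MonoidAlgebra.lift F _ P (xt F s)
      (∑ u, algebraMap RR F (X u) • (MonoidAlgebra.of F P u - 1)) by
        simp only [map_sum, map_smul, map_sub, MonoidAlgebra.lift_of, map_one]]
    exact (Commute.all _ _).map _
  generalize MonoidAlgebra.lift F (Matrix m m F) P (xt F s) = L at *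
  generalize Φ0 (k := k) (fun u : P => algebraMap RR F (X u)) = Φ1 at *
  generalize ∑ u, algebraMap RR F (X u) • (xt F s u - 1) = Y at *
  have n0 : algebraMap RR F t * algebraMap RR F r ≠ 0 := by simp [t0, r0]
  obtain ⟨e, he⟩ : IsUnit (algebraMap RR F r • Φ1 t) := by
    rw [Algebra.smul_def, ← add_sub_cancel (algebraMap F _ (algebraMap RR F t)) (Φ1 _)]
    exact ((IsUnit.mk0 _ (right_ne_zero_of_mul n0)).map _).mul ((hN _).isUnit_add_left_of_commute
      ((IsUnit.mk0 _ (left_ne_zero_of_mul n0)).map _) (Commute.all _ _))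
  let c := algebraMap RR F f / (algebraMap RR F t * algebraMap RR F r)
  refine ⟨c, L (e⁻¹.1 * Φ1 f - algebraMap F _ c), -(L (e⁻¹.1 * Φ1 g) * iF k F P m W),
    IsNilpotent.map ?_ L, hY _, ?_⟩
  · have : e⁻¹.1 * Φ1 f - algebraMap F _ c = e⁻¹.1 *
        ((Φ1 f - algebraMap F _ (algebraMap RR F f)) - (c * algebraMap RR F r) •
          (Φ1 t - algebraMap F _ (algebraMap RR F t))) := by
      rw [smul_sub, mul_smul, ← he, Algebra.smul_def (c * _), ← map_mul, mul_assoc,
        mul_comm (algebraMap RR F r), div_mul_cancel₀ _ n0, sub_sub_sub_cancel_right, mul_sub,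
        mul_smul_comm, Units.inv_mul, Algebra.algebraMap_eq_smul_one]
    rw [this]
    exact (Commute.all _ _).isNilpotent_mul_left ((Commute.all _ _).isNilpotent_sub (hN _)
      ((hN _).smul _))
  · rw [mul_smul_comm, ← smul_mul_assoc, ← map_smul, ← he] at h3
    rw [map_sub, AlgHom.commutes, add_sub_cancel, ← one_mul φ, ← map_one L, ← e.inv_mul, map_mul,
      mul_assoc, h3, mul_add, ← map_mul, ← mul_assoc, ← map_mul, mul_neg, neg_mul, ← mul_assoc,
      ← (hY _).eq]
    noncomm_ring

variable (F) in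
include F in
theorem Capped.nu_aux (h : Capped s Ω) (hP : IsPGroup p P) (hm : ¬ p ∣ Fintype.card m) {D : Type*}
    [Group D] (T : D →* Matrix m m k) (α : D →* MulAut P) (hT : ∀ d u, T d * s u = s (α d u) * T d) :
    ∃ ν : D →* kˣ, ∀ d (a : k), α d = 1 → T d = a • 1 → ν d = a := by
  haveI : CharP F p := charP_of_injective_algebraMap (IsFractionRing.injective RR F) p
  obtain ⟨Y, hY⟩ : ∃ Y, Y = ∑ u, algebraMap RR F (X u) • (xt F s u - 1) := ⟨_, rfl⟩
  obtain ⟨n, hn⟩ := IsPGroup.iff_card.1 hP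
  obtain ⟨i, hi⟩ := dg_nil (F := F) (V := m → F) (Fact.out : p.Prime).pos
    (by rwa [finrank_fintype_fun_eq_card]) (X := Matrix.toLinAlgEquiv' Y) ⟨p ^ n, by
      rw [← map_pow, hY, gen_pow _ _ fun u => by rw [← map_pow, ← hn, pow_card_eq_one', map_one],
        map_zero]⟩ fun φ hφ => by
    obtain ⟨φ, rfl⟩ := (Matrix.toLinAlgEquiv' (R := F) (n := m)).surjective φ
    obtain ⟨c, n, ψ, h1, h2, h3⟩ := h.comm hP φ (hY ▸ Commute.of_map (EquivLike.injective _) hφ)
    rw [← hY] at h2 h3
    exact ⟨c, _, Matrix.toLinAlgEquiv' ψ, h1.map _, h2.map _, by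
      rw [h3, map_add, map_add, map_sub, map_mul, map_mul, AlgEquiv.commutes]⟩
  let γ : D →* (RR ≃+* RR) :=
    { toFun := fun d => (renameEquiv k (α d).toEquiv).toRingEquiv
      map_one' := RingEquiv.ext fun f => by simp [show ((1 : MulAut P) : P → P) = id from rfl]
      map_mul' := fun d e => RingEquiv.ext fun f => by simp [rename_rename, MulAut.coe_mul] }
  have hγ : ∀ d c, γ d (algebraMap k RR c) = algebraMap k RR c := fun d c =>
    (renameEquiv k (α d).toEquiv).commutes c
  have key : ∀ d v, ((T d).map (algebraMap k F)).mulVec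
      (IsFractionRing.ringEquivOfRingEquivHom RR F (γ d) ∘ Y.mulVec v) =
      Y.mulVec (((T d).map (algebraMap k F)).mulVec
        (IsFractionRing.ringEquivOfRingEquivHom RR F (γ d) ∘ v)) := fun d v => by
    set g := IsFractionRing.ringEquivOfRingEquivHom RR F (γ d)
    have g1 : ∀ r, g (algebraMap RR F r) = algebraMap RR F (γ d r) := fun r =>
      IsFractionRing.ringEquivOfRingEquiv_algebraMap _ _
    have e : Y.map g = ∑ u, algebraMap RR F (X (α d u)) • (xt F s u - 1) := by
      ext a b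
      simp only [hY, Matrix.map_apply, Matrix.sum_apply, map_sum, Matrix.smul_apply, smul_eq_mul,
        map_mul, g1, Matrix.sub_apply, map_sub, xt_apply, IsScalarTower.algebraMap_apply k RR F, hγ,
        Matrix.one_apply, apply_ite g, map_one, map_zero]
      simp [γ]
    rw [show g ∘ Y.mulVec v = (Y.map g).mulVec (g ∘ v) from
      funext fun a => RingHom.map_mulVec (g : F →+* F) Y v a, Matrix.mulVec_mulVec,
      Matrix.mulVec_mulVec, e, hY, mul_sum, sum_mul, ← (α d).toEquiv.sum_comp
        fun u => algebraMap RR F (X u) • (xt F s u - 1) * (T d).map (algebraMap k F)]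
    simp only [mul_smul_comm, smul_mul_assoc, mul_sub, sub_mul, mul_one, one_mul, xt_apply,
      ← Matrix.map_mul, hT]
    rfl
  have hU := fun j => dg_pv (F := F) (fun u hu => (isUnit_iff_eq_C_of_isReduced.1 hu).imp fun _ h => h.2)
    T γ hγ (KK (Matrix.toLinAlgEquiv' Y) j) fun d v hv => by
      obtain ⟨h1, w, rfl⟩ := hv
      refine ⟨?_, ((T d).map (algebraMap k F)).mulVec
        (IsFractionRing.ringEquivOfRingEquivHom RR F (γ d) ∘ w), ?_⟩
      · rw [SetLike.mem_coe, LinearMap.mem_ker, Matrix.toLinAlgEquiv'_apply] at h1 ⊢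
        rw [← key, h1]
        ext; simp [Matrix.mulVec, dotProduct]
      · clear h1
        induction j with
        | zero => rfl
        | succ j ih => simp only [pow_succ', End.mul_apply, Matrix.toLinAlgEquiv'_apply, key, ih]
  obtain ⟨μ, h1⟩ := hU i
  obtain ⟨μ', h2⟩ := hU (i + 1)
  refine ⟨μ.toHomUnits / μ'.toHomUnits, fun d a e1 e2 => ?_⟩
  have e3 : γ d = 1 := RingEquiv.ext fun f => by
    simp [γ, e1, show ((1 : MulAut P) : P → P) = id from rfl]
  rw [← Algebra.algebraMap_eq_smul_one] at e2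
  have := (μ'.toHomUnits d).ne_zero
  rw [MonoidHom.div_apply, Units.val_div_eq_div_val, div_eq_iff this, MonoidHom.coe_toHomUnits,
    MonoidHom.coe_toHomUnits, h1 d a e3 e2, h2 d a e3 e2, hi, pow_succ']

omit [Algebra (MvPolynomial P k) F] [IsFractionRing (MvPolynomial P k) F] [Algebra k F]
  [IsScalarTower k (MvPolynomial P k) F] in
/-- **a capped endo-permutation module of dimension prime to `p` is projectively split** -/
theorem Capped.exists_nu (h : Capped s Ω) (hP : IsPGroup p P) (hm : ¬ p ∣ Fintype.card m) {D : Type*}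
    [Group D] (T : D →* Matrix m m k) (α : D →* MulAut P) (hT : ∀ d u, T d * s u = s (α d u) * T d) :
    ∃ ν : D →* kˣ, ∀ d (a : k), α d = 1 → T d = a • 1 → ν d = a :=
  Capped.nu_aux (FractionRing RR) h hP hm T α hT

end Subst
end H7.DG
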