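/-
Above the Glauberman correspondence, part 3: the projective representations attached to a stable
absolutely irreducible representation and to its Glauberman correspondent cancel.
-/
import Cfsg.Agent.H7.DG2
import Mathlib.LinearAlgebra.GeneralLinearGroup.AlgEquiv

set_option autoImplicit false
set_option linter.style.haveILetI false

namespace H7.DG
open Module Finset

variable {k H n : Type*} [Field k] [Group H] [Fintype H] [Fintype n] [DecidableEq n]

theorem idem_fac {ε : Matrix n n k} (h : ε * ε = ε) :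
    ∃ (m : ℕ) (P : Matrix n (Fin m) k) (Q : Matrix (Fin m) n k), P * Q = ε ∧ Q * P = 1 := by
  let f := Matrix.toLin' ε
  let b := finBasis k (LinearMap.range f)
  refine ⟨_, LinearMap.toMatrix b (Pi.basisFun k n) (LinearMap.range f).subtype,
    LinearMap.toMatrix (Pi.basisFun k n) b f.rangeRestrict, ?_, ?_⟩
  · rw [← LinearMap.toMatrix_comp, LinearMap.toMatrix_eq_toMatrix']
    exact LinearMap.toMatrix'_toLin' ε
  · rw [← LinearMap.toMatrix_comp, ← LinearMap.toMatrix_id b]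
    congr 1
    ext ⟨_, v, rfl⟩ : 1
    exact Subtype.ext (by simp [f, h])

theorem scalar_of_comm {a : Matrix n n k} (h : ∀ b, b * a = a * b) : ∃ c : k, a = c • 1 := by
  obtain ⟨c, rfl⟩ := Matrix.mem_range_scalar_iff_commute_single'.2 fun i j => h _
  exact ⟨c, by rw [Matrix.scalar_apply, Matrix.smul_one_eq_diagonal]⟩

variable (k H n) in
/-- an absolutely irreducible representation with Fourier inversion -/
structure AI where
  T : H →* Matrix n n k
  c : k
  inv : ∀ b, ∑ x, (c * (T x⁻¹ * b).trace) • T x = b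

theorem exists_AI (T : H →* Matrix n n k) (hT : Submodule.span k (Set.range T) = ⊤)
    (h : ∑ x, (T x⁻¹).trace * (T x).trace ≠ 0) : ∃ A : AI k H n, A.T = T := by
  have ind : ∀ {Q : Matrix n n k → Prop}, (∀ x, Q (T x)) → Q 0 → (∀ a b, Q a → Q b → Q (a + b)) →
      (∀ (c : k) a, Q a → Q (c • a)) → ∀ b, Q b := fun h1 h2 h3 h4 b =>
    Submodule.span_induction (by rintro _ ⟨x, rfl⟩; exact h1 x) h2 (fun a b _ _ => h3 a b)
      (fun c a _ => h4 c a) (hT.ge (Submodule.mem_top (x := b)))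
  have h1 : ∀ b, ∑ x, (T x⁻¹ * b).trace • T x = b * ∑ x, (T x⁻¹).trace • T x :=
    ind (fun y => by
      rw [mul_sum, ← Equiv.sum_comp (Equiv.mulLeft y)]
      simp [← map_mul]) (by simp) (fun a b h1 h2 => by
        simp only [mul_add, add_mul, Matrix.trace_add, add_smul, sum_add_distrib, h1, h2])
      fun c a h => by simp only [mul_smul_comm, Matrix.trace_smul, smul_assoc, ← smul_sum, h,
        smul_mul_assoc]
  obtain ⟨c, hc⟩ := scalar_of_comm (a := ∑ x, (T x⁻¹).trace • T x) (ind (fun y => by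
      rw [← h1, sum_mul, ← Equiv.sum_comp (Equiv.mulRight y)]
      simp only [Equiv.coe_mulRight, mul_inv_rev, map_mul, smul_mul_assoc]
      refine sum_congr rfl fun x _ => ?_
      rw [Matrix.trace_mul_comm, ← mul_assoc, ← map_mul, mul_inv_cancel, map_one, one_mul])
    (by simp) (fun a b h1 h2 => by rw [add_mul, mul_add, h1, h2])
    fun c a h => by rw [smul_mul_assoc, mul_smul_comm, h])
  have c0 : c ≠ 0 := fun e => h (by
    simpa [e, Matrix.trace_sum] using congrArg Matrix.trace hc)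
  exact ⟨⟨T, c⁻¹, fun b => by
    simp only [mul_smul, ← smul_sum, h1, hc, mul_smul_comm, mul_one, inv_smul_smul₀ c0]⟩, rfl⟩

namespace AI
variable (h : AI k H n) {A : Type*} [Ring A] [Algebra k A] (S : H →* A)

/-- the homotopy component of another representation -/
noncomputable def lift : Matrix n n k →ₗ[k] A where
  toFun b := ∑ x, (h.c * (h.T x⁻¹ * b).trace) • S x
  map_add' a b := by simp only [mul_add, Matrix.trace_add, add_smul, sum_add_distrib]
  map_smul' c a := by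
    simp only [mul_smul_comm, Matrix.trace_smul, smul_assoc, ← smul_sum, RingHom.id_apply]

theorem lift_apply (b : Matrix n n k) : h.lift S b = ∑ x, (h.c * (h.T x⁻¹ * b).trace) • S x := rfl

theorem lift_T_mul (y : H) (b : Matrix n n k) : h.lift S (h.T y * b) = S y * h.lift S b := by
  rw [lift_apply, lift_apply, mul_sum, ← Equiv.sum_comp (Equiv.mulLeft y)]
  simp [← mul_assoc, ← map_mul]

theorem lift_mul_T (y : H) (b : Matrix n n k) : h.lift S (b * h.T y) = h.lift S b * S y := by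
  rw [lift_apply, lift_apply, sum_mul, ← Equiv.sum_comp (Equiv.mulRight y)]
  simp only [Equiv.coe_mulRight, mul_inv_rev, map_mul, smul_mul_assoc]
  refine sum_congr rfl fun x _ => ?_
  rw [← mul_assoc, Matrix.trace_mul_comm, ← mul_assoc, ← mul_assoc, ← map_mul, mul_inv_cancel,
    map_one, one_mul]

theorem lift_mul (a b : Matrix n n k) : h.lift S (a * b) = h.lift S a * h.lift S b := by
  conv_lhs => rw [← h.inv a]
  rw [sum_mul, map_sum, lift_apply h S a, sum_mul]
  simp only [smul_mul_assoc, map_smul, lift_T_mul]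

theorem comm {a : Matrix n n k} (ha : ∀ x, h.T x * a = a * h.T x) : ∃ c : k, a = c • 1 :=
  scalar_of_comm fun b => by
    rw [← h.inv b]; simp only [sum_mul, mul_sum, smul_mul_assoc, mul_smul_comm, ha]

/-- `σ` implements the automorphism `a` -/
def Imp (a : MulAut H) (σ : (Matrix n n k)ˣ) : Prop := ∀ x, σ.1 * h.T x = h.T (a x) * σ.1

variable {h} {a b : MulAut H} {σ τ : (Matrix n n k)ˣ}

theorem Imp.one : h.Imp 1 1 := fun x => by simp

theorem Imp.mul (h1 : h.Imp a σ) (h2 : h.Imp b τ) : h.Imp (a * b) (σ * τ) := fun x => by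
  rw [Units.val_mul, mul_assoc, h2, ← mul_assoc, h1, mul_assoc, MulAut.mul_apply]

theorem Imp.inv (h1 : h.Imp a σ) : h.Imp a⁻¹ σ⁻¹ := fun x => by
  rw [Units.inv_mul_eq_iff_eq_mul, ← mul_assoc, h1, MulAut.apply_inv_self, Units.mul_inv_cancel_right]

theorem Imp.pow (h1 : h.Imp a σ) (m : ℕ) : h.Imp (a ^ m) (σ ^ m) := by
  induction m with
  | zero => simpa using Imp.one
  | succ m ih => simpa only [pow_succ] using ih.mul h1

theorem Imp.self (x : H) : h.Imp (MulAut.conj x) (h.T.toHomUnits x) := fun y => by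
  simp [← map_mul]

theorem Imp.scalar [Nonempty n] (h1 : h.Imp 1 σ) : ∃ c : kˣ, σ.1 = c.1 • 1 := by
  obtain ⟨c, hc⟩ := h.comm fun x => (h1 x).symm
  exact ⟨Units.mk0 c fun e => σ.ne_zero (by rw [hc, e, zero_smul]), hc⟩

theorem exists_imp (ha : ∀ x, (h.T (a x)).trace = (h.T x).trace) : ∃ σ, h.Imp a σ := by
  have key : ∀ a : MulAut H, (∀ x, (h.T (a x)).trace = (h.T x).trace) →
      h.lift (h.T.comp a.toMonoidHom) 1 = 1 := fun a ha => by
    refine Eq.trans ?_ ((a.toEquiv.sum_comp _).trans (h.inv 1))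
    simp [lift_apply, ← map_inv, ha]
  have h1 : ∀ x, h.lift (h.T.comp a.toMonoidHom) (h.T x) = h.T (a x) := fun x => by
    rw [← mul_one (h.T x), lift_T_mul, key a ha, mul_one]; rfl
  let f := AlgHom.ofLinearMap (h.lift (h.T.comp a.toMonoidHom)) (key a ha) (h.lift_mul _)
  have hf : Function.Surjective f := fun b => ⟨∑ x, (h.c * (h.T x⁻¹ * b).trace) • h.T (a⁻¹ x), by
    simp only [f, map_sum, map_smul, AlgHom.ofLinearMap_apply, h1, MulAut.apply_inv_self, h.inv]⟩
  let e := AlgEquiv.ofBijective f ⟨(LinearMap.injective_iff_surjective (f := f.toLinearMap)).2 hf, hf⟩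
  obtain ⟨σ, hσ⟩ := ((Matrix.toLinAlgEquiv'.symm.trans e).trans
    Matrix.toLinAlgEquiv').eq_linearEquivConjAlgEquiv
  refine ⟨Units.map (LinearMap.toMatrixAlgEquiv' (R := k) (n := n)).toMonoidHom
    (LinearMap.GeneralLinearGroup.ofLinearEquiv σ), fun x => Matrix.toLinAlgEquiv'.injective ?_⟩
  have := DFunLike.congr_fun hσ (Matrix.toLinAlgEquiv' (h.T x))
  rw [AlgEquiv.trans_apply, AlgEquiv.trans_apply, AlgEquiv.symm_apply_apply,
    show e (h.T x) = _ from h1 x] at this
  rw [map_mul, map_mul, this]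
  refine LinearMap.ext fun v => ?_
  simp [LinearEquiv.conjAlgEquiv_apply]

theorem Imp.lift {m : Type*} [Fintype m] [DecidableEq m] {S : H →* Matrix m m k}
    {σ : (Matrix m m k)ˣ} (h1 : h.Imp a τ) (h2 : ∀ x, σ.1 * S x = S (a x) * σ.1) (b : Matrix n n k) :
    h.lift S τ⁻¹.1 * σ.1 * h.lift S b = h.lift S b * (h.lift S τ⁻¹.1 * σ.1) := by
  have : σ.1 * h.lift S b = h.lift S (τ.1 * b * τ⁻¹.1) * σ.1 := by
    rw [lift_apply, lift_apply, mul_sum, sum_mul, ← a.toEquiv.sum_comp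
      fun x => (h.c * (h.T x⁻¹ * (τ.1 * b * τ⁻¹.1)).trace) • S x * σ.1]
    refine sum_congr rfl fun x _ => ?_
    rw [mul_smul_comm, smul_mul_assoc, h2, MulEquiv.toEquiv_eq_coe, EquivLike.coe_coe, ← map_inv,
      ← mul_assoc, ← mul_assoc, ← h1, Matrix.trace_mul_comm _ τ⁻¹.1, ← mul_assoc,
      Units.inv_mul_cancel_left]
  rw [mul_assoc, this, ← mul_assoc, ← mul_assoc, ← lift_mul, ← lift_mul, ← mul_assoc, ← mul_assoc,
    Units.inv_mul, one_mul]

variable {p : ℕ} [Fact p.Prime] [CharP k p]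

theorem Imp.eq [Nonempty n] (h1 : h.Imp a σ) (h2 : h.Imp a τ) {e : ℕ} (h3 : σ ^ p ^ e = 1)
    (h4 : τ ^ p ^ e = 1) : σ = τ := by
  obtain ⟨c, hc⟩ := Imp.scalar (h := h) (inv_mul_cancel a ▸ h2.inv.mul h1)
  rw [Units.val_mul, Units.inv_mul_eq_iff_eq_mul, mul_smul_comm, mul_one] at hc
  have := congrArg Units.val h3
  rw [Units.val_pow_eq_pow_val, hc, smul_pow, ← Units.val_pow_eq_pow_val τ, h4, Units.val_one,
    ← Algebra.algebraMap_eq_smul_one, map_eq_one_iff _ (algebraMap k _).injective, ← sub_eq_zero,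
    ← one_pow (p ^ e), ← sub_pow_char_pow, pow_eq_zero_iff (pow_pos (Fact.out : p.Prime).pos e).ne',
    sub_eq_zero] at this
  exact Units.ext (by rw [hc, this, one_smul])

theorem exists_hom [IsAlgClosed k] [Nonempty n] {P : Type*} [CommGroup P] (a : P →* MulAut H) {e : ℕ}
    (hP : ∀ u : P, u ^ p ^ e = 1) (ha : ∀ u x, (h.T (a u x)).trace = (h.T x).trace) :
    ∃ s : P →* (Matrix n n k)ˣ, ∀ u, h.Imp (a u) (s u) := by
  have : ∀ u, ∃ s, h.Imp (a u) s ∧ s ^ p ^ e = 1 := fun u => by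
    obtain ⟨σ, hσ⟩ := exists_imp (ha u)
    have h1 := hσ.pow (p ^ e)
    rw [← map_pow, hP, map_one] at h1
    obtain ⟨c, hc⟩ := h1.scalar
    obtain ⟨d, hd⟩ := IsAlgClosed.exists_pow_nat_eq c⁻¹.1 (pow_pos (Fact.out : p.Prime).pos e)
    obtain ⟨d, rfl⟩ : IsUnit d := (isUnit_pow_iff (pow_pos (Fact.out : p.Prime).pos e).ne').1
      (hd ▸ c⁻¹.isUnit)
    refine ⟨d • σ, fun x => by simp [hσ x], Units.ext ?_⟩
    rw [Units.val_pow_eq_pow_val, Units.val_smul, Units.smul_def, smul_pow,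
      ← Units.val_pow_eq_pow_val σ, hc, hd, smul_smul, Units.inv_mul, one_smul, Units.val_one]
  choose s h1 h2 using this
  refine ⟨MonoidHom.mk' s fun u v => (h1 _).eq (map_mul a u v ▸ (h1 u).mul (h1 v)) (h2 _) ?_, h1⟩
  have : s u * s v * (s u)⁻¹ = s v := Imp.eq (by
    simpa [← map_mul, ← map_inv] using ((h1 u).mul (h1 v)).mul (h1 u).inv) (h1 v)
      (by rw [conj_pow, h2, mul_one, mul_inv_cancel]) (h2 v)
  rw [Commute.mul_pow (mul_inv_eq_iff_eq_mul.1 this), h2, h2, one_mul]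

end AI

section Kap
variable {m : Type*} [Fintype m] [DecidableEq m] {A : Matrix n m k} {B : Matrix m n k}
  (hBA : B * A = 1)
include hBA

omit [DecidableEq n] in
theorem kap1 {x : Matrix n n k} (y : Matrix n n k) (e : x * (A * B) = A * B * x) :
    B * (x * y) * A = B * x * A * (B * y * A) :=
  calc _ = B * A * B * x * y * A := by rw [hBA, Matrix.one_mul, Matrix.mul_assoc B x y]
    _ = B * (A * B * x) * y * A := by simp only [Matrix.mul_assoc]
    _ = _ := by rw [← e]; simp only [Matrix.mul_assoc]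

omit [DecidableEq n] in
theorem kap2 (x : Matrix n n k) {y : Matrix n n k} (e : y * (A * B) = A * B * y) :
    B * (x * y) * A = B * x * A * (B * y * A) :=
  calc _ = B * (x * y) * A * (B * A) := by rw [hBA, Matrix.mul_one]
    _ = B * x * (y * (A * B)) * A := by simp only [Matrix.mul_assoc]
    _ = _ := by rw [e]; simp only [Matrix.mul_assoc]

theorem AI.capped (h : AI k H n) {P : Type*} [CommGroup P] [Fintype P] [MulAction P H]
    (a : P →* MulAut H) (ha : ∀ u x, u • x = a u x) (s : P →* (Matrix n n k)ˣ)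
    (hs : ∀ u, h.Imp (a u) (s u)) (sc : ∀ u, (s u).1 * (A * B) = A * B * (s u).1)
    (hf : ∀ x, (∀ u, a u x = x) → ∃ c : k, A * B * (h.T x * (A * B)) = c • (A * B))
    (s' : P →* Matrix m m k) (hs' : ∀ u, s' u = B * (s u).1 * A) : Nonempty (Capped s' H) := by
  have hπ : ∀ (u : P) (x : H), B * h.T (a u x) * A = s' u * (B * h.T x * A) * s' u⁻¹ :=
    fun u x => by
      rw [show h.T (a u x) = (s u).1 * h.T x * (s u⁻¹).1 by
        rw [hs u x, map_inv, Units.mul_inv_cancel_right], kap2 hBA _ (sc _), kap1 hBA _ (sc u), hs', hs']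
  refine ⟨⟨fun x => B * h.T x * A, fun x => h.c • (B * h.T x⁻¹ * A), fun u x => ha u x ▸ hπ u x,
    fun u x => by rw [mul_smul_comm, smul_mul_assoc, ← hπ, ha, ← map_inv (a u)], fun b => ?_,
    fun x hx => ?_⟩⟩
  · have := congrArg (fun x => B * x * A) (h.inv (A * b * B))
    simp only [Matrix.mul_sum, Matrix.sum_mul, Matrix.mul_smul, Matrix.smul_mul] at this
    rw [show B * (A * b * B) * A = b by simp only [← Matrix.mul_assoc, hBA, Matrix.one_mul,
      Matrix.mul_assoc _ B A, Matrix.mul_one]] at this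
    refine (sum_congr rfl fun x _ => ?_).trans this
    rw [smul_mul_assoc, Matrix.trace_smul, smul_eq_mul, Matrix.mul_assoc, Matrix.mul_assoc,
      Matrix.trace_mul_comm B, Matrix.mul_assoc (h.T _)]
  · obtain ⟨c, hc⟩ := hf x fun u => ha u x ▸ hx u
    replace hc := congrArg (fun x => B * x * A) hc
    exact ⟨c, by simpa only [Matrix.mul_smul, Matrix.smul_mul, ← Matrix.mul_assoc, hBA, Matrix.one_mul,
      Matrix.mul_assoc _ B A, Matrix.mul_one] using hc⟩

end Kap

theorem dg_nu {p : ℕ} [Fact p.Prime] [CharP k p] [IsAlgClosed k] {K C N P n' : Type*} [Group K]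
    [Fintype K] [Group C] [Fintype C] [Group N] [CommGroup P] [Finite P] [Fintype n'] [DecidableEq n']
    [Nonempty n] [Nonempty n'] (h : AI k K n) (h' : AI k C n') (hP : IsPGroup p P)
    (a : N →* MulAut K) (β : N →* MulAut C) (α : N →* MulAut P) (i : P →* N) (j : C →* K)
    (hi : ∀ g u, i (α g u) = g * i u * g⁻¹) (hj : ∀ g c, a g (j c) = j (β g c))
    (h4 : ∀ u c, a (i u) (j c) = j c) (h5 : ∀ x, (∀ u, a (i u) x = x) → x ∈ j.range)
    (ha : ∀ g x, (h.T (a g x)).trace = (h.T x).trace)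
    {r : k} (r0 : r ≠ 0) (hr : ∀ c, (h.T (j c)).trace = r * (h'.T c).trace)
    (D : Subgroup (N × (Matrix n n k)ˣ × (Matrix n' n' k)ˣ))
    (hD : ∀ d ∈ D, h.Imp (a d.1) d.2.1 ∧ h'.Imp (β d.1) d.2.2) :
    ∃ ν : D →* kˣ, ∀ (d : D) (c : k), α d.1.1 = 1 →
      h'.lift (h.T.comp j) d.1.2.2⁻¹.1 * d.1.2.1.1 = c • h'.lift (h.T.comp j) 1 → ν d = c := by
  classical
  have := Fintype.ofFinite P
  obtain ⟨e, he⟩ := IsPGroup.iff_card.1 hP
  have hP' : ∀ u : P, u ^ p ^ e = 1 := fun u => he ▸ pow_card_eq_one'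
  obtain ⟨s, hs⟩ := AI.exists_hom (h := h) (a.comp i) hP' fun u => ha _
  set ι := h'.lift (h.T.comp j) with hι
  have o : n' := Classical.arbitrary _
  obtain ⟨m, A, B, hAB, hBA⟩ := idem_fac (ε := ι (Matrix.single o o 1)) (by
    rw [← AI.lift_mul, Matrix.single_mul_single_same, one_mul])
  have hm : ¬ p ∣ Fintype.card (Fin m) := by
    rw [← CharP.cast_eq_zero_iff k p, ← Matrix.trace_one, ← hBA, Matrix.trace_mul_comm, hAB]
    have := congrArg Matrix.trace (h'.inv (Matrix.single o o 1))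
    simp only [ι, AI.lift_apply, Matrix.trace_sum, Matrix.trace_smul, MonoidHom.comp_apply, hr,
      smul_eq_mul, mul_left_comm _ r, ← mul_sum, Matrix.trace_single_eq_same] at this ⊢
    rwa [this, mul_one]
  have κ3 : B * ι 1 * A = 1 :=
    calc _ = B * (ι 1 * (A * B)) * A := by
          simp only [← Matrix.mul_assoc, Matrix.mul_assoc _ B A, hBA, Matrix.mul_one]
      _ = B * A * (B * A) := by
          rw [hAB, ← AI.lift_mul, one_mul, ← hAB]; simp only [Matrix.mul_assoc]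
      _ = 1 := by rw [hBA, one_mul]
  have sc : ∀ u b, (s u).1 * ι b = ι b * (s u).1 := fun u b => by
    simp only [ι, AI.lift_apply, mul_sum, sum_mul, mul_smul_comm, smul_mul_assoc,
      MonoidHom.comp_apply, hs u _, h4]
  let s' : P →* Matrix (Fin m) (Fin m) k :=
    { toFun := fun u => B * (s u).1 * A
      map_one' := by simp [hBA]
      map_mul' := fun u v => by rw [map_mul, Units.val_mul, kap1 hBA _ (hAB ▸ sc u _)] }
  letI : MulAction P K := MulAction.compHom K (a.comp i)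
  obtain ⟨Cp⟩ := h.capped hBA (a.comp i) (fun _ _ => rfl) s hs (fun u => hAB ▸ sc u _) (fun x hx => by
    obtain ⟨c, rfl⟩ := h5 x hx
    refine ⟨h'.T c o o, ?_⟩
    rw [hAB, show h.T (j c) = (h.T.comp j) c from rfl, ← AI.lift_T_mul, ← AI.lift_mul,
      ← map_smul, ← Matrix.mul_assoc, Matrix.single_mul_mul_single]
    simp [ι]) s' fun _ => rfl
  have Dc : ∀ (d : D) b, ι d.1.2.2⁻¹.1 * d.1.2.1.1 * ι b = ι b * (ι d.1.2.2⁻¹.1 * d.1.2.1.1) :=
    fun d b => (hD d d.2).2.lift (fun x => ((hD d d.2).1 (j x)).trans (by rw [hj]; rfl)) b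
  let T : D →* Matrix (Fin m) (Fin m) k :=
    { toFun := fun d => B * (ι d.1.2.2⁻¹.1 * d.1.2.1.1) * A
      map_one' := by simpa using κ3
      map_mul' := fun d d' => by
        rw [← kap1 hBA _ (hAB ▸ Dc d _), ← mul_assoc _ (ι _), Dc, mul_assoc, mul_assoc,
          ← mul_assoc (ι _) (ι _), ← AI.lift_mul]
        simp [ι] }
  obtain ⟨ν, hν⟩ := Cp.exists_nu hP hm T (α.comp ((MonoidHom.fst _ _).comp D.subtype)) fun d u => by
    have : d.1.2.1 * s u * d.1.2.1⁻¹ = s (α d.1.1 u) := AI.Imp.eq (h := h) (by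
      simpa [hi] using ((hD d d.2).1.mul (hs u)).mul (hD d d.2).1.inv) (hs _) (by
        rw [conj_pow, ← map_pow, hP', map_one, mul_one, mul_inv_cancel])
          (by rw [← map_pow, hP', map_one])
    show B * (ι _ * _) * A * (B * (s u).1 * A) = B * (s (α d.1.1 u)).1 * A * (B * (ι _ * _) * A)
    rw [← kap2 hBA _ (hAB ▸ sc _ _), ← kap1 hBA _ (hAB ▸ sc _ _), ← mul_assoc, sc, ← this]
    simp [mul_assoc]
  exact ⟨ν, fun d c e1 e2 => hν d c e1 (by
    show B * (ι _ * _) * A = _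
    rw [e2, Matrix.mul_smul, Matrix.smul_mul, κ3])⟩

/-- **cancellation of the projective representations** -/
theorem dg_core {p : ℕ} [Fact p.Prime] [CharP k p] [IsAlgClosed k] {K C N P n' : Type*} [Group K]
    [Fintype K] [Group C] [Fintype C] [Group N] [CommGroup P] [Finite P] [Fintype n'] [DecidableEq n']
    [Nonempty n] [Nonempty n'] (h : AI k K n) (h' : AI k C n') (hP : IsPGroup p P)
    (a : N →* MulAut K) (β : N →* MulAut C) (α : N →* MulAut P) (i : P →* N) (j : C →* K)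
    (l : C →* N) (hi : ∀ g u, i (α g u) = g * i u * g⁻¹) (hj : ∀ g c, a g (j c) = j (β g c))
    (h1 : ∀ c, a (l c) = MulAut.conj (j c)) (h2 : ∀ c, β (l c) = MulAut.conj c)
    (h3 : ∀ c, α (l c) = 1) (h4 : ∀ u c, a (i u) (j c) = j c)
    (h5 : ∀ x, (∀ u, a (i u) x = x) → x ∈ j.range)
    (ha : ∀ g x, (h.T (a g x)).trace = (h.T x).trace)
    (hβ : ∀ g x, (h'.T (β g x)).trace = (h'.T x).trace)
    {r : k} (r0 : r ≠ 0) (hr : ∀ c, (h.T (j c)).trace = r * (h'.T c).trace) :
    ∃ R : N →* End k (Matrix n n' k), (∀ g x φ, R g (h.T x * φ) = h.T (a g x) * R g φ) ∧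
      ∀ c φ, R (l c) φ = h.T (j c) * φ * h'.T c⁻¹ := by
  let D : Subgroup (N × (Matrix n n k)ˣ × (Matrix n' n' k)ˣ) :=
    { carrier := {d | h.Imp (a d.1) d.2.1 ∧ h'.Imp (β d.1) d.2.2}
      mul_mem' := fun h1 h2 => ⟨by simpa using h1.1.mul h2.1, by simpa using h1.2.mul h2.2⟩
      one_mem' := ⟨by simpa using AI.Imp.one, by simpa using AI.Imp.one⟩
      inv_mem' := fun h1 => ⟨by simpa using h1.1.inv, by simpa using h1.2.inv⟩ }
  obtain ⟨ν, hν⟩ := dg_nu h h' hP a β α i j hi hj h4 h5 ha r0 hr D fun _ h => h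
  let R : D →* End k (Matrix n n' k) :=
    { toFun := fun d => (ν d)⁻¹.1 • (mulLeftLinearMap n' k d.1.2.1.1 ∘ₗ
        mulRightLinearMap n k d.1.2.2⁻¹.1)
      map_one' := by ext1; simp
      map_mul' := fun d d' => LinearMap.ext fun φ => by
        simp only [map_mul, mul_inv_rev, Units.val_mul, Subgroup.coe_mul, Prod.snd_mul, Prod.fst_mul,
          LinearMap.smul_apply, LinearMap.comp_apply, mulLeftLinearMap_apply,
          mulRightLinearMap_apply, End.mul_apply, Matrix.mul_smul, Matrix.smul_mul, smul_smul,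
          Matrix.mul_assoc, mul_comm (ν d)⁻¹.1] }
  have hR : ∀ d φ, R d φ = (ν d)⁻¹.1 • (d.1.2.1.1 * (φ * d.1.2.2⁻¹.1)) := fun d φ => rfl
  have R1 : ∀ d : D, d.1.1 = 1 → R d = 1 := fun d hd => by
    obtain ⟨x, hx⟩ := AI.Imp.scalar (h := h) (by simpa [hd] using d.2.1)
    obtain ⟨y, hy⟩ := AI.Imp.scalar (h := h') (by simpa [hd] using d.2.2.inv)
    have := hν d (x.1 * y.1) (by simp [hd]) (by
      rw [hx, hy, map_smul, mul_smul_comm, mul_one, smul_smul])
    ext1 φ
    rw [hR, hx, hy, Matrix.mul_smul, Matrix.smul_mul, Matrix.mul_smul, smul_smul x.1, ← this,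
      smul_smul, Units.inv_mul, one_smul, Matrix.one_mul, Matrix.mul_one, End.one_apply]
  have R2 : ∀ d d' : D, d.1.1 = d'.1.1 → R d = R d' := fun d d' e => by
    rw [← mul_inv_cancel_right d d'⁻¹, map_mul, R1 _ (by simp [e]), one_mul, inv_inv]
  have : ∀ g, ∃ d : D, d.1.1 = g := fun g => by
    obtain ⟨σ, hσ⟩ := AI.exists_imp (ha g)
    obtain ⟨τ, hτ⟩ := AI.exists_imp (hβ g)
    exact ⟨⟨(g, σ, τ), hσ, hτ⟩, rfl⟩
  choose t ht using this
  refine ⟨⟨⟨fun g => R (t g), R1 _ (ht 1)⟩, fun g g' => ?_⟩, fun g x φ => ?_, fun c φ => ?_⟩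
  · rw [← map_mul]; exact R2 _ _ (by simp [ht])
  · show R _ _ = _ * R _ _
    rw [hR, hR, Matrix.mul_smul, Matrix.mul_assoc, ← Matrix.mul_assoc, (t g).2.1 x, ht,
      Matrix.mul_assoc]
  · let d : D := ⟨(l c, h.T.toHomUnits (j c), h'.T.toHomUnits c), by
      simpa [h1] using AI.Imp.self (h := h) (j c), by simpa [h2] using AI.Imp.self (h := h') c⟩
    have := hν d 1 (h3 c) (by
      show h'.lift _ (h'.T.toHomUnits c)⁻¹.1 * (h.T.comp j) c = _
      rw [← AI.lift_mul_T, one_smul]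
      exact congrArg _ (Units.inv_mul (h'.T.toHomUnits c)))
    show R _ _ = _
    rw [R2 _ d (ht _), hR, Units.val_inv_eq_inv_val, this, inv_one, one_smul, Matrix.mul_assoc]
    rfl

end H7.DG
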