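/-
Above the Glauberman correspondence, part 4: the product of a stable character and the conjugate of
its Glauberman correspondent extends to the diagonal subgroup.
-/
import Cfsg.Agent.H7.DG3
import Cfsg.Agent.H8.BF3
import Cfsg.Agent.H8.Clif

set_option autoImplicit false
set_option linter.style.haveILetI false

open Cfsg MonoidAlgebra H5 H8
open scoped ComplexConjugate ComplexOrder

namespace H7.DG
open Module Finset

variable {G : Type*} [Group G] [Finite G] {p : ℕ} {M : Ideal AlgInt}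

theorem deg_le (hM : IsPModular p M) (hG : ¬ p ∣ Nat.card G) {A : Type*} [Ring A] [Algebra (kk M) A]
    [FiniteDimensional (kk M) A] (T : (kk M)[G] →ₐ[kk M] A) {χ : IrrCharacter G}
    (hχ : T (eB M {χ}) ≠ 0) : charDegree χ.1 ^ 2 ≤ finrank (kk M) A := by
  classical
  have := Fintype.ofFinite G
  have := charP_kk hM
  have hV := BF.fB_mem_of_coprime hM hG
  have hXc : eB M {χ} + eB M {χ}ᶜ = 1 := by
    rw [eB, eB, ← redG_add (hV _) (hV _), ← fB_union disjoint_compl_right, Set.union_compl_self,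
      fB_univ, redG_one]
  have hk0 : ∀ a, T a = 0 → eB M {χ} * a = 0 := fun a ha => by
    by_contra h
    obtain ⟨g, hg⟩ : ∃ g, (eB M {χ} * a).coeff g ≠ 0 := by
      by_contra! h1; exact h (by ext g; simpa using h1 g)
    let z := ∑ x : G, ca x (eB M {χ} * a * single g⁻¹ 1)
    have hz : z ∈ Zc (kk M) G := mem_Zc_iff_Fix.2 (mem_Fix.2 fun y _ => by
      simp only [z, map_sum, ca_ca]
      exact Equiv.sum_comp (Equiv.mulLeft y) fun x => ca x (eB M {χ} * a * single g⁻¹ 1))
    have hTz : T z = 0 := by simp [z, ca_eq_mul, ha]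
    have hez : eB M {χ} * z = z := by
      simp only [z, mul_sum]
      refine sum_congr rfl fun x _ => ?_
      have h1 := congrArg (fun b => ca x (b * a * single g⁻¹ 1)) (eB_idem (hV {χ})).eq
      simpa only [map_mul, ca_eB, mul_assoc] using h1
    have h0 : z = 0 := by
      have h1 := congrArg T (BF.mul_eB_singleton hV hz χ)
      rw [map_mul, hTz, zero_mul, map_smul, eq_comm, smul_eq_zero] at h1
      rw [← hez, (commute_of_Supp_Fix (H := ⊤) (by simp [mem_Supp]) (mem_Zc_iff_Fix.1 hz)).eq,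
        BF.mul_eB_singleton hV hz, h1.resolve_right hχ, zero_smul]
    have h1 : z.coeff 1 = (Nat.card G : kk M) * (eB M {χ} * a).coeff g := by
      simp only [z, coeff_finset_sum, coeff_ca]
      simp
    rw [h0] at h1
    exact mul_ne_zero (by rwa [Ne, CharP.cast_eq_zero_iff _ p]) hg h1.symm
  have h1 := T.toLinearMap.finrank_range_add_finrank_ker
  have h2 : finrank (kk M) (LinearMap.ker T.toLinearMap) ≤
      finrank (kk M) (LinearMap.range (LinearMap.mulLeft (kk M) (eB M {χ}ᶜ))) :=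
    Submodule.finrank_mono fun a ha => ⟨a, by
      have := congrArg (· * a) hXc
      simpa only [add_mul, hk0 a ha, zero_add, one_mul, LinearMap.mulLeft_apply] using this⟩
  have h3 := finrank_eB_le (hV {χ}ᶜ)
  have h4 := (LinearMap.range T.toLinearMap).finrank_le
  rw [finsum_mem_irr] at h3
  have h5 : ∑ χ : IrrCharacter G, charDegree χ.1 ^ 2 = Nat.card G := by
    have h := sum_irr_mul_conj (1 : G) 1
    rw [if_pos (IsConj.refl _), show Subgroup.centralizer ({1} : Set G) = ⊤ by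
      ext g; simp [Subgroup.mem_centralizer_singleton_iff], Subgroup.card_top] at h
    simp only [irr_apply_one, map_natCast] at h
    simp only [sq]; exact_mod_cast h
  have h6 := sum_filter_add_sum_filter_not univ (· = χ) fun χ => charDegree χ.1 ^ 2
  rw [(MonoidAlgebra.coeffLinearEquiv _).finrank_eq, finrank_finsupp_self,
    ← Nat.card_eq_fintype_card] at h1
  simp only [Set.mem_compl_iff, Set.mem_singleton_iff] at h3
  rw [filter_eq', if_pos (mem_univ _), sum_singleton] at h6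
  omega

theorem exists_rep [Fintype G] (hM : IsPModular p M) (hG : ¬ p ∣ Nat.card G) (θ : IrrCharacter G) :
    ∃ A : AI (kk M) G (Fin (charDegree θ.1)), ∀ x, (A.T x).trace = red M (θ.1 x) := by
  have := charP_kk hM
  obtain ⟨W⟩ := H21.exists_wed G M
  have hV := BF.fB_mem_of_coprime hM hG {θ}
  have h1 := W.degree_eq hM θ
  obtain ⟨j, -, hj⟩ := exists_ne_zero_of_sum_ne_zero (h1 ▸ charDegree_ne_zero θ)
  have h2 : j ∈ W.blk {θ} := by_contra fun h =>
    left_ne_zero_of_mul hj (H21.Wed.d_eq_zero_of_mem hV rfl h)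
  let T := (Pi.evalAlgHom (kk M) _ j).comp W.π
  haveI : Nonempty (Fin (W.n j)) := ⟨W.o j⟩
  have h3 := deg_le hM hG T (χ := θ) (by
    rw [show T _ = 1 from H21.Wed.mem_blk.1 h2]; exact one_ne_zero)
  rw [finrank_matrix, Fintype.card_fin, finrank_self, mul_one, ← sq,
    Nat.pow_le_pow_iff_left two_ne_zero] at h3
  rw [← add_sum_erase _ _ (mem_univ j)] at h1
  have h4 : W.d θ j = 1 := by
    have := W.pos j
    have := Nat.pos_of_ne_zero (left_ne_zero_of_mul hj)
    nlinarith [Nat.zero_le (∑ x ∈ univ.erase j, W.d θ x * W.n x)]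
  rw [h4, one_mul] at h1
  have h5 : ∑ x ∈ univ.erase j, W.d θ x * W.n x = 0 := by omega
  rw [h5, add_zero] at h1
  have h6 : ∀ x, (T (single x 1)).trace = red M (θ.1 x) := fun x => by
    have := W.red_ev θ (single_one_mem_VG x)
    rw [ev_single, one_mul, redG_single, red_one, ← add_sum_erase _ _ (mem_univ j), h4,
      sum_eq_zero fun l hl => by rw [(mul_eq_zero.1 (sum_eq_zero_iff.1 h5 l hl)).resolve_right
        (W.pos l).ne', Nat.cast_zero, zero_mul]] at this
    rw [this]; simp [T, H21.Wed.tr_apply]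
  rw [h1]
  obtain ⟨A, hA⟩ := exists_AI (T.toRingHom.toMonoidHom.comp (of _ G)) (eq_top_iff.2 fun b _ => by
    obtain ⟨a, ha⟩ := W.surj (Pi.single j b)
    rw [show b = T a by simp [T, ha]]
    clear ha
    induction a using MonoidAlgebra.induction_linear with
    | zero => simp
    | add a b ha hb => rw [map_add]; exact add_mem ha hb
    | single g c =>
      rw [← mul_one c, ← smul_eq_mul, ← smul_single, map_smul]
      exact Submodule.smul_mem _ _ (Submodule.subset_span ⟨g, rfl⟩)) (by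
    have h7 := θ.2.classInner_self
    rw [classInner, inv_mul_eq_one₀ (card_ne_zero_complex G)] at h7
    show ∑ x, (T (single x⁻¹ 1)).trace * (T (single x 1)).trace ≠ 0
    simp only [h6, mul_comm (red M (θ.1 _⁻¹)),
      ← red_mul (irr_apply_mem_V θ _) (irr_apply_mem_V θ _)]
    rw [← red_sum _ _ fun x _ => mul_mem (irr_apply_mem_V θ _) (irr_apply_mem_V θ _)]
    simp only [θ.2.apply_inv]
    rwa [← h7, red_natCast, Ne, CharP.cast_eq_zero_iff _ p])
  exact ⟨A, fun x => hA ▸ h6 x⟩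

theorem ext_of_rep (hM : IsPModular p M) (hG : ¬ p ∣ Nat.card G) {N : Type*} [Group N] [Finite N]
    (hN : ¬ p ∣ Nat.card N) (f : N →* G)
    (φ : IrrCharacter N) {V : Type*} [AddCommGroup V] [Module (kk M) V] [FiniteDimensional (kk M) V]
    (σ : G →* End (kk M) V) (hd : finrank (kk M) V ≤ charDegree φ.1)
    (h : ∀ x : N, LinearMap.trace _ _ (σ (f x)) = red M (φ.1 x)) :
    ∃ χ, IsCharacter G χ ∧ ∀ x : N, χ (f x) = φ.1 x := by
  classical
  have := Fintype.ofFinite N
  have := charP_kk hM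
  have hV := BF.fB_mem_of_coprime hM hG
  let T := MonoidAlgebra.lift (kk M) _ G σ
  have h1 : T (emb f (eB M {φ})) ≠ 0 := fun e => by
    let τ := LinearMap.trace (kk M) V ∘ₗ T.toLinearMap ∘ₗ (emb f).toLinearMap
    have h2 := H21.red_ev_liftK τ (BF.fB_mem_of_coprime hM hN {φ})
    rw [← red_ev_congr (irr_apply_mem_V φ) (fun _ => liftK_mem _) (fun g => by
      simp [τ, T, emb_single, h]) (BF.fB_mem_of_coprime hM hN {φ}), H21.ev_fB_singleton,
      φ.2.classInner_self, mul_one, irr_apply_one, red_natCast,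
      show τ (redG M (fB {φ})) = LinearMap.trace _ _ (T (emb f (eB M {φ}))) from rfl, e, map_zero,
      CharP.cast_eq_zero_iff _ p] at h2
    exact hN (h2.trans (φ.2.dvd_card (irr_apply_one φ)))
  have h2 : ∑ χ : IrrCharacter G, eB M {χ} = 1 := by
    rw [← redG_one (M := M), ← fB_univ, ← BF.sum_fB_singleton, redG_sum _ _ fun χ _ => hV _]
    simp [eB]
  rw [← one_mul (emb f _), ← h2, sum_mul, map_sum] at h1
  obtain ⟨χ, -, hχ⟩ := exists_ne_zero_of_sum_ne_zero h1
  obtain ⟨_, e1, _, e2, h3⟩ := (cover_iff hM f (isPBlock_singleton hM hG χ)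
    (isPBlock_singleton hM hN φ)).2 fun e => hχ (by rw [e, map_zero])
  rw [e1, e2] at h3
  have h4 := deg_le hM hG T (χ := χ) fun e => hχ (by rw [map_mul, e, zero_mul])
  rw [finrank_linearMap, ← sq, Nat.pow_le_pow_iff_left two_ne_zero] at h4
  refine ⟨χ.1, χ.2.isCharacter, congrFun (H6.eq_of_constituent_of_degree_le
    (H6.char_comp χ.2.isCharacter f) φ.2 h3 ?_)⟩
  beta_reduce
  rw [map_one, irr_apply_one, irr_apply_one]
  exact_mod_cast h4.trans hd

theorem ext_of_modrep (hM : IsPModular p M) {L : Subgroup G} [L.Normal] (hL : ¬ p ∣ Nat.card L)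
    (φ : IrrCharacter L) (hinv : ∀ g, H6.cj g φ.1 = φ.1) {V : Type*} [AddCommGroup V]
    [Module (kk M) V] [FiniteDimensional (kk M) V]
    (σ : G →* End (kk M) V) (hd : finrank (kk M) V ≤ charDegree φ.1)
    (h : ∀ x : L, LinearMap.trace _ _ (σ x) = red M (φ.1 x)) :
    ∃ χ, IsIrrCharacter G χ ∧ ∀ x : L, χ x = φ.1 x := H6.exists_ext_of_sylow φ.2 hinv fun r hr _ => by
  haveI : Fact r.Prime := ⟨hr⟩
  obtain ⟨R⟩ : Nonempty (Sylow r G) := inferInstance
  have hJ : L ≤ L ⊔ (R : Subgroup G) := le_sup_left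
  obtain ⟨a, ha⟩ : ∃ a, L.relIndex (L ⊔ (R : Subgroup G)) = r ^ a := by
    obtain ⟨b, hb⟩ := R.isPGroup'.exists_card_eq
    have := Subgroup.relIndex_dvd_card L (R : Subgroup G)
    rw [hb, Nat.dvd_prime_pow hr] at this
    obtain ⟨a, -, h⟩ := this
    exact ⟨a, by rw [Subgroup.relIndex_sup_left, h]⟩
  have h2 : ¬ r ∣ (L ⊔ (R : Subgroup G)).index := fun h =>
    R.not_dvd_index (h.trans (Subgroup.index_dvd_of_le le_sup_right))
  have h3 := Nat.card_congr (Subgroup.subgroupOfEquivOfLe hJ).toEquiv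
  by_cases e : r = p
  · subst e
    obtain ⟨η, h3, h4, -⟩ := H6.exists_canonical_ext_of_hall ((H6.irr_toSub hJ).2 φ.2)
      (fun g => by rw [H6.cj_toSub, hinv]) (by
        rw [h3]
        change (L.relIndex _).Coprime _
        rw [ha]
        exact Nat.Coprime.pow_left _ ((Nat.Prime.coprime_iff_not_dvd hr).2 hL))
    exact ⟨_, hJ, η, h2, h3.isCharacter, fun n => h4 ⟨Subgroup.inclusion hJ n, n.2⟩⟩
  · obtain ⟨η, h4, h5⟩ := ext_of_rep hM (G := (L ⊔ (R : Subgroup G) : Subgroup G)) (by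
      rw [← (L.subgroupOf _).card_mul_index, h3, show (L.subgroupOf _).index = _ from ha,
        hM.1.dvd_mul, not_or]
      exact ⟨hL, fun h => e ((Nat.prime_dvd_prime_iff_eq hM.1 hr).1 (hM.1.dvd_of_dvd_pow h)).symm⟩)
      hL (Subgroup.inclusion hJ) φ (σ.comp (Subgroup.subtype _)) hd h
    exact ⟨_, hJ, η, h2, h4, h5⟩

theorem trace_lr {k m n : Type*} [Field k] [Fintype m] [Fintype n] (a : Matrix m m k)
    (b : Matrix n n k) {f : End k (Matrix m n k)} (h : ∀ φ, f φ = a * φ * b) :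
    LinearMap.trace k _ f = a.trace * b.trace := by
  classical
  rw [LinearMap.trace_eq_matrix_trace k (Matrix.stdBasis k m n), Matrix.trace, Fintype.sum_prod_type,
    Matrix.trace, Matrix.trace, sum_mul_sum]
  refine sum_congr rfl fun i _ => sum_congr rfl fun j _ => ?_
  rw [Matrix.diag_apply, LinearMap.toMatrix_apply, h, Matrix.stdBasis_eq_single]
  simp [Matrix.stdBasis, Matrix.mul_apply, Matrix.single_apply, ite_and]

variable {N : Type*} [Group N] (f : N →* G) (K : Subgroup G) [hK : K.Normal]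

/-- the diagonal subgroup -/
def Dg : Subgroup (G × N) where
  carrier := {d | d.1 * (f d.2)⁻¹ ∈ K}
  mul_mem' {a b} ha hb := by
    simpa [mul_assoc] using mul_mem ha (hK.conj_mem _ hb (f a.2))
  one_mem' := by simp
  inv_mem' {a} ha := by simpa [mul_assoc] using inv_mem (hK.conj_mem _ ha a.1⁻¹)

/-- the embedding of `K × C` in the diagonal subgroup -/
def dl : K × K.comap f →* Dg f K :=
  (K.subtype.prodMap (K.comap f).subtype).codRestrict _ fun x => mul_mem x.1.2 (inv_mem x.2.2)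

/-- the restriction of `f` -/
def cK : K.comap f →* K := (f.comp (K.comap f).subtype).codRestrict _ fun x => x.2

omit [Finite G] hK in
@[simp] theorem cK_coe (c : K.comap f) : (cK f K c : G) = f c := rfl

omit [Finite G] in
@[simp] theorem dl_coe (x : K × K.comap f) : (dl f K x : G × N) = ((x.1 : G), (x.2 : N)) := rfl

variable {f K} [Finite N]

/-- `θ'` is the Glauberman correspondent of `θ` with respect to `P` -/
structure GS (p : ℕ) (M : Ideal AlgInt) (P : Subgroup N) (θ : IrrCharacter K)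
    (θ' : IrrCharacter (K.comap f)) : Prop where
  hM : IsPModular p M
  cop : ¬ p ∣ Nat.card K
  inj : Function.Injective f
  norm : P.Normal
  isP : IsPGroup p P
  comm : ∀ a ∈ P, ∀ b ∈ P, a * b = b * a
  cent : ∀ c ∈ K.comap f, ∀ u ∈ P, u * c = c * u
  fix : ∀ x ∈ K, (∀ u ∈ P, f u * x = x * f u) → x ∈ f.range
  inv : ∀ n, H6.cj (f n) θ.1 = θ.1
  inv' : ∀ n, H6.cj n θ'.1 = θ'.1
  gl : ∃ r : kk M, r ≠ 0 ∧ ∀ c, red M (θ.1 (cK f K c)) = r * red M (θ'.1 c)

variable {P : Subgroup N} {θ : IrrCharacter K} {θ' : IrrCharacter (K.comap f)}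

theorem GS.cop' (h : GS p M P θ θ') : ¬ p ∣ Nat.card (K.comap f) := fun e => h.cop (e.trans
  (Subgroup.card_dvd_of_injective (cK f K) fun _ _ e => Subtype.ext (h.inj (congrArg Subtype.val e))))

theorem GS.exists_rep (h : GS p M P θ θ') :
    ∃ σ : Dg f K →* End (kk M) (Matrix (Fin (charDegree θ.1)) (Fin (charDegree θ'.1)) (kk M)),
      ∀ x, LinearMap.trace _ _ (σ (dl f K x)) = red M (θ.1 x.1 * conj (θ'.1 x.2)) := by
  haveI := Fact.mk h.hM.1
  haveI := charP_kk h.hM
  haveI := h.norm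
  have := Fintype.ofFinite K
  have := Fintype.ofFinite (K.comap f)
  letI : CommGroup P := { (inferInstance : Group P) with
    mul_comm := fun a b => Subtype.ext (h.comm _ a.2 _ b.2) }
  obtain ⟨A, hA⟩ := DG.exists_rep h.hM h.cop θ
  obtain ⟨A', hA'⟩ := DG.exists_rep h.hM h.cop' θ'
  haveI : Nonempty (Fin (charDegree θ.1)) := ⟨⟨0, Nat.pos_of_ne_zero (charDegree_ne_zero θ)⟩⟩
  haveI : Nonempty (Fin (charDegree θ'.1)) := ⟨⟨0, Nat.pos_of_ne_zero (charDegree_ne_zero θ')⟩⟩
  obtain ⟨r, r0, hr⟩ := h.gl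
  obtain ⟨R, h1, h2⟩ := dg_core A A' h.isP (MulAut.conjNormal.comp f) MulAut.conjNormal
    MulAut.conjNormal P.subtype (cK f K) (K.comap f).subtype (fun _ _ => rfl)
    (fun g c => Subtype.ext (by simp)) (fun c => by ext; simp) (fun c => by ext; simp)
    (fun c => by ext u; simp [← h.cent c c.2 u u.2])
    (fun u c => Subtype.ext (by simp [← map_mul, ← map_inv, h.cent c c.2 u u.2]))
    (fun x hx => by
      obtain ⟨c, hc⟩ := h.fix x x.2 fun u hu =>
        mul_inv_eq_iff_eq_mul.1 (congrArg Subtype.val (hx ⟨u, hu⟩))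
      exact ⟨⟨c, show f c ∈ K from hc ▸ x.2⟩, Subtype.ext hc⟩)
    (fun g x => by rw [hA, hA]; exact congrArg _ (congrFun (h.inv g) x))
    (fun g x => by rw [hA', hA']; exact congrArg _ (congrFun (h.inv' g) x)) r0
    (fun c => by rw [hA, hA', hr])
  refine ⟨⟨⟨fun d => mulLeftLinearMap _ _ (A.T ⟨_, d.2⟩) * R d.1.2, LinearMap.ext fun φ => ?_⟩,
    fun d e => LinearMap.ext fun φ => ?_⟩, fun x => ?_⟩
  · rw [show (⟨_, (1 : Dg f K).2⟩ : K) = 1 by ext; simp]; simp
  · simp only [End.mul_apply, mulLeftLinearMap_apply, h1, Subgroup.coe_mul, Prod.snd_mul, map_mul,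
      ← Matrix.mul_assoc]
    rw [← map_mul A.T]
    congr 2
    ext; simp [mul_assoc]
  · rw [trace_lr (A.T x.1) (A'.T x.2⁻¹) fun φ => ?_, hA, hA', θ'.2.apply_inv,
      red_mul (irr_apply_mem_V _ _) (θ'.2.apply_inv _ ▸ irr_apply_mem_V _ _)]
    show A.T ⟨_, (dl f K x).2⟩ * R ((K.comap f).subtype x.2) φ = _
    rw [h2, ← Matrix.mul_assoc, ← Matrix.mul_assoc, ← map_mul]
    congr 3
    ext; simp

/-- **Dade**: the Clifford extensions of `θ` and of its Glauberman correspondent agree -/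
theorem GS.exists_ext (h : GS p M P θ θ') (hinv : ∀ g, H6.cj g θ.1 = θ.1) :
    ∃ η, IsIrrCharacter (Dg f K) η ∧ ∀ x, η (dl f K x) = θ.1 x.1 * conj (θ'.1 x.2) := by
  obtain ⟨σ, hσ⟩ := h.exists_rep
  have hi : Function.Injective (dl f K) := fun x y e => by
    have := congrArg Subtype.val e
    simp only [dl_coe, Prod.mk.injEq, Subtype.val_inj] at this
    exact Prod.ext this.1 this.2
  have hc : ∀ (d : Dg f K) x, d * dl f K x * d⁻¹ =
      dl f K (MulAut.conjNormal d.1.1 x.1, MulAut.conjNormal d.1.2 x.2) := fun d x => rfl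
  haveI : (dl f K).range.Normal := ⟨by rintro _ ⟨x, rfl⟩ d; exact ⟨_, (hc d x).symm⟩⟩
  let e := MonoidHom.ofInjective hi
  have he : ∀ x, e.symm ⟨dl f K x, x, rfl⟩ = x := e.symm_apply_apply
  obtain ⟨η, h1, h2⟩ := ext_of_modrep h.hM (L := (dl f K).range) (by
      rw [← Nat.card_congr e.toEquiv, Nat.card_prod, h.hM.1.dvd_mul, not_or]
      exact ⟨h.cop, h.cop'⟩) ⟨_, H6.irr_comp_equiv (θ.2.prod θ'.2.star) e.symm⟩
    (fun d => funext (by
      rintro ⟨_, x, rfl⟩
      simp only [H6.cj_apply, hc, Function.comp_apply, he]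
      exact congrArg₂ (· * conj ·) (congrFun (hinv _) _) (congrFun (h.inv' _) _))) σ (by
      rw [finrank_matrix, Fintype.card_fin, Fintype.card_fin, finrank_self, mul_one]
      exact (charDegree_eq (by simp [irr_apply_one])).ge) (by
      rintro ⟨_, x, rfl⟩
      simp only [hσ, Function.comp_apply, he])
  exact ⟨η, h1, fun x => (h2 ⟨_, x, rfl⟩).trans (by simp only [Function.comp_apply, he])⟩

end H7.DG
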