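/-
Above the Glauberman correspondence, part 5: perfect isometries.
-/
import Cfsg.Agent.H7.DG4

set_option autoImplicit false
set_option linter.style.haveILetI false

open Cfsg MonoidAlgebra H5 H8
open scoped ComplexConjugate

namespace H7.DG
open Module Finset

theorem perm_mat {ι κ : Type*} [Fintype ι] [Fintype κ] [Nonempty ι] (a : ι → κ → ℕ) (u : ι → ℕ)
    (v : κ → ℕ) (hu : ∀ i, 0 < u i) (hv : ∀ j, 0 < v j) (B : Set ι) (c : Set κ)
    (h1 : ∀ i ∈ B, ∑ j, a i j * v j = u i) (h1' : ∀ i ∉ B, ∑ j, a i j * v j = 0)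
    (h2 : ∀ j ∈ c, ∑ i, a i j * u i = v j) (h2' : ∀ j ∉ c, ∑ i, a i j * u i = 0) :
    ∃ I : κ → ι, Set.BijOn I c B ∧ (∀ j ∈ c, u (I j) = v j ∧ a (I j) j = 1) ∧
      ∀ i j, a i j ≠ 0 → j ∈ c ∧ i = I j := by
  classical
  have k0 : ∀ i j, a i j ≠ 0 → i ∈ B ∧ j ∈ c := fun i j h =>
    ⟨by_contra fun e => mul_ne_zero h (hv j).ne' (sum_eq_zero_iff.1 (h1' i e) j (mem_univ _)),
      by_contra fun e => mul_ne_zero h (hu i).ne' (sum_eq_zero_iff.1 (h2' j e) i (mem_univ _))⟩
  have k1 : ∀ i j, a i j ≠ 0 → u i = v j ∧ a i j = 1 ∧ (∀ j', a i j' ≠ 0 → j' = j) ∧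
      ∀ i', a i' j ≠ 0 → i' = i := fun i j h => by
    have e1 := h1 i (k0 i j h).1
    have e2 := h2 j (k0 i j h).2
    rw [← add_sum_erase _ _ (mem_univ j)] at e1
    rw [← add_sum_erase _ _ (mem_univ i)] at e2
    have e3 := Nat.le_mul_of_pos_left (v j) (Nat.pos_of_ne_zero h)
    have e4 := Nat.le_mul_of_pos_left (u i) (Nat.pos_of_ne_zero h)
    refine ⟨by omega, Nat.eq_of_mul_eq_mul_right (hv j) (by omega), fun j' h' => by_contra fun e =>
      mul_ne_zero h' (hv j').ne' (sum_eq_zero_iff.1 (show ∑ x ∈ univ.erase j, a i x * v x = 0 by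
        omega) j' (by simpa using e)), fun i' h' => by_contra fun e => mul_ne_zero h' (hu i').ne'
          (sum_eq_zero_iff.1 (show ∑ x ∈ univ.erase i, a x j * u x = 0 by omega) i'
            (by simpa using e))⟩
  have k2 : ∀ j, ∃ i, j ∈ c → a i j ≠ 0 := fun j => by
    by_cases h : j ∈ c
    · obtain ⟨i, -, hi⟩ := exists_ne_zero_of_sum_ne_zero ((h2 j h).trans_ne (hv j).ne')
      exact ⟨i, fun _ => left_ne_zero_of_mul hi⟩
    · exact ⟨Classical.arbitrary _, fun e => absurd e h⟩
  choose I hI using k2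
  have k3 : ∀ i j, a i j ≠ 0 → j ∈ c ∧ i = I j := fun i j h =>
    ⟨(k0 i j h).2, (k1 _ j (hI j (k0 i j h).2)).2.2.2 i h⟩
  refine ⟨I, ⟨fun j hj => (k0 _ j (hI j hj)).1, fun j hj j' hj' e =>
    (k1 _ j' (hI j' hj')).2.2.1 j (e ▸ hI j hj), fun i hi => ?_⟩,
    fun j hj => ⟨(k1 _ j (hI j hj)).1, (k1 _ j (hI j hj)).2.1⟩, k3⟩
  obtain ⟨j, -, hj⟩ := exists_ne_zero_of_sum_ne_zero ((h1 i hi).trans_ne (hu i).ne')
  exact ⟨j, (k3 i j (left_ne_zero_of_mul hj)).1, (k3 i j (left_ne_zero_of_mul hj)).2.symm⟩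

variable {G H : Type*} [Group G] [Group H] {p : ℕ} {M : Ideal AlgInt}

theorem perfect_flip {μ : G → H → ℂ} (h : IsPerfectFun p M μ) : IsPerfectFun p M fun y x => μ x y :=
  fun y x => ⟨(h x y).2.1, (h x y).1, (h x y).2.2.imp_left Iff.symm⟩

theorem perfect_ind [Fintype G] (hM : IsPModular p M) {T : Subgroup G} {μ : T → H → ℂ}
    (h : IsPerfectFun p M μ) (hc : ∀ y, IsClassFunction T fun t => μ t y) :
    IsPerfectFun p M fun x y => indFun T (fun t => μ t y) x := fun x y => by
  classical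
  haveI := hM.2.1
  have := Fintype.ofFinite (ConjClasses T)
  have := Fintype.ofFinite T
  have key : indFun T (fun t => μ t y) x = ∑ K : ConjClasses T, if IsConj x (K.out : T) then
      Nat.card (Subgroup.centralizer ({x} : Set G)) * (μ K.out y /
        Nat.card (Subgroup.centralizer ({K.out} : Set T))) else 0 := by
    have := classInner_eq_sum_classes (G := T) (hc y) (ψ := fun t : T => if IsConj x (t : G) then 1 else 0)
      fun t s => if_congr ⟨fun e => e.trans (isConj_iff.2 ⟨(s : G)⁻¹, by simp [mul_assoc]⟩),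
        fun e => e.trans (isConj_iff.2 ⟨s, rfl⟩)⟩ rfl rfl
    simp only [classInner, apply_ite conj, map_one, map_zero, mul_ite, mul_one, mul_zero] at this
    rw [indFun_apply_eq_sum_isConj, div_eq_mul_inv, mul_assoc, this, mul_sum]
    exact sum_congr rfl fun K _ => by split_ifs <;> simp
  beta_reduce
  refine ⟨?_, ?_, or_iff_not_imp_right.2 fun e => ?_⟩
  · rw [key, sum_div]
    refine (O M).sum_mem fun K _ => ?_
    split_ifs
    · rw [mul_div_cancel_left₀ _ (card_ne_zero_complex _)]; exact (h _ y).1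
    · rw [zero_div]; exact zero_mem _
  · rw [key, sum_div]
    refine (O M).sum_mem fun K _ => ?_
    split_ifs with e
    · obtain ⟨g, hg⟩ := isConj_iff.1 e
      obtain ⟨m, hm⟩ : Nat.card (Subgroup.centralizer ({K.out} : Set T)) ∣
          Nat.card (Subgroup.centralizer ({x} : Set G)) :=
        Subgroup.card_dvd_of_injective ((((MulAut.conj g⁻¹).toMonoidHom.comp T.subtype).comp
          (Subgroup.subtype _)).codRestrict _ fun t => Subgroup.mem_centralizer_singleton_iff.2 (by
            have := congrArg Subtype.val (Subgroup.mem_centralizer_singleton_iff.1 t.2)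
            rw [Subgroup.coe_mul, Subgroup.coe_mul, ← hg] at this
            have := congrArg (g⁻¹ * · * g) this
            simpa [mul_assoc] using this)) fun a b e => by simpa using congrArg Subtype.val e
      rw [hm, Nat.cast_mul, mul_comm (Nat.card _ : ℂ), mul_assoc,
        mul_div_cancel₀ _ (card_ne_zero_complex _), mul_div_assoc]
      exact mul_mem (natCast_mem _ m) (h _ y).2.1
    · rw [zero_div]; exact zero_mem _
  · obtain ⟨g, hg, e⟩ := exists_of_indFun_ne_zero T _ e
    rw [← (h _ y).2.2.resolve_right e, IsPRegular, IsPRegular, ← Subgroup.orderOf_coe,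
      ← (MulAut.conj g).orderOf_eq x]
    rfl

theorem rank_le [Finite G] [Finite H] {ι : Type*} [Fintype ι] (χ : ι → IrrCharacter G)
    (ξ : ι → IrrCharacter H) (hξ : Function.Injective ξ)
    (h : ∀ x y, (IsPRegular p x ↔ IsPRegular p y) ∨ ∑ i, (χ i).1 x * (ξ i).1 y = 0) :
    finrank ℂ (Submodule.span ℂ (Set.range fun i => pRegularPart p (χ i).1)) ≤
      finrank ℂ (Submodule.span ℂ (Set.range fun i => pRegularPart p (ξ i).1)) := by
  classical
  have := Fintype.ofFinite H
  rw [← Fintype.range_linearCombination, ← Fintype.range_linearCombination]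
  have h1 := (Fintype.linearCombination ℂ fun i => pRegularPart p (χ i).1).finrank_range_add_finrank_ker
  have h2 := (Fintype.linearCombination ℂ fun i => pRegularPart p (ξ i).1).finrank_range_add_finrank_ker
  have h3 : LinearMap.ker (Fintype.linearCombination ℂ fun i => pRegularPart p (ξ i).1) ≤
      LinearMap.ker (Fintype.linearCombination ℂ fun i => pRegularPart p (χ i).1) := fun a ha => by
    ext x
    simp only [LinearMap.mem_ker, funext_iff, Fintype.linearCombination_apply, Finset.sum_apply,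
      Pi.smul_apply, H21.rp_apply, smul_eq_mul, Pi.zero_apply] at ha ⊢
    split_ifs with hx
    · simp
    have : classInner (∑ i, (χ i).1 x • (ξ i).1) (∑ i, conj (a i) • (ξ i).1) = 0 := by
      rw [classInner, sum_eq_zero fun y _ => ?_, mul_zero]
      by_cases hy : p ∣ orderOf y
      · simp [(h x y).resolve_left fun e => e.1 hx hy]
      · have := ha y⁻¹
        simp only [orderOf_inv, hy, if_false, (ξ _).2.apply_inv] at this
        simp [this]
    simpa [classInner_sum_left, classInner_sum_right, classInner_smul_left, classInner_smul_right,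
      classInner_irr, hξ.eq_iff, mul_comm] using this
  have := Submodule.finrank_mono h3
  omega

theorem rank_eq [Finite G] [Finite H] {c : Set (IrrCharacter H)} {B : Set (IrrCharacter G)}
    {I : IrrCharacter H → IrrCharacter G} (h : IsPerfectIsometry p M c B I fun _ => 1) :
    blockRank p c = blockRank p B := by
  have := Fintype.ofFinite c
  have k : ∀ x y, (IsPRegular p x ↔ IsPRegular p y) ∨ ∑ i : c, (I i).1 x * i.1.1 y = 0 := fun x y => by
    have := (h.2.2 x y).2.2
    rw [signedBijectionKernel, ← finsum_set_coe_eq_finsum_mem, finsum_eq_sum_of_fintype] at this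
    simpa using this
  rw [blockRank, blockRank, ← h.1.image_eq, Set.image_image, Set.image_eq_range, Set.image_eq_range]
  exact le_antisymm (rank_le _ (fun i : c => I i) h.1.injOn.injective fun y x => by
    simpa only [mul_comm, Iff.comm] using k x y) (rank_le _ _ Subtype.val_injective k)

theorem isom_ind [Fintype G] [Fintype H] (hM : IsPModular p M) {T : Subgroup G} {U : Subgroup H}
    {A : Set (IrrCharacter T)} {a : Set (IrrCharacter U)} {B : Set (IrrCharacter G)}
    {c : Set (IrrCharacter H)} {I : IrrCharacter U → IrrCharacter T}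
    (h : IsPerfectIsometry p M a A I fun _ => 1) {J : IrrCharacter T → IrrCharacter G}
    (hJ : Set.BijOn J A B) (eJ : ∀ ψ ∈ A, (J ψ).1 = indFun T ψ.1) {L : IrrCharacter U → IrrCharacter H}
    (hL : Set.BijOn L a c) (eL : ∀ ψ ∈ a, (L ψ).1 = indFun U ψ.1) :
    ∃ I', IsPerfectIsometry p M c B I' fun _ => 1 := by
  classical
  haveI : Nonempty (IrrCharacter U) := ⟨⟨_, isIrrCharacter_one⟩⟩
  have k : ∀ t, IsClassFunction U fun u => signedBijectionKernel a I (fun _ => 1) t u := fun t u v => by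
    simp only [signedBijectionKernel, fun χ : IrrCharacter U => χ.2.isClassFunction u v]
  refine ⟨J ∘ I ∘ Function.invFunOn L a, hJ.comp (h.1.comp (hL.symm hL.invOn_invFunOn.symm)),
    fun _ _ => .inl rfl, ?_⟩
  convert perfect_ind hM (perfect_flip (perfect_ind hM (perfect_flip h.2.2) k)) fun y t s => by
    simp only [signedBijectionKernel, fun χ : IrrCharacter T => χ.2.isClassFunction t s] using 3 with x y
  rw [signedBijectionKernel, ← finsum_mem_eq_of_bijOn L hL (f := fun ψ =>
    indFun T (I ψ).1 x * indFun U ψ.1 y) fun ψ hψ => by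
      simp [hL.invOn_invFunOn.1 hψ, eJ _ (h.1.1 hψ), eL _ hψ]]
  have e : ∀ t, (fun u => signedBijectionKernel a I (fun _ => 1) t u) =
      ∑ ψ with ψ ∈ a, (I ψ).1 t • ψ.1 := fun t => by
    ext u; simp [signedBijectionKernel, finsum_mem_irr]
  simp only [e, indFun_sum, indFun_smul, finsum_mem_irr]
  rw [show (fun t => (∑ ψ with ψ ∈ a, (I ψ).1 t • indFun U ψ.1) y) =
    ∑ ψ with ψ ∈ a, indFun U ψ.1 y • (I ψ).1 by ext t; simp [mul_comm], indFun_sum]
  simp [indFun_smul, mul_comm]

theorem dvd_orderOf_of_mem (hp : p.Prime) {K : Subgroup G} [K.Normal] [Finite K] (hK : ¬ p ∣ Nat.card K)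
    {a b : G} (h : a * b⁻¹ ∈ K) (ha : p ∣ orderOf a) : p ∣ orderOf b := by
  have e : (a : G ⧸ K) = b := by
    rw [← mul_inv_eq_one, ← QuotientGroup.mk_inv, ← QuotientGroup.mk_mul, QuotientGroup.eq_one_iff]
    exact h
  have : a ^ orderOf b ∈ K := by
    rw [← QuotientGroup.eq_one_iff, QuotientGroup.mk_pow, e, ← QuotientGroup.mk_pow,
      pow_orderOf_eq_one, QuotientGroup.mk_one]
  refine (hp.dvd_mul.1 (ha.trans (orderOf_dvd_of_pow_eq_one ?_))).resolve_right hK
  rw [pow_mul]
  exact congrArg Subtype.val (pow_card_eq_one' (x := (⟨_, this⟩ : K)))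

theorem avg_mem_O [Fintype G] (hM : IsPModular p M) {m : ℕ} (hm : ¬ p ∣ m) {F : G → ℂ}
    (hF : ∀ g, IsIntegral ℤ (F g)) (x : G) : MemLocalRing M ((m : ℂ)⁻¹ * (∑ g, F (g * x * g⁻¹)) /
      Nat.card (Subgroup.centralizer ({x} : Set G))) := by
  haveI := hM.2.1
  rw [sum_conj_eq, nsmul_eq_mul, mul_left_comm, mul_div_cancel_left₀ _ (card_ne_zero_complex _)]
  exact (O M).mul_mem (inv_mem_O (natCast_mem _ m) (mt (memI_natCast_iff hM m).1 hm))
    ((O M).sum_mem fun g _ => mem_O_of_isIntegral M (hF g))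

variable {N : Type*} [Group N] [Fintype G] [Fintype N] {f : N →* G} {K : Subgroup G} [hK : K.Normal]

theorem ind_left {η : Dg f K → ℂ} (hη : IsClassFunction _ η) (x : G) (y : N) :
    indFun (Dg f K) η (x, y) =
      (Nat.card K : ℂ)⁻¹ * ∑ g, extendByZero (Dg f K) η (g * x * g⁻¹, y) := by
  have h1 : Nat.card (Dg f K) = Nat.card K * Nat.card N := by
    rw [← Nat.card_prod]
    exact Nat.card_congr ⟨fun d => (⟨_, d.2⟩, d.1.2), fun k => ⟨(k.1 * f k.2, k.2), by simp [Dg]⟩,
      fun d => by simp, fun k => by simp⟩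
  rw [indFun_apply', Fintype.sum_prod_type_right, sum_congr rfl (g := fun _ =>
    ∑ g, extendByZero (Dg f K) η (g * x * g⁻¹, y)) fun n _ => ?_, sum_const, card_univ,
    ← Nat.card_eq_fintype_card, h1, nsmul_eq_mul, Nat.cast_mul, mul_inv, mul_assoc,
    inv_mul_cancel_left₀ (card_ne_zero_complex N)]
  rw [← Equiv.sum_comp (Equiv.mulLeft (f n))]
  refine sum_congr rfl fun g _ => ?_
  rw [← extendByZero_conj _ hη (x := (f n, n)) (by simp [Dg]) (g * x * g⁻¹, y)]
  simp [mul_assoc]

theorem ind_right (hKN : ∀ g, ∃ n, g * (f n)⁻¹ ∈ K) {η : Dg f K → ℂ} (hη : IsClassFunction _ η)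
    (x : G) (y : N) : indFun (Dg f K) η (x, y) =
      (Nat.card (K.comap f) : ℂ)⁻¹ * ∑ n, extendByZero (Dg f K) η (x, n * y * n⁻¹) := by
  choose m hm using hKN
  have h1 : Nat.card (Dg f K) = Nat.card (K.comap f) * Nat.card G := by
    rw [← Nat.card_prod]
    exact Nat.card_congr ⟨fun d => (⟨d.1.2 * (m d.1.1)⁻¹, by
        simpa using K.mul_mem (K.inv_mem d.2) (hm d.1.1)⟩, d.1.1),
      fun k => ⟨(k.2, k.1 * m k.2), by simpa [Dg, mul_assoc] using mul_mem (hm k.2) (inv_mem k.1.2)⟩,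
      fun d => by simp, fun k => by simp⟩
  rw [indFun_apply', Fintype.sum_prod_type, sum_congr rfl (g := fun _ =>
    ∑ n, extendByZero (Dg f K) η (x, n * y * n⁻¹)) fun g _ => ?_, sum_const, card_univ,
    ← Nat.card_eq_fintype_card, h1, nsmul_eq_mul, Nat.cast_mul, mul_inv, mul_assoc,
    inv_mul_cancel_left₀ (card_ne_zero_complex G)]
  rw [← Equiv.sum_comp (Equiv.mulLeft (m g))]
  refine sum_congr rfl fun n _ => ?_
  rw [← extendByZero_conj _ hη (x := (g, m g)) (hm g) (x, n * y * n⁻¹)]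
  simp [mul_assoc]

variable {P : Subgroup N} {θ : IrrCharacter K} {θ' : IrrCharacter (K.comap f)}

/-- the characters over `θ` -/
def Ov {G : Type*} [Group G] {K : Subgroup G} [Fintype K] (θ : IrrCharacter K) :
    Set (IrrCharacter G) := {χ | classInner (fun x : K => χ.1 x) θ.1 ≠ 0}

/-- **the perfect isometry above the Glauberman correspondence** -/
theorem GS.perfect [Fintype K] [Fintype (K.comap f)] (h : GS p M P θ θ')
    (hinv : ∀ g, H6.cj g θ.1 = θ.1) (hKN : ∀ g, ∃ n, g * (f n)⁻¹ ∈ K) :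
    ∃ I, IsPerfectIsometry p M (Ov θ') (Ov θ) I (fun _ => 1) ∧ ∀ ξ ∈ Ov θ',
        charDegree (I ξ).1 * charDegree θ'.1 = charDegree ξ.1 * charDegree θ.1 := by
  classical
  obtain ⟨η, hη, he⟩ := h.exists_ext hinv
  have hν := hη.isCharacter.ind
  have hl := ind_left hη.isClassFunction
  have hr := ind_right hKN hη.isClassFunction
  generalize indFun (Dg f K) η = ν at hν hl hr
  choose a ha using fun (χ : IrrCharacter G) (ξ : IrrCharacter N) =>
    hν.exists_classInner_nat (χ.2.isCharacter.prod ξ.2.isCharacter.star)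
  have h1 : ∀ (χ : IrrCharacter G) y, classInner (fun x => ν (x, y⁻¹)) χ.1 = ∑ ξ, a χ ξ * ξ.1 y :=
    fun χ y => by
    refine ((show IsClassFunction N fun y => classInner (fun x => ν (x, y⁻¹)) χ.1 from
      fun y n => congrArg (classInner · _) (funext fun x => ?_)).apply_eq_sum_irr y).trans
        (sum_congr rfl fun ξ _ => congrArg (· * _) ?_)
    · simpa [mul_assoc] using hν.isClassFunction (x, y⁻¹) (1, n)
    · rw [← ha, classInner, ← Equiv.sum_comp (Equiv.inv N)]
      simp only [classInner, Fintype.sum_prod_type_right, Nat.card_prod, Equiv.inv_apply, inv_inv,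
        ξ.2.apply_inv, map_mul, Nat.cast_mul, mul_inv, mul_sum, sum_mul]
      exact sum_congr rfl fun _ _ => sum_congr rfl fun _ _ => by ring
  have h2 : ∀ x y, ν (x, y⁻¹) = ∑ χ, ∑ ξ, a χ ξ * ξ.1 y * χ.1 x := fun x y => by
    refine ((show IsClassFunction G fun x => ν (x, y⁻¹) from fun x g => ?_).apply_eq_sum_irr x).trans ?_
    · simpa using hν.isClassFunction (x, y⁻¹) (g, 1)
    · simp only [h1, sum_mul]
  have h3 : ∀ χ : IrrCharacter G, ∑ ξ, (a χ ξ : ℂ) * ξ.1 1 =
      θ'.1 1 * classInner (fun x : K => χ.1 x) θ.1 := fun χ => by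
    rw [← h1, H6.inner_char_comm (H6.char_res χ.2.isCharacter K) θ.2.isCharacter,
      ← classInner_indFun_left _ _ χ.2.isClassFunction, ← classInner_smul_left]
    refine congrArg (classInner · _) (funext fun x => ?_)
    rw [hl, Pi.smul_apply, indFun_apply', smul_eq_mul, mul_left_comm, mul_sum _ _ (θ'.1 1)]
    refine congrArg _ (sum_congr rfl fun g _ => ?_)
    by_cases hg : g * x * g⁻¹ ∈ K
    · rw [extendByZero_of_mem _ _ hg, mul_comm, ← conj_irr_one θ', ← he (⟨_, hg⟩, 1),
        ← extendByZero_coe _ η, inv_one]; rfl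
    · rw [extendByZero_of_not_mem _ _ hg, extendByZero_of_not_mem _ _ (by simpa [Dg] using hg),
        mul_zero]
  have h4 : ∀ ξ : IrrCharacter N, ∑ χ, (a χ ξ : ℂ) * χ.1 1 =
      θ.1 1 * classInner (fun c : K.comap f => ξ.1 c) θ'.1 := fun ξ => by
    rw [H6.inner_char_comm (H6.char_res ξ.2.isCharacter _) θ'.2.isCharacter,
      ← classInner_indFun_left _ _ ξ.2.isClassFunction, ← classInner_smul_left,
      ← classInner_sum_irr_left (fun ξ => ∑ χ, (a χ ξ : ℂ) * χ.1 1) ξ]
    refine congrArg (classInner · _) (funext fun y => ?_)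
    rw [Finset.sum_apply]
    simp only [Pi.smul_apply, smul_eq_mul, sum_mul,
      fun (z w : ℂ) (ξ : IrrCharacter N) => mul_right_comm z w (ξ.1 y)]
    rw [sum_comm, ← h2, hr, indFun_apply', mul_left_comm, mul_sum _ _ (θ.1 1)]
    refine congrArg _ (sum_congr rfl fun n _ => ?_)
    by_cases hn : n * y * n⁻¹ ∈ K.comap f
    · rw [extendByZero_of_mem _ _ hn, ← Complex.conj_conj (θ'.1 _), ← θ'.2.apply_inv,
        ← he (1, (⟨_, hn⟩ : K.comap f)⁻¹), ← extendByZero_coe _ η]
      simp [mul_assoc]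
    · rw [extendByZero_of_not_mem _ _ hn, extendByZero_of_not_mem _ _ (by
        simpa [Dg, mul_assoc] using hn), mul_zero]
  haveI : Nonempty (IrrCharacter G) := ⟨⟨_, isIrrCharacter_one⟩⟩
  obtain ⟨I, h5, h6, h7⟩ := perm_mat a (fun χ => charDegree χ.1 * charDegree θ'.1)
    (fun ξ => charDegree ξ.1 * charDegree θ.1) (fun χ => mul_pos (Nat.pos_of_ne_zero
      (charDegree_ne_zero _)) (Nat.pos_of_ne_zero (charDegree_ne_zero _))) (fun ξ => mul_pos
      (Nat.pos_of_ne_zero (charDegree_ne_zero _)) (Nat.pos_of_ne_zero (charDegree_ne_zero _)))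
    (Ov θ) (Ov θ')
    (fun χ hχ => Nat.cast_injective (R := ℂ) (by
      simp only [Nat.cast_sum, Nat.cast_mul, ← irr_apply_one, ← mul_assoc, ← sum_mul, h3]
      rw [mul_assoc, mul_comm, ← smul_eq_mul (classInner _ _), ← Pi.smul_apply,
        ← H6.clifford_invariant χ.2 θ.2 hinv hχ]; rfl))
    (fun χ hχ => Nat.cast_injective (R := ℂ) (by
      simp only [Nat.cast_sum, Nat.cast_mul, ← irr_apply_one, ← mul_assoc, ← sum_mul, h3,
        not_not.1 hχ, mul_zero, zero_mul, Nat.cast_zero]))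
    (fun ξ hξ => Nat.cast_injective (R := ℂ) (by
      simp only [Nat.cast_sum, Nat.cast_mul, ← irr_apply_one, ← mul_assoc, ← sum_mul, h4]
      rw [mul_assoc, mul_comm, ← smul_eq_mul (classInner _ _), ← Pi.smul_apply,
        ← H6.clifford_invariant ξ.2 θ'.2 h.inv' hξ]; rfl))
    (fun ξ hξ => Nat.cast_injective (R := ℂ) (by
      simp only [Nat.cast_sum, Nat.cast_mul, ← irr_apply_one, ← mul_assoc, ← sum_mul, h4,
        not_not.1 hξ, mul_zero, zero_mul, Nat.cast_zero]))
  refine ⟨I, ⟨h5, fun _ _ => .inl rfl, fun x y => ?_⟩, fun ξ hξ => (h6 ξ hξ).1⟩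
  have h8 : signedBijectionKernel (Ov θ') I (fun _ => 1) x y = ν (x, y⁻¹) := by
    rw [h2, sum_comm, signedBijectionKernel, finsum_mem_irr, sum_filter]
    refine sum_congr rfl fun ξ _ => ?_
    split_ifs with hξ
    · rw [sum_eq_single (I ξ) (fun χ _ e => by
        rw [not_not.1 fun e' => e (h7 χ ξ e').2]; simp) (by simp), (h6 ξ hξ).2]
      simp [mul_comm]
    · exact (sum_eq_zero fun χ _ => by rw [not_not.1 fun e' => hξ (h7 χ ξ e').1]; simp).symm
  have h9 : ∀ d, IsIntegral ℤ (extendByZero (Dg f K) η d) := fun d => by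
    rw [extendByZero_apply]
    split_ifs
    exacts [hη.isCharacter.isIntegral_apply _, isIntegral_zero]
  rw [h8]
  refine ⟨?_, ?_, or_iff_not_imp_right.2 fun e => ?_⟩
  · rw [hl]
    exact avg_mem_O h.hM h.cop (fun g => h9 (g, y⁻¹)) x
  · rw [hr]
    simpa only [mul_inv_rev, inv_inv, ← mul_assoc] using avg_mem_O h.hM h.cop' (fun n => h9 (x, n⁻¹)) y
  · rw [hl] at e
    obtain ⟨g, -, hg⟩ := exists_ne_zero_of_sum_ne_zero (right_ne_zero_of_mul e)
    have k : g * x * g⁻¹ * (f y⁻¹)⁻¹ ∈ K := by_contra fun k => hg (extendByZero_of_not_mem _ _ k)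
    rw [IsPRegular, IsPRegular, ← (MulAut.conj g).orderOf_eq x, ← orderOf_inv y,
      ← orderOf_injective f h.inj, not_iff_not]
    exact ⟨dvd_orderOf_of_mem h.hM.1 h.cop k,
      dvd_orderOf_of_mem h.hM.1 h.cop (by simpa using inv_mem k)⟩

end H7.DG
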