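/-
Above the Glauberman correspondence, part 6: blocks of `p`-solvable groups with abelian defect
groups are perfectly isometric to their Brauer correspondents.
-/
import Cfsg.Agent.H7.DG5
import Cfsg.Agent.H7.Fong
import Cfsg.Agent.H21.UCBlock

set_option autoImplicit false
set_option linter.style.haveILetI false

open Cfsg MonoidAlgebra H5 H8 H28
open scoped ComplexConjugate

namespace H7.DG
open Module Finset

universe u

variable {G N : Type*} [Group G] [Finite G] [Group N] [Finite N] {p : ℕ} {M : Ideal AlgInt}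
  {f : N →* G} {K P : Subgroup G} [hK : K.Normal] {θ : IrrCharacter K}
  {θ' : IrrCharacter (K.comap f)}

omit hK in
theorem exists_glaub (hM : IsPModular p M) (hf : Function.Injective f) (hp : ¬ p ∣ Nat.card K)
    (hP : IsPGroup p P) (hPK : P ≤ 𝐍 K) (hC : (K.comap f).map f = K ⊓ 𝐂 P)
    (hfix : eb M K {θ} ∈ H8.Fix (kk M) P) :
    ∃ θ' : IrrCharacter (K.comap f), emb f (eb M (K.comap f) {θ'}) = Br P (eb M K {θ}) := by
  haveI := Fact.mk hM.1
  haveI := charP_kk hM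
  have h1 := isPrim_eb hM (isPBlock_singleton hM hp θ)
  have h2 := isPrim_Br_of_coprime hp hP hPK h1 hfix (coeff_one_ne_zero_of_coprime hM hp h1)
  obtain ⟨a, ha⟩ := exists_emb_eq hf (Supp_mono (hC ▸ Subgroup.map_le_range _ _) h2.mem.1)
  rw [← hC, ← ha, isPrim_emb_iff hf] at h2
  obtain ⟨b, hb, e⟩ := exists_block_eb hM h2
  obtain ⟨θ', h⟩ := isPBlock_nonempty hM hb
  refine ⟨θ', ?_⟩
  rw [← block_eq_of_mem hM hb (isPBlock_singleton hM (fun e => hp (e.trans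
    (Subgroup.card_dvd_of_injective (cK f K) fun _ _ e => Subtype.ext (hf (congrArg Subtype.val e)))))
      θ') h rfl, e]
  exact ha

theorem gl_stab (hM : IsPModular p M) (hf : Function.Injective f) (hp : ¬ p ∣ Nat.card K)
    (hP : IsPGroup p P) (hfix : eb M K {θ} ∈ H8.Fix (kk M) P) {e : (kk M)[N]}
    (h : emb f e = Br P (eb M K {θ})) {n : N} (hn : f n ∈ 𝐍 P) :
    ca n e = e ↔ ca (f n) (eb M K {θ}) = eb M K {θ} := by
  haveI := Fact.mk hM.1
  haveI := charP_kk hM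
  have h1 := isPrim_eb hM (isPBlock_singleton hM hp θ)
  rw [← (emb_injective hf).eq_iff, emb_ca, h, ca_Br, cj_eq_self hn]
  refine ⟨fun e => (h1.ca_of_mem (top_le_norm K trivial) (top_le_norm K trivial)).eq_of_mul_ne_zero
    (isCommSub_ZA le_rfl) h1 fun e0 => ?_, fun e => by rw [e]⟩
  have h2 : Br P (eb M K {θ}) ≠ 0 :=
    Br_ne_zero_iff.2 ⟨1, one_mem _, coeff_one_ne_zero_of_coprime hM hp h1⟩
  have := Br_mul hP (ca_mem_Fix_of_mem_normalizer hn hfix) hfix
  rw [e0, map_zero, e, ← Br_mul hP hfix hfix, h1.idem.eq] at this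
  exact h2 this.symm

theorem coeff_eB_single (hM : IsPModular p M) (hA : ¬ p ∣ Nat.card G) (φ : IrrCharacter G) :
    ∃ r : kk M, r ≠ 0 ∧ ∀ a, (eB M {φ}).coeff a⁻¹ = r * red M (φ.1 a) := by
  haveI := charP_kk hM
  have v := (val_natCast_eq_one_iff hM _).2 hA
  refine ⟨(Nat.card G : kk M)⁻¹ * charDegree φ.1, mul_ne_zero (inv_ne_zero ?_) ?_, fun a => ?_⟩
  · exact mt (CharP.cast_eq_zero_iff _ p _).1 hA
  · exact mt (CharP.cast_eq_zero_iff _ p _).1 fun e => hA (e.trans (φ.2.dvd_card (irr_apply_one φ)))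
  · rw [coeff_eB, H21.blockCoeff_singleton, ← irr_apply_inv, inv_inv,
      red_mul (inv_mem_V_of_val_eq_one v) (mul_mem (irr_apply_mem_V _ _) (irr_apply_mem_V _ _)),
      red_mul (irr_apply_mem_V _ _) (irr_apply_mem_V _ _), red_inv v, irr_apply_one, red_natCast,
      red_natCast, mul_assoc]

theorem gs_of (hM : IsPModular p M) (hf : Function.Injective f) (hp : ¬ p ∣ Nat.card K)
    (hP : IsPGroup p P) (hab : ∀ x ∈ P, ∀ y ∈ P, x * y = y * x) (h1 : P ≤ f.range) (h2 : f.range ≤ 𝐍 P)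
    (hC : (K.comap f).map f = K ⊓ 𝐂 P) (hfix : eb M K {θ} ∈ H8.Fix (kk M) ⊤)
    (h : emb f (eb M (K.comap f) {θ'}) = Br P (eb M K {θ})) : GS p M (P.comap f) θ θ' := by
  haveI := charP_kk hM
  have hp' : ¬ p ∣ Nat.card (K.comap f) := fun e => hp (e.trans (Subgroup.card_dvd_of_injective
    (cK f K) fun _ _ e => Subtype.ext (hf (congrArg Subtype.val e))))
  have hc : ∀ c ∈ K.comap f, f c ∈ 𝐂 P := fun c hc => (hC.le ⟨c, hc, rfl⟩).2
  refine ⟨hM, hp, hf, ⟨fun u hu n => ?_⟩, hP.comap_of_injective f hf,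
    fun a ha b hb => hf (by simpa using hab _ ha _ hb), fun c h u hu => hf (by
      simpa using hc c h _ hu), fun x hx h => Subgroup.map_le_range _ _ (hC.ge ⟨hx, fun u hu => ?_⟩),
    fun n => cj_eq_of_fix hM hp hfix _, cj_eq_of_fix hM hp' fun n _ =>
      (gl_stab hM hf hp hP (Fix_anti le_top hfix) h (h2 ⟨n, rfl⟩)).2 (hfix _ trivial), ?_⟩
  · simpa using (Subgroup.mem_normalizer_iff.1 (h2 ⟨n, rfl⟩) _).1 hu
  · obtain ⟨v, rfl⟩ := h1 hu
    exact h v hu
  obtain ⟨r, r0, hr⟩ := coeff_eB_single hM hp θ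
  obtain ⟨r', r0', hr'⟩ := coeff_eB_single hM hp' θ'
  refine ⟨r⁻¹ * r', mul_ne_zero (inv_ne_zero r0) r0', fun c => ?_⟩
  rw [mul_assoc, ← hr', ← coeff_emb_subtype, ← coeff_emb hf, ← eb, h,
    coeff_Br_of_mem _ (hc _ (c⁻¹).2), eq_inv_mul_iff_mul_eq₀ r0, ← hr, ← coeff_emb_subtype]
  simp [eb]

theorem fr_bij [Fintype G] (hM : IsPModular p M) (hp : ¬ p ∣ Nat.card K) {T : Subgroup G}
    (hT : T = ⊤ ⊓ stab (eb M K {θ})) {A : Set (IrrCharacter T)} {B : Set (IrrCharacter G)}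
    (h : eb M T A * eb M K {θ} ≠ 0) (hind : IsInducedBlock M T A B) :
    ∃ J : IrrCharacter T → IrrCharacter G, Set.BijOn J A B ∧ ∀ ψ ∈ A, (J ψ).1 = indFun T ψ.1 := by
  classical
  have := Fintype.ofFinite K
  have := Fintype.ofFinite (K.subgroupOf T)
  have hb := isPBlock_singleton hM hp θ
  obtain ⟨h1, h2⟩ := fr_chars hM hb hT h hind
  have hT' : T = H6.inertia θ.1 := by
    ext g
    rw [hT, top_inf_eq, mem_stab, ca_eb_eq_self_iff' hM hb rfl]
    exact Subtype.ext_iff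
  have hKT : K ≤ T := hT' ▸ H6.le_inertia θ.2.isClassFunction
  obtain ⟨ψ, hψ, _, rfl, h3⟩ := (cover_incl_iff hM hKT hind.1 hb).2 h
  have h4 : ∀ φ ∈ A, classInner (φ.1 ∘ Subgroup.inclusion hKT) _ ≠ 0 := fun φ hφ =>
    H6.inner_res_toSub hKT _ _ ▸ over_of_sameBlock (θ := ⟨_, (H6.irr_toSub hKT).2 (Subtype.property _)⟩)
      hM (Nat.card_congr (Subgroup.subgroupOfEquivOfLe hKT).toEquiv ▸ hp)
        (sameBlock_of_mem hM hind.1 hψ hφ) (H6.inner_res_toSub hKT _ _ ▸ h3)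
  let J : IrrCharacter T → IrrCharacter G := fun ψ =>
    if h : ψ ∈ A then ⟨_, h1 ψ h⟩ else ⟨_, isIrrCharacter_one⟩
  have hJ : ∀ ψ ∈ A, (J ψ).1 = indFun T ψ.1 := fun ψ h => by simp only [J, dif_pos h]
  refine ⟨J, ⟨fun ψ h => (h2 _).2 ⟨ψ, h, hJ ψ h⟩, fun ψ h φ h' e => Subtype.ext
    (H6.clifford_corr_inj (Subtype.property _) hT' hKT ψ.2 (h4 ψ h) φ.2 (h4 φ h') ?_), fun χ hχ => ?_⟩, hJ⟩
  · rw [← hJ ψ h, e, hJ φ h']
  · obtain ⟨ψ, h, e⟩ := (h2 χ).1 hχ
    exact ⟨ψ, h, Subtype.ext (by rw [hJ ψ h, e])⟩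

theorem exists_cover_Br (hM : IsPModular p M) (hp : ¬ p ∣ Nat.card K) {B : Set (IrrCharacter G)}
    (hB : IsPBlock M B) (hP : IsDefectGroup p M B P) : ∃ θ : IrrCharacter K,
      eb M K {θ} ∈ H8.Fix (kk M) P ∧ Br P (eB M B * eb M K {θ}) ≠ 0 := by
  have := Fintype.ofFinite K
  obtain ⟨χ, hχ⟩ := isPBlock_nonempty hM hB
  obtain ⟨θ, hθ⟩ := exists_irr_below K χ
  have hb := isPBlock_singleton hM hp θ
  obtain ⟨A, hA, hind⟩ := fr_exists_of_cover hM hb rfl hB (cover_of_over hM hB hb hχ rfl hθ)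
  obtain ⟨D, hD⟩ := H8.exists_isDefectGroup hM hind.1
  obtain ⟨x, rfl⟩ := isDefectGroup_conj hM hB (fr_isDefectGroup hM hb rfl hA hind hD) hP
  have h1 := (isDefectGroup_iff_map hM hind.1).1 hD
  have e : eb M K {cjI x⁻¹ θ} = ca x (eb M K {θ}) := by
    rw [← redG_fb, ← redG_fb, ← ca_fb_singleton, redG_ca]
  refine ⟨cjI x⁻¹ θ, ?_⟩
  rw [e, ← ca_eB x B, ← map_mul, ← ca_Br, fr_mul_of_induced hM hb rfl hA hind]
  exact ⟨ca_mem_Fix x (h1.le.trans inf_le_right), fun e => h1.ne ((ca x).map_eq_zero_iff.1 e)⟩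

theorem sup_of_comm [Fact p.Prime] (hG : IsPSolvable p G) (hP : IsSylowIn p P ⊤)
    (hab : ∀ x ∈ P, ∀ y ∈ P, x * y = y * x) : 𝐍 P ⊔ pPrimeCore p G = ⊤ := by
  let S : Sylow p G := ⟨P, hP.isPGroup, fun h1 h2 => hP.max _ h1 h2 le_top⟩
  refine (H1.pLengthLE_one_iff_normalizer_sup S).1 ((H1.pLengthLE_one_iff_sylow_le S).2 fun z hz => ?_)
  have hS := hP.map (QuotientGroup.mk' (pPrimeCore p G))
  rw [Subgroup.map_top_of_surjective _ (QuotientGroup.mk'_surjective _)] at hS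
  refine H1.centralizer_pCore_le_of_isPSolvable (H1.isPSolvable_quotient hG _)
    H1.pPrimeCore_quotient_pPrimeCore (Subgroup.mem_centralizer_iff.2 fun y hy => ?_)
  obtain ⟨x, hx, rfl⟩ := hS.le_of_le_normalizer' (isPGroup_pCore p _) le_top
    (le_top.trans (top_le_norm _)) hy
  rw [← map_mul, ← map_mul, hab x hx z hz]

theorem perfect_aux [Fact p.Prime] (hM : IsPModular p M) (n : ℕ) :
    ∀ (G N : Type u) [Group G] [Finite G] [Group N] [Finite N], Nat.card G = n → IsPSolvable p G →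
      ∀ (f : N →* G) (P : Subgroup G) (B : Set (IrrCharacter G)) (c : Set (IrrCharacter N)),
        Function.Injective f → f.range = 𝐍 P → (∀ x ∈ P, ∀ y ∈ P, x * y = y * x) → IsPBlock M B →
        IsDefectGroup p M B P → IsPBlock M c → emb f (eB M c) = Br P (eB M B) →
        ∃ I, IsPerfectIsometry p M c B I fun _ => 1 := by
  induction n using Nat.strong_induction_on with
  | _ n ih =>
  intro G N _ _ _ _ hn hG f P B c hf hr hab hB hP hc he
  haveI := charP_kk hM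
  haveI := Fintype.ofFinite G
  haveI := Fintype.ofFinite N
  let K := pPrimeCore p G
  haveI := Fintype.ofFinite K
  haveI := Fintype.ofFinite (K.comap f)
  have hK : ¬ p ∣ Nat.card K := not_dvd_card_pPrimeCore hM.1
  have hK' : ¬ p ∣ Nat.card (K.comap f) := fun e => hK (e.trans (Subgroup.card_dvd_of_injective
    (cK f K) fun _ _ e => Subtype.ext (hf (congrArg Subtype.val e))))
  have hP' := (H8.isDefectGroup_iff hM hB).1 hP
  have hC : (K.comap f).map f = K ⊓ 𝐂 P := by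
    rw [Subgroup.map_comap_eq, hr, inf_comm]
    refine le_antisymm (fun x hx => ⟨hx.1, fun u hu => ?_⟩)
      (inf_le_inf_left _ (Subgroup.centralizer_le_normalizer _))
    have h1 : u⁻¹ * (x * u * x⁻¹) ∈ K ⊓ P := ⟨by
      simpa [mul_assoc] using K.mul_mem (Subgroup.Normal.conj_mem inferInstance x hx.1 u⁻¹)
        (K.inv_mem hx.1), P.mul_mem (P.inv_mem hu) ((Subgroup.mem_normalizer_iff.1 hx.2 u).1 hu)⟩
    rw [((Subgroup.disjoint_of_coprime_natCard (by
      obtain ⟨a, ha⟩ := IsPGroup.iff_card.1 hP'.isP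
      rw [ha]
      exact Nat.Coprime.pow_right _ ((Nat.Prime.coprime_iff_not_dvd hM.1).2 hK).symm)).eq_bot :
        K ⊓ P = ⊥),
      Subgroup.mem_bot, inv_mul_eq_one, eq_mul_inv_iff_mul_eq] at h1
    exact h1
  obtain ⟨θ, hfix, h0⟩ := exists_cover_Br hM hK hB hP
  obtain ⟨θ', hθ'⟩ := exists_glaub hM hf hK hP'.isP (le_top.trans (top_le_norm K)) hC hfix
  have hb := isPBlock_singleton hM hK θ
  have hcov : eB M B * eb M K {θ} ≠ 0 := fun e => h0 (by rw [e, map_zero])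
  obtain ⟨T, hT⟩ : ∃ T : Subgroup G, T = ⊤ ⊓ stab (eb M K {θ}) := ⟨_, rfl⟩
  by_cases h : T = ⊤
  · have hfix : eb M K {θ} ∈ H8.Fix (kk M) ⊤ := h ▸ hT ▸ mem_Fix_inf_stab _ _
    have h1 := eB_eq_of_stable hM (H1.isPConstrained_of_isPSolvable hG) rfl hB hcov hfix
    have h2 : eB M c = eb M (K.comap f) {θ'} := emb_injective hf (by rw [he, hθ', h1])
    obtain ⟨B', h3, h4, h5⟩ := exists_block_over_singleton hM hK (h1 ▸ isPrim_eB hM hB)
    obtain ⟨c', h6, h7, h8⟩ := exists_block_over_singleton hM hK' (h2 ▸ isPrim_eB hM hc)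
    rw [eB_inj hM hB h3 (h1.trans h4.symm), eB_inj hM hc h6 (h2.trans h7.symm),
      show B' = Ov θ from Set.ext h5, show c' = Ov θ' from Set.ext h8]
    refine ((gs_of hM hf hK hP'.isP hab (hr ▸ Subgroup.le_normalizer) hr.le hC hfix hθ').perfect
      (cj_eq_of_fix hM hK hfix) fun g => ?_).imp fun _ h => h.1
    have := (sup_of_comm hG ((isSylowIn_of_eB_eq hM hK hB h1).1 hP) hab).ge (Subgroup.mem_top g)
    rw [sup_comm, ← SetLike.mem_coe, Subgroup.normal_mul, ← hr] at this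
    obtain ⟨k, hk, _, ⟨m, rfl⟩, rfl⟩ := this
    exact ⟨m, by simpa using hk⟩
  · obtain ⟨A, hA, hind⟩ := fr_exists_of_cover hM hb hT hB hcov
    have e1 := fr_mul_of_induced hM hb hT hA hind
    have hPT : P ≤ T := hT ▸ le_inf le_top hfix
    have hT' : T.comap f = ⊤ ⊓ stab (eb M (K.comap f) {θ'}) := by
      ext m
      rw [top_inf_eq, mem_stab, gl_stab hM hf hK hP'.isP hfix hθ' (hr.le ⟨m, rfl⟩), hT, top_inf_eq]
      rfl
    have e2 : emb f (eB M c * eb M (K.comap f) {θ'}) = Br P (eb M T A) := by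
      rw [map_mul, he, hθ', ← Br_mul hP'.isP (eB_mem_Fix B P) hfix, e1]
    have hb' := isPBlock_singleton hM hK' θ'
    obtain ⟨a, ha, hind'⟩ := fr_exists_of_cover hM hb' hT' hc fun e => h0 (by
      rw [e1, ← e2, e, map_zero])
    obtain ⟨D, hD⟩ := H8.exists_isDefectGroup hM hind.1
    obtain ⟨I, hI⟩ := ih _ (hn ▸ H1.card_lt_of_ne_top h) T (T.comap f) rfl
      (H1.isPSolvable_subgroup hG T) (f.subgroupComap T) (P.subgroupOf T) A a
      (fun _ _ e => Subtype.ext (hf (congrArg Subtype.val e))) (by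
        rw [← Subgroup.subgroupOf_normalizer_eq hPT, ← hr]
        ext t
        exact ⟨fun ⟨m, e⟩ => ⟨m, congrArg Subtype.val e⟩,
          fun ⟨m, e⟩ => ⟨⟨m, show f m ∈ T from e ▸ t.2⟩, Subtype.ext e⟩⟩)
      (fun x hx y hy => Subtype.ext (hab _ hx _ hy)) hind.1 (by
        rw [isDefectGroup_iff_map hM hind.1, Subgroup.map_subgroupOf_eq_of_le hPT]
        exact ((isDefectGroup_iff_map hM hind.1).1 hD).of_card_le (eb_mem_ZA T A).2 hPT hP'.isP
          (e1 ▸ h0) (((H8.isDefectGroup_iff hM hB).1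
            (fr_isDefectGroup hM hb hT hA hind hD)).card_eq hP').le) hind'.1
      (emb_injective T.subtype_injective (by
        rw [emb_Br T.subtype_injective, Subgroup.map_subgroupOf_eq_of_le hPT, ← eb, ← e2,
          fr_mul_of_induced hM hb' hT' ha hind', eb, emb_emb, emb_emb]
        rfl))
    obtain ⟨J, h1, h2⟩ := fr_bij hM hK hT hA hind
    obtain ⟨L, h3, h4⟩ := fr_bij hM hK' hT' ha hind'
    exact isom_ind hM hI h1 h2 h3 h4

end H7.DG
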