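/-
Above the Glauberman correspondence, part 7: an extension theorem for characters of a normal
`2`-subgroup whose complement has an odd normal subgroup acting with central fixed points.
-/
import Cfsg.Agent.H7.DG6
import Cfsg.Agent.H7.Quot
import Cfsg.Agent.H20.FT

set_option autoImplicit false
set_option linter.style.haveILetI false

open Cfsg MonoidAlgebra H5 H8 H28
open scoped commutatorElement ComplexOrder

namespace H7.DG

universe u

theorem ext_aux (n : ℕ) : ∀ (G : Type u) [Group G] [Finite G], Nat.card G = n →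
    ∀ (E H K : Subgroup G) [E.Normal], IsPGroup 2 E → (∀ x ∈ E, x ∈ H → x = 1) →
      (∀ g, ∃ h ∈ H, g * h⁻¹ ∈ E) → K ≤ H → (∀ h ∈ H, ∀ k ∈ K, h * k * h⁻¹ ∈ K) →
      Odd (Nat.card K) → (∀ e ∈ E, (∀ k ∈ K, k * e = e * k) → ∀ g, g * e = e * g) →
      ∀ θ : IrrCharacter E, (∀ g, H6.cj g θ.1 = θ.1) →
        ∃ χ : IrrCharacter G, ∀ e : E, χ.1 e = θ.1 e := by
  induction n using Nat.strong_induction_on with
  | _ n ih =>
  intro G _ _ hn E H K _ hE h1 h2 hKH hKn hK hC θ hθ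
  by_cases hA : ∃ A : Subgroup G, A.Normal ∧ A ≤ H ∧ A ≠ ⊥
  · obtain ⟨A, _, hAH, hA⟩ := hA
    let π := QuotientGroup.mk' A
    have hπ : Function.Surjective π := QuotientGroup.mk'_surjective A
    have h3 : ∀ x ∈ E, π x = 1 → x = 1 := fun x hx e =>
      h1 x hx (hAH ((QuotientGroup.eq_one_iff x).1 e))
    let φ : E ≃* E.map π := MulEquiv.ofBijective (π.subgroupMap E) ⟨(injective_iff_map_eq_one _).2
      fun x e => Subtype.ext (h3 x x.2 (congrArg Subtype.val e)), π.subgroupMap_surjective E⟩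
    haveI : (E.map π).Normal := Subgroup.Normal.map inferInstance π hπ
    obtain ⟨χ, hχ⟩ := ih _ (hn ▸ H1.card_quotient_lt hA) (G ⧸ A) rfl (E.map π) (H.map π) (K.map π)
      (hE.map π) (by
        rintro _ ⟨x, hx, rfl⟩ ⟨y, hy, e⟩
        rw [h1 x hx (by simpa using mul_mem hy (hAH (QuotientGroup.eq.1 e))), map_one])
      (fun g => by
        obtain ⟨g, rfl⟩ := hπ g
        obtain ⟨h, hh, e⟩ := h2 g
        exact ⟨π h, ⟨h, hh, rfl⟩, _, e, by simp⟩) (Subgroup.map_mono hKH) (by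
        rintro _ ⟨x, hx, rfl⟩ _ ⟨y, hy, rfl⟩
        exact ⟨_, hKn x hx y hy, by simp⟩) (hK.of_dvd_nat (Subgroup.card_map_dvd K π)) (by
        rintro _ ⟨x, hx, rfl⟩ h g
        obtain ⟨g, rfl⟩ := hπ g
        rw [← map_mul, ← map_mul, hC x hx (fun k hk => ?_) g]
        have := h3 _ (mul_mem (Subgroup.Normal.conj_mem inferInstance x hx k) (inv_mem hx))
          (by rw [map_mul, map_mul, map_mul, h _ ⟨k, hk, rfl⟩]; simp)
        rwa [mul_inv_eq_one, mul_inv_eq_iff_eq_mul] at this)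
      ⟨_, H6.irr_comp_equiv θ.2 φ.symm⟩ fun g => funext fun x => by
        obtain ⟨g, rfl⟩ := hπ g
        obtain ⟨x, rfl⟩ := φ.surjective x
        exact (congrArg θ.1 (φ.symm_apply_eq.2 (Subtype.ext (by
          show _ = π (g * x * g⁻¹); rw [map_mul, map_mul, map_inv]; rfl)))).trans
          ((congrFun (hθ g) x).trans (congrArg θ.1 (φ.symm_apply_apply x).symm))
    exact ⟨⟨_, H6.irr_comp_surjective χ.2 π hπ⟩, fun e =>
      (hχ (φ e)).trans (congrArg θ.1 (φ.symm_apply_apply e))⟩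
  push Not at hA
  by_cases hK1 : K = ⊥
  · have hH := hA H ⟨fun x hx g => by
      obtain ⟨h, hh, e⟩ := h2 g
      have := hC _ e (fun k hk => by rw [hK1, Subgroup.mem_bot] at hk; simp [hk]) (h * x * h⁻¹)
      rw [show g * x * g⁻¹ = g * h⁻¹ * (h * x * h⁻¹) * (g * h⁻¹)⁻¹ by group, ← this,
        mul_inv_cancel_right]
      exact mul_mem (mul_mem hh hx) (inv_mem hh)⟩ le_rfl
    have h3 : ∀ g, g ∈ E := fun g => by
      obtain ⟨h, hh, e⟩ := h2 g
      rw [hH, Subgroup.mem_bot] at hh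
      simpa [hh] using e
    exact ⟨⟨_, H6.irr_comp_surjective θ.2 ((MonoidHom.id G).codRestrict E h3) fun x => ⟨x, rfl⟩⟩,
      fun _ => rfl⟩
  haveI : (K.subgroupOf H).Normal := ⟨fun k hk h => hKn h h.2 k hk⟩
  have e := Subgroup.subgroupOfEquivOfLe hKH
  obtain ⟨A, p, hp, hAK, hAn, hA1, hAe, -⟩ := H1.exists_minimal_normal_elementary_le (K.subgroupOf H)
    (fun e => hK1 (by simpa [inf_eq_left.2 hKH, disjoint_iff] using e))
    (H20.odd_solvable _ (Nat.card_congr e.toEquiv ▸ hK))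
  obtain ⟨P, hP⟩ : ∃ P, P = A.map H.subtype := ⟨_, rfl⟩
  have hPK : P ≤ K := hP ▸ (Subgroup.map_mono hAK).trans (Subgroup.map_subgroupOf_eq_of_le hKH).le
  have hP1 : P ≠ ⊥ := by rwa [hP, Ne, Subgroup.map_eq_bot_iff_of_injective _ H.subtype_injective]
  have hPp : IsPGroup p P := hP ▸ IsPGroup.map (fun a => ⟨1, Subtype.ext (by
    simpa using hAe.2 a a.2)⟩) _
  have hab : ∀ x ∈ P, ∀ y ∈ P, x * y = y * x := by
    rw [hP]
    rintro _ ⟨x, hx, rfl⟩ _ ⟨y, hy, rfl⟩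
    exact congrArg (fun a : A => (a.1 : G)) (hAe.1.is_comm.comm ⟨x, hx⟩ ⟨y, hy⟩)
  have hHN : H ≤ 𝐍 P := by
    rw [hP]
    exact (H.range_subtype.symm.trans (MonoidHom.range_eq_map _)).le.trans ((Subgroup.map_mono
      (Subgroup.normalizer_eq_top A).ge).trans (Subgroup.le_normalizer_map _))
  obtain ⟨M, hM⟩ := exists_isPModular hp
  haveI := Fact.mk hp
  have hpE : ¬ p ∣ Nat.card E := fun h => by
    obtain ⟨a, ha⟩ := IsPGroup.iff_card.1 hE
    rw [ha] at h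
    obtain rfl := (Nat.prime_dvd_prime_iff_eq hp Nat.prime_two).1 (hp.dvd_of_dvd_pow h)
    exact hK.not_two_dvd_nat (dvd_card_of_isPGroup_ne_bot hPp hPK hP1)
  have hc : (E.comap (𝐍 P).subtype).map (𝐍 P).subtype = E ⊓ 𝐂 P := by
    rw [Subgroup.map_comap_eq, Subgroup.range_subtype, inf_comm]
    refine le_antisymm (fun x hx => ⟨hx.1, fun u hu => ?_⟩)
      (inf_le_inf_left _ (Subgroup.centralizer_le_normalizer _))
    have := h1 (u⁻¹ * (x * u * x⁻¹)) (by
      simpa [mul_assoc] using E.mul_mem (Subgroup.Normal.conj_mem inferInstance x hx.1 u⁻¹)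
        (E.inv_mem hx.1)) (hKH (hPK (P.mul_mem (P.inv_mem hu)
          ((Subgroup.mem_normalizer_iff.1 hx.2 u).1 hu))))
    rwa [inv_mul_eq_one, eq_mul_inv_iff_mul_eq] at this
  have hfix : eb M E {θ} ∈ H8.Fix (kk M) ⊤ := eb_singleton_mem_Fix fun g => Subtype.ext (hθ g)
  obtain ⟨θ', hθ'⟩ := exists_glaub hM (𝐍 P).subtype_injective hpE hPp
    (le_top.trans (top_le_norm E)) hc (Fix_anti le_top hfix)
  have hs := gs_of hM (𝐍 P).subtype_injective hpE hPp hab
    (Subgroup.le_normalizer.trans (Subgroup.range_subtype _).ge) (Subgroup.range_subtype _).le hc hfix hθ'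
  obtain ⟨ξ, hξ⟩ := ih _ (hn ▸ H1.card_lt_of_ne_top fun e => hP1 (hA P
      (Subgroup.normalizer_eq_top_iff.1 e) (hPK.trans hKH))) (𝐍 P) rfl (E.comap (𝐍 P).subtype)
    (H.comap (𝐍 P).subtype) (K.comap (𝐍 P).subtype) (hE.comap_subtype)
    (fun x hx h => Subtype.ext (h1 x hx h))
    (fun g => (h2 g).elim fun h e => ⟨⟨h, hHN e.1⟩, e.1, e.2⟩) (Subgroup.comap_mono hKH)
    (fun h hh k hk => hKn h hh k hk)
    (Nat.card_congr (Subgroup.subgroupOfEquivOfLe (hKH.trans hHN)).toEquiv ▸ hK)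
    (fun e he h g => Subtype.ext (hC e he (fun k hk =>
      congrArg Subtype.val (h ⟨k, hHN (hKH hk)⟩ hk)) g)) θ' hs.inv'
  haveI := Fintype.ofFinite G
  haveI := Fintype.ofFinite (𝐍 P)
  haveI := Fintype.ofFinite E
  haveI := Fintype.ofFinite (E.comap (𝐍 P).subtype)
  obtain ⟨I, hI, hd⟩ := hs.perfect hθ fun g => (h2 g).elim fun h e => ⟨⟨h, hHN e.1⟩, e.2⟩
  have h4 : ξ ∈ Ov θ' := by
    rw [Ov, Set.mem_ofPred_eq, funext hξ, θ'.2.classInner_self]
    exact one_ne_zero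
  have h5 := hd ξ h4
  rw [show charDegree ξ.1 = charDegree θ'.1 from by rw [charDegree, charDegree, ← hξ 1]; rfl,
    mul_comm, Nat.mul_right_inj (charDegree_ne_zero θ')] at h5
  refine ⟨I ξ, congrFun (H6.eq_of_constituent_of_degree_le
    ((I ξ).2.isCharacter.comp E.subtype) θ.2 (hI.1.mapsTo h4) ?_)⟩
  rw [OneMemClass.coe_one, irr_apply_one, irr_apply_one, h5]

theorem ext_extraspecial {G : Type*} [Group G] [Finite G] (E H : Subgroup G) [E.Normal]
    (hE : IsExtraspecial 2 E) (hEH : E ⊓ H = ⊥) (hEHtop : E ⊔ H = ⊤) (K : Subgroup G) (hKH : K ≤ H)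
    (hKn : ∀ h ∈ H, ∀ k ∈ K, h * k * h⁻¹ ∈ K) (hKodd : Odd (Nat.card K)) (hEK : ⁅E, K⁆ = E)
    (θ : IrrCharacter E) (hθ : ∀ e : E, θ.1 e = θ.1 1 → e = 1) :
    ∃ χ : IrrCharacter G, ∀ e : E, χ.1 e = θ.1 e := by
  have hc : ∀ g (z : E), z ∈ Subgroup.center E → (⟨g * z * g⁻¹,
      Subgroup.Normal.conj_mem inferInstance _ z.2 g⟩ : E) ∈ Subgroup.center E := fun g z hz =>
    Subgroup.mem_center_iff.2 fun y => Subtype.ext (by
      have := congrArg Subtype.val (Subgroup.mem_center_iff.1 hz ⟨g⁻¹ * y * g,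
        Subgroup.Normal.conj_mem' inferInstance _ y.2 g⟩)
      simp only [Subgroup.coe_mul] at this ⊢
      rw [show y * (g * z * g⁻¹) = g * (g⁻¹ * y * g * z) * g⁻¹ by group, this]; group)
  have hZ : ∀ z : E, z ∈ Subgroup.center E → ∀ g : G, g * z = z * g := fun z hz g => by
    obtain ⟨w, -, hw⟩ := (Nat.card_eq_two_iff' (1 : Subgroup.center E)).1 hE.2
    by_cases h : z = 1
    · simp [h]
    have h1 := (hw ⟨_, hc g z hz⟩ fun e => h (Subtype.ext (conj_eq_one_iff.1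
      (congrArg (fun a : Subgroup.center E => (a.1 : G)) e)))).trans
        (hw ⟨z, hz⟩ fun e => h (congrArg Subtype.val e)).symm
    exact mul_inv_eq_iff_eq_mul.1 (congrArg (fun a : Subgroup.center E => (a.1 : G)) h1)
  have h2 : ∀ x y : E, ⁅x, y⁆ ∈ Subgroup.center E := fun x y =>
    hE.1.2.2 ▸ Subgroup.commutator_mem_commutator (Subgroup.mem_top x) (Subgroup.mem_top y)
  have h3 : ∀ e : E, e ∉ Subgroup.center E → θ.1 e = 0 := fun e he => by
    obtain ⟨x, hx⟩ := not_forall.1 (mt Subgroup.mem_center_iff.2 he)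
    have h4 := θ.2.apply_mul_of_mem_charCenter (θ.2.center_le_charCenter (h2 x e)) e
    rw [commutatorElement_def, inv_mul_cancel_right, θ.2.isClassFunction] at h4
    by_contra h5
    exact hx (commutatorElement_eq_one_iff_mul_comm.1 (hθ _ ((div_eq_one_iff_eq
      (by simp [irr_apply_one, charDegree_ne_zero])).1 ((mul_eq_right₀ h5).1 h4.symm))))
  refine ext_aux _ G rfl E H K hE.1.1 (fun x h1 h2 => Subgroup.mem_bot.1 (hEH ▸ ⟨h1, h2⟩))
    (fun g => ?_) hKH hKn hKodd (fun e he h => hZ ⟨e, he⟩ (Subgroup.mem_center_iff.2 fun y =>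
      Subtype.ext ?_)) θ fun g => funext fun e => ?_
  · have := hEHtop.ge (Subgroup.mem_top g)
    rw [← SetLike.mem_coe, Subgroup.normal_mul] at this
    obtain ⟨k, hk, m, hm, rfl⟩ := this
    exact ⟨m, hm, by simpa using hk⟩
  · refine Subgroup.mem_centralizer_singleton_iff.1 ((hEK.ge.trans (Subgroup.commutator_le.2
      fun x hx k hk => Subgroup.mem_centralizer_singleton_iff.2 ?_)) y.2)
    have h4 : ∀ g, g * ⁅e, x⁆ = ⁅e, x⁆ * g := hZ _ (h2 ⟨e, he⟩ ⟨x, hx⟩)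
    have h6 : e * (k * x * k⁻¹) * e⁻¹ = ⁅e, x⁆ * (k * x * k⁻¹) := by
      rw [← mul_assoc, ← mul_assoc, ← h k hk, ← mul_assoc, ← mul_assoc, ← h4, mul_assoc _ k⁻¹,
        ← mul_inv_rev, ← h k hk]; group
    refine (mul_inv_eq_iff_eq_mul.1 ?_).symm
    calc e * ⁅x, k⁆ * e⁻¹ = ⁅e, x⁆ * x * (e * (k * x * k⁻¹) * e⁻¹)⁻¹ := by group
      _ = ⁅e, x⁆ * ⁅x, k⁆ * ⁅e, x⁆⁻¹ := by rw [h6]; group
      _ = _ := by rw [← h4, mul_inv_cancel_right]
  · by_cases he : e ∈ Subgroup.center E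
    · exact congrArg θ.1 (Subtype.ext (mul_inv_eq_iff_eq_mul.2 (hZ e he g)))
    · rw [H6.cj_apply, h3 e he, h3 _ fun h => he (by simpa [mul_assoc] using hc g⁻¹ _ h)]

end H7.DG
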