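import Cfsg.Agent.H8.FR

/-! Gagola's theorem on fully ramified characters, part 1: reductions. -/

set_option autoImplicit false
open Cfsg Subgroup

namespace H7.GG
open H20 H19 H6 H8
open scoped ComplexConjugate Classical commutatorElement

universe u
variable {Γ : Type u} [Group Γ] [Finite Γ] {T Z K P S I : Subgroup Γ} {θ χ φ ψ l : Γ → ℂ}
  {e p : ℕ}

theorem fr_of_res (hn : Z ⊴ T) (hχ : χ ∈ Irr T) (hθ : θ ∈ Irr Z) (he : e ^ 2 = Z.relIndex T)
    (hr : Res Z χ = (e : ℂ) • θ) : FR T Z θ e := by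
  have hq' : (Z.relIndex T : ℂ) ≠ 0 := relIndexC_ne Z T
  have he' : (Z.relIndex T : ℂ) = e ^ 2 := by rw [← he]; simp
  have hrel : ∀ φ, (Z.relIndex T : ℂ) * dot T θ φ = dot Z θ φ := fun φ =>
    relIndex_mul_dot_of_supp hn.le fun _ _ hx => Or.inl (irr_zero hθ hx)
  have he0 : (e : ℂ) ≠ 0 := fun h0 => hq' (by rw [he', h0]; simp)
  have e0 : dot Z θ χ = e := by
    rw [← dot_Res_right, hr, dot_smul_right, irr_dot_self hθ]; simp
  have e1 : dot T θ χ = 1 / e := by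
    have := hrel χ
    rw [e0, he'] at this
    field_simp
    exact mul_left_cancel₀ he0 (by linear_combination this)
  have e2 : dot T θ θ = 1 / e ^ 2 := by
    have := hrel θ
    rw [irr_dot_self hθ, he'] at this
    field_simp
    linear_combination this
  have e3 : dot T χ θ = 1 / e := by rw [← conj_dot, e1]; simp
  have : χ - (e : ℂ) • θ = 0 := by
    refine eq_zero_of_nrm (L := T) (fun x hx => ?_) (le_of_eq ?_)
    · rw [Pi.sub_apply, Pi.smul_apply, irr_zero hχ hx, irr_zero hθ fun h' => hx (hn.le h')]; simp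
    · refine nrm_eq_of_dot ?_
      simp only [dot_sub_left, dot_sub_right, dot_smul_left, dot_smul_right, e1, e2, e3,
        irr_dot_self hχ, Complex.conj_natCast]
      field_simp; push_cast; ring
  have h := sub_eq_zero.1 this
  exact ⟨hn, hθ, h ▸ hχ⟩

theorem fr_inertia (h : FR T Z θ e) (hK : K ⊴ T) (hZ : Z ≤ K) (hφ : φ ∈ ovr K Z θ) :
    ∃ a, FR (inertia T φ) K φ a := by
  obtain ⟨a, f, h1, h2, -⟩ := h.struct hK hZ hφ
  have hφi := (mem_ovr.1 hφ).1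
  obtain ⟨ψ, h3, h4, h5⟩ := corr_surj hK hφi h.irr' (h.dot_ne hZ hφ)
  have hn : K ⊴ inertia T φ := hK.of_le (le_inertia (irr_cinv hφi) hK.le) (inertia_le T φ)
  refine ⟨a, fr_of_res hn h3 hφi h2 ?_⟩
  rw [clifford_inv hn h3 hφi (cinv_inertia T φ) h4, ← corr_dot hK hφi h3 h4, ← h5, h1]

theorem fr_cov {D Γ' : Type u} [Group D] [Group Γ'] [Finite D] [Finite Γ'] {f : D →* Γ}
    {g : D →* Γ'} {Z' : Subgroup Γ'} {l : Γ' → ℂ} {τ : D → ℂ} (h : FR T Z θ e)
    (c : Cov f g T Z θ Z' l τ) (hf : f.range = T) : FR ⊤ Z' l e := by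
  have hu : up f g T = ⊤ := hf ▸ up_range c.surj
  obtain ⟨β, h1, h2⟩ := (c.corr h.nrm.le le_rfl).ex _ (h.ovr_top ▸ Finset.mem_singleton_self _)
  have h3 := c.hm_of_ovr h.nrm.le h1
  have h4 := c.rel_one h2
  rw [Pi.smul_apply, smul_eq_mul] at h4
  have h5 : β 1 = e := (mul_right_cancel₀ (irr_one_ne h.irr) h4).symm
  rw [hu] at h1
  refine fr_of_res c.Z_normal (mem_ovr.1 h1).1 c.lin.irr ?_ ?_
  · rw [h.sq, ← hu, c.relIndex_Z h.nrm.le hf.ge]
  · rw [h3.Res_eq c.lin, h5]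

/-- central type -/
theorem fr_ct (h : FR T Z l e) (hc : T ≤ C(Z)) (hl : Lin Z l) {x : Γ} (hx : x ∈ T) (hxZ : x ∉ Z) :
    ∃ y ∈ T, x * y * x⁻¹ * y⁻¹ ∈ Z ∧ x * y ≠ y * x := by
  by_contra hn
  push Not at hn
  refine hxZ (h.not_good hx ((good_iff_central hc h.nrm.le hl hx).2 fun y hy hz => ?_))
  rw [hn y hy hz]; simp [hl.one]

/-- the hypothesis on Sylow subgroups -/
def Hyp (T Z : Subgroup Γ) : Prop := ∀ p : ℕ, p.Prime → p ^ 6 ∣ Z.relIndex T →
  ∀ P, Z ≤ P → P ≤ T → PiN {p} (Z.relIndex P) → ⁅P, P⁆ ≤ Z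

theorem Hyp.cov {D Γ' : Type u} [Group D] [Group Γ'] [Finite D] [Finite Γ'] {f : D →* Γ}
    {g : D →* Γ'} {Z' : Subgroup Γ'} {l : Γ' → ℂ} {τ : D → ℂ} (h : Hyp T Z)
    (c : Cov f g T Z θ Z' l τ) (hf : f.range = T) : Hyp ⊤ Z' := by
  have hu : up f g T = ⊤ := hf ▸ up_range c.surj
  intro p hp hd P h1 _ h3
  have h4 := c.le_dn h1
  have h5 : up g f P ≤ f.range := Cov.dn_le P
  rw [← hu, c.relIndex_Z c.le hf.ge] at hd
  rw [← c.up_dn h1, c.relIndex_Z h4 h5] at h3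
  have := h p hp hd _ h4 (hf ▸ h5) h3
  rw [← c.comm_up_le h5 h5 le_rfl, c.up_dn h1, c.up_N] at this
  exact this

theorem Hyp.sub (h : Hyp T Z) (hZ : Z ⊴ T) (hZK : Z ≤ K) (hK : K ⊴ I) (hI : I ≤ T) :
    Hyp I K := by
  intro p hp hd P h1 h2 h3
  obtain ⟨Q, hQ⟩ := exists_syl p P
  have hQT : Q ≤ T := hQ.le.trans (h2.trans hI)
  have h4 : K ⊔ Q = P := hQ.sup_eq h1 h3
  have hd' : p ^ 6 ∣ Z.relIndex T := hd.trans ((relIndex_dvd_left hZK I).trans
    (relIndex_dvd_right (hZK.trans hK.le) hI))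
  have h5 := h p hp hd' (Z ⊔ Q) le_sup_left (sup_le hZ.le hQT)
    (by rw [relIndex_sup_of_norm (hZ.norms hQT)]; exact hQ.pi.relIndex Z)
  rw [← h4]
  refine (der_sup_le (hK.norms (hQ.le.trans h2))).trans (sup_le le_rfl ?_)
  exact ((der_mono le_sup_right).trans h5).trans hZK

theorem relIndex_cent1_le {A : Set Γ} {x : Γ} (h : ∀ g ∈ P, g * x * g⁻¹ ∈ A) :
    (C[x]).relIndex P ≤ A.ncard := by
  letI : MulAction P Γ := MulAction.compHom Γ ((MulAut.conj).comp P.subtype)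
  have h1 : MulAction.stabilizer P x = (C[x]).subgroupOf P := by
    ext g
    rw [MulAction.mem_stabilizer_iff, mem_subgroupOf, mem_cent1]
    exact mul_inv_eq_iff_eq_mul
  rw [relIndex, ← h1, MulAction.index_stabilizer]
  refine Set.ncard_le_ncard ?_ (Set.toFinite _)
  rintro _ ⟨g, rfl⟩
  exact h g g.2

/-- transitivity of `C` on the characters over `l` -/
theorem trans_of_cent {C : Subgroup Γ} (hc : ⊤ ≤ C(Z)) (hl : Lin Z l) (hf : cker l = ⊥)
    (hZ : Z ≤ K) (hC : ⁅C, K⁆ ≤ Z) (hU : K ⊓ C(C) ≤ Z) (hφ : φ ∈ ovr K Z l) (hψ : ψ ∈ ovr K Z l) :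
    ∃ c ∈ C, cfj c φ = ψ := by
  obtain ⟨h1, h2⟩ := (mem_ovr_iff_hm hZ (le_top.trans hc) hl).1 hφ
  obtain ⟨h3, h4⟩ := (mem_ovr_iff_hm hZ (le_top.trans hc) hl).1 hψ
  have hn : C ≤ N(K) := norms_of_commg_le' (hC.trans hZ)
  set F : Γ → ℂ := ∑ c ∈ fin (C : Set Γ), cfj c φ with hF
  have hF0 : ∀ x ∈ K, x ∉ Z → F x = 0 := by
    intro x hx hxZ
    obtain ⟨c, hc1, hc2⟩ : ∃ c ∈ C, c * x ≠ x * c := by
      by_contra hn
      push Not at hn
      exact hxZ (hU ⟨hx, mem_cent.2 hn⟩)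
    have hz : x⁻¹ * c * x * c⁻¹ ∈ Z := by
      have := hC (commutator_mem_commutator hc1 (inv_mem hx))
      have := inv_mem this
      simpa [commutatorElement_def, mul_assoc] using this
    have hz1 : l (x⁻¹ * c * x * c⁻¹) ≠ 1 := fun e => hc2 (by
      have := (hl.mem_cker hz).2 e
      rw [hf, mem_bot] at this
      calc c * x = x * (x⁻¹ * c * x * c⁻¹) * c := by group
        _ = x * c := by rw [this, mul_one])
    have e1 : F x = l (x⁻¹ * c * x * c⁻¹) * F x := by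
      simp only [hF, Finset.sum_apply, cfj_apply, Finset.mul_sum]
      rw [← sum_sub_mul_right hc1]
      refine sum_fin_congr fun d _ => ?_
      rw [← h2 _ hz]
      congr 1
      have := mem_cent.1 (hc (mem_top d⁻¹)) _ hz
      calc d * c * x * (d * c)⁻¹ = d * x * ((x⁻¹ * c * x * c⁻¹) * d⁻¹) := by group
        _ = _ := by rw [this]; group
    by_contra h0
    exact hz1 (mul_right_cancel₀ h0 (e1.symm.trans (one_mul _).symm))
  have hFm : Hm Z l F := fun z hz x => by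
    simp only [hF, Finset.sum_apply, Finset.mul_sum]
    exact sum_fin_congr fun d _ => (h2.cfj (hc (mem_top d))) z hz x
  have hF1 : F 1 = #C * φ 1 := by
    simp only [hF, Finset.sum_apply, cfj_apply_one]
    rw [sum_sub_const]; simp
  have h5 : dot K F ψ ≠ 0 := by
    intro h0
    have := relIndex_mul_dot_of_supp (φ := F) (ψ := ψ) hZ fun x hx hx' => Or.inl (hF0 x hx hx')
    rw [h0, mul_zero, ← dot_Res_left, ← dot_Res_right, hFm.Res_eq hl, h4.Res_eq hl, dot_smul_left,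
      dot_smul_right, irr_dot_self hl.irr, hF1, chr_conj_one (irr_chr h3)] at this
    simp [irr_one_ne h1, irr_one_ne h3, card_ne_zero] at this
  rw [hF, dot_sum_left] at h5
  obtain ⟨c, hc1, hc2⟩ := Finset.exists_ne_zero_of_sum_ne_zero h5
  have hc3 : c ∈ C := mem_fin.1 hc1
  exact ⟨c, hc3, irr_eq_of_dot (irr_cfj h1 (hn hc3)) h3 hc2⟩

end H7.GG
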