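import Cfsg.Agent.H7.GG1

/-! Gagola's theorem, part 2: abelian chief factors. -/

set_option autoImplicit false
open Cfsg Subgroup

namespace H7.GG
open H20 H19 H6 H8
open scoped ComplexConjugate Classical commutatorElement

universe u
variable {Γ : Type u} [Group Γ] [Finite Γ] {T Z K P S I M : Subgroup Γ} {θ χ φ ψ l : Γ → ℂ}
  {e p c : ℕ}

theorem dvd_relIndex_syl (hp : p.Prime) (hP : Syl p P M) (hI : I ≤ M)
    (hi : p ^ c ∣ I.relIndex M) : p ^ c ∣ I.relIndex P := by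
  have h1 := relIndex_mul_relIndex (I ⊓ P) P M inf_le_right hP.le
  have h2 := relIndex_mul_relIndex (I ⊓ P) I M inf_le_left hI
  rw [inf_relIndex_right] at h1
  exact (PiN.prime_pow hp c).dvd_of_dvd_mul hP.idx (h1 ▸ h2 ▸ hi.mul_left _)

theorem small (hp : p.Prime) (hP : Syl p P M) (hK : K ⊴ M) (hc : #K = p ^ c) (c1 : 1 ≤ c)
    (c2 : c ≤ 2) (hI : I ≤ M) (hi : I.relIndex M = p ^ c) (hC : P ⊓ C(K) ≤ I) : False := by
  have hKp : PG p K := PiN.of_card_pow hp hc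
  have hK1 : K ≠ ⊥ := ne_bot_iff_one_lt_card.2 (hc ▸ Nat.one_lt_pow (by omega) hp.one_lt)
  have hV := hKp.meet_cent hP.pi (hK.norms hP.le) hK1
  obtain ⟨k, hk, hk1, hk2⟩ : ∃ k ∈ K, k ≠ 1 ∧ (K ⊓ C(P)) ⊔ zpowers k = K := by
    by_cases h : K ≤ C(P)
    · obtain ⟨k, hk, hk1⟩ := exists_ne_one hK1
      exact ⟨k, hk, hk1, by rw [inf_eq_left.2 h, sup_eq_left.2 (zpowers_le.2 hk)]⟩
    · obtain ⟨k, hk, hk'⟩ := SetLike.not_le_iff_exists.1 h
      have h1 := card_mul_relIndex (inf_le_left : K ⊓ C(P) ≤ K)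
      obtain ⟨a, ha⟩ := (hKp.infl C(P)).exists_card
      obtain ⟨b, hb⟩ := (hKp.relIndex (K ⊓ C(P))).exists_pow (relIndex_ne_zero' _ _)
      have a0 : a ≠ 0 := fun e => hV (card_eq_one.1 (by rw [ha, e, pow_zero]))
      have b0 : b ≠ 0 := fun e => h (le_trans (relIndex_eq_one.1 (by rw [hb, e, pow_zero]))
        inf_le_right)
      rw [ha, hb, hc, ← pow_add] at h1
      have h2 := Nat.pow_right_injective hp.two_le h1
      have h3 : b = 1 := by omega
      rw [h3, pow_one] at hb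
      refine ⟨k, hk, fun e => hk' (e ▸ one_mem _), ?_⟩
      refine (eq_of_prime_index le_sup_left (sup_le inf_le_left (zpowers_le.2 hk))
        (hb ▸ hp)).resolve_left fun e => hk' ?_
      exact (e.le (mem_sup_right (mem_zpowers k))).2
  have h1 : C[k] ⊓ P ≤ I := by
    refine le_trans (le_inf inf_le_right ?_) hC
    rw [← hk2]
    exact cents_sup (inf_le_right.trans (cents_symm inf_le_right))
      (by rw [cent_zpowers]; exact inf_le_left)
  have h2 := (dvd_relIndex_syl hp hP hI hi.symm.dvd).trans (relIndex_dvd_left h1 P)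
  rw [inf_relIndex_right] at h2
  have h3 := relIndex_cent1_le (P := P) (A := nt K) (x := k) fun g hg =>
    conj_mem_nt (hK.norm (hP.le hg)) ⟨hk, hk1⟩
  have h4 := Nat.le_of_dvd (relIndex_pos _ _) h2
  rw [ncard_nt, hc] at h3
  have := pow_pos hp.pos c
  omega

theorem stepA (hc : ⊤ ≤ C(Z)) (hl : Lin Z l) (hf : cker l = ⊥) (h : FR ⊤ Z l e) (hy : Hyp ⊤ Z)
    (hK : K ⊴ ⊤) (hZK : Z < K) (hmin : ∀ U, U ⊴ ⊤ → Z ≤ U → U ≤ K → U = Z ∨ U = K)
    (hab : ⁅K, K⁆ ≤ Z) (hp : p.Prime) (hpK : PiN {p} (Z.relIndex K))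
    (ih : ∀ I φ a, I ≤ ⊤ → FR I K φ a → Sol (quo K I)) : Sol (⊤ : Subgroup Γ) := by
  have hN : ∀ A : Subgroup Γ, A ≤ N(Z) := fun A => le_top.trans h.nrm.norm
  obtain ⟨φ, hφ⟩ := exists_ovr hZK.le h.irr
  have hφi := (mem_ovr.1 hφ).1
  have hZa : Ab Z := comm_iff_le_cent.2 (le_top.trans hc)
  have hKs : Sol K := sol_of_quo (hN K) (sol_mono (sol_of_ab hZa) inf_le_left)
    (sol_of_ab ((ab_quo_iff (hN K)).2 hab))
  obtain ⟨a, ha⟩ := fr_inertia h hK hZK.le hφ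
  set I := inertia ⊤ φ with hI
  have hIs : Sol I := sol_of_quo ha.nrm.norm (sol_mono hKs inf_le_left) (ih I φ a le_top ha)
  set C := qpre Z (quo Z ⊤ ⊓ C(quo Z K)) with hC
  have hCn : C ⊴ ⊤ := qpre_normal h.nrm (hK.quo Z).inf_cent
  have hCi : ∀ A : Subgroup Γ, A ≤ C ↔ ⁅A, K⁆ ≤ Z := fun A => by
    rw [hC, ← quo_le_iff (hN A), le_inf_iff, quo_cents_iff (hN A) (hN K)]
    exact and_iff_right (quo_mono Z le_top)
  have hCK := (hCi C).1 le_rfl
  have hKI : C(K) ≤ I := fun g hg => ⟨mem_top g, CF_ext (cfj_mem_CF (irr_cf hφi)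
    (cent_le_norm K hg)) (irr_cf hφi) fun x hx => by
      rw [cfj_apply, ← mem_cent.1 hg x hx, mul_inv_cancel_right]⟩
  rcases hmin (K ⊓ C(C)) (hK.inf ⟨le_top, norms_cent hCn.norm⟩)
    (le_inf hZK.le (cents_symm (le_top.trans hc))) inf_le_left with hU | hU
  · have h1 : ⁅C, C⁆ ≤ C(K) := by
      have e1 : ⁅⁅C, K⁆, C⁆ = ⊥ := commg_eq_bot.2 (hCK.trans (cents_symm (le_top.trans hc)))
      exact commg_eq_bot.1 (three_subgroup e1 (by rwa [commutator_comm K]))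
    have h2 : Sol C := sol_of_quo (commg_norml C C) (sol_mono hIs (inf_le_left.trans (h1.trans hKI)))
      (sol_of_ab ((ab_quo_iff (commg_norml C C)).2 le_rfl))
    refine sol_mono (sol_sup h2 hIs (hCn.norms le_top)) fun g _ => ?_
    obtain ⟨c, hc1, hc2⟩ := trans_of_cent hc hl hf hZK.le hCK hU.le hφ
      (h.ovr_eq hK hZK.le hφ ▸ cfj_mem_orb (mem_top g) φ)
    have : g * c⁻¹ ∈ I := ⟨mem_top _, by rw [cfj_mul, ← hc2, ← cfj_mul]; simp⟩
    simpa using mul_mem (mem_sup_right this) (mem_sup_left hc1 : c ∈ C ⊔ I)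
  · exfalso
    have h1 : C ≤ C(K) := cents_symm (hU.ge.trans inf_le_right)
    have hKa : Ab K := comm_iff_le_cent.2 (((hCi K).2 hab).trans h1)
    obtain ⟨a, f, -, h2, h3, h4⟩ := h.struct hK hZK.le hφ
    rw [(irr_lin_of_ab hφi hKa).deg, hl.deg, mul_one] at h3
    rw [← h3, one_pow, one_mul, ← hI] at h4
    obtain ⟨c, hc'⟩ := hpK.exists_pow (relIndex_ne_zero' _ _)
    have c1 : 1 ≤ c := Nat.one_le_iff_ne_zero.2 fun e =>
      hZK.not_ge (relIndex_eq_one.1 (by rw [hc', e, pow_zero]))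
    obtain ⟨P, hP⟩ := exists_syl p (⊤ : Subgroup Γ)
    have hZI : Z ≤ I := hZK.le.trans ha.nrm.le
    by_cases c2 : c ≤ 2
    · refine small hp (hP.quo (hN ⊤)) (hK.quo Z) (by rw [card_quo (hN K), hc']) c1 c2
        (quo_mono Z le_top) (by rw [relIndex_quo hZI le_top (hN ⊤), h4, hc']) ?_
      rw [← quo_qpre (quo Z P ⊓ _)]
      exact quo_mono Z ((qpre_mono (inf_le_inf (quo_mono Z le_top) le_rfl)).trans (h1.trans hKI))
    · have h5 : p ^ 6 ∣ Z.relIndex ⊤ := by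
        rw [← relIndex_mul_relIndex Z K ⊤ hZK.le le_top,
          ← relIndex_mul_relIndex K I ⊤ ha.nrm.le le_top, h4, hc']
        have : p ^ 3 ∣ p ^ c := pow_dvd_pow p (by omega)
        exact (by ring : p ^ 6 = p ^ 3 * p ^ 3) ▸ mul_dvd_mul this (this.mul_left _)
      have h6 := hy p hp h5 (Z ⊔ P) le_sup_left le_top
        (by rw [relIndex_sup_of_norm (hN P)]; exact hP.pi.relIndex Z)
      have h7 : K ≤ Z ⊔ P := by
        rw [← quo_le_quo_iff (hN K) (hN P)]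
        exact (hP.quo (hN ⊤)).le_of_norm' (quo_mono Z le_top) ((piG_quo_iff (hN K)).2 hpK)
          ((hK.quo Z).norms (quo_mono Z le_top))
      have h8 : P ≤ I := ((hCi P).2 ((commutator_mono le_sup_right h7).trans h6)).trans
        (h1.trans hKI)
      exact hP.not_dvd_relIndex hp h8 (h4 ▸ hc' ▸ dvd_pow_self p (by omega))

end H7.GG
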