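import Cfsg.Agent.H7.SZ1

/-! `He` facts: the computed statements and their consequences. -/

set_option autoImplicit false

namespace H7.HZ
open Cfsg Subgroup H19 H28.CY H28.SF H7.NS H7.OT
open H16 hiding PG
open H0.TR (PC)
open scoped commutatorElement
set_option linter.unusedSectionVars false

def Lcm : List (ℕ × ℕ) := [(1, 0), (12, 0), (13, 0), (14, 0), (17, 0), (18, 0), (19, 0), (22, 0), (23, 0), (24, 0), (25, 0), (26, 0), (27, 0),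
  (29, 0), (30, 0), (37, 0), (38, 0), (46, 0), (63, 0), (64, 0), (73, 0), (74, 0), (0, 1), (10, 1), (63, 1), (64, 1), (65, 1), (66, 1),
  (67, 1), (70, 1), (71, 1), (13, 12), (14, 12), (15, 12), (16, 12), (17, 13), (17, 14), (18, 17), (18, 13), (18, 14), (19, 17), (19, 13),
  (19, 14), (20, 0), (20, 13), (20, 18), (21, 0), (21, 14), (21, 19), (2, 27), (37, 2), (38, 2), (39, 2), (40, 2), (39, 27), (40, 27),
  (36, 2), (34, 2), (83, 11), (60, 10), (61, 10)]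
def Lcj : List (ℕ × ℕ × ℕ) := [(70, 0, 72), (73, 1, 75), (15, 0, 13), (16, 0, 14), (28, 2, 0), (29, 2, 27), (30, 27, 27), (22, 13, 18),
  (23, 14, 19), (10, 2, 11), (10, 27, 82), (32, 27, 31), (33, 2, 27), (33, 27, 31), (32, 0, 35), (33, 0, 36), (43, 2, 0), (43, 27, 42),
  (44, 11, 41), (44, 82, 42), (45, 11, 41), (45, 82, 47), (46, 41, 47), (55, 0, 41), (55, 41, 52), (56, 0, 52), (56, 41, 0), (57, 0, 0),
  (57, 41, 54), (58, 0, 54), (58, 41, 53), (41, 52, 53)]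
def Lc2 : List (ℕ × ℕ × ℕ × ℕ) := [(69, 1, 1, 0), (71, 0, 0, 72), (74, 1, 1, 75), (15, 13, 0, 13), (16, 14, 0, 14), (28, 0, 2, 0),
  (29, 27, 2, 27), (30, 2, 2, 0), (46, 47, 41, 47), (32, 2, 2, 27), (34, 0, 27, 31)]
def Lsq : List ℕ := [0, 1, 2, 10, 11, 13, 14, 18, 19, 67, 76, 77]
def Lid : List (List ℕ × List ℕ) := [([68, 68], [0]), ([14, 13, 14], [13, 0]), ([17, 12], [12, 12, 17]), ([12, 12, 12], []),
  ([3, 26, 3], [1, 26]), ([0, 41, 0, 41], [42]), ([46, 46, 46], []), ([59, 61, 60], [60, 61]), ([62, 59, 10], [10, 62]),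
  ([18, 12, 18, 12, 18, 12], []), ([19, 12, 19, 12, 19, 12], []), ([41, 52, 41], [53])]
def Lne : List (List ℕ × List ℕ) := [([0], []), ([1], []), ([12], []), ([2], []), ([11], []), ([27], []), ([27], [0]), ([6, 1], [1, 6]),
  ([0, 35], [36])]

variable {G : Type*} [Group G]

noncomputable abbrev mm (f : ℕ → G) : ℕ → G := sb f [24, 25]
noncomputable abbrev cc (f : ℕ → G) : ℕ → G := sb f [65, 66, 67]
noncomputable abbrev uf (f : ℕ → G) : ℕ → G := sb f [1, 0, 76, 77, 78, 79, 80, 81]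

structure Pr (f : ℕ → G) (I : Subgroup G) : Prop where
  A : Am I
  cG : Nat.card G = 8060774400
  pc : PC f 11 2
  inn : ∀ k < 84, k ≠ 10 → f k ∈ I
  φI : f 10 ∉ I
  cm : ∀ p ∈ Lcm, f p.1 * f p.2 = f p.2 * f p.1
  cjs : ∀ p ∈ Lcj, f p.1 * f p.2.1 = f p.2.2 * f p.1
  c2 : ∀ p ∈ Lc2, f p.1 * f p.2.1 = f p.2.2.1 * f p.2.2.2 * f p.1
  sq : ∀ k ∈ Lsq, f k * f k = 1
  id : ∀ p ∈ Lid, wv f p.1 = wv f p.2
  ne : ∀ p ∈ Lne, wv f p.1 ≠ wv f p.2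
  cov : ∀ x, x * x = 1 → x = 1 ∨ ∃ k ∈ [0, 1, 10], IsConj x (f k)
  gM : I ⊓ C[f 0] ≤ gen (mm f) 2
  cM : #(I ⊓ C[f 0]) = 2 ^ 10 * 21
  gl : I ⊓ C[f 1] ≤ gen (cc f) 3
  cl : #(I ⊓ C[f 1]) = 2 ^ 9 * 315
  cU : #(I ⊓ C[f 1] ⊓ C[f 0]) = 2 ^ 9
  UT : I ⊓ C[f 1] ⊓ C[f 0] ≤ gen f 10
  cφ : #(I ⊓ C[f 10]) = 2 ^ 4 * 945
  zl : ∀ β, β * f 63 = f 63 * β → β * f 64 = f 64 * β → V4 (f 1) (f 0) β
  da : ∀ β, β * f 37 = f 37 * β → β * f 38 = f 38 * β → V4 (f 2) (f 0) β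
  db : ∀ β, β * f 39 = f 39 * β → β * f 40 = f 40 * β → ∃ γ, V4 (f 2) (f 27) γ ∧ (β = γ ∨ β = γ * f 0)
  de : ∀ β, β * f 0 = f 0 * β → β * f 41 = f 41 * β → β ∈ I ∧ (β = 1 ∨ f 46 * β * (f 46 * f 46) * f 41 ≠ f 41 * (f 46 * β * (f 46 * f 46)) ∨
    β * (f 46 * β * (f 46 * f 46)) ≠ f 46 * f 46 * β * f 46)
  cQ : ∀ β ∈ C(gen f 7), β = 1 ∨ β = f 0
  ci : ∀ β ∈ I, β * f 0 = f 0 * β → β * f 12 = f 12 * β → ∃ π ∈ zpowers (f 12), ∃ d, β = d * π ∧ (d = 1 ∨ d = f 0 ∨ d = f 13 ∨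
    d = f 0 * f 13 ∨ d = f 14 ∨ d = f 0 * f 14 ∨ d = f 13 * f 14 ∨ d = f 0 * f 13 * f 14)
  cv : ∀ β, (∀ k ∈ [0, 13, 12], β * f k = f k * β) → ∃ π ∈ zpowers (f 12), β = π ∨ β = f 0 * π ∨ β = f 13 * π ∨ β = f 0 * f 13 * π
  cq : ∀ β ∈ I, (∀ k ∈ [17, 13, 14], β * f k = f k * β) → ∀ p ∈ [(18, 20), (19, 21)],
    β = 1 ∨ f p.1 * β = 1 ∨ (f p.1 * β * f 12) ^ 3 ≠ 1 ∨ f p.1 * β * f p.2 ≠ f p.2 * (f p.1 * β)
  nE : ∀ L ∈ [[0, 13, 18, 20], [0, 14, 19, 21]], gen (mm f) 2 ≤ N(gen (sb f L) 4)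
  Kp : ∀ i < 2, ∃ u ∈ gen (mm f) 2, ∃ v ∈ gen (mm f) 2, mm f i * (v * u) = u * v
  Lp : ∀ i < 2, ∃ u ∈ gen (cc f) 2, ∃ v ∈ gen (cc f) 2, cc f i * (v * u) = u * v
  yL : f 68 ∈ gen (cc f) 2
  uL : gen (uf f) 8 ≤ gen (cc f) 2
  uc : ∀ i < 4, ∀ j < 8, uf f i * uf f j = uf f j * uf f i
  Uc : ∀ x ∈ I ⊓ C[f 1] ⊓ C[f 0], ∃ W ∈ gen (uf f) 8, ∃ u ∈ gen (uf f) 4, W * W ≠ f 1 * f 0 ∧ (x = W * u ∨ x = f 67 * W * u)
  sL : f 67 ∉ gen (cc f) 2
  nL : f 67 ∈ N(gen (cc f) 2)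
  nQ : gen (mm f) 2 ≤ N(gen f 7)
  Qc : ∀ x ∈ gen f 7, ∃ W, ∃ ζ ∈ zpowers (f 0), x = W * ζ ∧ (W = 1 ∨ ∃ u ∈ gen (mm f) 2, ∃ k ∈ [1, 2, 11, 3], u * W = f k * u)
  dl : ∀ i < 6, ∃ d ∈ gen f 7, d * f (i + 1) = f (i + 1) * f 0 * d ∧ ∀ j < 7, j ≠ i + 1 → d * f j = f j * d
  mQ : ∀ k ∈ [13, 14], f k ∈ gen f 7
  gQ : gen f 7 ≤ gen (sb f [13, 14, 18, 19, 12]) 5
  G1 : ∀ k ∈ [65, 34, 83], I ≤ gen (sb f [24, 25, k]) 3
  Gφ : I ≤ gen (sb f [60, 61, 62]) 3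
  GS : I ≤ gen (sb f [0, 53, 54]) 3

noncomputable def dt (f : ℕ → G) (I : Subgroup G) : Dt G :=
  ⟨I, gen f 10, I ⊓ C[f 0], zpowers (f 12), zpowers (f 0), f 0, f 13, f 14, f 10, 2, 512, 16, 3⟩

local macro "evs" t:term : term => `(by simpa only [wv_cons, wv_nil, mul_one, mul_assoc] using $t)
local macro "lst" : tactic => `(tactic| simp only [List.mem_cons, List.not_mem_nil, or_false, forall_eq_or_imp, forall_eq])

namespace Pr
variable {f : ℕ → G} {I : Subgroup G} (L : Pr f I) {β : G}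
include L

theorem i (k : ℕ) (h : k < 84 ∧ k ≠ 10 := by decide) : f k ∈ I := L.inn k h.1 h.2
theorem c (a b : ℕ) (h : (a, b) ∈ Lcm := by decide) : f a * f b = f b * f a := L.cm _ h
theorem m (a b : ℕ) (h : (a, b) ∈ Lcm ∧ a < 84 ∧ a ≠ 10 := by decide) : f a ∈ I ⊓ C[f b] :=
  ⟨L.i a h.2, mem_cent1.2 (L.c a b h.1)⟩
theorem j (r a b : ℕ) (h : (r, a, b) ∈ Lcj := by decide) : f r * f a * (f r)⁻¹ = f b := cjo (L.cjs _ h)
theorem k (r a b c : ℕ) (h : (r, a, b, c) ∈ Lc2 := by decide) : f r * f a * (f r)⁻¹ = f b * f c := cjo (L.c2 _ h)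
theorem s (k : ℕ) (h : k ∈ Lsq := by decide) : f k * f k = 1 := L.sq k h
theorem e (U V : List ℕ) (h : (U, V) ∈ Lid := by decide) : wv f U = wv f V := L.id _ h
theorem n (U V : List ℕ) (h : (U, V) ∈ Lne := by decide) : wv f U ≠ wv f V := L.ne _ h
theorem z1 : f 0 ≠ 1 := evs L.n [0] []
theorem d8 : f 14 * f 13 * f 14 = f 13 * f 0 := evs L.e [14, 13, 14] [13, 0]
theorem tz (k : ℕ) (h : k < 11) : f k * f 0 = f 0 * f k := by
  rcases Nat.eq_zero_or_pos k with rfl | h0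
  · rfl
  · exact commutatorElement_eq_one_iff_mul_comm.1 (mem_bot.1 (gen_zero f ▸ L.pc.comm 0 (by decide) k h h0))
theorem TM : gen f 10 ≤ I ⊓ C[f 0] := gen_le.2 fun k hk => ⟨L.i k (by omega), mem_cent1.2 (L.tz k (by omega))⟩
theorem QM : gen f 7 ≤ I ⊓ C[f 0] := (gen_mono f (by decide)).trans L.TM
theorem zM : f 0 ∈ I ⊓ C[f 0] := L.TM (mem_gen f (by decide))
theorem mM : gen (mm f) 2 ≤ I ⊓ C[f 0] := sb_le (L := [24, 25]) (by lst; exact ⟨L.m 24 0, L.m 25 0⟩)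
theorem Mp : I ⊓ C[f 0] ≤ ⁅I ⊓ C[f 0], I ⊓ C[f 0]⁆ := L.gM.trans (perf_of L.Kp L.mM)
theorem cI : #I = 2 ^ 10 * 3935925 := by
  have := I.card_mul_index
  rw [L.A.idx, L.cG] at this; omega
theorem nc : f 13 * f 14 ≠ f 14 * f 13 := fun e => L.z1 (by
  have := L.d8
  rwa [← e, mul_assoc, L.s 14, mul_one, left_eq_mul] at this)
theorem cP (k : ℕ) (h : (k, 12) ∈ Lcm := by decide) : f k ∈ C(zpowers (f 12)) := cent_zp (L.c k 12 h)
omit L in
theorem zI : NS.Zc I (f 0) (f 0) := ⟨1, one_mem _, by group⟩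

variable [Finite G]

theorem cP3 : #(zpowers (f 12)) = 3 ^ 1 := by
  rw [Nat.card_zpowers, pow_one, orderOf_eq_prime (p := 3) (by
    simpa only [wv_cons, wv_nil, pow_succ', pow_zero] using L.e [12, 12, 12] []) (evs L.n [12] [])]
theorem Po : PiG {2}ᶜ (zpowers (f 12)) := odd_pi (by rw [L.cP3]; decide)
theorem sylT : Syl 2 (gen f 10) I :=
  syl_of_card Nat.prime_two (L.TM.trans inf_le_left) (pc_card L.pc (by decide)) L.cI (by decide)
theorem cf : ∀ k ∈ [0, 1, 10], f 10 * f k = f k * f 10 := by lst; exact ⟨L.tz 10 (by decide), L.c 10 1, trivial⟩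
theorem cls (ββ : β * β = 1) : β = 1 ∨ ∃ k ∈ [0, 1, 10], ∃ g ∈ I, g * f k * g⁻¹ = β := (L.cov β ββ).imp_right fun ⟨k, hk, h⟩ =>
  let ⟨γ, e⟩ := isConj_iff.1 h.symm
  ⟨k, hk, e ▸ fixI L.A.idx L.φI γ (L.cf k hk)⟩
theorem inner (h : β ∈ I) (ββ : β * β = 1) : β = 1 ∨ NS.Zc I (f 0) β ∨ NS.Zc I (f 1) β := (L.cls ββ).imp_right fun ⟨k, hk, e⟩ => by
  revert k; lst
  exact ⟨.inl, .inr, fun ⟨_, _, e⟩ => absurd (unconj L.A.nor (e ▸ h)) L.φI⟩
theorem outer (h : β ∉ I) (ββ : β * β = 1) : ∃ g, g * f 10 * g⁻¹ = β := by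
  obtain rfl | ⟨k, hk, g, hg, e⟩ := L.cls ββ
  · exact absurd (one_mem _) h
  · revert k; lst
    exact ⟨fun e => absurd (e ▸ jmem hg (L.i 0)) h, fun e => absurd (e ▸ jmem hg (L.i 1)) h, fun e => ⟨g, e⟩⟩
theorem Eo (h : β ∉ I) (ββ : β * β = 1) : EE I β = 2 ^ 4 := by
  have := L.A.nor
  obtain ⟨g, rfl⟩ := L.outer h ββ
  rw [EE_cj]; exact e2_card L.cφ (by decide)
theorem UT' (k : ℕ) (h : (k, 1) ∈ Lcm ∧ k < 84 ∧ k ≠ 10 := by decide) (h' : (k, 0) ∈ Lcm := by decide) :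
    f k ∈ gen f 10 ⊓ C[f 1] := mi (L.UT (mi (L.m k 1 h) (mem_cent1.2 (L.c k 0 h')))) (L.m k 1 h).2
theorem zl' (h : β ∈ C(gen f 10 ⊓ C[f 1])) : V4 (f 1) (f 0) β :=
  L.zl β (mem_cent.1 h _ (L.UT' 63)).symm (mem_cent.1 h _ (L.UT' 64)).symm
theorem cT (h : β ∈ C(gen f 10)) : β = 1 ∨ β = f 0 := by
  have n : f 6 * f 1 ≠ f 1 * f 6 := evs L.n [6, 1] [1, 6]
  have c := mem_cent.1 h _ (mem_gen f (show 6 < 10 by decide))
  rcases L.zl' (centralizer_le inf_le_left h) with e | rfl | e | rfl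
  exacts [.inl e, absurd c n, .inr e, absurd (mul_right_cancel (b := f 0) (by rw [mul_assoc, c]; wd [swp (L.tz 6 (by decide))])) n]
theorem U2 : PG 2 (I ⊓ C[f 1] ⊓ C[f 0]) := .of_card_pow Nat.prime_two L.cU

theorem lf : (dt f I).LF (f 1) := by
  have z : f 0 ∈ I ⊓ C[f 1] := L.m 0 1
  have tr : f 0 * (f 70 * f 0 * (f 70)⁻¹) = f 71 * f 0 * (f 71)⁻¹ := by rw [L.j 70 0 72, L.k 71 0 0 72]
  have l2 : gen (cc f) 2 ≤ I ⊓ C[f 1] := gen_le.2 fun k hk => by interval_cases k; exacts [L.m 65 1, L.m 66 1]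
  refine ⟨mem_gen f (show 1 < 10 by decide), L.s 1, evs L.n [1] [], fun ⟨g, hg, e⟩ => ?_, fun _ => L.inner,
    (syl_of_card Nat.prime_two inf_le_left L.cU L.cl (by decide)).of_card_le (inf_le_inf_right _ L.sylT.le) (L.sylT.pi.infl _)
      (card_le (le_inf L.UT (inf_le_left.trans inf_le_right))), fun _ => L.zl',
    fun J h n o => odd_bot4 h n o z (L.s 0) L.U2 (L.m 70 1) (L.m 71 1) tr, ⟨_, L.m 70 1, _, L.m 71 1, tr⟩,
    perf_of L.Lp l2 (L.uL (mem_gen (uf f) (show 0 < 8 by decide))), ⟨_, L.i 69, L.k 69 1 1 0⟩,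
    ⟨_, l2, perf_of L.Lp le_rfl, _, L.yL, (evs L.e [68, 68] [0] : _ = f 0)⟩, fun H h p => ?_⟩
  · have := L.cl
    rw [← (e : g * f 0 * g⁻¹ = f 1), ← cj_cent1, ← cj_of_mem (show g ∈ I from hg), ← cj_inf, card_cj] at this
    exact absurd (this.symm.trans L.cM) (by decide)
  have hK := perf_down (t := cc f) p L.nL (h.trans L.gl)
  refine ⟨fun y hy (e : y * y = f 1 * f 0) => ?_, fun d => ?_⟩
  · obtain ⟨W, hW, u, hu, n, e1⟩ := L.Uc y (mi (h hy) (mem_cent1.2 (mul_left_cancel (a := f 1) (by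
      rw [← mul_assoc, ← mem_cent1.1 (h hy).2, mul_assoc, ← e, ← mul_assoc (f 1), ← e, mul_assoc]))))
    have u4 := gen_mono (uf f) (show 4 ≤ 8 by decide) hu
    rcases e1 with rfl | rfl
    · refine n ?_
      have c := mem_cent.1 (gen_le.2 (fun i hi => mem_cent_gen (L.uc i hi)) hu) W hW
      have uu := gen_el (fun i hi j hj => L.uc i hi j (by omega)) (fun i hi => by
        interval_cases i; exacts [L.s 1, L.s 0, L.s 76, L.s 77]) hu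
      rw [← e]; wd [← swp c, sqc uu]
    · exact L.sL ((mul_mem_cancel_right (L.uL hW)).1 ((mul_mem_cancel_right (L.uL u4)).1 (hK hy)))
  · have e : I ⊓ C[f 1] = gen (cc f) 2 ⊔ zpowers (f 67) := le_antisymm (L.gl.trans (gen_le.2 fun k hk => by
      interval_cases k
      exacts [mem_sup_left (mem_gen _ (by decide)), mem_sup_left (mem_gen _ (by decide)), mem_sup_right (mem_zpowers _)]))
      (sup_le l2 (zpowers_le.2 (L.m 67 1)))
    have c := L.cl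
    rw [e, card_sup_of_disjoint (zpowers_le.2 L.nL) (eq_bot_iff.2 fun x hx => (zp2 (L.s 67) hx.2).resolve_right fun e => L.sL (e ▸ hx.1)),
      Nat.card_zpowers, orderOf_eq_prime (p := 2) (by rw [pow_two, L.s 67]) fun e : f 67 = 1 => L.sL (e ▸ one_mem _)] at c
    have := (L.cM ▸ d : 2 ^ 10 * 21 ∣ #H * 2).trans (Nat.mul_dvd_mul_right (card_dvd hK) 2)
    rw [c] at this
    exact absurd this (by decide)

theorem fa : (dt f I).FA where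
  nor := L.A.nor
  sim := L.A.sim
  cI := L.A.cI
  aut := L.A.aut
  out _ h _ k := (mul_mem_iff_of_index_two L.A.idx).2 (iff_of_false h k)
  syl := L.sylT
  zT := mem_gen f (show 0 < 10 by decide)
  zz := L.s 0
  z1 := L.z1
  zc := L.TM.trans inf_le_right
  cT _ := L.cT
  KM := le_rfl
  Kp := L.Mp
  zK := L.zM
  kz _ h _ := h
  ck β h := (L.cT (centralizer_le L.TM h)).elim (fun e => e ▸ one_mem _) fun e => e ▸ L.zM
  om J h n o := odd_bot4 h n o (L.m 1 0) (L.s 1) (by rw [inf_right_comm]; exact L.U2) (L.m 73 0) (L.m 74 0)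
    (by rw [L.j 73 1 75, L.k 74 1 1 75])
  d0 := two_pos
  d4 := (by decide : 2 ≤ 4)
  nj J h z n := by
    rcases nj_Q (L.s 0) L.dl inf_le_right L.QM (L.gM.trans L.nQ) L.cQ h n with e | ⟨x, hx, x1⟩
    · exact .inl ((card_dvd e).trans (by rw [Nat.card_zpowers]; exact orderOf_dvd_of_pow_eq_one (by rw [← L.s 0]; exact pow_two _)))
    · obtain ⟨W, ζ, hζ, rfl, rfl | ⟨u, hu, k, hk, e⟩⟩ := L.Qc x hx.2
      · exact absurd (by rwa [one_mul]) x1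
      have w : f k ∈ J := cjo e ▸ conj_mem_of_norm (n (L.mM hu)) ((mul_mem_cancel_right (zpowers_le.2 z hζ)).1 hx.1)
      refine .inr fun H hH => ?_
      have g (a r : ℕ) (hr : r ∈ [65, 34, 83]) (ha : f a ∈ J) (s : f a * f a = 1) (a1 : f a ≠ 1) (m : f r ∈ I ⊓ C[f a]) : I ≤ H :=
        (L.G1 r hr).trans (sb_le (L := [24, 25, r]) (by
          lst; exact ⟨hH _ z (L.s 0) L.z1 (L.m 24 0), hH _ z (L.s 0) L.z1 (L.m 25 0), hH _ ha s a1 m⟩))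
      have g1 (h : f 1 ∈ J) := g 1 65 (by decide) h (L.s 1) (evs L.n [1] []) (L.m 65 1)
      clear e
      revert k; lst
      refine ⟨g1, fun h => g 2 34 (by decide) h (L.s 2) (evs L.n [2] []) (L.m 34 2),
        fun h => g 11 83 (by decide) h (L.s 11) (evs L.n [11] []) (L.m 83 11), fun c => g1 ?_⟩
      have := mul_mem c (conj_mem_of_norm (n (L.m 26 0)) c)
      rwa [← mul_assoc, ← mul_assoc, show f 3 * f 26 * f 3 = f 1 * f 26 from evs L.e [3, 26, 3] [1, 26], mul_inv_cancel_right] at this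
  smo β h ββ := by
    show EE I β * 2 < e2 (I ⊓ C[f 0])
    rw [e2_card L.cM (by decide), L.Eo h ββ]; decide
  gen β h ββ := by
    have := L.A.nor
    obtain ⟨g, rfl⟩ := L.outer h ββ
    refine Gen.J (fun H h1 h2 => L.Gφ.trans (sb_le (L := [60, 61, 62]) ?_)) g
    lst
    refine ⟨h1 (L.m 60 10), h1 (L.m 61 10), h2 _ (L.i 62) (mem_comm (L.m 60 10) (L.m 61 10) ?_)⟩
    rw [mul_assoc _ (f 10), ← (show f 62 * (f 59 * f 10) = f 10 * f 62 from evs L.e [62, 59, 10] [10, 62]),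
      ← (show f 59 * (f 61 * f 60) = f 60 * f 61 from evs L.e [59, 61, 60] [60, 61])]
    group
  cls := .inr ⟨_, L.lf⟩

theorem rig : Rig (I ⊓ C[f 0]) (insert (f 13) (insert (f 14) (zpowers (f 12)))) := by
  intro σ n m hK hn hF
  have s1 := hF _ (.inl rfl)
  have s2 := hF _ (.inr (.inl rfl))
  have sP (x : G) (h : x ∈ zpowers (f 12)) := hF x (.inr (.inr h))
  have s3 := sP _ (mem_zpowers _)
  have sz : σ (f 0) = f 0 := by
    have := congrArg σ L.d8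
    rwa [m _ (mul_mem (L.m 14 0) (L.m 13 0)) _ (L.m 14 0), m _ (L.m 14 0) _ (L.m 13 0), m _ (L.m 13 0) _ L.zM, s1, s2, L.d8,
      mul_right_inj, eq_comm] at this
  have fc {a b : ℕ} (ha : f a ∈ I ⊓ C[f 0]) (hb : f b ∈ I ⊓ C[f 0]) (c : f a * f b = f b * f a) (e) := fixc m hK ha hb c inf_le_right e
  have sq := rig_q m hn (zpowers_le.2 (L.m 12 0)) sP L.zM inf_le_right (L.s 0) sz L.Po (L.m 17 0) (mem_norm_of fun x hx => by
    obtain ⟨i, rfl⟩ := hx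
    rw [← conj_zpow, cjo (show f 17 * f 12 = f 12 * f 12 * f 17 from evs L.e [17, 12] [12, 12, 17])]
    exact zpow_mem (mul_mem (mem_zpowers _) (mem_zpowers _)) i) fun h => by
      obtain ⟨π, hπ, e⟩ := L.cv ((f 17)⁻¹ * σ (f 17)) (by
        lst
        exact ⟨mem_cent1.1 (mul_mem (inv_mem (L.m 17 0)) (hK _ (L.m 17 0))).2, fc (L.m 17 0) (L.m 13 0) (L.c 17 13) (.inl s1),
          (mem_cent.1 h _ (mem_zpowers _)).symm⟩)
      have w := fc (L.m 17 0) (L.m 14 0) (L.c 17 14) (.inl s2)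
      have c := mem_cent.1 (L.cP 14) π hπ
      rcases e with e | e | e | e
      exacts [⟨π, hπ, .inl e⟩, ⟨π, hπ, .inr e⟩, (L.nc (mul_right_cancel (b := π) (by rw [mul_assoc, ← c, ← mul_assoc, ← e, w, e, mul_assoc]))).elim,
        (L.nc (mul_left_cancel (a := f 0) (mul_right_cancel (b := π) (by
          rw [← mul_assoc, mul_assoc _ (f 14), ← c, ← mul_assoc, ← e, w, e]; wd [swp (L.c 14 0)])))).elim]
  have sx (x d b c : ℕ) (hp : (x, d) ∈ [(18, 20), (19, 21)]) (hL : [0, b, x, d] ∈ [[0, 13, 18, 20], [0, 14, 19, 21]])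
      (hx : f x ∈ I ⊓ C[f 0]) (hb : f b ∈ I ⊓ C[f 0]) (hc : f c ∈ I ⊓ C[f 0]) (sb' : σ (f b) = f b) (b1 : f b ≠ 1)
      (e : f c * f b * (f c)⁻¹ = f x) (c1 : f x * f 17 = f 17 * f x) (c2 : f x * f 13 = f 13 * f x) (c3 : f x * f 14 = f 14 * f x)
      (dc : ∀ k ∈ [0, b, x, d], f d * f k = f k * f d) (r : wv f [x, 12, x, 12, x, 12] = wv f []) : σ (f x) = f x := by
    have e' : σ (f x) = σ (f c) * f b * (σ (f c))⁻¹ := by rw [← e, m.cnj hc hb, sb']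
    have := L.cq _ (mul_mem (inv_mem hx) (hK _ hx)).1 (by
      lst; exact ⟨fc hx (L.m 17 0) c1 sq, fc hx (L.m 13 0) c2 (.inl s1), fc hx (L.m 14 0) c3 (.inl s2)⟩) _ hp
    rw [mul_inv_cancel_left] at this
    rcases this with h | h | h | h
    · exact (inv_mul_eq_one.1 h).symm
    · exact absurd (conj_eq_one_iff.1 (e' ▸ h)) b1
    · refine absurd ?_ h
      rw [← s3, ← m _ hx _ (L.m 12 0), ← m.pow (mul_mem hx (L.m 12 0)), show (f x * f 12) ^ 3 = 1 by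
        simpa only [wv_cons, wv_nil, pow_succ', pow_zero, mul_one, mul_assoc] using r, m.one]
    · exact absurd (mem_cent.1 (cent_sb dc) _ (e' ▸ conj_mem_of_norm (L.nE _ hL (L.gM (hK _ hc)))
        (mem_gen (sb f [0, b, x, d]) (show 1 < 4 by decide)))) h
  have b1 : f 13 ≠ 1 := fun e => L.nc (by rw [e, one_mul, mul_one])
  have b2 : f 14 ≠ 1 := fun e => L.nc (by rw [e, one_mul, mul_one])
  exact rig_end m L.zM inf_le_right L.Mp L.QM (L.gM.trans L.nQ) L.cQ (L := [13, 14, 18, 19, 12]) L.gQ (by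
    lst
    exact ⟨⟨L.m 13 0, s1⟩, ⟨L.m 14 0, s2⟩, ⟨L.m 18 0, sx 18 20 13 22 (by decide) (by decide) (L.m 18 0) (L.m 13 0) (L.m 22 0) s1 b1
      (L.j 22 13 18) (L.c 18 17) (L.c 18 13) (L.c 18 14) (by lst; exact ⟨L.c 20 0, L.c 20 13, L.c 20 18, trivial⟩) (L.e _ _)⟩,
      ⟨L.m 19 0, sx 19 21 14 23 (by decide) (by decide) (L.m 19 0) (L.m 14 0) (L.m 23 0) s2 b2 (L.j 23 14 19) (L.c 19 17) (L.c 19 13)
      (L.c 19 14) (by lst; exact ⟨L.c 21 0, L.c 21 14, L.c 21 19, trivial⟩) (L.e _ _)⟩, L.m 12 0, s3⟩)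

theorem dB {B : G → G → Prop} : Dv I (f 0) B true (f 2) (f 27) := by
  have za : NS.Zc I (f 0) (f 2) := ⟨_, inv_mem (L.i 28), by rw [← L.j 28 2 0]; group⟩
  have az := L.tz 2 (by decide)
  have r := L.m 29 0
  have wb : WL I (f 0) (f 2) (f 27) (f 0) := ⟨za, L.c 2 27, ⟨_, r.1, L.j 29 2 27, L.k 29 27 2 27, cjo (L.c 29 0)⟩,
    mi (mi (L.i 0) (mem_cent1.2 az.symm)) (mem_cent1.2 (L.c 27 0).symm), L.s 0, fun β h =>
      L.db β (mem_cent.1 h _ (mi (L.m 39 2) (L.m 39 27).2)).symm (mem_cent.1 h _ (mi (L.m 40 2) (L.m 40 27).2)).symm⟩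
  have eh : f 29 * f 29 * f 2 * (f 29 * f 29)⁻¹ = f 2 * f 27 := by rw [← L.k 29 27 2 27, ← L.j 29 2 27]; group
  have b1 : f 27 ≠ 1 := evs L.n [27] []
  have bz : f 27 ≠ f 0 := evs L.n [27] [0]
  have dA : Dv I (f 0) B true (f 2) (f 0) := by
    refine .bk (f 27) _ _ _ (wl_of za az (L.i 28) (L.j 28 2 0) (L.k 28 0 2 0) (mi (L.m 37 2) (L.m 37 0).2) (mi (L.m 38 2) (L.m 38 0).2) L.da)
      r (mul_mem r r) (mi (L.m 30 0) (mem_cent1.2 (L.cjs (30, 27, 27) (by decide)))) (L.j 29 2 27) eh (L.k 30 2 2 0) fun β h k => ?_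
    have e : f 30 * β * (f 30)⁻¹ = β ∨ f 30 * β * (f 30)⁻¹ = β * f 0 := by
      have a : f 30 * f 2 = f 2 * f 0 * f 30 := L.c2 (30, 2, 2, 0) (by decide)
      have b : f 30 * f 27 = f 27 * f 30 := L.cjs (30, 27, 27) (by decide)
      have k' (γ : G) (h : V4 (f 2) (f 27) γ) : f 30 * γ = γ * f 30 ∨ f 30 * γ = γ * f 0 * f 30 := by
        rcases h with rfl | rfl | rfl | rfl
        exacts [.inl (by group), .inr a, .inl b, .inr (by rw [← mul_assoc, a]; wd [swp b, swp (L.c 27 0)])]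
      obtain ⟨γ, h1, e | e⟩ := wb.zp β h <;> rw [e]
      · exact (k' _ h1).imp cjo cjo
      · exact (k' _ h1).imp (fun e => cjo (by rw [← mul_assoc, e]; wd [swp (L.c 30 0)])) fun e => cjo (by
          rw [← mul_assoc, e]; wd [swp (L.c 30 0)])
    rw [k, mul_assoc, mul_eq_left, mul_right_inj, mul_eq_right] at e
    exact e.elim (fun e => bz (by rw [eq_inv_of_mul_eq_one_left e, ivs (L.s 0)])) b1
  have d := dA.rel.symm
  exact .wq (f 0) (f 0) (f 31) (f 32) (f 33) wb (mi (mi (mem_cent1.2 az.symm) (mem_cent1.2 (L.c 27 0).symm)) (mem_cent1_self _)) d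
    (d.conj _ r.1 (cjo (L.c 29 0)) (L.j 29 2 27)) (d.conj _ (mul_mem r.1 r.1) (cjo (mem_cent1.1 (mul_mem r r).2)) eh) (L.i 32) (L.i 33)
    (L.k 32 2 2 27) (L.j 32 27 31) (L.j 33 2 27) (L.j 33 27 31) (dA.conj _ (L.i 34) (cjo (L.c 34 2)) (L.k 34 0 27 31))
    (L.j 33 0 36 ▸ (L.m 36 2).2) (by rw [L.j 32 0 35, L.j 33 0 36]; exact evs L.n [0, 35] [36])

theorem n3 (L' : Pr (fun k => f 10 * f k * (f 10)⁻¹) I) {B : G → G → Prop} : Dv I (f 0) B false (f 0) (f 41) := by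
  have d := L.dB (B := B)
  have d' := L'.dB (B := B)
  rw [cjo (L.tz 10 (by decide)), L.j 10 2 11, L.j 10 27 82] at d'
  have r : (f 46)⁻¹ = f 46 * f 46 := inv_eq_of_mul_eq_one_right (evs L.e [46, 46, 46] [])
  refine .n3 (f 42) (f 46) (f 46 * f 46) (evs L.e [0, 41, 0, 41] [42]) (d.conj _ (L.i 43) (L.j 43 2 0) (L.j 43 27 42))
    (d'.conj _ (L.i 44) (L.j 44 11 41) (L.j 44 82 42)) (L.m 46 0) (mul_mem (L.m 46 0) (L.m 46 0))
    (by rw [L.j 46 41 47, ← L.k 46 47 41 47, ← L.j 46 41 47]; group)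
    (L.j 46 41 47 ▸ d'.conj _ (L.i 45) (L.j 45 11 41) (L.j 45 82 47)) fun β h => ?_
  obtain ⟨h1, h2⟩ := L.de β (mem_cent1.1 h.1.2) (mem_cent1.1 h.2)
  rw [← r, inv_inv, r]
  exact ⟨h1, fun _ e1 e2 => h2.resolve_right fun e => e.elim (fun e => e (mem_cent1.1 e1)) fun e => e e2⟩

theorem fc (L' : Pr (fun k => f 10 * f k * (f 10)⁻¹) I) : (dt f I).FC where
  pp := Nat.prime_three
  p2 := (by decide : 3 ≠ 2)
  syl := syl_of_card (p := 3) (m := 7168) Nat.prime_three (zpowers_le.2 (L.m 12 0)) L.cP3 (L.cM.trans (by norm_num)) (by decide)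
  ab := zpowers_le.2 (cent_zp rfl)
  z' := mi (L.m 13 0) (L.cP 13)
  w := mi (L.m 14 0) (L.cP 14)
  zz' := L.s 13
  ww := L.s 14
  d8 := L.d8
  ci x h xx := by
    obtain ⟨π, hπ, d, rfl, hd⟩ := L.ci x h.1.1 (mem_cent1.1 h.1.2) (mem_cent.1 h.2 _ (mem_zpowers _)).symm
    obtain ⟨h1, h2⟩ := d8_list (L.s 0) L.z1 (L.s 13) (L.s 14) (L.c 13 0) (L.c 14 0) L.d8 hd
    obtain rfl := odd_part L.Po hπ h.2 xx h1
    rw [mul_one] at xx ⊢
    exact h2 xx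
  inn := .inl ⟨L.m 13 0, L.m 14 0⟩
  MK := le_sup_left
  cv β h := L.cv β (by lst; exact ⟨mem_cent1.1 h.1.1, mem_cent1.1 h.1.2, (mem_cent.1 h.2 _ (mem_zpowers _)).symm⟩)
  r1 := ⟨_, mi (L.i 15) (L.cP 15), L.j 15 0 13, L.k 15 13 0 13⟩
  r2 := ⟨_, mi (L.i 16) (L.cP 16), L.j 16 0 14, L.k 16 14 0 14⟩
  rig := L.rig
  clq := by
    refine ⟨{f 0, f 53, f 54}, L.GS.trans (sb_le (L := [0, 53, 54]) (by
      lst; refine ⟨?_, ?_, ?_⟩ <;> exact subset_closure (by simp))), ?_⟩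
    have d := L.n3 L' (B := fun a b => (dt f I).KC ∧ a = f 13 ∧ b = f 14)
    have d1 := Dv.tri (evs L.e [41, 52, 41] [53] : _ = f 53) d (d.conj _ (L.i 56) (L.j 56 0 52) (L.j 56 41 0)).symm
      (d.conj _ (L.i 55) (L.j 55 0 41) (L.j 55 41 52))
    have d2 := d.conj _ (L.i 57) (L.j 57 0 0) (L.j 57 41 54)
    have d3 := d.conj _ (L.i 58) (L.j 58 0 54) (L.j 58 41 53)
    rintro a (rfl | rfl | rfl) b (rfl | rfl | rfl)
    exacts [.refl zI, d1, d2, d1.symm, .refl (L.j 41 52 53 ▸ Zc.J ⟨_, L.i 56, L.j 56 0 52⟩ (L.i 41)), d3.symm, d2.symm, d3,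
      .refl ⟨_, L.i 58, L.j 58 0 54⟩]

theorem fe : (dt f I).FE := by
  have φ : f 10 ∈ gen f 11 := mem_gen f (by decide)
  have l : gen f 10 ≤ gen f 11 := gen_mono f (by decide)
  have q (k : ℕ) (h : k ∈ [13, 14]) : f k ∈ gen f 10 := gen_mono f (by decide) (L.mQ k h)
  have nz : I ⊓ C[f 0] ≤ N(zpowers (f 0)) := fun x hx => centralizer_le_normalizer _ (cent_zp (mem_cent1.1 hx.2))
  have := L.A.nor
  refine ⟨L.φI, L.s 10, L.pc.le_norm (by decide) φ, fun α _ αα => ?_, ⟨_, q 13 (by decide), _, q 14 (by decide), L.s 13, L.s 14, L.nc⟩,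
    ⟨gen f 2, gen_mono f (by decide), (sup_le l (zpowers_le.2 φ)).trans (L.pc.le_norm (by decide)), fun v => gen_el (fun i hi k hk => by
      interval_cases i <;> interval_cases k
      exacts [rfl, (L.tz 1 (by decide)).symm, L.tz 1 (by decide), rfl]) fun i hi => L.sq i (by interval_cases i <;> decide),
      by rw [pc_card L.pc (by decide)]; decide⟩,
    zpowers_le.2 (mem_comm (q 14 (by decide)) (q 13 (by decide)) (by
      rw [← mul_assoc, ← L.c 13 0, ← L.d8, mul_assoc, L.s 14, mul_one])), mem_zpowers _, L.TM.trans nz,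
    fun y hy => (zp2 (L.s 0) hy).elim (fun e => by rw [e, mul_one]) fun e => e ▸ L.s 0, fun Y h n e c => ?_,
    L.TM.trans (L.Mp.trans (commutator_mono (le_inf inf_le_left nz) (le_inf inf_le_left nz))), fun α h αα => ?_,
    fun α h αα => (L.Eo h αα).ge, (by decide : 16 ≤ 512),
    pc_card L.pc (show 10 ≤ 11 by decide) ▸ (by decide : 2 * 2 ^ 10 < 512 * 16),
    (by rw [EE, e2_card L.cφ (by decide)]; decide : EE I (f 10) * EE I (f 10) < 512 * 16)⟩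
  · obtain rfl | ⟨k, hk, g, hg, rfl⟩ := L.cls αα
    · exact ⟨1, one_mem _, by simp [one_mem]⟩
    · refine ⟨g⁻¹, inv_mem hg, ?_⟩
      rw [show g⁻¹ * (g * f k * g⁻¹) * g⁻¹⁻¹ = f k by group]
      exact mem_cent1.2 (L.cf k hk).symm
  · have c2 : #Y = 2 := c.trans ((Nat.card_zpowers _).trans (orderOf_eq_prime (by rw [pow_two]; exact L.s 0) L.z1))
    refine eq_of_le_of_card_eq (fun y hy => ?_) c
    refine (L.cT (β := y) (mem_cent.2 fun x hx => ?_)).elim (fun e => e ▸ one_mem _) fun e => e ▸ mem_zpowers _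
    by_cases y1 : y = 1
    · simp [y1]
    · obtain ⟨u, -, hu⟩ := (Nat.card_eq_two_iff' (1 : Y)).1 c2
      exact mul_inv_eq_iff_eq_mul.1 (congrArg Subtype.val ((hu ⟨_, conj_mem_of_norm (n hx) hy⟩ fun e =>
        y1 (conj_eq_one_iff.1 (congrArg Subtype.val e))).trans (hu ⟨y, hy⟩ fun e => y1 (congrArg Subtype.val e)).symm))
  · show 512 ≤ EE I α
    rcases L.inner h αα with rfl | ⟨g, -, rfl⟩ | ⟨g, -, rfl⟩
    · exact le_trans (by rw [e2_card L.cM (by decide)]; decide) (e2_mono (H := I ⊓ C[f 0]) fun x hx => mi hx.1 (mem_cent1.2 (by simp)))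
    · rw [EE_cj, EE, e2_card L.cM (by decide)]; decide
    · rw [EE_cj, EE, e2_card L.cl (by decide)]; decide
end Pr
end H7.HZ
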