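import Cfsg.Agent.H7.ME3

/-! The eleven subgroups containing root involutions. -/

set_option autoImplicit false
set_option maxRecDepth 100000

namespace H7.ME

open H18.E7 (G M)
open Subgroup

/-- the subgroups `A` -/
noncomputable def AA (i : Fin 11) : Subgroup G := cw (![A0, A1, A2, A3, A4, A5, A6, A7, A8, A9, A10] i)
/-- the bases -/
def WW : Fin 11 → List ℕ := ![W0, W1, W2, W3, W4, W5, W6, W7, W8, W9, W10]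
/-- the subgroups generated by root involutions -/
noncomputable def YY (i : Fin 11) : Subgroup G := cw (![Y0, Y1, Y2, Y3, Y4, Y5, Y6, Y7, Y8, Y9, Y10] i)
/-- conjugacy under the centralizer of `z` -/
def Rz (N N' : Subgroup G) : Prop := ∃ p, Commute p z ∧ ∀ q, q ∈ N' ↔ p * q * p⁻¹ ∈ N

theorem Rz.symm {N N' : Subgroup G} (h : Rz N N') : Rz N' N := by
  obtain ⟨p, h1, h2⟩ := h
  exact ⟨p⁻¹, h1.inv_left, fun q => by rw [h2]; simp [mul_assoc]⟩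

theorem SA.mono {e p ρ ρ' : ℕ} {K : Subgroup G} (h : SA e p ρ K) (l : ρ ≤ ρ' := by decide) : SA e p ρ' K :=
  fun y h1 h2 => (h y h1 h2).trans l

theorem aa (pn : PN) (i : Fin 11) : AA i ≠ ⊤ := by
  fin_cases i
  exacts [pn.pr _ _ _ pr0, pn.pr _ _ _ pr1, pn.pr _ _ _ pr2, pn.pr _ _ _ pr3, pn.pr _ _ _ pr4, pn.pr _ _ _ pr5,
    pn.pr _ _ _ pr6, pn.pr _ _ _ pr7, pn.pr _ _ _ pr8, pn.pr _ _ _ pr9, pn.pt _ _ _ _ _ _ pr10]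

theorem gg (gd : GD) (i : Fin 11) : (∀ H, AA i ≤ H → H ≠ ⊤ → Gd H (Nn (WW i))) ∧ ¬ Q ≤ Nn (WW i) ∧
    Nat.card (Nn (WW i)) = 2 ^ ((WW i).length + 1) := by
  fin_cases i
  exacts [gd _ _ _ _ _ _ _ _ _ _ _ _ _ lv0 nd0 ir0, gd _ _ _ _ _ _ _ _ _ _ _ _ _ lv1 nd1 ir1,
    gd _ _ _ _ _ _ _ _ _ _ _ _ _ lv2 nd2 ir2, gd _ _ _ _ _ _ _ _ _ _ _ _ _ lv3 nd3 ir3,
    gd _ _ _ _ _ _ _ _ _ _ _ _ _ lv4 nd4 ir4, gd _ _ _ _ _ _ _ _ _ _ _ _ _ lv5 nd5 ir5,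
    gd _ _ _ _ _ _ _ _ _ _ _ _ _ lv6 nd6 ir6, gd _ _ _ _ _ _ _ _ _ _ _ _ _ lv7 nd7 ir7,
    gd _ _ _ _ _ _ _ _ _ _ _ _ _ lv8 nd8 ir8, gd _ _ _ _ _ _ _ _ _ _ _ _ _ lv9 nd9 ir9,
    gd _ _ _ _ _ _ _ _ _ _ _ _ _ lv10 nd10 ir10]

theorem nq (gd : GD) (pn : PN) (i : Fin 11) : Nn (WW i) ≤ Q ∧ z ∈ Nn (WW i) :=
  have h := (gg gd i).1 _ le_rfl (aa pn i)
  ⟨h.inf ▸ inf_le_right, h.zN⟩

theorem r12 (f : Fs) (gd : GD) (ct : CT) (pn : PN) : ¬ Rz (Nn W1) (Nn W2) := fun ⟨p, h1, h2⟩ => by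
  have h := (ct.inv _ _ p (nq gd pn 2).1 h1 h2).2
  have e : np (Nn W2) = 2 := (ct.cnt _ _ _ nd2).trans (by rw [ct2])
  have := ct.deg _ (nq gd pn 1).1 (nq gd pn 1).2 (h.trans e).le (X 93) (f.XD 93 (by decide))
    (wd_one 93 ▸ wd_mem (L := gN W1) (by decide +kernel))
  exact (f.r1 93 (by decide) (by decide +kernel)).1 this

theorem r34 (f : Fs) (gd : GD) (ct : CT) (pn : PN) : ¬ Rz (Nn W3) (Nn W4) := fun ⟨p, h1, h2⟩ =>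
  r12 f gd ct pn ⟨p, h1, fun q => by
    rw [ct.perp _ _ _ _ _ _ nd3 nd1 pp3 pp3', ct.perp _ _ _ _ _ _ nd4 nd2 pp4 pp4']
    refine and_congr ⟨f.nQ p h1 q, fun h => by simpa [mul_assoc] using f.nQ p⁻¹ h1.inv_left _ h⟩ ⟨fun h n hn => ?_, fun h n hn => ?_⟩
    · simpa [mul_assoc] using (h (p⁻¹ * n * p) ((h2 _).2 (by simpa [mul_assoc] using hn))).map (MulAut.conj p)
    · simpa [mul_assoc] using (h _ ((h2 n).1 hn)).map (MulAut.conj p⁻¹)⟩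

theorem sep (f : Fs) (gd : GD) (ct : CT) (pn : PN) (i j : Fin 11) (h : Rz (Nn (WW i)) (Nn (WW j))) : i = j := by
  have t : ∀ i : Fin 11, (WW i).length = 8 → np (Nn (WW i)) = ![0, 0, 0, 0, 0, 62, 2, 56, 20, 0, 0] i := fun i hi => by
    fin_cases i
    all_goals first | exact absurd hi (by decide +kernel) | skip
    exacts [(ct.cnt _ _ _ nd5).trans (by rw [ct5]; rfl), (ct.cnt _ _ _ nd6).trans (by rw [ct6]; rfl),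
      (ct.cnt _ _ _ nd7).trans (by rw [ct7]; rfl), (ct.cnt _ _ _ nd8).trans (by rw [ct8]; rfl)]
  obtain ⟨p, h1, h2⟩ := id h
  obtain ⟨e1, e2⟩ := ct.inv _ _ p (nq gd pn j).1 h1 h2
  rw [(gg gd i).2.2, (gg gd j).2.2] at e1
  have e1 : (WW i).length = (WW j).length := by simpa using e1
  have key : ∀ i j : Fin 11, (WW i).length = (WW j).length → ((WW i).length = 8 →
      ![0, 0, 0, 0, 0, 62, 2, 56, 20, 0, 0] i = ![0, 0, 0, 0, 0, 62, 2, 56, 20, 0, 0] j) →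
      i = j ∨ (i = 1 ∧ j = 2) ∨ (i = 2 ∧ j = 1) ∨ (i = 3 ∧ j = 4) ∨ (i = 4 ∧ j = 3) := by decide +kernel
  obtain e | ⟨rfl, rfl⟩ | ⟨rfl, rfl⟩ | ⟨rfl, rfl⟩ | ⟨rfl, rfl⟩ :=
    key i j e1 fun h8 => (t i h8).symm.trans (e2.trans (t j (e1 ▸ h8)))
  exacts [e, (r12 f gd ct pn h).elim, (r12 f gd ct pn h.symm).elim, (r34 f gd ct pn h).elim, (r34 f gd ct pn h.symm).elim]

theorem yle (cc : CC) (i : Fin 11) : YY i ≤ Xg (AA i) (Nn (WW i)) := by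
  fin_cases i <;> exact cc.le _ _ _

theorem sbb (cc : CC) (i : Fin 11) : SB 420 0 8 (YY i) := by
  have h : 8 < 9 := by decide
  fin_cases i
  exacts [cc.sb _ _ _ _ _ _ _ _ sb0 h, cc.sb _ _ _ _ _ _ _ _ sb1 h, cc.sb _ _ _ _ _ _ _ _ sb2 h, cc.sb _ _ _ _ _ _ _ _ sb3 h,
    cc.sb _ _ _ _ _ _ _ _ sb4 h, cc.sb _ _ _ _ _ _ _ _ sb5 h, cc.sb _ _ _ _ _ _ _ _ sb6 h, cc.sb _ _ _ _ _ _ _ _ sb7 h,
    cc.sb _ _ _ _ _ _ _ _ sb8 h, cc.sb _ _ _ _ _ _ _ _ sb9 h, cc.sb _ _ _ _ _ _ _ _ sb10 h]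

theorem saa (fx : FX) (sd : SD) (i : Fin 11) (h : i ≠ 6 ∧ i ≠ 8 ∧ i ≠ 9) : SA 420 0 8 (YY i) := by
  fin_cases i
  all_goals first | exact absurd h (by decide) | skip
  exacts [(sd _ _ _ _ _ _ _ _ _ fx.1 sa0).mono, (sd _ _ _ _ _ _ _ _ _ fx.1 sa1).mono, (sd _ _ _ _ _ _ _ _ _ fx.1 sa2).mono,
    (sd _ _ _ _ _ _ _ _ _ fx.1 sa3).mono, (sd _ _ _ _ _ _ _ _ _ fx.1 sa4).mono, (sd _ _ _ _ _ _ _ _ _ fx.1 sa5).mono,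
    (sd _ _ _ _ _ _ _ _ _ fx.1 sa7).mono, (sd _ _ _ _ _ _ _ _ _ fx.1 sa10).mono]

theorem com (fx : FX) (cc : CC) (sd : SD) (i j : Fin 11) (h : i ≠ j) (g : G) :
    ¬ ∀ x ∈ Xg (AA i) (Nn (WW i)), ∀ y ∈ Xg (AA j) (Nn (WW j)), Commute x (g * y * g⁻¹) := by
  have h21 : 20 < 21 := by decide
  have a1 : SA 1 11 20 (YY 9) := (sd _ _ _ _ _ _ _ _ _ fx.2.1 sa9).mono
  have a2 : SA 1 13 20 (YY 9) := (sd _ _ _ _ _ _ _ _ _ fx.2.2.1 sa9).mono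
  have a3 : SA 1 13 20 (YY 6) := (sd _ _ _ _ _ _ _ _ _ fx.2.2.1 sa6).mono
  have b1 : SB 1 11 20 (YY 6) := cc.sb _ _ _ _ _ _ _ _ sb6' h21
  have b2 : SB 1 13 20 (YY 8) := cc.sb _ _ _ _ _ _ _ _ sb8' h21
  have key : ∀ i j : Fin 11, i ≠ j → (i ≠ 6 ∧ i ≠ 8 ∧ i ≠ 9) ∨ (j ≠ 6 ∧ j ≠ 8 ∧ j ≠ 9) ∨ (i = 9 ∧ j = 6) ∨ (i = 6 ∧ j = 9) ∨
      (i = 9 ∧ j = 8) ∨ (i = 8 ∧ j = 9) ∨ (i = 6 ∧ j = 8) ∨ (i = 8 ∧ j = 6) := by decide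
  obtain e | e | ⟨rfl, rfl⟩ | ⟨rfl, rfl⟩ | ⟨rfl, rfl⟩ | ⟨rfl, rfl⟩ | ⟨rfl, rfl⟩ | ⟨rfl, rfl⟩ := key i j h
  exacts [(cc.ab _ _ _ _ _ _ _ (saa fx sd i e) (sbb cc j) (yle cc i) (yle cc j) g).1,
    (cc.ab _ _ _ _ _ _ _ (saa fx sd j e) (sbb cc i) (yle cc j) (yle cc i) g).2,
    (cc.ab _ _ _ _ _ _ _ a1 b1 (yle cc _) (yle cc _) g).1, (cc.ab _ _ _ _ _ _ _ a1 b1 (yle cc _) (yle cc _) g).2,
    (cc.ab _ _ _ _ _ _ _ a2 b2 (yle cc _) (yle cc _) g).1, (cc.ab _ _ _ _ _ _ _ a2 b2 (yle cc _) (yle cc _) g).2,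
    (cc.ab _ _ _ _ _ _ _ a3 b2 (yle cc _) (yle cc _) g).1, (cc.ab _ _ _ _ _ _ _ a3 b2 (yle cc _) (yle cc _) g).2]

theorem da (f : Fs) (gd : GD) (ct : CT) (fx : FX) (cc : CC) (sd : SD) (pn : PN) : DA := by
  refine ⟨AA, fun i => Nn (WW i), aa pn, fun i => (gg gd i).1, fun i => (gg gd i).2.1,
    fun i j h p h1 h2 => h (sep f gd ct pn i j ⟨p, h1, h2⟩), com fx cc sd, fun i => ?_⟩
  have d := fun i => ct.deg _ (nq gd pn i).1 (nq gd pn i).2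
  fin_cases i
  exacts [.inr (pn.nf _ _ _ _ nf0), .inr (pn.nb _ _ _ nf1), .inl (d 2 ((ct.cnt _ _ _ nd2).trans (by rw [ct2])).le),
    .inr (pn.nf _ _ _ _ nf3), .inr (pn.nf _ _ _ _ nf4), .inr (pn.nf _ _ _ _ nf5),
    .inl (d 6 ((ct.cnt _ _ _ nd6).trans (by rw [ct6])).le), .inr (pn.nf _ _ _ _ nf7), .inr (pn.nf _ _ _ _ nf8),
    .inr (pn.nf _ _ _ _ nf9), .inl (d 10 ((ct.cnt _ _ _ nd10).trans (by rw [ct10])).le)]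

end H7.ME
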