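import Cfsg.Agent.H5.Kernel

/-! Mackey's irreducibility criterion. -/

set_option autoImplicit false
open Cfsg H5
open scoped ComplexConjugate

namespace H7

variable {G : Type*} [Group G] [Fintype G] {H : Subgroup G} [Fintype H]

/-- the Mackey term of `x` -/
noncomputable def mack (H : Subgroup G) [Fintype H] (φ ψ : H → ℂ) (x : G) : ℂ :=
  ∑ h : H, extendByZero H φ (x * h * x⁻¹) * conj (ψ h)

theorem inner_indFun_eq_mack (φ ψ : H → ℂ) : classInner (indFun H φ) (indFun H ψ) =
    (Nat.card H : ℂ)⁻¹ * (Nat.card H : ℂ)⁻¹ * ∑ x : G, mack H φ ψ x := by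
  rw [classInner_indFun_right _ _ (isClassFunction_indFun H φ), classInner]
  simp only [indFun_apply', mack, mul_assoc, ← Finset.mul_sum, Finset.sum_mul]
  rw [Finset.sum_comm]

omit [Fintype G] in
theorem mack_mul {φ ψ : H → ℂ} (hφ : IsClassFunction H φ) (hψ : IsClassFunction H ψ) {a b : G}
    (ha : a ∈ H) (hb : b ∈ H) (x : G) : mack H φ ψ (a * x * b) = mack H φ ψ x := by
  unfold mack
  rw [← Equiv.sum_comp (MulAut.conj (⟨b, hb⟩ : H)).toEquiv (fun h : H =>
    extendByZero H φ (x * h * x⁻¹) * conj (ψ h))]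
  refine Finset.sum_congr rfl fun h _ => ?_
  have h1 := extendByZero_conj H hφ ha (x * (b * h * b⁻¹) * x⁻¹)
  have h2 := hψ h ⟨b, hb⟩
  rw [show a * x * b * h * (a * x * b)⁻¹ = a * (x * (b * h * b⁻¹) * x⁻¹) * a⁻¹ by group, h1, ← h2]
  rfl

omit [Fintype G] in
theorem mack_one (φ ψ : H → ℂ) : mack H φ ψ 1 = Nat.card H * classInner φ ψ := by
  rw [classInner, mul_inv_cancel_left₀ (card_ne_zero_complex _)]
  simp [mack, extendByZero_coe]

theorem isIrr_indFun_of_mack {ψ : H → ℂ} (hψ : IsIrrCharacter H ψ)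
    (h : ∀ x ∉ H, mack H ψ ψ x = 0) : IsIrrCharacter G (indFun H ψ) := by
  classical
  refine hψ.isCharacter.ind.isIrr_of_classInner_self ?_
  have h1 : ∀ x : G, mack H ψ ψ x = if x ∈ H then (Nat.card H : ℂ) else 0 := fun x => by
    split_ifs with hx
    · have := mack_mul hψ.isClassFunction hψ.isClassFunction hx (one_mem H) 1
      rw [mul_one, mul_one, mack_one, hψ.classInner_self, mul_one] at this
      exact this
    · exact h x hx
  rw [inner_indFun_eq_mack]
  simp only [h1, ← Finset.sum_filter, Finset.sum_const, nsmul_eq_mul]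
  rw [← Fintype.card_subtype, ← Nat.card_eq_fintype_card]
  have := card_ne_zero_complex H
  field_simp

omit [Fintype G] in
/-- the Mackey term as an inner product over `D = H ∩ x⁻¹ H x` -/
theorem mack_eq_inner {D : Subgroup G} [Fintype D] {x : G} (hD : D ≤ H)
    (hx : ∀ h ∈ H, x * h * x⁻¹ ∈ H ↔ h ∈ D) (φ ψ : H → ℂ) :
    mack H φ ψ x = Nat.card D * classInner (fun d : D => φ ⟨_, (hx d (hD d.2)).2 d.2⟩)
      (fun d : D => ψ ⟨d, hD d.2⟩) := by
  classical
  rw [classInner, mul_inv_cancel_left₀ (card_ne_zero_complex _), mack]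
  symm
  refine Finset.sum_of_injOn (Subgroup.inclusion hD) (Subgroup.inclusion_injective hD).injOn
    (fun _ _ => Finset.mem_coe.2 (Finset.mem_univ _)) (fun h _ hh => ?_) fun d _ => ?_
  · rw [extendByZero_of_not_mem, zero_mul]
    exact fun h1 => hh ⟨⟨h, (hx h h.2).1 h1⟩, by simp, rfl⟩
  · rw [extendByZero_of_mem]; rfl

end H7
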