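import Cfsg.Agent.H22.AutAlt

/-! Product action wreath products, part 1: permutation groups on a grid `A × L`
containing the alternating group of the first factor. -/

set_option autoImplicit false

namespace H7.PA

open Equiv Equiv.Perm Subgroup

section Alt

variable {A : Type*} [Fintype A] [DecidableEq A]

theorem ex_avoid (s : Finset A) (h : s.card < Fintype.card A) : ∃ a, a ∉ s := by
  by_contra hn
  push Not at hn
  have : s = Finset.univ := Finset.eq_univ_of_forall hn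
  rw [this, Finset.card_univ] at h
  omega

theorem even_move (s : Finset A) (h : s.card + 3 ≤ Fintype.card A) {b c : A} (hb : b ∉ s)
    (hc : c ∉ s) : ∃ σ : Perm A, sign σ = 1 ∧ (∀ x ∈ s, σ x = x) ∧ σ b = c := by
  by_cases e : b = c
  · exact ⟨1, by simp, fun _ _ => rfl, e⟩
  obtain ⟨d, hd⟩ := ex_avoid (insert b (insert c s)) (by
    have := Finset.card_insert_le b (insert c s)
    have := Finset.card_insert_le c s
    omega)
  simp only [Finset.mem_insert, not_or] at hd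
  obtain ⟨h1, h2, h3⟩ := hd
  refine ⟨swap b c * swap c d, ?_, fun x hx => ?_, ?_⟩
  · rw [Perm.sign_mul, sign_swap e, sign_swap (Ne.symm h2)]; simp
  · have a1 : x ≠ b := fun h => hb (h ▸ hx)
    have a2 : x ≠ c := fun h => hc (h ▸ hx)
    have a3 : x ≠ d := fun h => h3 (h ▸ hx)
    rw [Perm.mul_apply, swap_apply_of_ne_of_ne a2 a3, swap_apply_of_ne_of_ne a1 a2]
  · rw [Perm.mul_apply, swap_apply_of_ne_of_ne e (Ne.symm h1), swap_apply_left]

theorem cent_alt (h : 4 ≤ Fintype.card A) {π : Perm A}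
    (hπ : ∀ σ : Perm A, sign σ = 1 → π * σ = σ * π) : π = 1 := by
  ext a
  by_contra hne
  have hne' : π a ≠ a := hne
  obtain ⟨c, hc⟩ := ex_avoid ({a, π a} : Finset A) (by
    have := Finset.card_le_two (a := a) (b := π a); omega)
  simp only [Finset.mem_insert, Finset.mem_singleton, not_or] at hc
  obtain ⟨σ, h1, h2, h3⟩ := even_move ({a} : Finset A) (by simpa using h) (b := π a) (c := c)
    (by simpa using hne') (by simpa using hc.1)
  have := congrArg (fun u : Perm A => u a) (hπ σ h1)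
  simp only [Perm.mul_apply] at this
  rw [h2 a (by simp), h3] at this
  exact hc.2 this.symm

theorem alt_le_of_norm (h : 5 ≤ Fintype.card A) (N : Subgroup (Perm A))
    (hN : ∀ σ : Perm A, sign σ = 1 → ∀ u ∈ N, σ * u * σ⁻¹ ∈ N) {u : Perm A} (hu : u ∈ N)
    (hu1 : u ≠ 1) : alternatingGroup A ≤ N := by
  obtain ⟨σ, h1, h2⟩ : ∃ σ : Perm A, sign σ = 1 ∧ u * σ ≠ σ * u := by
    by_contra hn
    push Not at hn
    exact hu1 (cent_alt (by omega) hn)
  have hv : σ * u * σ⁻¹ * u⁻¹ ∈ N := mul_mem (hN σ h1 u hu) (inv_mem hu)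
  have hv1 : σ * u * σ⁻¹ * u⁻¹ ≠ 1 := fun e => h2 (by
    have : σ * u = (σ * u * σ⁻¹ * u⁻¹) * (u * σ) := by group
    rw [this, e, one_mul])
  have hv2 : σ * u * σ⁻¹ * u⁻¹ ∈ alternatingGroup A := by
    rw [mem_alternatingGroup]; simp [h1]
  haveI := alternatingGroup.isSimpleGroup (α := A) (by simpa using h)
  let K : Subgroup (alternatingGroup A) := N.subgroupOf _
  haveI : K.Normal := ⟨fun n hn g => hN g (mem_alternatingGroup.1 g.2) n hn⟩
  rcases IsSimpleGroup.eq_bot_or_eq_top_of_normal K inferInstance with e | e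
  · have : (⟨_, hv2⟩ : alternatingGroup A) ∈ K := hv
    rw [e, mem_bot] at this
    exact absurd (congrArg Subtype.val this) hv1
  · exact subgroupOf_eq_top.1 e

theorem ex_noncomm (h : 4 ≤ Fintype.card A) : ∃ σ τ : Perm A, sign σ = 1 ∧ sign τ = 1 ∧
    σ * τ ≠ τ * σ := by
  obtain ⟨a, -⟩ := ex_avoid (∅ : Finset A) (by simp; omega)
  obtain ⟨b, hb⟩ := ex_avoid ({a} : Finset A) (by simp; omega)
  obtain ⟨σ, h1, -, h3⟩ := even_move (∅ : Finset A) (by simp; omega) (b := a) (c := b)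
    (by simp) (by simp)
  by_contra hn
  push Not at hn
  have := cent_alt h (π := σ) fun τ hτ => hn σ τ h1 hτ
  rw [this] at h3
  exact hb (by simpa using h3.symm)

theorem ex_three (s : Finset A) (h : s.card + 3 ≤ Fintype.card A) :
    ∃ c : Perm A, c.IsThreeCycle ∧ ∀ x ∈ s, c x = x := by
  obtain ⟨a, ha⟩ := ex_avoid s (by omega)
  obtain ⟨b, hb⟩ := ex_avoid (insert a s) (by have := Finset.card_insert_le a s; omega)
  obtain ⟨d, hd⟩ := ex_avoid (insert b (insert a s)) (by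
    have := Finset.card_insert_le b (insert a s)
    have := Finset.card_insert_le a s
    omega)
  simp only [Finset.mem_insert, not_or] at hb hd
  refine ⟨swap a b * swap a d, isThreeCycle_swap_mul_swap_same (Ne.symm hb.1) (Ne.symm hd.2.1)
    (Ne.symm hd.1), fun x hx => ?_⟩
  have a1 : x ≠ a := fun h => ha (h ▸ hx)
  have a2 : x ≠ b := fun h => hb.2 (h ▸ hx)
  have a3 : x ≠ d := fun h => hd.2.2 (h ▸ hx)
  rw [Perm.mul_apply, swap_apply_of_ne_of_ne a1 a3, swap_apply_of_ne_of_ne a1 a2]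

end Alt

section Grid

variable {A L : Type*}

/-- product of permutations -/
def pr (σ : Perm A) (w : Perm L) : Perm (A × L) := σ.prodCongr w

@[simp] theorem pr_apply (σ : Perm A) (w : Perm L) (a : A) (l : L) :
    pr σ w (a, l) = (σ a, w l) := rfl

theorem pr_apply' (σ : Perm A) (w : Perm L) (p : A × L) : pr σ w p = (σ p.1, w p.2) := rfl

theorem pr_mul (σ τ : Perm A) (v w : Perm L) : pr σ v * pr τ w = pr (σ * τ) (v * w) := by
  ext ⟨a, l⟩ <;> rfl

theorem pr_one : pr (1 : Perm A) (1 : Perm L) = 1 := by ext ⟨a, l⟩ <;> rfl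

theorem pr_inv (σ : Perm A) (w : Perm L) : (pr σ w)⁻¹ = pr σ⁻¹ w⁻¹ := by
  rw [inv_eq_iff_mul_eq_one, pr_mul, mul_inv_cancel, mul_inv_cancel, pr_one]

/-- elements of `G` fixing every line -/
def Zs (G : Subgroup (Perm (A × L))) : Subgroup (Perm (A × L)) where
  carrier := {g | g ∈ G ∧ ∀ p, (g p).2 = p.2}
  one_mem' := ⟨one_mem _, fun _ => rfl⟩
  mul_mem' := fun {a b} ha hb => ⟨mul_mem ha.1 hb.1, fun p => by
    rw [Perm.mul_apply, ha.2, hb.2]⟩
  inv_mem' := fun {a} ha => ⟨inv_mem ha.1, fun p => by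
    have := ha.2 (a⁻¹ p)
    simpa using this.symm⟩

theorem Zs_apply {G : Subgroup (Perm (A × L))} (z : Zs G) (a : A) (l : L) :
    (z : Perm (A × L)) (a, l) = (((z : Perm (A × L)) (a, l)).1, l) :=
  Prod.ext rfl (z.2.2 _)

/-- the action on a line -/
def fib (G : Subgroup (Perm (A × L))) (l : L) : Zs G →* Perm A where
  toFun z :=
    { toFun := fun a => ((z : Perm (A × L)) (a, l)).1
      invFun := fun a => (((z⁻¹ : Zs G) : Perm (A × L)) (a, l)).1
      left_inv := fun a => by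
        show (((z⁻¹ : Zs G) : Perm (A × L)) (((z : Perm (A × L)) (a, l)).1, l)).1 = a
        rw [← Zs_apply]; simp
      right_inv := fun a => by
        show ((z : Perm (A × L)) ((((z⁻¹ : Zs G) : Perm (A × L)) (a, l)).1, l)).1 = a
        rw [← Zs_apply]; simp }
  map_one' := by ext a; rfl
  map_mul' y z := by
    ext a
    show ((y : Perm (A × L)) ((z : Perm (A × L)) (a, l))).1 =
      ((y : Perm (A × L)) (((z : Perm (A × L)) (a, l)).1, l)).1
    rw [← Zs_apply]

theorem fib_apply {G : Subgroup (Perm (A × L))} (z : Zs G) (a : A) (l : L) :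
    (z : Perm (A × L)) (a, l) = (fib G l z a, l) := Zs_apply z a l

variable [Fintype A] [DecidableEq A] [Fintype L] [DecidableEq L]

/-- the standing hypotheses -/
structure Ctx (G : Subgroup (Perm (A × L))) (X : Subgroup (Perm L)) : Prop where
  hm : 5 ≤ Fintype.card A
  h1 : ∀ σ : Perm A, sign σ = 1 → pr σ (1 : Perm L) ∈ G
  h2 : ∀ w ∈ X, ∃ τ : Perm A, pr τ w ∈ G
  prim : ∀ r : L → L → Prop, Equivalence r → (∀ w ∈ X, ∀ l l', r l l' → r (w l) (w l')) →
    (∀ l l', r l l' → l = l') ∨ (∀ l l', r l l')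
  no3 : ∀ g ∈ G, ¬ g.IsThreeCycle

variable {G : Subgroup (Perm (A × L))} {X : Subgroup (Perm L)}

theorem Ctx.h2' (c : Ctx G X) {w : Perm L} (hw : w ∈ X) {a b : A} (hab : a ≠ b) :
    pr 1 w ∈ G ∨ pr (swap a b) w ∈ G := by
  obtain ⟨τ, hτ⟩ := c.h2 w hw
  rcases Int.units_eq_one_or (sign τ) with e | e
  · left
    have := mul_mem (c.h1 τ⁻¹ (by simp [e])) hτ
    rwa [pr_mul, inv_mul_cancel, one_mul] at this
  · right
    have := mul_mem (c.h1 (swap a b * τ⁻¹) (by simp [e, sign_swap hab])) hτ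
    rwa [pr_mul, inv_mul_cancel_right, one_mul] at this

/-- diagonal elements of `Zs` -/
def Ctx.dg (c : Ctx G X) (σ : Perm A) (h : sign σ = 1) : Zs G := ⟨pr σ 1, c.h1 σ h, fun _ => rfl⟩

theorem Ctx.fib_dg (c : Ctx G X) (σ : Perm A) (h : sign σ = 1) (l : L) :
    fib G l (c.dg σ h) = σ := by ext a; rfl

theorem Ctx.norm_map (c : Ctx G X) (K : Subgroup (Zs G)) [hK : K.Normal] (l : L) (σ : Perm A)
    (h : sign σ = 1) (u : Perm A) (hu : u ∈ K.map (fib G l)) :
    σ * u * σ⁻¹ ∈ K.map (fib G l) := by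
  obtain ⟨z, hz, rfl⟩ := hu
  exact ⟨_, hK.conj_mem z hz (c.dg σ h), by simp [c.fib_dg]⟩

theorem Ctx.lines (c : Ctx G X) {g : Perm (A × L)} (hg : g ∈ G) (hl : ∀ p, (g p).2 = p.2) :
    ∃ σ : Perm A, g = pr σ 1 := by
  have hm := c.hm
  rcases c.prim (fun l l' => ∀ z : Zs G, fib G l z = fib G l' z)
    ⟨fun _ _ => rfl, fun h z => (h z).symm, fun h h' z => (h z).trans (h' z)⟩
    (fun w hw l l' h z => by
      obtain ⟨τ, hτ⟩ := c.h2 w hw
      let y : Zs G := ⟨(pr τ w)⁻¹ * z * pr τ w, mul_mem (mul_mem (inv_mem hτ) z.2.1) hτ,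
        fun p => by
          rw [pr_inv, Perm.mul_apply, Perm.mul_apply, pr_apply', z.2.2, pr_apply']; simp⟩
      have key : ∀ m : L, fib G (w m) z = τ * fib G m y * τ⁻¹ := fun m => by
        ext a
        show _ = τ ((((pr τ w)⁻¹ * z * pr τ w) (τ⁻¹ a, m)).1)
        rw [pr_inv, Perm.mul_apply, Perm.mul_apply, pr_apply, fib_apply, pr_apply]; simp
      rw [key, key, h y]) with h | h
  · rcases isEmpty_or_nonempty L with hL | ⟨⟨l₀⟩⟩
    · exact ⟨1, Subsingleton.elim _ _⟩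
    have s1 : ∀ l, l ≠ l₀ → alternatingGroup A ≤ (fib G l).ker.map (fib G l₀) := fun l hl => by
      obtain ⟨z, hz⟩ : ∃ z : Zs G, fib G l z ≠ fib G l₀ z := by
        by_contra hn
        push Not at hn
        exact hl (h _ _ hn)
      obtain ⟨σ, h1, h2⟩ : ∃ σ : Perm A, sign σ = 1 ∧
          (fib G l z)⁻¹ * fib G l₀ z * σ ≠ σ * ((fib G l z)⁻¹ * fib G l₀ z) := by
        by_contra hn
        push Not at hn
        have := cent_alt (by omega) hn
        exact hz (inv_mul_eq_one.1 this)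
      have h3 : sign (fib G l z * σ * (fib G l z)⁻¹) = 1 := by simp [h1]
      refine alt_le_of_norm hm _ (c.norm_map _ l₀)
        (u := fib G l₀ ((c.dg _ h3)⁻¹ * (z * c.dg σ h1 * z⁻¹))) ⟨_, ?_, rfl⟩ fun e => h2 ?_
      · simp only [SetLike.mem_coe, MonoidHom.mem_ker, map_mul, map_inv, c.fib_dg]
        group
      · simp only [map_mul, map_inv, c.fib_dg] at e
        have e' := inv_mul_eq_one.1 e
        have : (fib G l z)⁻¹ * fib G l₀ z * σ =
          (fib G l z)⁻¹ * (fib G l₀ z * σ * (fib G l₀ z)⁻¹) * fib G l₀ z := by group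
        rw [this, ← e']; group
    have s2 : ∀ s : Finset L, l₀ ∉ s →
        alternatingGroup A ≤ (⨅ l ∈ s, (fib G l).ker).map (fib G l₀) := by
      intro s
      induction s using Finset.induction_on with
      | empty =>
        intro _ σ hσ
        exact ⟨c.dg σ (mem_alternatingGroup.1 hσ), by simp, c.fib_dg _ _ _⟩
      | insert l s hls ih =>
        intro h0
        simp only [Finset.mem_insert, not_or] at h0
        obtain ⟨σ, τ, h1, h2, h3⟩ := ex_noncomm (A := A) (by omega)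
        obtain ⟨y, hy, ey⟩ := ih h0.2 (mem_alternatingGroup.2 h1)
        obtain ⟨z, hz, ez⟩ := s1 l (Ne.symm h0.1) (mem_alternatingGroup.2 h2)
        haveI : ∀ s : Finset L, (⨅ l ∈ s, (fib G l).ker).Normal := fun s =>
          ⟨fun n hn g => by
            simp only [mem_iInf] at hn ⊢
            exact fun i hi => (MonoidHom.normal_ker _).conj_mem n (hn i hi) g⟩
        refine alt_le_of_norm hm _ (c.norm_map _ l₀) (u := fib G l₀ (y * z * y⁻¹ * z⁻¹))
          ⟨_, ?_, rfl⟩ fun e => h3 ?_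
        · simp only [SetLike.mem_coe, mem_iInf, MonoidHom.mem_ker, Finset.mem_insert] at hy hz ⊢
          rintro i (rfl | hi)
          · simp [hz]
          · simp [hy i hi]
        · simp only [map_mul, map_inv, ey, ez] at e
          have : σ * τ = (σ * τ * σ⁻¹ * τ⁻¹) * (τ * σ) := by group
          rw [this, e, one_mul]
    obtain ⟨t, ht, -⟩ := ex_three (∅ : Finset A) (by simp; omega)
    obtain ⟨z, hz, ez⟩ := s2 (Finset.univ.erase l₀) (by simp) ht.mem_alternatingGroup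
    refine absurd ?_ (c.no3 z z.2.1)
    rw [← card_support_eq_three_iff, ← ht.card_support]
    simp only [SetLike.mem_coe, mem_iInf, MonoidHom.mem_ker] at hz
    refine (Finset.card_bij (fun a _ => (a, l₀)) ?_ ?_ ?_).symm
    · intro a ha
      rw [mem_support, fib_apply, ez]
      exact fun e => mem_support.1 ha (congrArg Prod.fst e)
    · intro a _ b _ e
      exact congrArg Prod.fst e
    · rintro ⟨a, l⟩ hp
      rw [mem_support, fib_apply] at hp
      by_cases e : l = l₀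
      · subst e
        rw [ez] at hp
        exact ⟨a, mem_support.2 fun e => hp (by rw [e]), rfl⟩
      · rw [hz l (by simp [e])] at hp
        exact absurd rfl hp
  · rcases isEmpty_or_nonempty L with hL | ⟨⟨l₀⟩⟩
    · exact ⟨1, Subsingleton.elim _ _⟩
    refine ⟨fib G l₀ ⟨g, hg, hl⟩, Equiv.ext fun ⟨a, l⟩ => ?_⟩
    rw [pr_apply, h l₀ l]
    exact fib_apply (⟨g, hg, hl⟩ : Zs G) a l

/-- either the complement of a hyperplane is a Jordan set, or its pointwise stabiliser fixes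
all lines -/
theorem Ctx.dich (c : Ctx G X) (a : A) :
    (∀ p q : A × L, p.1 ≠ a → q.1 ≠ a → ∃ g ∈ G, (∀ l, g (a, l) = (a, l)) ∧ g p = q) ∨
    (∀ g ∈ G, (∀ l, g (a, l) = (a, l)) → ∃ σ : Perm A, g = pr σ 1) := by
  have hm := c.hm
  have mv : ∀ b b' : A, b ≠ a → b' ≠ a → ∃ σ : Perm A, sign σ = 1 ∧ σ a = a ∧ σ b = b' :=
    fun b b' hb hb' => by
      obtain ⟨σ, h1, h2, h3⟩ := even_move ({a} : Finset A) (by simp; omega) (b := b) (c := b')
        (by simpa using hb) (by simpa using hb')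
      exact ⟨σ, h1, h2 a (by simp), h3⟩
  obtain ⟨b₀, hb₀⟩ := ex_avoid ({a} : Finset A) (by simp; omega)
  obtain ⟨b₁, hb₁⟩ := ex_avoid ({a, b₀} : Finset A) (by
    have := Finset.card_le_two (a := a) (b := b₀); omega)
  simp only [Finset.mem_insert, Finset.mem_singleton, not_or] at hb₀ hb₁
  have up : ∀ g ∈ G, (∀ l, g (a, l) = (a, l)) → ∀ b b' l l', b ≠ a → b' ≠ a →
      g (b, l) = (b', l') → ∀ d d', d ≠ a → d' ≠ a →
      ∃ g ∈ G, (∀ l, g (a, l) = (a, l)) ∧ g (d, l) = (d', l') :=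
    fun g hg hf b b' l l' hb hb' e d d' hd hd' => by
      obtain ⟨σ, h1, h2, h3⟩ := mv d b hd hb
      obtain ⟨τ, k1, k2, k3⟩ := mv b' d' hb' hd'
      refine ⟨pr τ 1 * g * pr σ 1, mul_mem (mul_mem (c.h1 τ k1) hg) (c.h1 σ h1), fun m => ?_, ?_⟩
      · simp [h2, hf, k2]
      · simp [h3, e, k3]
  rcases c.prim (fun l l' => ∃ g ∈ G, (∀ l, g (a, l) = (a, l)) ∧ g (b₀, l) = (b₀, l'))
    ⟨fun _ => ⟨1, one_mem _, fun _ => rfl, rfl⟩,
      fun ⟨g, hg, h1, h2⟩ => ⟨g⁻¹, inv_mem hg, fun l => by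
        rw [Perm.inv_eq_iff_eq, h1], by rw [Perm.inv_eq_iff_eq, h2]⟩,
      fun ⟨g, hg, h1, h2⟩ ⟨g', hg', k1, k2⟩ => ⟨g' * g, mul_mem hg' hg, fun l => by
        rw [Perm.mul_apply, h1, k1], by rw [Perm.mul_apply, h2, k2]⟩⟩
    (fun w hw l l' ⟨g, hg, h1, h2⟩ => by
      obtain ⟨τ, hτ, ha, hb⟩ : ∃ τ : Perm A, pr τ w ∈ G ∧ τ a = a ∧ τ b₀ ≠ a := by
        rcases c.h2' hw hb₁.2 with h | h
        · exact ⟨1, h, rfl, hb₀⟩
        · exact ⟨_, h, swap_apply_of_ne_of_ne (Ne.symm hb₁.1) (Ne.symm hb₀), by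
            rw [swap_apply_right]; exact hb₁.1⟩
      refine up (pr τ w * g * (pr τ w)⁻¹) (mul_mem (mul_mem hτ hg) (inv_mem hτ)) (fun m => ?_)
        (τ b₀) (τ b₀) _ _ hb hb ?_ _ _ hb₀ hb₀
      · have : τ⁻¹ a = a := by rw [Perm.inv_eq_iff_eq, ha]
        simp [pr_inv, this, h1, ha]
      · simp [pr_inv, h2]) with h | h
  · right
    intro g hg hf
    refine c.lines hg fun ⟨b, l⟩ => ?_
    by_cases e : b = a
    · subst e; rw [hf]
    have hb' : (g (b, l)).1 ≠ a := fun e' => by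
      have : g (b, l) = g (a, (g (b, l)).2) := by rw [hf]; exact Prod.ext e' rfl
      exact e (congrArg Prod.fst (g.injective this))
    exact (h _ _ (up g hg hf b _ l _ e hb' rfl _ _ hb₀ hb₀)).symm
  · left
    rintro ⟨d, l⟩ ⟨d', l'⟩ hd hd'
    obtain ⟨g, hg, h1, h2⟩ := h l l'
    exact up g hg h1 _ _ _ _ hb₀ hb₀ h2 _ _ hd hd'

end Grid

end H7.PA
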