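import Cfsg.Agent.H7.PA1

/-! Product action wreath products, part 2: the normaliser of a coordinate 3-cycle. -/

set_option autoImplicit false

namespace H7.PA

open Equiv Equiv.Perm Subgroup

section Three

variable {A : Type*} [Fintype A] [DecidableEq A]

theorem three_pow {s : Perm A} (hs : s.IsThreeCycle) : s ^ 3 = 1 := by
  rw [← hs.orderOf]; exact pow_orderOf_eq_one s

theorem swap_inverts {s : Perm A} (hs : s.IsThreeCycle) {a : A} (ha : a ∈ s.support) :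
    swap a (s a) * s * (swap a (s a))⁻¹ = s⁻¹ := by
  have h3 : s (s (s a)) = a := by
    have := congrArg (fun u : Perm A => u a) (three_pow hs)
    simpa [pow_succ] using this
  have h1 : s a ≠ a := mem_support.1 ha
  have h2 : s (s a) ≠ s a := fun e => h1 (s.injective e)
  have h4 : s (s a) ≠ a := fun e => h1 (by rw [e] at h3; exact h3)
  have hT : s.support = {a, s a, s (s a)} := by
    symm
    apply Finset.eq_of_subset_of_card_le
    · intro y hy
      simp only [Finset.mem_insert, Finset.mem_singleton] at hy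
      rcases hy with rfl | rfl | rfl
      · exact ha
      · exact apply_mem_support.2 ha
      · exact apply_mem_support.2 (apply_mem_support.2 ha)
    · rw [hs.card_support, Finset.card_eq_three.2 ⟨_, _, _, h1.symm, h4.symm, h2.symm, rfl⟩]
  rw [eq_inv_iff_mul_eq_one, swap_inv]
  ext y
  simp only [Perm.mul_apply, Perm.one_apply]
  by_cases hy : y ∈ s.support
  · rw [hT] at hy
    simp only [Finset.mem_insert, Finset.mem_singleton] at hy
    rcases hy with rfl | rfl | rfl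
    · rw [swap_apply_right, swap_apply_right]
    · rw [swap_apply_of_ne_of_ne h4 h2, h3, swap_apply_left]
    · rw [h3, swap_apply_left, swap_apply_of_ne_of_ne h4 h2]
  · have e : s y = y := notMem_support.1 hy
    have e1 : y ≠ a := fun h => hy (h ▸ ha)
    have e2 : y ≠ s a := fun h => hy (h ▸ apply_mem_support.2 ha)
    rw [e, swap_apply_of_ne_of_ne e1 e2, e, swap_apply_of_ne_of_ne e1 e2]

theorem swap_comm_of {s : Perm A} {b b' : A} (hb : b ∉ s.support) (hb' : b' ∉ s.support) :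
    swap b b' * s = s * swap b b' := by
  rw [mul_swap_eq_swap_mul, notMem_support.1 hb, notMem_support.1 hb']

end Three

section Grid

variable {A L : Type*}

/-- induced action on the lines -/
def ind (M : Subgroup (Perm (A × L))) (U : A → Prop) (a₀ : A) (h0 : U a₀)
    (hU : ∀ g ∈ M, ∀ p : A × L, U p.1 → U (g p).1)
    (hc : ∀ g ∈ M, ∀ a, U a → ∀ l, (g (a, l)).2 = (g (a₀, l)).2) : M →* Perm L where
  toFun g :=
    { toFun := fun l => ((g : Perm (A × L)) (a₀, l)).2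
      invFun := fun l => (((g⁻¹ : M) : Perm (A × L)) (a₀, l)).2
      left_inv := fun l => by
        show (((g⁻¹ : M) : Perm (A × L)) (a₀, ((g : Perm (A × L)) (a₀, l)).2)).2 = l
        rw [← hc _ (g⁻¹).2 _ (hU g g.2 (a₀, l) h0)]; simp
      right_inv := fun l => by
        show ((g : Perm (A × L)) (a₀, (((g⁻¹ : M) : Perm (A × L)) (a₀, l)).2)).2 = l
        rw [← hc _ g.2 _ (hU _ (g⁻¹).2 (a₀, l) h0)]; simp }
  map_one' := by ext a; rfl
  map_mul' y z := by
    ext l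
    show ((y : Perm (A × L)) ((z : Perm (A × L)) (a₀, l))).2 =
      ((y : Perm (A × L)) (a₀, ((z : Perm (A × L)) (a₀, l)).2)).2
    rw [← hc _ y.2 _ (hU z z.2 (a₀, l) h0)]

theorem ind_apply {M : Subgroup (Perm (A × L))} {U : A → Prop} {a₀ : A} {h0 : U a₀}
    {hU : ∀ g ∈ M, ∀ p : A × L, U p.1 → U (g p).1}
    {hc : ∀ g ∈ M, ∀ a, U a → ∀ l, (g (a, l)).2 = (g (a₀, l)).2} (g : M) {a : A} (ha : U a)
    (l : L) : ind M U a₀ h0 hU hc g l = ((g : Perm (A × L)) (a, l)).2 := (hc g g.2 a ha l).symm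

/-- normaliser of the cyclic group generated by `x` -/
def Nx (G : Subgroup (Perm (A × L))) (x : Perm (A × L)) : Subgroup (Perm (A × L)) where
  carrier := {g | g ∈ G ∧ (g * x * g⁻¹ = x ∨ g * x * g⁻¹ = x⁻¹)}
  one_mem' := ⟨one_mem _, Or.inl (by simp)⟩
  mul_mem' := fun {a b} ha hb => ⟨mul_mem ha.1 hb.1, by
    have e : a * b * x * (a * b)⁻¹ = a * (b * x * b⁻¹) * a⁻¹ := by group
    have e' : a * x⁻¹ * a⁻¹ = (a * x * a⁻¹)⁻¹ := by group
    rw [e]
    rcases hb.2 with h | h <;> rw [h] <;> rcases ha.2 with k | k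
    · exact Or.inl k
    · exact Or.inr k
    · rw [e', k]; exact Or.inr rfl
    · rw [e', k]; exact Or.inl (inv_inv _)⟩
  inv_mem' := fun {a} ha => ⟨inv_mem ha.1, by
    rcases ha.2 with k | k
    · left
      conv_lhs => rw [← k]
      group
    · right
      have : x = (a * x * a⁻¹)⁻¹ := by rw [k, inv_inv]
      conv_lhs => rw [this]
      group⟩

theorem pr_pow (s : Perm A) (n : ℕ) : pr s (1 : Perm L) ^ n = pr (s ^ n) 1 := by
  induction n with
  | zero => rw [pow_zero, pow_zero, pr_one]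
  | succ n ih => rw [pow_succ, ih, pr_mul, pow_succ, mul_one]

variable [Fintype A] [DecidableEq A] [Fintype L] [DecidableEq L]
variable {G : Subgroup (Perm (A × L))} {X : Subgroup (Perm L)} {s : Perm A}

omit [Fintype L] [DecidableEq L] in
theorem Nx_step {g : Perm (A × L)} (hg : g ∈ Nx G (pr s 1)) (a : A) (l : L) :
    g (s a, l) = (s (g (a, l)).1, (g (a, l)).2) ∨
      g (s a, l) = (s⁻¹ (g (a, l)).1, (g (a, l)).2) := by
  have e : g (s a, l) = (g * pr s (1 : Perm L) * g⁻¹) (g (a, l)) := by simp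
  rcases hg.2 with h | h <;> rw [h] at e
  · exact Or.inl e
  · rw [pr_inv] at e
    exact Or.inr e

omit [Fintype L] [DecidableEq L] in
theorem Nx_supp {g : Perm (A × L)} (hg : g ∈ Nx G (pr s 1)) (p : A × L) :
    (g p).1 ∈ s.support ↔ p.1 ∈ s.support := by
  obtain ⟨a, l⟩ := p
  rw [mem_support, mem_support, not_iff_not]
  have k : s a = a ↔ g (s a, l) = g (a, l) := by simp
  rw [k]
  rcases Nx_step hg a l with h | h <;> rw [h, Prod.ext_iff]
  · simp
  · simp only [and_true]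
    rw [Perm.inv_eq_iff_eq, eq_comm]

omit [Fintype A] [DecidableEq A] [Fintype L] [DecidableEq L] in
theorem Nx_pow' {g : Perm (A × L)} (h : ∀ a l, (g (s a, l)).2 = (g (a, l)).2) (i : ℕ) (a : A)
    (l : L) : (g ((s ^ i) a, l)).2 = (g (a, l)).2 := by
  induction i with
  | zero => rfl
  | succ i ih => rw [pow_succ', Perm.mul_apply, h, ih]

omit [Fintype L] [DecidableEq L] in
theorem Nx_snd (hs : s.IsThreeCycle) {a₀ : A} (h0 : a₀ ∈ s.support) :
    ∀ g ∈ Nx G (pr s 1), ∀ a, a ∈ s.support → ∀ l, (g (a, l)).2 = (g (a₀, l)).2 := by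
  intro g hg a ha l
  obtain ⟨i, rfl⟩ := hs.isCycle.exists_pow_eq (mem_support.1 h0) (mem_support.1 ha)
  exact Nx_pow' (fun a l => by rcases Nx_step hg a l with h | h <;> rw [h]) i a₀ l

/-- action on the cycles of `x` -/
def ph (G : Subgroup (Perm (A × L))) (hs : s.IsThreeCycle) {a₀ : A} (h0 : a₀ ∈ s.support) :
    Nx G (pr s 1) →* Perm L :=
  ind _ (· ∈ s.support) a₀ h0 (fun _ hg p hp => (Nx_supp hg p).2 hp) (Nx_snd hs h0)

/-- action on the partial lines fixed by `x` -/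
def ph' (G : Subgroup (Perm (A × L))) {b₀ : A} (h0 : b₀ ∉ s.support)
    (hA : ∀ g ∈ Nx G (pr s 1), ∀ a, a ∉ s.support → ∀ l, (g (a, l)).2 = (g (b₀, l)).2) :
    Nx G (pr s 1) →* Perm L :=
  ind _ (· ∉ s.support) b₀ h0 (fun _ hg p hp => mt (Nx_supp hg p).1 hp) hA

omit [Fintype L] [DecidableEq L] in
theorem ph_apply (hs : s.IsThreeCycle) {a₀ : A} (h0 : a₀ ∈ s.support) (g : Nx G (pr s 1))
    {a : A} (ha : a ∈ s.support) (l : L) :
    ph G hs h0 g l = ((g : Perm (A × L)) (a, l)).2 := (Nx_snd hs h0 g g.2 a ha l).symm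

omit [Fintype L] [DecidableEq L] in
theorem ph'_apply {b₀ : A} (h0 : b₀ ∉ s.support)
    (hA : ∀ g ∈ Nx G (pr s 1), ∀ a, a ∉ s.support → ∀ l, (g (a, l)).2 = (g (b₀, l)).2)
    (g : Nx G (pr s 1)) {a : A} (ha : a ∉ s.support) (l : L) :
    ph' G h0 hA g l = ((g : Perm (A × L)) (a, l)).2 := (hA g g.2 a ha l).symm

theorem conj_comm {K : Type*} [Group K] {g u x : K}
    (h : g⁻¹ * x * g⁻¹⁻¹ = x ∨ g⁻¹ * x * g⁻¹⁻¹ = x⁻¹) (hu : u * x = x * u) :
    g * u * g⁻¹ * x = x * (g * u * g⁻¹) := by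
  have h2 : u * x⁻¹ = x⁻¹ * u := (Commute.inv_right hu).eq
  calc _ = g * (u * (g⁻¹ * x * g⁻¹⁻¹)) * g⁻¹ := by group
    _ = g * ((g⁻¹ * x * g⁻¹⁻¹) * u) * g⁻¹ := by
      rcases h with k | k <;> rw [k]
      · rw [hu]
      · rw [h2]
    _ = _ := by group

theorem ab_triv (c : Ctx G X) (hsm : ∃ σ ∈ X, σ ≠ 1 ∧ 2 * σ.support.card < Fintype.card L)
    (E : Subgroup (Perm L)) (hE : ∀ u ∈ E, ∀ v ∈ E, u * v = v * u)
    (hn : ∀ w ∈ X, ∀ u ∈ E, w * u * w⁻¹ ∈ E) : ∀ u ∈ E, u = 1 := by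
  rcases c.prim (fun l l' => ∃ u ∈ E, u l = l')
    ⟨fun _ => ⟨1, one_mem _, rfl⟩, fun ⟨u, hu, e⟩ => ⟨u⁻¹, inv_mem hu, by
      rw [Perm.inv_eq_iff_eq, e]⟩, fun ⟨u, hu, e⟩ ⟨v, hv, e'⟩ => ⟨v * u, mul_mem hv hu, by
      rw [Perm.mul_apply, e, e']⟩⟩
    (fun w hw l l' ⟨u, hu, e⟩ => ⟨_, hn w hw u hu, by simp [e]⟩) with h | h
  · exact fun u hu => Equiv.ext fun l => (h _ _ ⟨u, hu, rfl⟩).symm
  exfalso
  have reg : ∀ u ∈ E, ∀ l, u l = l → u = 1 := fun u hu l e => Equiv.ext fun l' => by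
    obtain ⟨v, hv, rfl⟩ := h l l'
    rw [← Perm.mul_apply, hE u hu v hv, Perm.mul_apply, e]; rfl
  obtain ⟨σ, hσ, h1, h2⟩ := hsm
  have cm : ∀ u ∈ E, σ * u * σ⁻¹ * u⁻¹ = 1 := fun u hu => by
    obtain ⟨l, hl⟩ := ex_avoid (σ.support ∪ σ.support.map u.toEmbedding) (by
      have := Finset.card_union_le σ.support (σ.support.map u.toEmbedding)
      rw [Finset.card_map] at this
      omega)
    rw [Finset.mem_union, not_or] at hl
    have a1 : σ l = l := notMem_support.1 hl.1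
    have a2 : σ (u⁻¹ l) = u⁻¹ l := notMem_support.1 fun e => hl.2 (Finset.mem_map.2 ⟨_, e, by simp⟩)
    refine reg _ (mul_mem (hn σ hσ u hu) (inv_mem hu)) l ?_
    have a3 : σ⁻¹ (u⁻¹ l) = u⁻¹ l := by rw [Perm.inv_eq_iff_eq, a2]
    simp only [Perm.mul_apply]
    rw [a3]; simpa using a1
  obtain ⟨l, hl⟩ := ex_avoid σ.support (by omega)
  refine h1 (Equiv.ext fun l' => ?_)
  obtain ⟨v, hv, rfl⟩ := h l l'
  have : σ * v = v * σ := by
    have : σ * v = (σ * v * σ⁻¹ * v⁻¹) * (v * σ) := by group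
    rw [this, cm v hv, one_mul]
  rw [← Perm.mul_apply, this, Perm.mul_apply, notMem_support.1 hl]; rfl

theorem Ctx.two_out (c : Ctx G X) (hs : s.IsThreeCycle) :
    ∃ b b', b ∉ s.support ∧ b' ∉ s.support ∧ b ≠ b' := by
  have := c.hm
  have h3 := hs.card_support
  obtain ⟨b, hb⟩ := ex_avoid s.support (by omega)
  obtain ⟨b', hb'⟩ := ex_avoid (insert b s.support) (by
    have := Finset.card_insert_le b s.support; omega)
  rw [Finset.mem_insert, not_or] at hb'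
  exact ⟨b, b', hb, hb'.2, Ne.symm hb'.1⟩

theorem Ctx.lift (c : Ctx G X) (hs : s.IsThreeCycle) {w : Perm L} (hw : w ∈ X) :
    ∃ τ : Perm A, pr τ w ∈ Nx G (pr s 1) := by
  obtain ⟨b, b', hb, hb', hbb⟩ := c.two_out hs
  rcases c.h2' hw hbb with h | h
  · exact ⟨1, h, Or.inl (by simp [pr_inv, pr_mul])⟩
  · refine ⟨_, h, Or.inl ?_⟩
    rw [pr_inv, pr_mul, pr_mul, swap_comm_of hb hb']; simp

theorem Ctx.invert (c : Ctx G X) (hs : s.IsThreeCycle) {a b b' : A} (ha : a ∈ s.support)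
    (hb : b ∉ s.support) (hb' : b' ∉ s.support) (hbb : b ≠ b') :
    pr (swap a (s a) * swap b b') (1 : Perm L) ∈ G ∧
      pr (swap a (s a) * swap b b') (1 : Perm L) * pr s 1 *
        (pr (swap a (s a) * swap b b') (1 : Perm L))⁻¹ = (pr s 1)⁻¹ ∧
      (swap a (s a) * swap b b') b = b' ∧ (swap a (s a) * swap b b') b' = b := by
  have k : ∀ y, y ∉ s.support → swap a (s a) y = y := fun y hy =>
    swap_apply_of_ne_of_ne (fun h => hy (h ▸ ha)) (fun h => hy (h ▸ apply_mem_support.2 ha))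
  refine ⟨c.h1 _ ?_, ?_, ?_, ?_⟩
  · rw [Perm.sign_mul, sign_swap hbb, sign_swap (mem_support.1 ha).symm]; simp
  · rw [pr_inv, pr_inv, pr_mul, pr_mul, ← swap_inverts hs ha, mul_assoc (swap a (s a)),
      swap_comm_of hb hb']
    simp only [mul_one, inv_one]
    congr 1
    group
  · rw [Perm.mul_apply, swap_apply_left, k _ hb']
  · rw [Perm.mul_apply, swap_apply_right, k _ hb]

omit [Fintype L] [DecidableEq L] in
theorem ker_pow (hs : s.IsThreeCycle) {a₀ : A} (h0 : a₀ ∈ s.support) (r : Nx G (pr s 1))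
    (hr : ph G hs h0 r = 1) {a : A} (ha : a ∈ s.support) (l : L) :
    ∃ i : ℕ, (r : Perm (A × L)) (a, l) = (pr s (1 : Perm L) ^ i) (a, l) := by
  have h1 : ((r : Perm (A × L)) (a, l)).2 = l := by
    rw [← ph_apply hs h0 r ha l]
    exact congrArg (fun u : Perm L => u l) hr
  obtain ⟨i, hi⟩ := hs.isCycle.exists_pow_eq (mem_support.1 ha)
    (mem_support.1 ((Nx_supp r.2 (a, l)).2 ha))
  exact ⟨i, by rw [pr_pow, pr_apply, hi]; exact Prod.ext rfl h1⟩

theorem Ctx.ker_six (c : Ctx G X)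
    (NJ : ∀ a, ∀ g ∈ G, (∀ l, g (a, l) = (a, l)) → ∃ σ : Perm A, g = pr σ 1)
    (hsm : ∃ σ ∈ X, σ ≠ 1 ∧ 2 * σ.support.card < Fintype.card L) (h6 : 6 ≤ Fintype.card A)
    (hs : s.IsThreeCycle) {a₀ : A} (h0 : a₀ ∈ s.support) (r : Nx G (pr s 1))
    (hr : ph G hs h0 r = 1) {b : A} (hb : b ∉ s.support) (l : L) :
    ((r : Perm (A × L)) (b, l)).2 = l := by
  obtain ⟨b₀, b₁, hb0, hb1, hbb⟩ := c.two_out hs
  have hA : ∀ g ∈ Nx G (pr s 1), ∀ a, a ∉ s.support → ∀ l, (g (a, l)).2 = (g (b₀, l)).2 := by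
    intro g hg a ha l
    obtain ⟨σ, h1, h2, h3⟩ := even_move s.support (by rw [hs.card_support]; omega) hb0 ha
    obtain ⟨σ', e⟩ := NJ a₀ (g * pr σ 1 * g⁻¹) (mul_mem (mul_mem hg.1 (c.h1 σ h1)) (inv_mem hg.1))
      fun m => by
        have := (Nx_supp (inv_mem hg) (a₀, m)).2 h0
        rw [Perm.mul_apply, Perm.mul_apply, pr_apply', h2 _ this]; simp
    have : g (a, l) = (g * pr σ (1 : Perm L) * g⁻¹) (g (b₀, l)) := by simp [h3]
    rw [this, e]; rfl
  let R₁ : Subgroup (Nx G (pr s 1)) := (ph G hs h0).ker ⊓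
    (centralizer {pr s (1 : Perm L)}).comap (Nx G (pr s 1)).subtype
  have mem : ∀ u : Nx G (pr s 1), u ∈ R₁ ↔ ph G hs h0 u = 1 ∧
      (u : Perm (A × L)) * pr s 1 = pr s (1 : Perm L) * (u : Perm (A × L)) := fun u => by
    simp only [R₁, mem_inf, MonoidHom.mem_ker, mem_comap, mem_centralizer_singleton_iff,
      coe_subtype]
  have key := ab_triv c hsm (R₁.map (ph' G hb0 hA)) (by
      rintro _ ⟨u, hu, rfl⟩ _ ⟨v, hv, rfl⟩
      rw [SetLike.mem_coe, mem] at hu hv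
      obtain ⟨σ, e⟩ := NJ a₀ ((v * u)⁻¹ * (u * v) : Nx G (pr s 1)) ((v * u)⁻¹ * (u * v)).2.1
        fun m => by
          obtain ⟨i, hi⟩ := ker_pow hs h0 u hu.1 h0 m
          obtain ⟨j, hj⟩ := ker_pow hs h0 v hv.1 h0 m
          have c1 := (Commute.pow_right hu.2 j).eq
          have c2 := (Commute.pow_right hv.2 i).eq
          simp only [Subgroup.coe_mul, Subgroup.coe_inv, Perm.mul_apply]
          rw [Perm.inv_eq_iff_eq, Perm.mul_apply, hi, hj, ← Perm.mul_apply, c1, ← Perm.mul_apply v.1,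
            c2, Perm.mul_apply, Perm.mul_apply, hi, hj, ← Perm.mul_apply, ← Perm.mul_apply,
            ← pow_add, ← pow_add, add_comm]
      have : ph' G hb0 hA ((v * u)⁻¹ * (u * v)) = 1 := Equiv.ext fun m => by
        rw [ph'_apply hb0 hA _ hb0, e]; rfl
      rw [map_mul, map_inv, inv_mul_eq_one, map_mul, map_mul] at this
      exact this.symm)
    (by
      rintro w hw _ ⟨u, hu, rfl⟩
      rw [SetLike.mem_coe, mem] at hu
      obtain ⟨τ, hτ⟩ := c.lift hs hw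
      have e : ph' G hb0 hA ⟨_, hτ⟩ = w := Equiv.ext fun m => by
        rw [ph'_apply hb0 hA _ hb0]; rfl
      refine ⟨⟨_, hτ⟩ * u * (⟨_, hτ⟩)⁻¹, ?_, by simp [e]⟩
      rw [SetLike.mem_coe, mem]
      refine ⟨by simp [hu.1], ?_⟩
      simp only [Subgroup.coe_mul, Subgroup.coe_inv]
      exact conj_comm (inv_mem hτ : (pr τ w)⁻¹ ∈ Nx G (pr s 1)).2 hu.2)
  have fin : ∀ u ∈ R₁, ∀ b, b ∉ s.support → ∀ l, ((u : Perm (A × L)) (b, l)).2 = l :=
    fun u hu b hb l => by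
      rw [← ph'_apply hb0 hA u hb l]
      exact congrArg (fun u : Perm L => u l) (key _ ⟨u, hu, rfl⟩)
  rcases r.2.2 with k | k
  · exact fin r ((mem r).2 ⟨hr, by rw [← mul_inv_eq_iff_eq_mul, k]⟩) b hb l
  · obtain ⟨i1, i2, -, -⟩ := c.invert (L := L) hs h0 hb0 hb1 hbb
    set t := swap a₀ (s a₀) * swap b₀ b₁
    let u : Nx G (pr s 1) := ⟨pr t 1, i1, Or.inr i2⟩
    have hu : ph G hs h0 u = 1 := Equiv.ext fun m => by rw [ph_apply hs h0 _ h0]; rfl
    have := fin (u * r) ((mem _).2 ⟨by rw [map_mul, hu, hr, one_mul], by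
      rw [← mul_inv_eq_iff_eq_mul]
      show pr t 1 * (r : Perm (A × L)) * pr s 1 * (pr t 1 * (r : Perm (A × L)))⁻¹ = _
      calc _ = pr t 1 * ((r : Perm (A × L)) * pr s 1 * (r : Perm (A × L))⁻¹) * (pr t 1)⁻¹ := by group
        _ = (pr t 1 * pr s 1 * (pr t 1)⁻¹)⁻¹ := by rw [k]; group
        _ = _ := by rw [i2, inv_inv]⟩) b hb l
    exact this

end Grid

end H7.PA
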