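import Cfsg.Agent.H7.PA2

/-! Product action wreath products, part 3: the centraliser of a coordinate 3-cycle. -/

set_option autoImplicit false

namespace H7.PA

open Equiv Equiv.Perm Subgroup

variable {A L : Type*} [Fintype A] [DecidableEq A] [Fintype L] [DecidableEq L]
variable {G : Subgroup (Perm (A × L))} {X : Subgroup (Perm L)} {s : Perm A}

omit [Fintype L] [DecidableEq L] in
theorem ker_pow12
    (NJ : ∀ a, ∀ g ∈ G, (∀ l, g (a, l) = (a, l)) → ∃ σ : Perm A, g = pr σ 1)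
    (hs : s.IsThreeCycle) {a₀ : A} (h0 : a₀ ∈ s.support) {b₀ b₁ : A}
    (two : ∀ y, y ∉ s.support → y = b₀ ∨ y = b₁) (l : L) (v : Nx G (pr s 1))
    (hv : ph G hs h0 v = 1) : v ^ 12 = 1 := by
  let v1 : Nx G (pr s 1) := v ^ 2
  have h1 : ph G hs h0 v1 = 1 := by rw [map_pow, hv, one_pow]
  have h2 : (v1 : Perm (A × L)) * pr s 1 = pr s (1 : Perm L) * (v1 : Perm (A × L)) := by
    have : (v1 : Perm (A × L)) = (v : Perm (A × L)) *
      (v : Perm (A × L)) := by simp [v1, pow_two]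
    rw [this]
    have k := v.2.2
    generalize (v : Perm (A × L)) = g at k ⊢
    generalize pr s (1 : Perm L) = x at k ⊢
    rw [← mul_inv_eq_iff_eq_mul]
    calc _ = g * (g * x * g⁻¹) * g⁻¹ := by group
      _ = _ := by
        rcases k with k | k <;> rw [k]
        · exact k
        · calc _ = (g * x * g⁻¹)⁻¹ := by group
            _ = _ := by rw [k, inv_inv]
  have h3 : ∀ a ∈ s.support, ∀ m, ((v1 : Perm (A × L)) ^ 3) (a, m) = (a, m) := fun a ha m => by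
    obtain ⟨i, hi⟩ := ker_pow hs h0 v1 h1 ha m
    have c1 := (Commute.pow_right h2 i).eq
    have c2 := (Commute.pow_right h2 (i + i)).eq
    rw [pow_succ, pow_two, Perm.mul_apply, Perm.mul_apply, hi, ← Perm.mul_apply _ (_ ^ i), c1,
      Perm.mul_apply, hi, ← Perm.mul_apply (_ ^ i), ← pow_add, ← Perm.mul_apply, c2,
      Perm.mul_apply, hi, ← Perm.mul_apply, ← pow_add, pr_pow,
      show i + i + i = 3 * i by ring, pow_mul, three_pow hs, one_pow]
    rfl
  obtain ⟨σ, e⟩ := NJ a₀ _ (pow_mem v1.2.1 3) (h3 a₀ h0)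
  have h4 : ∀ a ∈ s.support, σ a = a := fun a ha => by
    have := h3 a ha l
    rw [e] at this
    exact congrArg Prod.fst this
  have h5' : ∀ y, y ∉ s.support → σ y ∉ s.support := fun y hy hy' =>
    hy (by rw [← σ.injective (h4 _ hy')]; exact hy')
  have h6 : σ ^ 2 = 1 := by
    ext y
    rw [pow_two, Perm.mul_apply, Perm.one_apply]
    by_cases hy : y ∈ s.support
    · rw [h4 y hy, h4 y hy]
    · by_cases e1 : σ y = y
      · rw [e1, e1]
      have e2 : σ (σ y) ≠ σ y := fun e => e1 (σ.injective e)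
      rcases two y hy with k1 | k1 <;> rcases two _ (h5' y hy) with k2 | k2 <;>
        rcases two _ (h5' _ (h5' y hy)) with k3 | k3
      all_goals first
        | exact k3.trans k1.symm
        | exact absurd (k2.trans k1.symm) e1
        | exact absurd (k3.trans k2.symm) e2
  apply Subtype.ext
  have : ((v ^ 12 : Nx G (pr s 1)) : Perm (A × L)) = ((v1 : Perm (A × L)) ^ 3) ^ 2 := by
    simp [v1, ← pow_mul]
  rw [this, e, pr_pow, h6, pr_one]; rfl

omit [Fintype A] [DecidableEq A] [DecidableEq L] in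
theorem orb_dvd (R : Subgroup (Perm (A × L))) (U : A → Prop) (p₀ : A × L)
    (h1 : ∀ g ∈ R, U (g p₀).1) (h2 : ∀ p : A × L, U p.1 → ∃ g ∈ R, g p₀ = p) :
    Nat.card {a // U a} * Fintype.card L ∣ Nat.card R := by
  have o1 : MulAction.orbit R p₀ = {p | U p.1} := by
    ext p
    constructor
    · rintro ⟨v, rfl⟩
      exact h1 v v.2
    · intro hp
      obtain ⟨v, hv, e⟩ := h2 p hp
      exact ⟨⟨v, hv⟩, e⟩
  have o2 : Nat.card (MulAction.orbit R p₀) = Nat.card {a // U a} * Nat.card L := by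
    rw [o1, ← Nat.card_prod]
    exact Nat.card_congr
      { toFun := fun p => (⟨p.1.1, p.2⟩, p.1.2)
        invFun := fun p => ⟨(p.1.1, p.2), p.1.2⟩
        left_inv := fun _ => rfl
        right_inv := fun _ => rfl }
  rw [← Nat.card_eq_fintype_card, ← o2, Nat.card_congr (MulAction.orbitEquivQuotientStabilizer R p₀)]
  exact card_quotient_dvd_card _

theorem Ctx.ker_five (c : Ctx G X)
    (NJ : ∀ a, ∀ g ∈ G, (∀ l, g (a, l) = (a, l)) → ∃ σ : Perm A, g = pr σ 1)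
    (h5 : Fintype.card A = 5) (hL : 5 ∣ Fintype.card L)
    (hs : s.IsThreeCycle) {a₀ : A} (h0 : a₀ ∈ s.support) (r : Nx G (pr s 1))
    (hr : ph G hs h0 r = 1) {b : A} (hb : b ∉ s.support) (l : L) :
    ((r : Perm (A × L)) (b, l)).2 = l := by
  classical
  obtain ⟨b₀, b₁, hb0, hb1, hbb⟩ := c.two_out hs
  have two : ∀ y, y ∉ s.support → y = b₀ ∨ y = b₁ := fun y hy => by
    by_contra hn
    push Not at hn
    have h1 : ({y, b₀, b₁} : Finset A).card = 3 :=
      Finset.card_eq_three.2 ⟨_, _, _, hn.1, hn.2, hbb, rfl⟩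
    have h2 : ({y, b₀, b₁} : Finset A) ⊆ s.supportᶜ := by
      intro z hz
      simp only [Finset.mem_insert, Finset.mem_singleton] at hz
      rcases hz with rfl | rfl | rfl <;> exact Finset.mem_compl.2 ‹_›
    have := Finset.card_le_card h2
    rw [Finset.card_compl, hs.card_support] at this
    omega
  obtain ⟨i1, i2, i3, i4⟩ := c.invert (L := L) hs h0 hb0 hb1 hbb
  set t := swap a₀ (s a₀) * swap b₀ b₁
  let u : Nx G (pr s 1) := ⟨pr t 1, i1, Or.inr i2⟩
  have hu : ph G hs h0 u = 1 := Equiv.ext fun m => by rw [ph_apply hs h0 _ h0]; rfl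
  let R := (ph G hs h0).ker
  have adj : ∀ y y', y ∉ s.support → y' ∉ s.support → ∃ v ∈ R, ∀ m : L,
      (v : Perm (A × L)) (y, m) = (y', m) := fun y y' hy hy' => by
    rcases two y hy with rfl | rfl <;> rcases two y' hy' with rfl | rfl
    · exact ⟨1, one_mem _, fun _ => rfl⟩
    · exact ⟨u, hu, fun m => Prod.ext i3 rfl⟩
    · exact ⟨u, hu, fun m => Prod.ext i4 rfl⟩
    · exact ⟨1, one_mem _, fun _ => rfl⟩
  have up : ∀ v ∈ R, ∀ y y' m m', y ∉ s.support → y' ∉ s.support →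
      (v : Perm (A × L)) (y, m) = (y', m') → ∀ d d', d ∉ s.support → d' ∉ s.support →
      ∃ v ∈ R, (v : Perm (A × L)) (d, m) = (d', m') :=
    fun v hv y y' m m' hy hy' e d d' hd hd' => by
      obtain ⟨v1, k1, k2⟩ := adj d y hd hy
      obtain ⟨v2, k3, k4⟩ := adj y' d' hy' hd'
      exact ⟨v2 * v * v1, mul_mem (mul_mem k3 hv) k1, by
        simp only [Subgroup.coe_mul, Perm.mul_apply]; rw [k2, e, k4]⟩
  have eqv : Equivalence (fun l l' => ∃ v ∈ R, (v : Perm (A × L)) (b₀, l) = (b₀, l')) := by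
    refine ⟨fun _ => ⟨1, one_mem _, rfl⟩, ?_, ?_⟩
    · rintro m m' ⟨v, hv, e⟩
      exact ⟨v⁻¹, inv_mem hv, by rw [Subgroup.coe_inv, Perm.inv_eq_iff_eq, e]⟩
    · rintro m m' m'' ⟨v, hv, e⟩ ⟨v', hv', e'⟩
      exact ⟨v' * v, mul_mem hv' hv, by rw [Subgroup.coe_mul, Perm.mul_apply, e, e']⟩
  have inv : ∀ w ∈ X, ∀ l l', (∃ v ∈ R, (v : Perm (A × L)) (b₀, l) = (b₀, l')) →
      ∃ v ∈ R, (v : Perm (A × L)) (b₀, w l) = (b₀, w l') := by
    rintro w hw l l' ⟨v, hv, e⟩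
    obtain ⟨τ, hτ⟩ := c.lift hs hw
    have hτb : τ b₀ ∉ s.support := mt (Nx_supp hτ (b₀, l)).1 hb0
    let g : Nx G (pr s 1) := ⟨_, hτ⟩
    have k : g * v * g⁻¹ ∈ R := (MonoidHom.normal_ker _).conj_mem v hv g
    refine up _ k (τ b₀) (τ b₀) _ _ hτb hτb ?_ _ _ hb0 hb0
    show (pr τ w * (v : Perm (A × L)) * (pr τ w)⁻¹) _ = _
    rw [pr_inv, Perm.mul_apply, Perm.mul_apply, pr_apply τ⁻¹]
    simp [e]
  rcases c.prim _ eqv inv with h | h
  · have hb' : ((r : Perm (A × L)) (b, l)).1 ∉ s.support := mt (Nx_supp r.2 (b, l)).1 hb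
    exact (h _ _ (up r hr b _ l ((r : Perm (A × L)) (b, l)).2 hb hb' rfl _ _ hb0 hb0)).symm
  exfalso
  have o3 : 5 ∣ Nat.card R := by
    rw [← card_map_of_injective (Nx G (pr s 1)).subtype_injective]
    refine (Dvd.dvd.mul_left hL _).trans (orb_dvd (R.map (Nx G (pr s 1)).subtype)
      (· ∉ s.support) (b₀, l) ?_ ?_)
    · rintro _ ⟨v, -, rfl⟩
      exact mt (Nx_supp v.2 (b₀, l)).1 hb0
    · rintro ⟨y, m⟩ hy
      obtain ⟨v, hv, e⟩ := h l m
      obtain ⟨v', hv', e'⟩ := up v hv _ _ _ _ hb0 hb0 e _ _ hb0 hy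
      exact ⟨_, ⟨v', hv', rfl⟩, e'⟩
  haveI : Fact (Nat.Prime 5) := ⟨by norm_num⟩
  obtain ⟨v, hv⟩ := exists_prime_orderOf_dvd_card' 5 o3
  have h7 : v ^ 12 = 1 := Subtype.ext (ker_pow12 NJ hs h0 two l v v.2)
  have := orderOf_dvd_of_pow_eq_one h7
  rw [hv] at this
  omega

theorem aut_alt (hL : 7 ≤ Fintype.card L) (θ : alternatingGroup L →* Perm L) (hθ : θ ≠ 1) :
    ∃ π : Perm L, ∀ y : alternatingGroup L, θ y = π * y * π⁻¹ := by
  haveI := alternatingGroup.isSimpleGroup (α := L) (by simp; omega)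
  have h1 : ∀ y, θ y ∈ alternatingGroup L := fun y => by
    have : commutator (alternatingGroup L) ≤ (sign.comp θ).ker :=
      Abelianization.commutator_subset_ker _
    rw [commutator_alternatingGroup_eq_top (by simp; omega)] at this
    exact mem_alternatingGroup.2 (this (mem_top y))
  have h2 : Function.Injective (θ.codRestrict _ h1) := by
    rw [← MonoidHom.ker_eq_bot_iff, MonoidHom.ker_codRestrict]
    rcases IsSimpleGroup.eq_bot_or_eq_top_of_normal θ.ker inferInstance with e | e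
    · exact e
    · exact absurd (MonoidHom.ext fun y => MonoidHom.mem_ker.1 (by rw [e]; trivial)) hθ
  obtain ⟨π, hπ⟩ := H22.Alt.conj_surjective (α := L) (by omega) (by omega)
    (MulEquiv.ofBijective (θ.codRestrict _ h1) (Finite.injective_iff_bijective.1 h2))
  refine ⟨π, fun y => ?_⟩
  have := congrArg (fun u : MulAut (alternatingGroup L) => ((u y : alternatingGroup L) : Perm L)) hπ
  simpa using this.symm

theorem Ctx.norm (c : Ctx G X)
    (NJ : ∀ a, ∀ g ∈ G, (∀ l, g (a, l) = (a, l)) → ∃ σ : Perm A, g = pr σ 1)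
    (hsm : ∃ σ ∈ X, σ ≠ 1 ∧ 2 * σ.support.card < Fintype.card L)
    (h5 : Fintype.card A = 5 → 5 ∣ Fintype.card L)
    (hIH : ∀ Y : Subgroup (Perm L), X ≤ Y → Y ≤ X ∨ alternatingGroup L ≤ Y)
    (hcent : ∀ π : Perm L, (∀ w ∈ X, sign w = 1 → π * w = w * π) → π = 1)
    (hev : ∃ w ∈ X, sign w = 1 ∧ w ≠ 1)
    (hL : X = ⊤ ∨ 7 ≤ Fintype.card L) (hs : s.IsThreeCycle) :
    (∀ g ∈ G, g * pr s 1 = pr s 1 * g → ∃ τ : Perm A, ∃ w ∈ X, g = pr τ w) ∨
    (X ≠ ⊤ ∧ ∀ ρ : Perm L, ρ.IsThreeCycle → ∃ h ∈ G, h ≠ 1 ∧ ∀ a l, ρ l = l → h (a, l) = (a, l)) := by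
  have hm := c.hm
  obtain ⟨a₀, h0⟩ : s.support.Nonempty := Finset.card_pos.1 (by rw [hs.card_support]; omega)
  obtain ⟨b₀, b₁, hb0, hb1, hbb⟩ := c.two_out hs
  have hR : ∀ r : Nx G (pr s 1), ph G hs h0 r = 1 → ∀ p, ((r : Perm (A × L)) p).2 = p.2 :=
    fun r hr ⟨a, l⟩ => by
      by_cases ha : a ∈ s.support
      · rw [← ph_apply hs h0 r ha l, hr]; rfl
      · rcases Nat.eq_or_lt_of_le hm with e | e
        · exact c.ker_five NJ e.symm (h5 e.symm) hs h0 r hr ha l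
        · exact c.ker_six NJ hsm e hs h0 r hr ha l
  have hW : ∀ w ∈ X, ∃ τ : Perm A, ∃ h : pr τ w ∈ Nx G (pr s 1), ph G hs h0 ⟨_, h⟩ = w :=
    fun w hw => by
      obtain ⟨τ, hτ⟩ := c.lift hs hw
      exact ⟨τ, hτ, Equiv.ext fun m => by rw [ph_apply hs h0 _ h0]; rfl⟩
  by_cases hX : (ph G hs h0).range ≤ X
  · left
    intro g hg hgx
    let g' : Nx G (pr s 1) := ⟨g, hg, Or.inl (by rw [hgx]; group)⟩
    obtain ⟨τ, hτ, e⟩ := hW _ (hX ⟨g', rfl⟩)
    obtain ⟨σ, e'⟩ := c.lines (g' * (⟨_, hτ⟩)⁻¹ : Nx G (pr s 1)).2.1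
      (hR _ (by rw [map_mul, map_inv, e, mul_inv_cancel]))
    refine ⟨σ * τ, _, hX ⟨g', rfl⟩, ?_⟩
    rw [Subgroup.coe_mul, Subgroup.coe_inv, mul_inv_eq_iff_eq_mul, pr_mul, one_mul] at e'
    exact e'
  right
  have hX' : X ≠ ⊤ := fun e => hX (e ▸ le_top)
  have hL7 := hL.resolve_left hX'
  have hAlt : alternatingGroup L ≤ (ph G hs h0).range :=
    (hIH _ fun w hw => by obtain ⟨τ, hτ, e⟩ := hW w hw; exact ⟨_, e⟩).resolve_left hX
  refine ⟨hX', fun ρ hρ => ?_⟩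
  have hA : ∀ g ∈ Nx G (pr s 1), ∀ a, a ∉ s.support → ∀ l, (g (a, l)).2 = (g (b₀, l)).2 := by
    intro g hg a ha l
    by_cases e : b₀ = a
    · rw [e]
    obtain ⟨i1, i2, i3, -⟩ := c.invert (L := L) hs h0 hb0 ha e
    set t := swap a₀ (s a₀) * swap b₀ a
    let u : Nx G (pr s 1) := ⟨pr t 1, i1, Or.inr i2⟩
    have hu : ph G hs h0 u = 1 := Equiv.ext fun m => by rw [ph_apply hs h0 _ h0]; rfl
    have := hR (⟨g, hg⟩ * u * (⟨g, hg⟩)⁻¹) (by simp [hu]) (g (b₀, l))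
    simpa [u, i3] using this
  let M₀ := (alternatingGroup L).comap (ph G hs h0)
  let φ₀ : M₀ →* alternatingGroup L :=
    ((ph G hs h0).comp M₀.subtype).codRestrict _ fun g => g.2
  have hs0 : Function.Surjective φ₀ := fun y => by
    obtain ⟨g, hg⟩ := hAlt y.2
    exact ⟨⟨g, by rw [mem_comap, hg]; exact y.2⟩, Subtype.ext hg⟩
  have hk : φ₀.ker ≤ ((ph' G hb0 hA).comp M₀.subtype).ker := fun g hg => by
    have : ph G hs h0 g = 1 := congrArg Subtype.val hg
    exact Equiv.ext fun l => (ph'_apply hb0 hA _ hb0 l).trans (hR _ this _)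
  let θ := φ₀.liftOfSurjective hs0 ⟨_, hk⟩
  have hθ : ∀ g : M₀, θ (φ₀ g) = ph' G hb0 hA g := fun g =>
    φ₀.liftOfRightInverse_comp_apply _ _ ⟨_, hk⟩ g
  have hθX : ∀ w ∈ X, ∀ h : sign w = 1, θ ⟨w, mem_alternatingGroup.2 h⟩ = w := fun w hw h => by
    obtain ⟨τ, hτ, e⟩ := hW w hw
    have := hθ ⟨⟨_, hτ⟩, by rw [mem_comap, e]; exact mem_alternatingGroup.2 h⟩
    rw [show (⟨w, mem_alternatingGroup.2 h⟩ : alternatingGroup L) = φ₀ ⟨⟨_, hτ⟩, by
      rw [mem_comap, e]; exact mem_alternatingGroup.2 h⟩ from Subtype.ext e.symm, this]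
    exact Equiv.ext fun l => by rw [ph'_apply hb0 hA _ hb0]; rfl
  obtain ⟨π, hπ⟩ := aut_alt hL7 θ fun e => by
    obtain ⟨w, hw, h1, h2⟩ := hev
    have := hθX w hw h1
    rw [e] at this
    exact h2 this.symm
  have hπ1 : π = 1 := hcent π fun w hw h => by
    have := hπ ⟨w, mem_alternatingGroup.2 h⟩
    rw [hθX w hw h] at this
    exact mul_inv_eq_iff_eq_mul.1 this.symm
  obtain ⟨g, hg⟩ := hs0 ⟨ρ, hρ.mem_alternatingGroup⟩
  have e1 : ph G hs h0 g = ρ := congrArg Subtype.val hg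
  have e2 : ph' G hb0 hA g = ρ := by rw [← hθ, hg, hπ, hπ1]; simp
  set y : Perm (A × L) := ((g : Nx G (pr s 1)) : Perm (A × L)) with hy
  have hyG : y ∈ G := (g : Nx G (pr s 1)).2.1
  have e3 : ∀ p, (y p).2 = ρ p.2 := fun ⟨a, l⟩ => by
    by_cases ha : a ∈ s.support
    · rw [← e1, ph_apply hs h0 _ ha]
    · rw [← e2, ph'_apply hb0 hA _ ha]
  have e4 : ∀ p, (y⁻¹ p).2 = ρ⁻¹ p.2 := fun p => by
    rw [eq_comm, Perm.inv_eq_iff_eq, ← e3]; simp
  let f : ∀ l, ρ l = l → Perm A := fun l hl => Equiv.ofBijective (fun a => (y (a, l)).1)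
    (Finite.injective_iff_bijective.1 fun a a' e => congrArg Prod.fst
      (y.injective (Prod.ext e (by rw [e3, e3]) : y (a, l) = y (a', l))))
  have e5 : ∀ l hl a, y (a, l) = (f l hl a, l) := fun l hl a => Prod.ext rfl (by rw [e3, hl])
  have e6 : ∀ l hl l' hl', f l hl = f l' hl' := fun l hl l' hl' => by
    rw [← inv_mul_eq_one]
    refine cent_alt (by omega) fun σ hσ => ?_
    obtain ⟨σ', e⟩ := c.lines (mul_mem (mul_mem hyG (c.h1 σ hσ)) (inv_mem hyG)) fun p => by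
      rw [Perm.mul_apply, Perm.mul_apply, e3, pr_apply', Perm.one_apply, e4]; simp
    rw [mul_inv_eq_iff_eq_mul] at e
    have k : ∀ l hl, f l hl * σ = σ' * f l hl := fun l hl => Equiv.ext fun a => by
      have := congrArg (fun u : Perm (A × L) => (u (a, l)).1) e
      simp only [Perm.mul_apply, pr_apply, Perm.one_apply, e5 l hl] at this
      exact this
    calc _ = (f l hl)⁻¹ * (f l' hl' * σ) := by group
      _ = (f l hl)⁻¹ * (σ' * f l hl) * ((f l hl)⁻¹ * f l' hl') := by rw [k l' hl']; group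
      _ = _ := by rw [← k l hl]; group
  obtain ⟨l₀, hl₀⟩ := ex_avoid ρ.support (by rw [hρ.card_support]; omega)
  have hl0 := notMem_support.1 hl₀
  refine ⟨pr (f l₀ hl0 * f l₀ hl0)⁻¹ 1 * (y * y), mul_mem (c.h1 _ (by simp)) (mul_mem hyG hyG),
    fun e => ?_, fun a l hl => ?_⟩
  · have k : ρ * ρ = 1 := Equiv.ext fun l => by
      have := congrArg (fun u : Perm (A × L) => (u (a₀, l)).2) e
      simp only [Perm.mul_apply, pr_apply', Perm.one_apply, e3] at this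
      exact this
    have := orderOf_dvd_of_pow_eq_one (show ρ ^ 2 = 1 by rw [pow_two, k])
    rw [hρ.orderOf] at this
    omega
  · rw [Perm.mul_apply, Perm.mul_apply, e5 l hl, e5 l hl, e6 l hl l₀ hl0, pr_apply]; simp

end H7.PA
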