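import Cfsg.Agent.H17.Bochert
import Cfsg.Agent.H7.PA1

/-! Product action wreath products, part 4: Jordan sets. -/

set_option autoImplicit false

namespace H7.PA

open Equiv Equiv.Perm Subgroup

variable {Ω : Type*} [Fintype Ω] [DecidableEq Ω] {G : Subgroup (Perm Ω)}

/-- the complement of `Δ` is a Jordan set -/
def JC (G : Subgroup (Perm Ω)) (Δ : Finset Ω) : Prop :=
  ∀ p q, p ∉ Δ → q ∉ Δ → ∃ g ∈ G, (∀ ω ∈ Δ, g ω = ω) ∧ g p = q

/-- `t`-fold transitivity -/
def Tr (G : Subgroup (Perm Ω)) (t : ℕ) : Prop := ∀ X : Finset Ω, X.card < t → JC G X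

omit [Fintype Ω] in
theorem JC.inter {Δ Γ : Finset Ω} (h1 : JC G Δ) (h2 : JC G Γ) {ω : Ω} (k1 : ω ∉ Δ) (k2 : ω ∉ Γ) :
    JC G (Δ ∩ Γ) := by
  have key : ∀ p, p ∉ Δ ∩ Γ → ∃ g ∈ G, (∀ ω ∈ Δ ∩ Γ, g ω = ω) ∧ g p = ω := fun p hp => by
    rw [Finset.mem_inter, not_and_or] at hp
    rcases hp with hp | hp
    · obtain ⟨g, hg, a, b⟩ := h1 p ω hp k1
      exact ⟨g, hg, fun y hy => a y (Finset.mem_inter.1 hy).1, b⟩
    · obtain ⟨g, hg, a, b⟩ := h2 p ω hp k2
      exact ⟨g, hg, fun y hy => a y (Finset.mem_inter.1 hy).2, b⟩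
  intro p q hp hq
  obtain ⟨g, hg, a, b⟩ := key p hp
  obtain ⟨g', hg', a', b'⟩ := key q hq
  refine ⟨g'⁻¹ * g, mul_mem (inv_mem hg') hg, fun y hy => ?_, ?_⟩
  · rw [Perm.mul_apply, a y hy, Perm.inv_eq_iff_eq, a' y hy]
  · rw [Perm.mul_apply, b, Perm.inv_eq_iff_eq, b']

omit [Fintype Ω] in
theorem mem_img {Δ : Finset Ω} {g : Perm Ω} {p : Ω} : p ∈ Δ.image g ↔ g⁻¹ p ∈ Δ := by
  rw [Finset.mem_image]
  exact ⟨fun ⟨y, hy, e⟩ => by rw [← e]; simpa using hy, fun h => ⟨_, h, by simp⟩⟩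

omit [Fintype Ω] in
theorem card_img (Δ : Finset Ω) (g : Perm Ω) : (Δ.image g).card = Δ.card :=
  Finset.card_image_of_injective _ g.injective

omit [Fintype Ω] in
theorem JC.image {Δ : Finset Ω} (h : JC G Δ) {g : Perm Ω} (hg : g ∈ G) : JC G (Δ.image g) := by
  intro p q hp hq
  rw [mem_img] at hp hq
  obtain ⟨u, hu, a, b⟩ := h _ _ hp hq
  refine ⟨g * u * g⁻¹, mul_mem (mul_mem hg hu) (inv_mem hg), fun y hy => ?_, ?_⟩
  · rw [Perm.mul_apply, Perm.mul_apply, a _ (mem_img.1 hy)]; simp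
  · rw [Perm.mul_apply, Perm.mul_apply, b]; simp

omit [Fintype Ω] [DecidableEq Ω] in
theorem Tr.mono {t t' : ℕ} (h : Tr G t) (k : t' ≤ t) : Tr G t' :=
  fun X hX => h X (by omega)

omit [Fintype Ω] in
theorem Tr.exists_map {t : ℕ} (h : Tr G t) (u : Ω → Ω) (X : Finset Ω) :
    X.card ≤ t → Set.InjOn u X → ∃ g ∈ G, ∀ x ∈ X, g x = u x := by
  induction X using Finset.induction_on with
  | empty => exact fun _ _ => ⟨1, one_mem _, by simp⟩
  | insert a X ha ih =>
    intro hc hu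
    rw [Finset.card_insert_of_notMem ha] at hc
    obtain ⟨g, hg, e⟩ := ih (by omega) (hu.mono (by simp))
    obtain ⟨v, hv, k1, k2⟩ := h (X.image g) (by rw [card_img]; omega) (g a) (u a)
      (by rw [mem_img]; simpa using ha) (fun hm => by
        obtain ⟨y, hy, e'⟩ := Finset.mem_image.1 hm
        rw [e y hy] at e'
        exact ha (hu (by simp [hy]) (by simp) e' ▸ hy))
    refine ⟨v * g, mul_mem hv hg, fun x hx => ?_⟩
    rcases Finset.mem_insert.1 hx with rfl | hx
    · exact k2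
    · rw [Perm.mul_apply, k1 _ (Finset.mem_image_of_mem _ hx), e x hx]

omit [Fintype Ω] in
theorem Tr.mt {t : ℕ} (h : Tr G t) : MulAction.IsMultiplyPretransitive G Ω t := by
  classical
  rw [MulAction.isMultiplyPretransitive_iff]
  intro x y
  rcases isEmpty_or_nonempty (Fin t) with ht | ht
  · exact ⟨1, Subsingleton.elim _ _⟩
  obtain ⟨g, hg, e⟩ := h.exists_map (fun ω => y (Function.invFun x ω)) (Finset.univ.image x)
    (by rw [Finset.card_image_of_injective _ x.injective]; simp) (by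
      intro a ha b hb e
      obtain ⟨i, -, rfl⟩ := Finset.mem_image.1 ha
      obtain ⟨j, -, rfl⟩ := Finset.mem_image.1 hb
      simp only [Function.leftInverse_invFun x.injective _] at e
      rw [y.injective e])
  refine ⟨⟨g, hg⟩, Function.Embedding.ext fun i => ?_⟩
  have := e (x i) (by simp)
  rw [Function.leftInverse_invFun x.injective] at this
  exact this

omit [Fintype Ω] in
theorem Tr.image_eq {t : ℕ} (h : Tr G t) {X Y : Finset Ω} (h1 : X.card ≤ t)
    (h2 : X.card = Y.card) : ∃ g ∈ G, X.image g = Y := by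
  classical
  let e := Finset.equivOfCardEq h2
  obtain ⟨g, hg, k⟩ := h.exists_map (fun ω => if hω : ω ∈ X then (e ⟨ω, hω⟩ : Ω) else ω) X h1 (by
    intro a ha b hb e'
    simp only [Finset.mem_coe] at ha hb
    simp only [dif_pos ha, dif_pos hb] at e'
    exact congrArg Subtype.val (e.injective (Subtype.ext e')))
  refine ⟨g, hg, Finset.eq_of_subset_of_card_le (fun y hy => ?_) (by rw [card_img, h2])⟩
  obtain ⟨x, hx, rfl⟩ := Finset.mem_image.1 hy
  rw [k x hx, dif_pos hx]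
  exact (e ⟨x, hx⟩).2

/-- small Jordan complements -/
def SJ (G : Subgroup (Perm Ω)) (Δ : Finset Ω) : Prop := JC G Δ ∧ 2 * Δ.card < Fintype.card Ω

/-- closure -/
def IsCl (G : Subgroup (Perm Ω)) (X B : Finset Ω) : Prop :=
  SJ G B ∧ X ⊆ B ∧ ∀ Δ, SJ G Δ → X ⊆ Δ → B ⊆ Δ

theorem SJ.image {Δ : Finset Ω} (h : SJ G Δ) {g : Perm Ω} (hg : g ∈ G) : SJ G (Δ.image g) :=
  ⟨h.1.image hg, by rw [card_img]; exact h.2⟩

theorem SJ.inter {Δ Γ : Finset Ω} (h1 : SJ G Δ) (h2 : SJ G Γ) : SJ G (Δ ∩ Γ) := by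
  obtain ⟨ω, hω⟩ := ex_avoid (Δ ∪ Γ) (by
    have := Finset.card_union_le Δ Γ
    have := h1.2
    have := h2.2
    omega)
  rw [Finset.mem_union, not_or] at hω
  refine ⟨h1.1.inter h2.1 hω.1 hω.2, ?_⟩
  have := Finset.card_le_card (Finset.inter_subset_left (s₁ := Δ) (s₂ := Γ))
  have := h1.2
  omega

theorem exists_cl {X Δ : Finset Ω} (h : SJ G Δ) (hX : X ⊆ Δ) : ∃ B, IsCl G X B := by
  obtain ⟨B, hB, hm⟩ := exists_minimalFor_of_wellFoundedLT (fun B => SJ G B ∧ X ⊆ B) Finset.card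
    ⟨Δ, h, hX⟩
  refine ⟨B, hB.1, hB.2, fun Γ h1 h2 => ?_⟩
  have k : (B ∩ Γ).card ≤ B.card := Finset.card_le_card Finset.inter_subset_left
  have := Finset.eq_of_subset_of_card_le Finset.inter_subset_left
    (hm ⟨hB.1.inter h1, Finset.subset_inter hB.2 h2⟩ k)
  rw [← this]
  exact Finset.inter_subset_right

theorem IsCl.image {X B : Finset Ω} (h : IsCl G X B) {g : Perm Ω} (hg : g ∈ G) :
    IsCl G (X.image g) (B.image g) := by
  refine ⟨h.1.image hg, Finset.image_subset_image h.2.1, fun Δ h1 h2 y hy => ?_⟩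
  have := h.2.2 _ (h1.image (inv_mem hg)) (fun x hx => by
    rw [mem_img, inv_inv]; exact h2 (Finset.mem_image_of_mem _ hx)) (mem_img.1 hy)
  rw [mem_img] at this
  simpa using this

theorem IsCl.uniq {X B B' : Finset Ω} (h : IsCl G X B) (h' : IsCl G X B') : B = B' :=
  Finset.Subset.antisymm (h.2.2 _ h'.1 h'.2.1) (h'.2.2 _ h.1 h.2.1)

theorem SJ.extend {H : Finset Ω} (hH : SJ G H) (n : ℕ) : ∀ F : Finset Ω, ∀ g ∈ G, F ⊆ H →
    F.image g ⊆ H → JC G (F.image g) → H.card - F.card = n →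
    ∃ g' ∈ G, H.image g' = H ∧ ∀ ω ∈ F, g' ω = g ω := by
  induction n using Nat.strong_induction_on with
  | _ n ih =>
  intro F g hg h1 h2 h3 h4
  by_cases e : H.card ≤ F.card
  · have := Finset.eq_of_subset_of_card_le h1 e
    subst this
    exact ⟨g, hg, Finset.eq_of_subset_of_card_le h2 (by rw [card_img]), fun _ _ => rfl⟩
  obtain ⟨δ, d1, d2⟩ := Finset.exists_mem_notMem_of_card_lt_card (s := F) (t := H) (by omega)
  obtain ⟨δ', d3, d4⟩ := Finset.exists_mem_notMem_of_card_lt_card (s := F.image g) (t := H)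
    (by rw [card_img]; omega)
  obtain ⟨u, hu, u1, u2⟩ := h3 (g δ) δ' (by rw [mem_img]; simpa using d2) d4
  have s1 : insert δ F ⊆ H := Finset.insert_subset d1 h1
  obtain ⟨B, hB⟩ := exists_cl hH s1
  have hB' := hB.image (mul_mem hu hg)
  have k : ∀ ω ∈ F, (u * g) ω = g ω := fun ω hω => u1 _ (Finset.mem_image_of_mem _ hω)
  have c1 := Finset.card_le_card hB.2.1
  rw [Finset.card_insert_of_notMem d2] at c1
  obtain ⟨g', hg', a, b⟩ := ih (H.card - B.card) (by omega) B _ (mul_mem hu hg)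
    (hB.2.2 _ hH s1) (hB'.2.2 _ hH fun y hy => by
      obtain ⟨x, hx, rfl⟩ := Finset.mem_image.1 hy
      rcases Finset.mem_insert.1 hx with rfl | hx
      · rw [Perm.mul_apply, u2]; exact d3
      · rw [k x hx]; exact h2 (Finset.mem_image_of_mem _ hx)) hB'.1.1 rfl
  exact ⟨g', hg', a, fun ω hω => by rw [b ω (hB.2.1 (Finset.mem_insert_of_mem hω)), k ω hω]⟩

theorem SJ.two_trans {H : Finset Ω} (hH : SJ G H) (h2 : Tr G 2) {a b a' b' : Ω} (ha : a ∈ H)
    (hb : b ∈ H) (ha' : a' ∈ H) (hb' : b' ∈ H) (hab : a ≠ b) (hab' : a' ≠ b') :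
    ∃ g ∈ G, H.image g = H ∧ g a = a' ∧ g b = b' := by
  obtain ⟨g, hg, e⟩ := h2.exists_map (fun ω => if ω = a then a' else b') {a, b}
    Finset.card_le_two (by
      intro x hx y hy
      simp only [Finset.coe_insert, Finset.coe_singleton, Set.mem_insert_iff,
        Set.mem_singleton_iff] at hx hy
      rcases hx with rfl | rfl <;> rcases hy with rfl | rfl <;> simp [hab.symm, hab', hab'.symm])
  have e1 : g a = a' := by simpa using e a (by simp)
  have e2 : g b = b' := by simpa [hab.symm] using e b (by simp)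
  have s1 : ({a, b} : Finset Ω) ⊆ H := by intro y hy; simp at hy; rcases hy with rfl | rfl <;> assumption
  obtain ⟨B, hB⟩ := exists_cl hH s1
  have hB' := hB.image hg
  obtain ⟨g', hg', k1, k2⟩ := hH.extend _ B g hg (hB.2.2 _ hH s1) (hB'.2.2 _ hH fun y hy => by
    simp only [Finset.image_insert, Finset.image_singleton, Finset.mem_insert,
      Finset.mem_singleton, e1, e2] at hy
    rcases hy with rfl | rfl <;> assumption) hB'.1.1 rfl
  exact ⟨g', hg', k1, by rw [k2 a (hB.2.1 (by simp)), e1], by rw [k2 b (hB.2.1 (by simp)), e2]⟩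

/-- the Steiner system of blocks -/
structure Stein (G : Subgroup (Perm Ω)) (h t : ℕ) : Prop where
  t2 : 2 ≤ t
  th : t < h
  tr : Tr G t
  ex : ∀ X : Finset Ω, X.card = t → ∃ B, SJ G B ∧ B.card = h ∧ X ⊆ B
  un : ∀ B B' : Finset Ω, SJ G B → B.card = h → SJ G B' → B'.card = h → t ≤ (B ∩ B').card → B = B'

theorem SJ.steiner {H : Finset Ω} (hH : SJ G H) (h2 : Tr G 2)
    (hA : ∀ x₁ ∈ H, ∀ x₂ ∈ H, ∀ y ∈ H, ∀ e ∈ H, x₁ ≠ x₂ → y ≠ e →
      ∃ g ∈ G, ∀ ω ∈ H, g ω = (swap x₁ x₂ * swap y e) ω) :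
    Tr G (H.card + 1) ∨ ∃ t, Stein G H.card t := by
  by_cases hT : Tr G (H.card + 1)
  · exact Or.inl hT
  right
  classical
  have hex : ∃ t, ¬ Tr G (t + 1) := ⟨_, hT⟩
  set t := Nat.find hex with ht
  have n1 : ¬ Tr G (t + 1) := Nat.find_spec hex
  have n2 : t ≤ H.card := Nat.find_min' hex hT
  have n3 : 2 ≤ t := by
    by_contra hn
    exact n1 (h2.mono (by omega))
  have n4 : Tr G t := by
    have := Nat.find_min hex (m := t - 1) (by omega)
    rw [not_not, show t - 1 + 1 = t by omega] at this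
    exact this
  have n5 : ∀ X : Finset Ω, X.card = t → ¬ JC G X := fun X hX hJ => n1 fun Y hY => by
    rcases Nat.lt_succ_iff_lt_or_eq.1 hY with k | k
    · exact n4 Y k
    · obtain ⟨g, hg, rfl⟩ := n4.image_eq (X := X) (Y := Y) hX.le (hX.trans k.symm)
      exact hJ.image hg
  obtain ⟨X₀, x1, x2⟩ := Finset.exists_subset_card_eq n2
  have c0 : IsCl G X₀ H := by
    obtain ⟨B, hB⟩ := exists_cl hH x1
    have b1 := hB.2.2 _ hH x1
    suffices B = H from this ▸ hB
    by_contra hne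
    obtain ⟨e, e1, e2⟩ := Finset.exists_of_ssubset (lt_of_le_of_ne b1 hne)
    obtain ⟨y, y1, y2⟩ := Finset.exists_of_ssubset
      (lt_of_le_of_ne hB.2.1 fun e => n5 X₀ x2 (e ▸ hB.1.1))
    obtain ⟨a, ha, b, hb, hab⟩ := Finset.one_lt_card.1 (show 1 < X₀.card by omega)
    have e3 : e ∉ X₀ := fun h => e2 (hB.2.1 h)
    obtain ⟨g, hg, k⟩ := hA a (x1 ha) b (x1 hb) y (b1 y1) e e1 hab (fun h => e2 (h ▸ y1))
    have k1 : X₀.image g = X₀ := Finset.eq_of_subset_of_card_le (fun z hz => by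
      obtain ⟨x, hx, rfl⟩ := Finset.mem_image.1 hz
      rw [k x (x1 hx), Perm.mul_apply, swap_apply_of_ne_of_ne (ne_of_mem_of_not_mem hx y2)
        (ne_of_mem_of_not_mem hx e3), swap_apply_def]
      split_ifs <;> assumption) (by rw [card_img])
    have k2 := hB.image hg
    rw [k1] at k2
    refine e2 (k2.uniq hB ▸ Finset.mem_image.2 ⟨y, y1, ?_⟩)
    rw [k y (b1 y1), Perm.mul_apply, swap_apply_left,
      swap_apply_of_ne_of_ne (ne_of_mem_of_not_mem ha e3).symm (ne_of_mem_of_not_mem hb e3).symm]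
  have c1 : ∀ X : Finset Ω, X.card = t → ∃ B, IsCl G X B ∧ B.card = H.card := fun X hX => by
    obtain ⟨g, hg, rfl⟩ := n4.image_eq (X := X₀) (Y := X) x2.le (x2.trans hX.symm)
    exact ⟨_, c0.image hg, card_img _ _⟩
  refine ⟨t, n3, lt_of_le_of_ne n2 fun e => ?_, n4, fun X hX => ?_, fun B B' h1 h2 h3 h4 h5 => ?_⟩
  · exact n5 H e.symm hH.1
  · obtain ⟨B, hB, e⟩ := c1 X hX
    exact ⟨B, hB.1, e, hB.2.1⟩
  · obtain ⟨X, k1, k2⟩ := Finset.exists_subset_card_eq h5
    obtain ⟨C, hC, e⟩ := c1 X k2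
    rw [← Finset.eq_of_subset_of_card_le (hC.2.2 _ h1 (k1.trans Finset.inter_subset_left))
      (by omega), ← Finset.eq_of_subset_of_card_le
      (hC.2.2 _ h3 (k1.trans Finset.inter_subset_right)) (by omega)]

theorem Stein.inter {h t : ℕ} (S : Stein G h t) {H B U : Finset Ω} (hH : SJ G H) (e : H.card = h)
    (hB : SJ G B) (e' : B.card = h) {δ : Ω} (d1 : δ ∈ B) (d2 : δ ∉ H) (u1 : U ⊆ B) (u2 : U ⊆ H)
    (u3 : U.card + 1 = t) : B ∩ H = U := by
  symm
  refine Finset.eq_of_subset_of_card_le (Finset.subset_inter u1 u2) ?_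
  by_contra hn
  exact d2 (S.un _ _ hB e' hH e (by omega) ▸ d1)

theorem Stein.bound {h t : ℕ} (S : Stein G h t) {H : Finset Ω} (hH : SJ G H) (e : H.card = h) :
    (h - t + 2) * (h - t) + h + 1 ≤ Fintype.card Ω := by
  have t2 := S.t2
  have th := S.th
  have hs := hH.2
  obtain ⟨δ, hδ⟩ := ex_avoid H (by omega)
  obtain ⟨U, u1, u2⟩ := Finset.exists_subset_card_eq (show t - 2 ≤ H.card by omega)
  have key : ∀ u ∈ H \ U, ∃ B, SJ G B ∧ B.card = h ∧ δ ∈ B ∧ B ∩ H = insert u U := fun u hu => by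
    rw [Finset.mem_sdiff] at hu
    have s1 : insert u U ⊆ H := Finset.insert_subset hu.1 u1
    have c1 : (insert u U).card + 1 = t := by rw [Finset.card_insert_of_notMem hu.2]; omega
    obtain ⟨B, b1, b2, b3⟩ := S.ex (insert δ (insert u U)) (by
      rw [Finset.card_insert_of_notMem fun h => hδ (s1 h)]; exact c1)
    exact ⟨B, b1, b2, b3 (by simp), S.inter hH e b1 b2 (b3 (by simp)) hδ
      ((Finset.subset_insert _ _).trans b3) s1 c1⟩
  choose! B b1 b2 b3 b4 using key
  have c2 : ∀ u ∈ H \ U, ((B u \ H).erase δ).card = h - t := fun u hu => by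
    rw [Finset.card_erase_of_mem (Finset.mem_sdiff.2 ⟨b3 u hu, hδ⟩)]
    have := Finset.card_sdiff_add_card_inter (B u) H
    rw [b4 u hu, b2 u hu, Finset.card_insert_of_notMem (Finset.mem_sdiff.1 hu).2] at this
    omega
  have c3 : ((H \ U).biUnion fun u => (B u \ H).erase δ).card = (h - t + 2) * (h - t) := by
    rw [Finset.card_biUnion, Finset.sum_congr rfl c2, Finset.sum_const, smul_eq_mul,
      Finset.card_sdiff_of_subset u1]
    · congr 1; omega
    intro u hu v hv huv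
    rw [Function.onFun, Finset.disjoint_left]
    intro η h1 h2
    simp only [Finset.mem_erase, Finset.mem_sdiff] at h1 h2
    have hUu : U ⊆ B u := (Finset.subset_insert u U).trans (b4 u hu ▸ Finset.inter_subset_left)
    have hUv : U ⊆ B v := (Finset.subset_insert v U).trans (b4 v hv ▸ Finset.inter_subset_left)
    have := S.un _ _ (b1 u hu) (b2 u hu) (b1 v hv) (b2 v hv) (by
      have : insert η (insert δ U) ⊆ B u ∩ B v := Finset.subset_inter
        (Finset.insert_subset h1.2.1 (Finset.insert_subset (b3 u hu) hUu))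
        (Finset.insert_subset h2.2.1 (Finset.insert_subset (b3 v hv) hUv))
      have k := Finset.card_le_card this
      rw [Finset.card_insert_of_notMem (by
        rw [Finset.mem_insert, not_or]; exact ⟨h1.1, fun h => h1.2.2 (u1 h)⟩),
        Finset.card_insert_of_notMem fun h => hδ (u1 h)] at k
      omega)
    have k : u ∈ insert v U := by
      rw [← b4 v hv, ← this, b4 u hu]; simp
    rcases Finset.mem_insert.1 k with k | k
    · exact huv k
    · exact (Finset.mem_sdiff.1 hu).2 k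
  have c4 : ((H \ U).biUnion fun u => (B u \ H).erase δ) ⊆ (insert δ H)ᶜ := fun η hη => by
    obtain ⟨u, -, k⟩ := Finset.mem_biUnion.1 hη
    simp only [Finset.mem_erase, Finset.mem_sdiff] at k
    simp [k.1, k.2.2]
  have := Finset.card_le_card c4
  rw [c3, Finset.card_compl, Finset.card_insert_of_notMem hδ] at this
  omega

theorem Tr.average (h3 : Tr G 3) {a b : Ω} (hab : a ≠ b) (S T : Finset Ω) (s1 : a ∉ S)
    (s2 : b ∉ S) (t1 : a ∉ T) (t2 : b ∉ T) : ∃ u ∈ G, u a = a ∧ u b = b ∧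
      (Fintype.card Ω - 2) * (S ∩ T.image u).card ≤ S.card * T.card := by
  classical
  let K : Finset (Perm Ω) := Finset.univ.filter fun u => u ∈ G ∧ u a = a ∧ u b = b
  let Ω' : Finset Ω := ({a, b} : Finset Ω)ᶜ
  have mem : ∀ y, y ∈ Ω' ↔ y ≠ a ∧ y ≠ b := fun y => by simp [Ω', not_or]
  have cΩ : Ω'.card = Fintype.card Ω - 2 := by rw [Finset.card_compl, Finset.card_pair hab]
  have memK : ∀ u, u ∈ K ↔ u ∈ G ∧ u a = a ∧ u b = b := fun u => by simp [K]
  have f1 : ∀ y ∈ Ω', ∀ z ∈ Ω', ∀ z' ∈ Ω', (K.filter fun u => u y = z).card ≤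
      (K.filter fun u => u y = z').card := fun y hy z hz z' hz' => by
    obtain ⟨v, hv, v1, v2⟩ := h3 {a, b} (by rw [Finset.card_pair hab]; omega) z z'
      (Finset.mem_compl.1 hz) (Finset.mem_compl.1 hz')
    refine Finset.card_le_card_of_injOn (fun u => v * u) (fun u hu => ?_)
      fun u _ u' _ e => mul_left_cancel e
    simp only [Finset.coe_filter, Set.mem_ofPred_eq, memK] at hu ⊢
    refine ⟨⟨mul_mem hv hu.1.1, ?_, ?_⟩, ?_⟩
    · rw [Perm.mul_apply, hu.1.2.1, v1 a (by simp)]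
    · rw [Perm.mul_apply, hu.1.2.2, v1 b (by simp)]
    · rw [Perm.mul_apply, hu.2, v2]
  have f2 : ∀ y ∈ Ω', ∀ z ∈ Ω', Ω'.card * (K.filter fun u => u y = z).card ≤ K.card :=
    fun y hy z hz => by
      rw [Finset.card_eq_sum_card_fiberwise (s := K) (t := Ω') (f := fun u => u y) (fun u hu => by
        have := (memK u).1 hu
        rw [Finset.mem_coe, mem] at *
        exact ⟨fun e => hy.1 (u.injective (e.trans this.2.1.symm)),
          fun e => hy.2 (u.injective (e.trans this.2.2.symm))⟩), ← smul_eq_mul,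
        ← Finset.sum_const]
      exact Finset.sum_le_sum fun z' hz' => f1 y hy z hz z' hz'
  have f3 : ∑ u ∈ K, (S ∩ T.image u).card ≤
      ∑ p ∈ S ×ˢ T, (K.filter fun u => u p.2 = p.1).card := by
    have : ∑ p ∈ S ×ˢ T, (K.filter fun u => u p.2 = p.1).card =
        ∑ u ∈ K, ((S ×ˢ T).filter fun p => u p.2 = p.1).card := by
      simp only [Finset.card_filter]
      exact Finset.sum_comm
    rw [this]
    refine Finset.sum_le_sum fun u _ => Finset.card_le_card_of_injOn (fun z => (z, u⁻¹ z))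
      (fun z hz => ?_) fun z _ z' _ e => congrArg Prod.fst e
    simp only [Finset.coe_inter, Set.mem_inter_iff, Finset.mem_coe, mem_img] at hz
    simpa [hz.1] using hz.2
  have f4 : ∑ u ∈ K, Ω'.card * (S ∩ T.image u).card ≤ ∑ _u ∈ K, S.card * T.card := by
    rw [← Finset.mul_sum, Finset.sum_const, smul_eq_mul, mul_comm K.card, ← Finset.card_product,
      ← smul_eq_mul (S ×ˢ T).card, ← Finset.sum_const]
    refine (Nat.mul_le_mul_left _ f3).trans ?_
    rw [Finset.mul_sum]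
    refine Finset.sum_le_sum fun p hp => f2 _ ?_ _ ?_
    · have := (Finset.mem_product.1 hp).2
      exact (mem _).2 ⟨ne_of_mem_of_not_mem this t1, ne_of_mem_of_not_mem this t2⟩
    · have := (Finset.mem_product.1 hp).1
      exact (mem _).2 ⟨ne_of_mem_of_not_mem this s1, ne_of_mem_of_not_mem this s2⟩
  obtain ⟨u, hu, k⟩ := Finset.exists_le_of_sum_le ⟨1, (memK 1).2 ⟨one_mem _, rfl, rfl⟩⟩ f4
  rw [cΩ] at k
  exact ⟨u, ((memK u).1 hu).1, ((memK u).1 hu).2.1, ((memK u).1 hu).2.2, k⟩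

omit [Fintype Ω] in
theorem comm_supp [Fintype Ω] (x y : Perm Ω) :
    (x⁻¹ * y⁻¹ * x * y).support.card ≤ 3 * (x.support ∩ y.support).card := by
  set D := x.support ∩ y.support
  have : (x⁻¹ * y⁻¹ * x * y).support ⊆ D ∪ D.image (x⁻¹ : Perm Ω) ∪ D.image (y⁻¹ : Perm Ω) := by
    intro ω hω
    by_contra hn
    simp only [Finset.mem_union, mem_img, inv_inv, not_or, D, Finset.mem_inter, not_and,
      apply_mem_support] at hn
    obtain ⟨⟨h1, h2⟩, h3⟩ := hn
    refine mem_support.1 hω ?_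
    simp only [Perm.mul_apply]
    by_cases a : ω ∈ x.support
    · rw [notMem_support.1 (h1 a), Perm.inv_eq_iff_eq, Perm.inv_eq_iff_eq,
        notMem_support.1 (h2 a)]
    · by_cases b : ω ∈ y.support
      · rw [notMem_support.1 fun h => h3 h b, Perm.inv_eq_iff_eq, notMem_support.1 a]; simp
      · rw [notMem_support.1 b, notMem_support.1 a, Perm.inv_eq_iff_eq, Perm.inv_eq_iff_eq,
          notMem_support.1 a, notMem_support.1 b]
  have k := Finset.card_le_card this
  have k1 := Finset.card_union_le (D ∪ D.image (x⁻¹ : Perm Ω)) (D.image (y⁻¹ : Perm Ω))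
  have k2 := Finset.card_union_le D (D.image (x⁻¹ : Perm Ω))
  rw [card_img] at k1 k2
  omega

theorem Tr.bochert (h3 : Tr G 3) (hA : ¬ alternatingGroup Ω ≤ G) {x : Perm Ω} (hx : x ∈ G)
    (h1 : x ≠ 1) (hn : x.support.card < Fintype.card Ω) : ∃ μ, 4 ≤ μ ∧ μ ≤ x.support.card ∧
      (μ - 3) * (Fintype.card Ω - 2) ≤ 3 * ((μ - 2) * (μ - 1)) := by
  obtain ⟨z, ⟨hz, z1⟩, hm⟩ := exists_minimalFor_of_wellFoundedLT (fun z => z ∈ G ∧ z ≠ 1)
    (fun z : Perm Ω => z.support.card) ⟨x, hx, h1⟩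
  have hm' : ∀ w ∈ G, w ≠ 1 → z.support.card ≤ w.support.card := fun w hw w1 => by
    by_contra hlt
    exact hlt (hm ⟨hw, w1⟩ (not_le.1 hlt).le)
  have m1 := hm' x hx h1
  have m2 := two_le_card_support_of_ne_one z1
  have m4 : 4 ≤ z.support.card := by
    by_contra hlt
    exact hA (H17.bochert_alt G le_rfl (by omega) h3.mt z hz z1 (by omega))
  refine ⟨_, m4, m1, ?_⟩
  obtain ⟨a, ha⟩ : z.support.Nonempty := Finset.card_pos.1 (by omega)
  obtain ⟨c, hc⟩ := ex_avoid z.support (by omega)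
  have hab : a ≠ z a := (mem_support.1 ha).symm
  have hca : c ≠ a := (ne_of_mem_of_not_mem ha hc).symm
  obtain ⟨g, hg, e⟩ := h3.exists_map (fun ω => if ω = c then a else z a) {c, a}
    (Finset.card_le_two.trans (by omega)) (by
      intro x hx y hy
      simp only [Finset.coe_insert, Finset.coe_singleton, Set.mem_insert_iff,
        Set.mem_singleton_iff] at hx hy
      rcases hx with rfl | rfl <;> rcases hy with rfl | rfl <;> simp [hca.symm, hab, hab.symm])
  have e1 : g c = a := by simpa using e c (by simp)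
  have e2 : g a = z a := by simpa [hca.symm] using e a (by simp)
  have sp : ∀ v w : Perm Ω, (v * w * v⁻¹).support = w.support.image v := fun v w => by
    ext ω
    rw [mem_img, mem_support, mem_support, Perm.mul_apply, Perm.mul_apply, Ne, Ne,
      ← Perm.eq_inv_iff_eq]
  have y1 : a ∉ z.support.image g := by
    rw [mem_img, ← e1]; simpa using hc
  have y2 : z a ∈ z.support.image g := e2 ▸ Finset.mem_image_of_mem _ ha
  obtain ⟨u, hu, u1, u2, u3⟩ := h3.average hab ((z.support.erase a).erase (z a))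
    ((z.support.image g).erase (z a)) (by simp) (by simp) (by simp [y1]) (by simp)
  rw [Finset.card_erase_of_mem (Finset.mem_erase.2 ⟨hab.symm, apply_mem_support.2 ha⟩),
    Finset.card_erase_of_mem ha, Finset.card_erase_of_mem y2, card_img] at u3
  set y := u * g * z * (u * g)⁻¹
  have sy : y.support = (z.support.image g).image u := by
    rw [sp, Finset.image_image]; rfl
  have ua : u⁻¹ a = a := by rw [Perm.inv_eq_iff_eq, u1]
  have ub : u⁻¹ (z a) = z a := by rw [Perm.inv_eq_iff_eq, u2]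
  have y3 : y a = a := by
    rw [← notMem_support, sy, mem_img, ua]; exact y1
  have y4 : y (z a) ≠ z a := by
    rw [← mem_support, sy, mem_img, ub]; exact y2
  have hy : y ∈ G := mul_mem (mul_mem (mul_mem hu hg) hz) (inv_mem (mul_mem hu hg))
  have k1 := hm' (z⁻¹ * y⁻¹ * z * y) (mul_mem (mul_mem (mul_mem (inv_mem hz) (inv_mem hy)) hz) hy)
    fun e => y4 (by
      have := congrArg (fun w : Perm Ω => w a) e
      simp only [Perm.mul_apply, y3, Perm.one_apply] at this
      rw [Perm.inv_eq_iff_eq, Perm.inv_eq_iff_eq] at this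
      exact this.symm)
  have k2 := comm_supp z y
  have k3 : z.support ∩ y.support ⊆ insert (z a) (((z.support.erase a).erase (z a)) ∩
      ((z.support.image g).erase (z a)).image u) := fun ω hω => by
    rw [Finset.mem_inter] at hω
    by_cases e : ω = z a
    · simp [e]
    refine Finset.mem_insert_of_mem (Finset.mem_inter.2 ⟨?_, ?_⟩)
    · exact Finset.mem_erase.2 ⟨e, Finset.mem_erase.2
        ⟨fun h => mem_support.1 hω.2 (by rw [h, y3]), hω.1⟩⟩
    · rw [mem_img, Finset.mem_erase, ← mem_img, ← sy]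
      exact ⟨fun h => e (by rw [Perm.inv_eq_iff_eq, u2] at h; exact h), hω.2⟩
  have k4 := (Finset.card_le_card k3).trans (Finset.card_insert_le _ _)
  generalize (((z.support.erase a).erase (z a)) ∩
      ((z.support.image g).erase (z a)).image u).card = d at k4 u3
  have k5 : z.support.card - 3 ≤ 3 * d := by omega
  calc _ ≤ 3 * d * (Fintype.card Ω - 2) := Nat.mul_le_mul_right _ k5
    _ = 3 * ((Fintype.card Ω - 2) * d) := by ring
    _ ≤ _ := Nat.mul_le_mul_left _ (by rwa [Nat.sub_sub] at u3)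

end H7.PA
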