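import Cfsg.Agent.H7.ST3
import Cfsg.Agent.H7.Real
import Cfsg.Agent.H7.AbMain
import Cfsg.Agent.S1494

/-! Parity arguments for real characters. -/

set_option autoImplicit false
open Cfsg
open H5 H8 H28
open scoped ComplexConjugate

namespace H7.RE

local notation "C" u:max => Subgroup.centralizer ({u} : Set _)

variable {G : Type*} [Group G] [Finite G] {M : Ideal AlgInt}

theorem two_eq (hM : IsPModular 2 M) : (2 : kk M) = 0 := by exact_mod_cast natCast_kk hM

theorem red_odd (hM : IsPModular 2 M) {n : ℕ} (h : ¬ 2 ∣ n) : (n : kk M) = 1 := by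
  obtain ⟨k, rfl⟩ := Nat.odd_iff.2 (Nat.two_dvd_ne_zero.1 h)
  push_cast
  rw [two_eq hM, zero_mul, zero_add]

theorem sum_sq (hM : IsPModular 2 M) {ι : Type*} (s : Finset ι) (f : ι → kk M) :
    ∑ i ∈ s, f i * f i = (∑ i ∈ s, f i) ^ 2 := by
  haveI := charP_kk hM
  rw [sum_pow_char]
  exact Finset.sum_congr rfl fun _ _ => (sq _).symm

theorem red_sum_real (hM : IsPModular 2 M) (s : Finset (IrrCharacter G))
    (hs : ∀ χ ∈ s, irrStar χ ∈ s) (f : IrrCharacter G → ℂ) (hV : ∀ χ, f χ ∈ V M)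
    (hf : ∀ χ, f (irrStar χ) = f χ) [DecidablePred fun χ : IrrCharacter G => irrStar χ = χ] :
    red M (∑ χ ∈ s, f χ) = ∑ χ ∈ s with irrStar χ = χ, red M (f χ) := by
  rw [red_sum _ _ fun χ _ => hV χ, ← Finset.sum_filter_add_sum_filter_not s (fun χ => irrStar χ = χ),
    Finset.sum_involution (s := s.filter fun χ => ¬ irrStar χ = χ) (fun χ _ => irrStar χ), add_zero]
  · intro χ _
    rw [hf, ← two_mul, two_eq hM, zero_mul]
  · exact fun χ h _ => (Finset.mem_filter.1 h).2
  · intro χ h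
    rw [Finset.mem_filter] at h ⊢
    exact ⟨hs χ h.1, by rw [irrStar_irrStar]; exact Ne.symm h.2⟩
  · exact fun χ _ => irrStar_irrStar χ

theorem star_apply (χ : IrrCharacter G) {x : G} (h : IsConj x x⁻¹) : (irrStar χ).1 x = χ.1 x := by
  rw [irrStar_apply', χ.2.isClassFunction.eq_of_isConj h]

theorem conj_apply (χ : IrrCharacter G) {x : G} (h : IsConj x x⁻¹) : conj (χ.1 x) = χ.1 x := by
  rw [← irrStar_apply, star_apply χ h]

theorem star_mem {χ : IrrCharacter G} :
    irrStar χ ∈ principalBlock M G ↔ χ ∈ principalBlock M G := irrPow_mem_principal_iff _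

theorem exists_real_principal (hM : IsPModular 2 M) {t : G} (ht : orderOf t = 2) :
    ∃ χ ∈ principalBlock M G, χ ≠ irrOne G ∧ irrStar χ = χ := by
  classical
  by_contra! h
  have hr : IsConj t t⁻¹ := by rw [H10.inv_eq_of_orderOf_two ht]
  have h1 := weak_block_orth hM isPBlock_principalBlock (x := (1 : G)) (y := t) (by simp) ht.symm.dvd
  have h2 := red_sum_real hM (Finset.univ.filter (· ∈ principalBlock M G))
    (fun χ hχ => by simpa [star_mem] using hχ) (fun χ => χ.1 1 * χ.1 t)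
    (fun χ => mul_mem (irr_apply_mem_V χ _) (irr_apply_mem_V χ _))
    fun χ => by rw [star_apply χ hr, star_apply χ (by simp)]
  simp only [conj_apply _ hr] at h1
  rw [h1, red_zero, Finset.sum_eq_single (irrOne G)] at h2
  · simp [irrOne] at h2
  · intro χ h3 h4
    simp only [Finset.mem_filter, Finset.mem_univ, true_and] at h3
    exact absurd h3.2 (h χ h3.1 h4)
  · intro h3
    simp only [Finset.mem_filter, Finset.mem_univ, true_and] at h3
    exact absurd ⟨irrOne_mem_principalBlock hM, rfl⟩ h3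

theorem exists_even_of_odd_cent {x : G} (h1 : x ≠ 1) (hr : IsConj x x⁻¹)
    (ho : ¬ 2 ∣ Nat.card (C x)) : ∃ χ : IrrCharacter G, irrStar χ = χ ∧ 2 ∣ charDegree χ.1 := by
  classical
  obtain ⟨M, hM⟩ := exists_isPModular Nat.prime_two
  by_contra! h
  have a := red_sum_real hM Finset.univ (fun _ _ => Finset.mem_univ _) (fun χ => χ.1 x * χ.1 x)
    (fun χ => mul_mem (irr_apply_mem_V χ _) (irr_apply_mem_V χ _)) fun χ => by rw [star_apply χ hr]
  have b := red_sum_real hM Finset.univ (fun _ _ => Finset.mem_univ _) (fun χ => χ.1 1 * χ.1 x)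
    (fun χ => mul_mem (irr_apply_mem_V χ _) (irr_apply_mem_V χ _))
    fun χ => by rw [star_apply χ hr, star_apply χ (by simp)]
  have c := sum_irr_mul_conj_of_isConj (IsConj.refl x)
  simp only [conj_apply _ hr] at c
  rw [sum_irr_one_mul_apply, regChar_of_ne_one h1, red_zero, Finset.sum_congr rfl
    (g := fun χ => red M (χ.1 x)) fun χ hχ => by
      rw [red_mul (irr_apply_mem_V χ _) (irr_apply_mem_V χ _), irr_apply_one, red_natCast,
        red_odd hM (h χ (Finset.mem_filter.1 hχ).2), one_mul]] at b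
  simp only [red_mul (irr_apply_mem_V _ _) (irr_apply_mem_V _ _)] at a
  rw [c, red_natCast, red_odd hM ho, sum_sq hM, ← b] at a
  simp at a

theorem exists_real_not_principal (hM : IsPModular 2 M) {t : G} (ht : orderOf t = 2)
    (hz : HZ 2 M (C t)) {x s : C t} (hx : ¬ 2 ∣ orderOf x) (hr : IsConj x x⁻¹)
    (hs : orderOf s = 2) (hst : (s : G) ≠ t) {m : ℕ} (hm : ¬ 2 ∣ m)
    (hc : Nat.card (C (t * x)) = 2 * m) :
    ∃ χ ∉ principalBlock M G, irrStar χ = χ := by
  classical
  by_contra! h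
  have pt : IsPElt 2 t := ⟨1, ht⟩
  have tt : t * t = 1 := by rw [← sq, ← ht, pow_orderOf_eq_one]
  have cx : ∀ y : C t, Commute t y := fun y => (Subgroup.mem_centralizer_singleton_iff.1 y.2).symm
  have r1 : IsConj (x : G) (x : G)⁻¹ := (C t).subtype.map_isConj hr
  have r2 : IsConj (t * x) (t * x)⁻¹ := by
    obtain ⟨c, hc⟩ := isConj_iff.1 hr
    refine isConj_iff.2 ⟨c, ?_⟩
    rw [← mul_assoc, ← (cx c).eq, mul_inv_rev, ← (cx x).inv_inv.eq, H10.inv_eq_of_orderOf_two ht,
      mul_assoc t, mul_assoc t]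
    exact congrArg (t * ·) (congrArg Subtype.val hc)
  have hβ : ∀ χ : IrrCharacter G, (χ.1 (t * x) - χ.1 x) / 2 ∈ V M := fun χ => by
    obtain ⟨ω, h1, h2⟩ := Cfsg.Agent.S1494.result _ χ.2.isGeneralizedCharacter 2 Nat.prime_two t x
      ht (cx x)
    rw [h2, show (2 * Real.pi * Complex.I / (2 : ℕ) : ℂ) = Real.pi * Complex.I by push_cast; ring,
      Complex.exp_pi_mul_I, show (1 - -1) * ω / 2 = ω by ring]
    exact mem_V_of_isIntegral M h1
  have a := red_sum_real hM (Finset.univ.filter (· ∉ principalBlock M G))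
    (fun χ hχ => by simpa [star_mem] using hχ)
    (fun χ => χ.1 (t * x) * ((χ.1 (t * x) - χ.1 x) / 2))
    (fun χ => mul_mem (irr_apply_mem_V χ _) (hβ χ))
    fun χ => by rw [star_apply χ r1, star_apply χ r2]
  rw [Finset.filter_false_of_mem fun χ hχ => h χ (Finset.mem_filter.1 hχ).2,
    Finset.sum_empty] at a
  have hx' : ¬ 2 ∣ orderOf (x : G) := by rwa [Subgroup.orderOf_coe]
  have pp := isPPart_mk (cx x) pt hx'
  have t1 : t ≠ 1 := fun h0 => by simp [h0] at ht
  have b1 := sum_irr_mul_conj_of_isConj (IsConj.refl (t * x))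
  have b2 := sum_irr_mul_conj_of_not_isConj (g := t * x) (h := x) fun h0 =>
    t1 (isConj_one_left.1 (isPPart_isConj pp (isPPart_one hx') h0))
  have b3 := block_orth hM isPBlock_principalBlock pp (isPPart_one hx')
    fun h0 => t1 (isConj_one_left.1 h0)
  have b4 := sum_principal_mul_conj' hM pt hx hx
  simp only [irr_apply_inv, conj_apply _ r1, conj_apply _ r2, conj_apply _ hr] at b1 b2 b3 b4
  let t' : C t := ⟨t, self_mem_centralizer t⟩
  have tz : t' ∈ Subgroup.center (C t) :=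
    Subgroup.mem_center_iff.2 fun y => Subtype.ext (cx y).symm
  have o' : orderOf t' = 2 := by rw [← Subgroup.orderOf_coe, ht]
  set F := Finset.univ.filter (· ∈ principalBlock M (C t))
  let ω : IrrCharacter (C t) → ℂ := fun ξ => ξ.1 t' / ξ.1 1
  have hω : ∀ ξ ∈ F, ω ξ ^ 2 = 1 := fun ξ _ => by
    have := ST.apply_pow_mul ξ tz 2 1
    rw [← o', pow_orderOf_eq_one, one_mul, o'] at this
    exact (mul_eq_right₀ (irr_one_ne_zero ξ)).1 this.symm
  have orth : ∀ y : C t, 2 ∣ orderOf y → ∑ ξ ∈ F, ξ.1 x * conj (ξ.1 y) = 0 := fun y hy =>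
    weak_block_orth hM isPBlock_principalBlock hx hy
  have inv2 : ∀ y : C t, orderOf y = 2 → IsConj y y⁻¹ := fun y hy => by
    rw [H10.inv_eq_of_orderOf_two hy]
  have mul1 : ∀ (ξ : IrrCharacter (C t)) y, ξ.1 (t' * y) = ω ξ * ξ.1 y := fun ξ y =>
    ξ.2.apply_mul_of_mem_charCenter (ξ.2.center_le_charCenter tz) y
  have c1 := ST.fourier F two_ne_zero ω (fun ξ => ξ.1 x * ξ.1 x) hω (fun k h1 h2 => by
    obtain rfl : k = 1 := by omega
    have := block_orth hM isPBlock_principalBlock (isPPart_mk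
      (Subgroup.mem_center_iff.1 tz x).symm ⟨1, o'⟩ hx) (isPPart_one hx)
      fun h0 => t1 (congrArg Subtype.val (isConj_one_left.1 h0))
    simpa only [mul1, irr_apply_inv, conj_apply _ hr, pow_one, mul_assoc] using this) (one_pow 2)
  have c2 := ST.fourier F two_ne_zero ω (fun ξ => ξ.1 x * ξ.1 s) hω (fun k h1 h2 => by
    obtain rfl : k = 1 := by omega
    have o2 : orderOf (t' * s) = 2 := orderOf_eq_prime (by
      rw [(Commute.mul_pow (Subgroup.mem_center_iff.1 tz s).symm), ← o', pow_orderOf_eq_one, o',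
        ← hs, pow_orderOf_eq_one, one_mul]) fun h0 => hst
        ((eq_inv_of_mul_eq_one_right (congrArg Subtype.val h0)).trans
          (H10.inv_eq_of_orderOf_two ht))
    have := orth _ o2.symm.dvd
    simp only [conj_apply _ (inv2 _ o2)] at this
    simp only [mul1] at this
    rw [← this]
    exact Finset.sum_congr rfl fun ξ _ => by ring) (one_pow 2)
  have c3 := orth s hs.symm.dvd
  simp only [conj_apply _ (inv2 _ hs)] at c3
  rw [c3, mul_eq_zero, or_iff_right (by norm_num)] at c2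
  replace c2 := congrArg (red M) c2
  rw [red_zero, red_sum _ _ fun ξ _ => mul_mem (irr_apply_mem_V ξ _) (irr_apply_mem_V ξ _),
    Finset.sum_congr rfl (g := fun ξ => red M (ξ.1 x)) fun ξ hξ => by
      rw [red_mul (irr_apply_mem_V ξ _) (irr_apply_mem_V ξ _),
        red_char_of_isPElt hM ξ.2.isCharacter ⟨1, hs⟩, irr_apply_one, red_natCast,
        red_odd hM (hz ξ (Finset.mem_filter.1 (Finset.mem_filter.1 hξ).1).2), mul_one]] at c2
  have d : ∑ χ : IrrCharacter G with χ ∉ principalBlock M G,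
      χ.1 (t * x) * ((χ.1 (t * x) - χ.1 x) / 2) = m - ∑ ξ ∈ F with ω ξ = 1, ξ.1 x * ξ.1 x := by
    rw [← Finset.sum_filter_add_sum_filter_not _ (· ∈ principalBlock M G)] at b1 b2
    rw [hc] at b1
    simp only [← mul_div_assoc, mul_sub, ← Finset.sum_div, Finset.sum_sub_distrib]
    push_cast at b1 c1
    linear_combination (b1 - b2 + b3 - b4 + c1) / 2
  rw [d, red_sub (natCast_mem _ _) (sum_mem fun ξ _ => mul_mem (irr_apply_mem_V ξ _)
    (irr_apply_mem_V ξ _)), red_natCast, red_odd hM hm,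
    red_sum _ _ fun ξ _ => mul_mem (irr_apply_mem_V ξ _) (irr_apply_mem_V ξ _)] at a
  simp only [red_mul (irr_apply_mem_V _ _) (irr_apply_mem_V _ _)] at a
  rw [sum_sq hM, c2] at a
  simp at a

end H7.RE
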