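import Cfsg.Agent.H9.RL0

/-! S3860, chunk `BN1`: the Sylow `2`-subgroups of a Bender component are small. -/

set_option autoImplicit false

namespace H7.RL
open Cfsg Subgroup H19 H17.GS H9.RL

universe u

theorem odd_one {B : Type*} [Group B] {y : B} {n k : ℕ} (o : Odd n) (h : y ^ n = 1) (e : y ^ 2 ^ k = 1) : y = 1 :=
  orderOf_eq_one_iff.1 (Nat.eq_one_of_dvd_coprimes (Nat.Coprime.pow_right k (Nat.coprime_two_right.2 o))
    (orderOf_dvd_of_pow_eq_one h) (orderOf_dvd_of_pow_eq_one e))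

theorem bn1 (lb : LB.{u}) (f4 : F4.{u}) : BN1.{u} := by
  intro G B _ _ _ _ a b L T φ s Y cf br a2 sL rr sC ge se hT
  have := cf.nm
  have zl : ∀ {g}, g ∈ L → g ∈ center G → φ g = 1 := fun h1 h2 =>
    (br.ker _).2 ⟨h1, mem_cent.2 fun y _ => mem_center_iff.1 h2 y⟩
  obtain ⟨x, xL, ox⟩ := lb cf.qs cf.pz sL sC (mem_cent.2 fun y _ => mem_center_iff.1 rr.sq y)
  have s2 : φ s * φ s = 1 := by rw [← map_mul]; exact zl (mul_mem sL sL) rr.sq
  have s1 : φ s ≠ 1 := fun h => sC ((br.ker _).1 h).2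
  have xo : φ x ^ orderOf x = 1 := by rw [← map_pow, pow_orderOf_eq_one, map_one]
  have x1 : φ x ≠ 1 := fun h => by
    obtain ⟨k, e⟩ := cf.pz.exists_card
    exact ox.ne (odd_one ox.odd (pow_orderOf_eq_one x) (orderOf_dvd_iff_pow_eq_one.1 (e ▸ orderOf_dvd_natCard _ ((br.ker _).1 h))))
  have sx : φ s * φ x * (φ s)⁻¹ = (φ x)⁻¹ := by rw [← map_inv, ← map_mul, ← map_mul, ox.inv, map_inv]
  have no : ∀ i ∈ L.map φ, i * i = 1 → Commute i (φ s) → Commute i (φ x) → i = 1 := fun i hi i2 c1 c2 => by_contra fun i1 => by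
    have ne : i * φ s ≠ 1 := fun h => x1 (odd_one (k := 1) ox.odd xo (by
      rw [eq_inv_of_mul_eq_one_right h, c2.inv_left.eq, mul_inv_cancel_right, eq_inv_iff_mul_eq_one] at sx
      rwa [pow_one, sq]))
    obtain ⟨_, ⟨l, hl, rfl⟩, e⟩ := se.conj (mem_map_of_mem φ sL) (mul_mem hi (mem_map_of_mem φ sL)) (ord2_of s2 s1)
      (ord2_of (by rw [← sq, c1.mul_pow, sq, sq, i2, s2, one_mul]) ne)
    have p : φ (l * s * l⁻¹ * (x * s * x⁻¹)) = i * (φ x * φ x)⁻¹ := by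
      simp only [map_mul, map_inv, e]
      rw [show i * φ s * (φ x * φ s * (φ x)⁻¹) = i * (φ s * φ x * (φ s)⁻¹) * (φ s * φ s) * (φ x)⁻¹ by group, sx, s2]; group
    have m : l * s * l⁻¹ * (x * s * x⁻¹) ∈ L := mul_mem (this.conj_mem _ sL _) (this.conj_mem _ sL _)
    have pw : ∀ n, ((l * s * l⁻¹ : G) * (x * s * x⁻¹ : G) : G ⧸ center G) ^ n = 1 → i ^ n = (φ x * φ x) ^ n := fun n h => by
      have := zl (pow_mem m n) ((QuotientGroup.eq_one_iff _).1 h)
      rwa [map_pow, p, (c2.mul_right c2).inv_right.mul_pow, inv_pow, mul_inv_eq_one] at this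
    rcases ge.g2 _ ⟨l, rfl⟩ _ ⟨x, rfl⟩ with h | h
    · have := pw 2 (by rw [h.mul_pow, sq, sq, ge.inv _ ⟨l, rfl⟩, ge.inv _ ⟨x, rfl⟩, one_mul])
      exact x1 (odd_one (k := 2) ox.odd xo (by rw [sq i, i2, ← sq, ← pow_mul] at this; exact this.symm))
    · have := pw _ (pow_orderOf_eq_one _)
      refine i1 (odd_one (k := 1) (h.mul ox.odd) ?_ (by rwa [pow_one, sq]))
      rw [pow_mul, this, ← sq, ← pow_mul, ← pow_mul, ← mul_assoc, mul_comm, pow_mul, xo, one_pow]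
  have sn : zpowers s ≤ N(C[x]) := zpowers_le.2 (mem_norm_of_cj_le (by
    rintro _ ⟨y, hy, rfl⟩
    have := mem_cent1.1 hy
    change s * y * s⁻¹ ∈ C[x]
    rw [mem_cent1, ← inv_inv x, ← ox.inv]
    simp only [mul_inv_rev, inv_inv, mul_assoc, inv_mul_cancel_left, mul_right_inj]
    rw [← mul_assoc, ← mul_assoc, (Commute.inv_right this).eq]))
  have ps : H19.PG 2 (zpowers s) := piG_zpowers.2 (by
    obtain ⟨k, e⟩ := cf.pz.exists_card
    have : s ^ 2 ^ (k + 1) = 1 := by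
      rw [pow_succ', pow_mul, sq, ← e]
      exact orderOf_dvd_iff_pow_eq_one.1 (orderOf_dvd_natCard _ ((br.ker _).1 (by rw [map_mul, s2])))
    exact fun p hp d => (Nat.prime_dvd_prime_iff_eq hp Nat.prime_two).1
      (hp.dvd_of_dvd_pow (d.trans (orderOf_dvd_of_pow_eq_one this))))
  obtain ⟨P, hP, sP⟩ := ps.exists_syl (le_sup_right : zpowers s ≤ C[x] ⊔ zpowers s)
  have hQ := hP.inf_normal (left_normal_sup sn)
  have cQ := cf.hy x ⟨s, ox.inv⟩ (fun h => ox.ne (odd_one (k := 1) ox.odd (pow_orderOf_eq_one x) (by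
    have := ox.inv; rw [mem_center_iff.1 h s, mul_inv_cancel_right, eq_inv_iff_mul_eq_one] at this
    rwa [pow_one, sq]))) _ hQ
  have nQ : s ∈ N(P ⊓ C[x]) := norms_inf (norms_of_le sP) sn (mem_zpowers s)
  have l : P ⊓ C[x] ⊓ L ≤ Z(L) := fun q hq' => by
    have hq : q ∈ P ⊓ C[x] := hq'.1
    have qL : q ∈ L := hq'.2
    have v := mul_mem (inv_mem hq) (conj_mem_of_norm nQ hq)
    have z := zl (mul_mem (inv_mem qL) (this.conj_mem _ qL s)) (f4 cf.toSt a2 ox (hQ.pi.elt v) v.2 (by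
      rw [show s * (q⁻¹ * (s * q * s⁻¹)) * s⁻¹ = s * q⁻¹ * s⁻¹ * (s * s * q * (s * s)⁻¹) by group,
        ← mem_center_iff.1 rr.sq q]; group))
    have c1 : Commute (φ q) (φ s) := by
      simp only [map_mul, map_inv, inv_mul_eq_one, eq_mul_inv_iff_mul_eq] at z; exact z
    have c2 : Commute (φ q) (φ x) := by have := congrArg φ (mem_cent1.1 hq.2); rwa [map_mul, map_mul] at this
    obtain ⟨k, e⟩ := hQ.pi.exists_card
    have p : φ q ^ 2 ^ k = 1 := by
      rw [← map_pow, ← e, orderOf_dvd_iff_pow_eq_one.1 (orderOf_dvd_natCard _ hq), map_one]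
    refine (br.ker _).1 ?_
    clear e
    induction k with
    | zero => simpa using p
    | succ k ih => exact ih (no _ (pow_mem (mem_map_of_mem φ qL) _) (by rw [← sq, ← pow_mul, ← pow_succ, p])
        (c1.pow_left _) (c2.pow_left _))
  obtain ⟨S, hS, QS⟩ := hQ.pi.exists_syl le_top
  have i : (P ⊓ C[x]).relIndex S = 2 ^ a := Nat.eq_of_mul_eq_mul_left (card_pos _) (by
    rw [card_mul_relIndex QS, cf.sy S hS, cQ, pow_add, mul_comm])
  have c := card_inf_mul_relIndex (P ⊓ C[x]) (S ⊓ L)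
  rw [hT.card_eq (hS.inf_normal ⟨le_top, by rw [normalizer_eq_top]⟩), ← c, mul_comm]
  exact Nat.mul_le_mul (i ▸ relIndex_le_of_le_right inf_le_left (by rw [i]; positivity))
    (card_le_of_le ((inf_le_inf_left _ inf_le_right).trans l))

end H7.RL
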